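import Mathlib
import Cfsg.Agent.Lib.Helper45.FieldEmb

set_option autoImplicit false

namespace Cfsg.Agent.Lib.Helper45

open Polynomial in
/-- An anisotropic binary form `z₁² + a z₁ z₂ + c z₂²` over the field with `q` elements splits over
the field with `q²` elements, with two distinct roots. -/
theorem exists_roots_of_anisotropic {F K : Type*} [Field F] [Fintype F] [Field K] [Fintype K] {q : ℕ}
    (hF : Fintype.card F = q) (hK : Fintype.card K = q ^ 2) (f : F →+* K) (a c : F)
    (hac : ∀ z₁ z₂ : F, z₁ ^ 2 + a * z₁ * z₂ + c * z₂ ^ 2 = 0 → z₁ = 0 ∧ z₂ = 0) :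
    ∃ α β : K, α ≠ β ∧ α + β = -f a ∧ α * β = f c := by
  classical
  letI : Algebra F K := f.toAlgebra
  have halg : ∀ x : F, algebraMap F K x = f x := fun x => rfl
  set P : F[X] := X ^ 2 + C a * X + C c with hPdef
  have hdeg : P.natDegree = 2 := by
    rw [hPdef]; compute_degree!
  have hmonic : P.Monic := by
    rw [hPdef]; monicity!
  have hroots : P.roots = 0 := by
    rw [Multiset.eq_zero_iff_forall_notMem]
    intro z hz
    rw [mem_roots hmonic.ne_zero] at hz
    have h0 : z ^ 2 + a * z + c = 0 := by
      have := hz
      simp only [hPdef, IsRoot.def, eval_add, eval_pow, eval_X, eval_mul, eval_C] at this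
      exact this
    have := (hac z 1 (by rw [← h0]; ring)).2
    exact one_ne_zero this
  have hirr : Irreducible P := by
    rw [Polynomial.Monic.irreducible_iff_roots_eq_zero_of_degree_le_three hmonic (by omega) (by omega)]
    exact hroots
  haveI : Fact (Irreducible P) := ⟨hirr⟩
  have hfr1 : Module.finrank F (AdjoinRoot P) = 2 := by
    rw [(AdjoinRoot.powerBasis hmonic.ne_zero).finrank, AdjoinRoot.powerBasis_dim, hdeg]
  have hfr2 : Module.finrank F K = 2 := finrank_eq_two_of_card_sq hF hK
  obtain ⟨ψ⟩ := FiniteField.nonempty_algHom_of_finrank_dvd (F := F) (K := AdjoinRoot P) (L := K)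
    (by rw [hfr1, hfr2])
  set α : K := ψ (AdjoinRoot.root P) with hα
  have hPα : aeval α P = 0 := by
    rw [hα, aeval_algHom_apply, AdjoinRoot.aeval_eq, AdjoinRoot.mk_self, map_zero]
  have hα2 : α ^ 2 + f a * α + f c = 0 := by
    have := hPα
    simp only [hPdef, map_add, map_pow, aeval_X, map_mul, aeval_C, halg] at this
    exact this
  have hsep : P.Separable := PerfectField.separable_of_irreducible hirr
  obtain ⟨u, v, huv⟩ := hsep
  have hder : aeval α (derivative P) = 2 * α + f a := by
    simp only [hPdef, derivative_add, derivative_X_pow, derivative_mul, derivative_C, derivative_X,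
      map_add, map_mul, aeval_X, aeval_C, halg]
    simp [map_ofNat]
  have h1 : aeval α v * (2 * α + f a) = 1 := by
    have := congrArg (aeval α) huv
    rw [map_add, map_mul, map_mul, hPα, mul_zero, zero_add, hder, map_one] at this
    exact this
  refine ⟨α, -f a - α, ?_, by ring, ?_⟩
  · intro h
    have h2 : 2 * α + f a = 0 := by
      have : α + α = -f a := by
        nth_rewrite 2 [h]; ring
      rw [two_mul, this]; ring
    rw [h2, mul_zero] at h1
    exact zero_ne_one h1
  · have : α * (-f a - α) = -(α ^ 2 + f a * α + f c) + f c := by ring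
    rw [this, hα2]; ring

end Cfsg.Agent.Lib.Helper45
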