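import Mathlib

set_option autoImplicit false

namespace Cfsg.Agent.Lib.Helper45

open Matrix

section Restrict

variable {F K : Type*} [CommRing F] [CommRing K]
variable {α J : Type*} [Fintype α] [DecidableEq α] [Fintype J] [DecidableEq J]

/-- Blow-up of a matrix over `K` through a ring hom `L : K →+* Matrix J J F`. -/
def blow (L : K →+* Matrix J J F) : Matrix α α K →+* Matrix (α × J) (α × J) F :=
  (Matrix.compRingEquiv α J F).toRingHom.comp (RingHom.mapMatrix L)

theorem blow_apply (L : K →+* Matrix J J F) (M : Matrix α α K) (p q : α × J) :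
    blow L M p q = L (M p.1 q.1) p.2 q.2 := rfl

theorem blow_injective (L : K →+* Matrix J J F) (hL : Function.Injective L) :
    Function.Injective (blow (α := α) L) := by
  intro M N h
  ext i j
  apply hL
  ext k l
  have := congrFun (congrFun h (i, k)) (j, l)
  simpa [blow_apply] using this

/-- Block-scalar matrix `1 ⊗ T`. -/
def bscal (T : Matrix J J F) : Matrix (α × J) (α × J) F :=
  Matrix.of fun p q => if p.1 = q.1 then T p.2 q.2 else 0

theorem bscal_apply (T : Matrix J J F) (p q : α × J) :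
    bscal T p q = if p.1 = q.1 then T p.2 q.2 else 0 := rfl

theorem bscal_mul (T T' : Matrix J J F) :
    bscal (α := α) T * bscal T' = bscal (T * T') := by
  ext ⟨i, k⟩ ⟨j, l⟩
  simp only [Matrix.mul_apply, bscal_apply, Fintype.sum_prod_type]
  by_cases h : i = j
  · subst h
    simp [Finset.sum_ite_eq]
  · simp only [h, if_false]
    apply Finset.sum_eq_zero
    intro x _
    by_cases hx : i = x
    · subst hx
      simp [h]
    · simp [hx]

theorem bscal_one : bscal (α := α) (1 : Matrix J J F) = 1 := by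
  ext ⟨i, k⟩ ⟨j, l⟩
  simp only [bscal_apply, Matrix.one_apply, Prod.mk.injEq]
  by_cases h : i = j <;> simp [h]

theorem bscal_transpose (T : Matrix J J F) : (bscal (α := α) T)ᵀ = bscal Tᵀ := by
  ext ⟨i, k⟩ ⟨j, l⟩
  simp only [bscal_apply, Matrix.transpose_apply]
  by_cases h : i = j
  · subst h; simp
  · have h' : ¬ j = i := fun e => h e.symm
    simp [h, h']

theorem blow_transpose_mul (L : K →+* Matrix J J F) (T : Matrix J J F)
    (hLT : ∀ x, (L x)ᵀ * T = T * L x) (M : Matrix α α K) :
    (blow L M)ᵀ * bscal T = bscal T * blow L Mᵀ := by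
  ext ⟨i, k⟩ ⟨j, l⟩
  have h := congrFun (congrFun (hLT (M j i)) k) l
  simp only [Matrix.mul_apply, Matrix.transpose_apply] at h
  simp only [Matrix.mul_apply, Matrix.transpose_apply, blow_apply, bscal_apply,
    Fintype.sum_prod_type]
  rw [Finset.sum_eq_single j, Finset.sum_eq_single i]
  · simpa using h
  · intro x _ hx
    simp [Ne.symm hx]
  · intro hx; exact absurd (Finset.mem_univ _) hx
  · intro x _ hx
    simp [hx]
  · intro hx; exact absurd (Finset.mem_univ _) hx

/-- Blow-up in block form. -/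
def blowB (L : K →+* Matrix J J F) (A : Matrix (α ⊕ α) (α ⊕ α) K) :
    Matrix ((α × J) ⊕ (α × J)) ((α × J) ⊕ (α × J)) F :=
  fromBlocks (blow L A.toBlocks₁₁) (blow L A.toBlocks₁₂) (blow L A.toBlocks₂₁) (blow L A.toBlocks₂₂)

theorem blowB_fromBlocks (L : K →+* Matrix J J F) (A B C D : Matrix α α K) :
    blowB L (fromBlocks A B C D) = fromBlocks (blow L A) (blow L B) (blow L C) (blow L D) := by
  simp [blowB]

theorem blowB_mul (L : K →+* Matrix J J F) (A B : Matrix (α ⊕ α) (α ⊕ α) K) :
    blowB L (A * B) = blowB L A * blowB L B := by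
  rw [← fromBlocks_toBlocks A, ← fromBlocks_toBlocks B, fromBlocks_multiply]
  simp only [blowB_fromBlocks, fromBlocks_multiply, map_add, map_mul]

theorem blowB_one (L : K →+* Matrix J J F) :
    blowB L (1 : Matrix (α ⊕ α) (α ⊕ α) K) = 1 := by
  rw [← fromBlocks_one, blowB_fromBlocks]
  simp

theorem blowB_J (L : K →+* Matrix J J F) :
    blowB L (Matrix.J α K) = Matrix.J (α × J) F := by
  unfold Matrix.J
  rw [blowB_fromBlocks]
  simp

theorem blowB_transpose (L : K →+* Matrix J J F) (A B C D : Matrix α α K) :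
    (blowB L (fromBlocks A B C D))ᵀ =
      fromBlocks (blow L A)ᵀ (blow L C)ᵀ (blow L B)ᵀ (blow L D)ᵀ := by
  rw [blowB_fromBlocks, fromBlocks_transpose]

theorem blowB_injective (L : K →+* Matrix J J F) (hL : Function.Injective L) :
    Function.Injective (blowB (α := α) L) := by
  intro A B h
  rw [← fromBlocks_toBlocks A, ← fromBlocks_toBlocks B] at h ⊢
  rw [blowB_fromBlocks, blowB_fromBlocks, fromBlocks_inj] at h
  obtain ⟨h1, h2, h3, h4⟩ := h
  rw [blow_injective L hL h1, blow_injective L hL h2, blow_injective L hL h3,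
    blow_injective L hL h4]

/-- The conjugating block-diagonal matrix `diag(1, 1 ⊗ T)`. -/
def Dm (T : Matrix J J F) : Matrix ((α × J) ⊕ (α × J)) ((α × J) ⊕ (α × J)) F :=
  fromBlocks 1 0 0 (bscal T)

theorem Dm_mul (T T' : Matrix J J F) (h : T * T' = 1) : Dm (α := α) T * Dm T' = 1 := by
  unfold Dm
  rw [fromBlocks_multiply]
  simp [bscal_mul, h, bscal_one, fromBlocks_one]

theorem sp_aux1 {R : Type*} [Ring R] (a b a' b' t t' : R) (ht't : t' * t = 1)
    (f1 : b * a' - a * b' = 0) : b * t' * (t * a' * t') - a * (b' * t') = 0 := by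
  have h : ∀ x, t' * (t * x) = x := fun x => by rw [← mul_assoc, ht't, one_mul]
  have : b * t' * (t * a' * t') - a * (b' * t') = (b * a' - a * b') * t' := by
    simp only [mul_assoc, h, sub_mul]
  rw [this, f1, zero_mul]

theorem sp_aux2 {R : Type*} [Ring R] (a b c' d' t t' : R) (ht't : t' * t = 1)
    (f2 : b * c' - a * d' = -1) : b * t' * (t * c') - a * d' = -1 := by
  have h : ∀ x, t' * (t * x) = x := fun x => by rw [← mul_assoc, ht't, one_mul]
  have : b * t' * (t * c') - a * d' = b * c' - a * d' := by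
    simp only [mul_assoc, h]
  rw [this, f2]

theorem sp_aux3 {R : Type*} [Ring R] (c d a' b' t t' : R) (htt' : t * t' = 1) (ht't : t' * t = 1)
    (f3 : d * a' - c * b' = 1) : t * d * t' * (t * a' * t') - t * c * (b' * t') = 1 := by
  have h : ∀ x, t' * (t * x) = x := fun x => by rw [← mul_assoc, ht't, one_mul]
  have : t * d * t' * (t * a' * t') - t * c * (b' * t') = t * ((d * a' - c * b') * t') := by
    simp only [mul_assoc, h, sub_mul, mul_sub]
  rw [this, f3, one_mul, htt']

theorem sp_aux4 {R : Type*} [Ring R] (c d c' d' t t' : R) (ht't : t' * t = 1)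
    (f4 : d * c' - c * d' = 0) : t * d * t' * (t * c') - t * c * d' = 0 := by
  have h : ∀ x, t' * (t * x) = x := fun x => by rw [← mul_assoc, ht't, one_mul]
  have : t * d * t' * (t * c') - t * c * d' = t * (d * c' - c * d') := by
    simp only [mul_assoc, h, mul_sub]
  rw [this, f4, mul_zero]

/-- The symplectic expression `P J Pᵀ` in block form. -/
theorem block_J_transpose {R' : Type*} [CommRing R'] {m : Type*} [Fintype m] [DecidableEq m]
    (p q r s : Matrix m m R') :
    fromBlocks p q r s * Matrix.J m R' * (fromBlocks p q r s)ᵀ =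
      fromBlocks (q * pᵀ - p * qᵀ) (q * rᵀ - p * sᵀ) (s * pᵀ - r * qᵀ) (s * rᵀ - r * sᵀ) := by
  unfold Matrix.J
  rw [fromBlocks_transpose, fromBlocks_multiply, fromBlocks_multiply]
  simp [sub_eq_add_neg]

/-- Key computation: the blown-up and conjugated matrix of a symplectic matrix is symplectic. -/
theorem restrict_mem (L : K →+* Matrix J J F) (T T' : Matrix J J F)
    (hTT' : T * T' = 1) (hT'T : T' * T = 1) (hTt : Tᵀ = T)
    (hLT : ∀ x, (L x)ᵀ * T = T * L x) (A : Matrix (α ⊕ α) (α ⊕ α) K)
    (hA : A ∈ symplecticGroup α K) :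
    Dm T * blowB L A * Dm T' ∈ symplecticGroup (α × J) F := by
  rw [SymplecticGroup.mem_iff] at hA ⊢
  have hT't : T'ᵀ = T' := by
    have h1 : T'ᵀ * T = 1 := by
      rw [← hTt, ← Matrix.transpose_mul, hTT', Matrix.transpose_one]
    calc T'ᵀ = T'ᵀ * (T * T') := by rw [hTT', Matrix.mul_one]
      _ = (T'ᵀ * T) * T' := by rw [Matrix.mul_assoc]
      _ = T' := by rw [h1, Matrix.one_mul]
  set t : Matrix (α × J) (α × J) F := bscal T with ht
  set t' : Matrix (α × J) (α × J) F := bscal T' with ht'
  have htt' : t * t' = 1 := by rw [ht, ht', bscal_mul, hTT', bscal_one]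
  have ht't : t' * t = 1 := by rw [ht, ht', bscal_mul, hT'T, bscal_one]
  have htT : tᵀ = t := by rw [ht, bscal_transpose, hTt]
  have ht'T : t'ᵀ = t' := by rw [ht', bscal_transpose, hT't]
  have hc : ∀ x : Matrix (α × J) (α × J) F, t' * (t * x) = x := fun x => by
    rw [← Matrix.mul_assoc, ht't, Matrix.one_mul]
  -- transposes of blow-ups
  have hbt : ∀ M : Matrix α α K, (blow L M)ᵀ = t * blow L Mᵀ * t' := by
    intro M
    have := blow_transpose_mul L T hLT M
    rw [← ht] at this
    calc (blow L M)ᵀ = (blow L M)ᵀ * (t * t') := by rw [htt', Matrix.mul_one]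
      _ = ((blow L M)ᵀ * t) * t' := by rw [Matrix.mul_assoc]
      _ = t * blow L Mᵀ * t' := by rw [this]
  -- the symplectic relations of A in block form
  set A₁₁ := A.toBlocks₁₁ with hA11
  set A₁₂ := A.toBlocks₁₂ with hA12
  set A₂₁ := A.toBlocks₂₁ with hA21
  set A₂₂ := A.toBlocks₂₂ with hA22
  have hAb : A = fromBlocks A₁₁ A₁₂ A₂₁ A₂₂ := (fromBlocks_toBlocks A).symm
  rw [hAb, block_J_transpose] at hA
  unfold Matrix.J at hA
  rw [fromBlocks_inj] at hA
  obtain ⟨e1, e2, e3, e4⟩ := hA
  -- images of the relations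
  have f1 := congrArg (blow (J := J) L) e1
  have f2 := congrArg (blow (J := J) L) e2
  have f3 := congrArg (blow (J := J) L) e3
  have f4 := congrArg (blow (J := J) L) e4
  simp only [map_sub, map_mul, map_neg, map_zero, map_one] at f1 f2 f3 f4
  set a := blow (J := J) L A₁₁ with ha
  set b := blow (J := J) L A₁₂ with hb
  set c := blow (J := J) L A₂₁ with hc'
  set d := blow (J := J) L A₂₂ with hd
  have hP : Dm T * blowB L A * Dm T' = fromBlocks a (b * t') (t * c) (t * d * t') := by
    rw [hAb, blowB_fromBlocks]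
    unfold Dm
    rw [fromBlocks_multiply, fromBlocks_multiply]
    simp only [Matrix.one_mul, Matrix.mul_one, Matrix.zero_mul, Matrix.mul_zero, add_zero, zero_add]
    rfl
  rw [hP, block_J_transpose]
  have hp : aᵀ = t * blow L A₁₁ᵀ * t' := hbt _
  have hq : (b * t')ᵀ = blow L A₁₂ᵀ * t' := by
    rw [Matrix.transpose_mul, ht'T, hb, hbt, Matrix.mul_assoc, hc]
  have hr : (t * c)ᵀ = t * blow L A₂₁ᵀ := by
    rw [Matrix.transpose_mul, htT, hc', hbt, Matrix.mul_assoc, Matrix.mul_assoc, ht't, Matrix.mul_one]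
  have hs : (t * d * t')ᵀ = blow L A₂₂ᵀ := by
    rw [Matrix.transpose_mul, Matrix.transpose_mul, htT, ht'T, hd, hbt, Matrix.mul_assoc,
      Matrix.mul_assoc, ht't, Matrix.mul_one, hc]
  rw [hp, hq, hr, hs]
  unfold Matrix.J
  rw [sp_aux1 a b _ _ t t' ht't f1, sp_aux2 a b _ _ t t' ht't f2,
    sp_aux3 c d _ _ t t' htt' ht't f3, sp_aux4 c d _ _ t t' ht't f4]

/-- The restriction-of-scalars homomorphism of symplectic groups. -/
noncomputable def restrictHom (L : K →+* Matrix J J F) (T T' : Matrix J J F)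
    (hTT' : T * T' = 1) (hT'T : T' * T = 1) (hTt : Tᵀ = T)
    (hLT : ∀ x, (L x)ᵀ * T = T * L x) : symplecticGroup α K →* symplecticGroup (α × J) F where
  toFun A := ⟨Dm T * blowB L A.1 * Dm T', restrict_mem L T T' hTT' hT'T hTt hLT A.1 A.2⟩
  map_one' := by
    apply Subtype.ext
    show Dm T * blowB L 1 * Dm T' = 1
    rw [blowB_one, Matrix.mul_one, Dm_mul T T' hTT']
  map_mul' A B := by
    apply Subtype.ext
    show Dm T * blowB L (A.1 * B.1) * Dm T' =
      (Dm T * blowB L A.1 * Dm T') * (Dm T * blowB L B.1 * Dm T')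
    rw [blowB_mul]
    have h := Dm_mul (α := α) T' T hT'T
    calc Dm T * (blowB L A.1 * blowB L B.1) * Dm T'
        = Dm T * blowB L A.1 * 1 * blowB L B.1 * Dm T' := by
          rw [Matrix.mul_one]; simp only [Matrix.mul_assoc]
      _ = Dm T * blowB L A.1 * (Dm T' * Dm T) * blowB L B.1 * Dm T' := by rw [h]
      _ = (Dm T * blowB L A.1 * Dm T') * (Dm T * blowB L B.1 * Dm T') := by
          simp only [Matrix.mul_assoc]

theorem restrictHom_injective (L : K →+* Matrix J J F) (hL : Function.Injective L)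
    (T T' : Matrix J J F)
    (hTT' : T * T' = 1) (hT'T : T' * T = 1) (hTt : Tᵀ = T)
    (hLT : ∀ x, (L x)ᵀ * T = T * L x) :
    Function.Injective (restrictHom (α := α) L T T' hTT' hT'T hTt hLT) := by
  intro A B h
  have h1 : Dm T * blowB L A.1 * Dm T' = Dm T * blowB L B.1 * Dm T' := congrArg Subtype.val h
  have h2 := Dm_mul (α := α) T' T hT'T
  have h3 : ∀ M : Matrix ((α × J) ⊕ (α × J)) ((α × J) ⊕ (α × J)) F,
      Dm T' * (Dm T * M * Dm T') * Dm T = M := by
    intro M
    calc Dm T' * (Dm T * M * Dm T') * Dm T = (Dm T' * Dm T) * M * (Dm T' * Dm T) := by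
          simp only [Matrix.mul_assoc]
      _ = M := by rw [h2, Matrix.one_mul, Matrix.mul_one]
  have h4 : blowB L A.1 = blowB L B.1 := by
    rw [← h3 (blowB L A.1), h1, h3]
  exact Subtype.ext (blowB_injective L hL h4)

end Restrict

section Reindex

variable {R : Type*} [CommRing R]
variable {m n : Type*} [Fintype m] [DecidableEq m] [Fintype n] [DecidableEq n]

theorem J_submatrix (e : n ≃ m) :
    (Matrix.J m R).submatrix (Equiv.sumCongr e e) (Equiv.sumCongr e e) = Matrix.J n R := by
  ext (i | i) (j | j) <;> simp [Matrix.J, Matrix.one_apply, e.injective.eq_iff]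

/-- Reindexing the symplectic group along an equivalence of index types. -/
def reindexSp (e : n ≃ m) : symplecticGroup m R →* symplecticGroup n R where
  toFun A := ⟨A.1.submatrix (Equiv.sumCongr e e) (Equiv.sumCongr e e), by
    have hA := SymplecticGroup.mem_iff.1 A.2
    rw [SymplecticGroup.mem_iff, ← J_submatrix (R := R) e, Matrix.transpose_submatrix,
      Matrix.submatrix_mul_equiv, Matrix.submatrix_mul_equiv, hA]⟩
  map_one' := by
    apply Subtype.ext
    show (1 : Matrix (m ⊕ m) (m ⊕ m) R).submatrix (Equiv.sumCongr e e) (Equiv.sumCongr e e) = 1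
    exact Matrix.submatrix_one_equiv _
  map_mul' A B := by
    apply Subtype.ext
    show (A.1 * B.1).submatrix (Equiv.sumCongr e e) (Equiv.sumCongr e e) =
      A.1.submatrix (Equiv.sumCongr e e) (Equiv.sumCongr e e) *
        B.1.submatrix (Equiv.sumCongr e e) (Equiv.sumCongr e e)
    rw [Matrix.submatrix_mul_equiv]

theorem reindexSp_injective (e : n ≃ m) : Function.Injective (reindexSp (R := R) e) := by
  intro A B h
  have h1 : A.1.submatrix (Equiv.sumCongr e e) (Equiv.sumCongr e e) =
      B.1.submatrix (Equiv.sumCongr e e) (Equiv.sumCongr e e) := congrArg Subtype.val h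
  apply Subtype.ext
  ext i j
  have := congrFun (congrFun h1 ((Equiv.sumCongr e e).symm i)) ((Equiv.sumCongr e e).symm j)
  simpa using this

end Reindex

end Cfsg.Agent.Lib.Helper45
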