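import Mathlib

set_option autoImplicit false

namespace Cfsg.Agent.Lib.Helper45

open QuadraticMap

section OrthBasic

variable {F V : Type*} [Field F] [AddCommGroup V] [Module F V] (Q : QuadraticForm F V)

/-- Non-defective: no non-zero singular vector in the radical of the polar form. -/
def QND {F V : Type*} [Field F] [AddCommGroup V] (Q : V → F) : Prop :=
  ∀ v, Q v = 0 → (∀ w, polar Q v w = 0) → v = 0

theorem q_add_smul (x w : V) (c : F) :
    Q (x + c • w) = Q x + c * polar Q x w + c * c * Q w := by
  have h : Q (x + c • w) = Q x + Q (c • w) + polar Q x (c • w) := by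
    unfold polar; ring
  rw [h, QuadraticMap.map_smul, polar_smul_right]
  simp only [smul_eq_mul]
  ring

theorem q_sub (x w : V) : Q (x - w) = Q x + Q w - polar Q x w := by
  have h := q_add_smul Q x w (-1)
  rw [neg_one_smul, ← sub_eq_add_neg] at h
  rw [h]; ring

theorem polar_self' (x : V) : polar Q x x = 2 * Q x := by
  rw [polar_self]; simp

/-- The reflection (orthogonal transvection) in a non-singular vector. -/
noncomputable def qRefl (w : V) : V →ₗ[F] V :=
  LinearMap.id - ((Q w)⁻¹ • (polarBilin Q w)).smulRight w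

theorem qRefl_apply (w x : V) : qRefl Q w x = x - ((Q w)⁻¹ * polar Q w x) • w := by
  simp [qRefl]

theorem qRefl_isometry (w : V) (hw : Q w ≠ 0) (x : V) : Q (qRefl Q w x) = Q x := by
  rw [qRefl_apply, sub_eq_add_neg, ← neg_smul, q_add_smul, polar_comm Q x w]
  field_simp
  ring

/-- The Eichler (Siegel) transformation attached to a singular `e` and `z ⊥ e`. -/
noncomputable def qEichler (e z : V) : V →ₗ[F] V :=
  LinearMap.id + (polarBilin Q z).smulRight e - (polarBilin Q e).smulRight z
    - (Q z • polarBilin Q e).smulRight e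

theorem qEichler_apply (e z x : V) :
    qEichler Q e z x = x + polar Q z x • e - polar Q e x • z - (Q z * polar Q e x) • e := by
  simp [qEichler]

theorem qEichler_isometry (e z : V) (he : Q e = 0) (hez : polar Q e z = 0) (x : V) :
    Q (qEichler Q e z x) = Q x := by
  have h1 : qEichler Q e z x =
      (x + (polar Q z x - Q z * polar Q e x) • e) + (-polar Q e x) • z := by
    rw [qEichler_apply]
    module
  rw [h1, q_add_smul, q_add_smul, polar_add_left, polar_smul_left, he, hez,
    polar_comm Q x e, polar_comm Q x z]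
  simp only [smul_eq_mul]
  ring

theorem exists_singular_pair (hND : QND Q) (u : V) (hu : Q u = 0) (hu0 : u ≠ 0) :
    ∃ f, Q f = 0 ∧ polar Q u f = 1 := by
  have hz : ∃ z, polar Q u z ≠ 0 := by
    by_contra hcon
    exact hu0 (hND u hu (fun w => by
      by_contra h'
      exact hcon ⟨w, h'⟩))
  obtain ⟨z, hz⟩ := hz
  refine ⟨(polar Q u z)⁻¹ • (z + (-(Q z / polar Q u z)) • u), ?_, ?_⟩
  · rw [QuadraticMap.map_smul, q_add_smul, hu, polar_comm Q z u]
    simp only [smul_eq_mul]
    field_simp
    ring
  · rw [polar_smul_right, polar_add_right, polar_smul_right, polar_self', hu]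
    simp only [smul_eq_mul]
    field_simp
    ring

theorem exists_isometry_singular_aux (u u' : V) (hu : Q u = 0) (hu' : Q u' = 0)
    (h : polar Q u u' ≠ 0) :
    ∃ g : V →ₗ[F] V, (∀ x, Q (g x) = Q x) ∧ g u = u' := by
  have hQ : Q (u - u') = -polar Q u u' := by rw [q_sub, hu, hu']; ring
  have hQ0 : Q (u - u') ≠ 0 := by rw [hQ]; exact neg_ne_zero.mpr h
  refine ⟨qRefl Q (u - u'), qRefl_isometry Q _ hQ0, ?_⟩
  rw [qRefl_apply, hQ, polar_sub_left, polar_self', hu, polar_comm Q u' u]
  have : ((-polar Q u u')⁻¹ * (2 * 0 - polar Q u u')) = 1 := by field_simp; ring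
  rw [this, one_smul]; abel

theorem exists_isometry_singular (hND : QND Q) (u u' : V) (hu : Q u = 0) (hu0 : u ≠ 0)
    (hu' : Q u' = 0) (hu'0 : u' ≠ 0) :
    ∃ g : V →ₗ[F] V, (∀ x, Q (g x) = Q x) ∧ g u = u' := by
  by_cases h : polar Q u u' = 0
  · obtain ⟨f, hf, huf⟩ := exists_singular_pair Q hND u hu hu0
    obtain ⟨f', hf', huf'⟩ := exists_singular_pair Q hND u' hu' hu'0
    have key : ∃ w, Q w = 0 ∧ polar Q u w ≠ 0 ∧ polar Q w u' ≠ 0 := by
      by_cases h1 : polar Q u' f = 0
      · by_cases h2 : polar Q u f' = 0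
        · refine ⟨(f + f') + (-polar Q f f') • u, ?_, ?_, ?_⟩
          · rw [q_add_smul, hu, polar_add_left, polar_comm Q f u, polar_comm Q f' u, huf, h2]
            have : Q (f + f') = Q f + Q f' + polar Q f f' := by unfold polar; ring
            rw [this, hf, hf']; ring
          · rw [polar_add_right, polar_add_right, polar_smul_right, polar_self', hu, huf, h2]
            simp
          · rw [polar_add_left, polar_add_left, polar_smul_left, polar_comm Q f u', h1,
              polar_comm Q f' u', huf', h]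
            simp
        · exact ⟨f', hf', h2, by rw [polar_comm]; rw [huf']; exact one_ne_zero⟩
      · exact ⟨f, hf, by rw [huf]; exact one_ne_zero, by rw [polar_comm]; exact h1⟩
    obtain ⟨w, hw, h1, h2⟩ := key
    obtain ⟨g₁, hg₁, hg₁u⟩ := exists_isometry_singular_aux Q u w hu hw h1
    obtain ⟨g₂, hg₂, hg₂w⟩ := exists_isometry_singular_aux Q w u' hw hu' h2
    refine ⟨g₂.comp g₁, fun x => ?_, ?_⟩
    · rw [LinearMap.comp_apply, hg₂, hg₁]
    · rw [LinearMap.comp_apply, hg₁u, hg₂w]
  · exact exists_isometry_singular_aux Q u u' hu hu' h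

theorem exists_isometry_fix (e f f' : V) (he : Q e = 0) (hf : Q f = 0) (hf' : Q f' = 0)
    (hef : polar Q e f = 1) (hef' : polar Q e f' = 1) :
    ∃ g : V →ₗ[F] V, (∀ x, Q (g x) = Q x) ∧ g e = e ∧ g f = f' := by
  have hez : polar Q e (f - f') = 0 := by rw [polar_sub_right, hef, hef']; ring
  refine ⟨qEichler Q e (f - f'), qEichler_isometry Q e _ he hez, ?_, ?_⟩
  · rw [qEichler_apply, polar_comm Q (f - f') e, hez, polar_self', he]
    simp
  · rw [qEichler_apply, hef, q_sub, hf, hf', polar_sub_left, polar_self', hf,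
      polar_comm Q f' f]
    module

end OrthBasic

end Cfsg.Agent.Lib.Helper45
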