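import Mathlib
import Cfsg.Prelude.Def_Classical
import Cfsg.Agent.Lib.Helper45.OrthBasic

set_option autoImplicit false

namespace Cfsg.Agent.Lib.Helper45

open QuadraticMap Matrix

section OrthCount

set_option linter.unusedSectionVars false

variable {F : Type*} [Field F] [Fintype F] {ι : Type} [Fintype ι] [DecidableEq ι]

/-- The function `Q` is (the underlying function of) a quadratic form. -/
def IsQF {F : Type*} [Field F] {ι : Type} (Q : (ι → F) → F) : Prop :=
  ∃ Q' : QuadraticForm F (ι → F), ∀ v, Q' v = Q v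

open Classical in
/-- The set of matrices preserving the function `Q`. -/
noncomputable def orthSet (Q : (ι → F) → F) : Finset (Matrix ι ι F) :=
  Finset.univ.filter (fun M => ∀ v, Q (M *ᵥ v) = Q v)

theorem mem_orthSet {Q : (ι → F) → F} {M : Matrix ι ι F} :
    M ∈ orthSet Q ↔ ∀ v, Q (M *ᵥ v) = Q v := by
  classical
  simp [orthSet]

theorem exists_matrix_of_linear (g : (ι → F) →ₗ[F] (ι → F)) :
    ∃ M : Matrix ι ι F, ∀ v, M *ᵥ v = g v :=
  ⟨LinearMap.toMatrix' g, fun v => by rw [← Matrix.toLin'_apply, Matrix.toLin'_toMatrix']⟩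

theorem orth_polar {Q : (ι → F) → F} {M : Matrix ι ι F} (hM : ∀ v, Q (M *ᵥ v) = Q v)
    (x y : ι → F) : polar Q (M *ᵥ x) (M *ᵥ y) = polar Q x y := by
  unfold polar
  rw [← Matrix.mulVec_add, hM, hM, hM]

theorem orth_isUnit {Q : (ι → F) → F} (hQ0 : Q 0 = 0) (hND : QND Q) {M : Matrix ι ι F}
    (hM : ∀ v, Q (M *ᵥ v) = Q v) : IsUnit M := by
  rw [← Matrix.mulVec_injective_iff_isUnit]
  intro u u' h
  have h0 : M *ᵥ (u - u') = 0 := by rw [Matrix.mulVec_sub]; exact sub_eq_zero.mpr h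
  have h1 : u - u' = 0 := by
    apply hND
    · rw [← hM, h0, hQ0]
    · intro w
      rw [← orth_polar hM, h0]
      unfold polar
      rw [zero_add, hQ0]; ring
  exact sub_eq_zero.mp h1

theorem isQF_zero {Q : (ι → F) → F} (hQ : IsQF Q) : Q 0 = 0 := by
  obtain ⟨Q', hQ'⟩ := hQ
  rw [← hQ']; exact QuadraticMap.map_zero Q'

theorem card_isometryGroup_eq {Q : (ι → F) → F} (hQ : IsQF Q) (hND : QND Q) :
    Nat.card (Cfsg.isometryGroup F Q) = (orthSet Q).card := by
  classical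
  rw [← Nat.card_eq_finsetCard]
  apply Nat.card_congr
  refine Equiv.ofBijective
    (fun g : Cfsg.isometryGroup F Q => (⟨(g.1 : Matrix ι ι F),
      mem_orthSet.mpr (fun v => g.2 v v)⟩ : orthSet Q)) ⟨?_, ?_⟩
  · intro g g' h
    have h1 := congrArg Subtype.val h
    exact Subtype.ext (Units.ext h1)
  · rintro ⟨M, hM⟩
    have hM' := mem_orthSet.mp hM
    obtain ⟨U, hU⟩ := orth_isUnit (isQF_zero hQ) hND hM'
    refine ⟨⟨U, ?_⟩, Subtype.ext hU⟩
    intro u v
    show Q ((U : Matrix ι ι F) *ᵥ u) = Q u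
    rw [hU]
    exact hM' u

theorem orth_fiber_le {Q : (ι → F) → F} (hQ0 : Q 0 = 0) (hND : QND Q)
    (P P' : Matrix ι ι F → Prop) [DecidablePred P] [DecidablePred P'] (T : Matrix ι ι F)
    (hT : ∀ v, Q (T *ᵥ v) = Q v) (hPP' : ∀ M, P M → P' (T * M)) :
    ((orthSet Q).filter P).card ≤ ((orthSet Q).filter P').card := by
  apply Finset.card_le_card_of_injOn (fun M => T * M)
  · intro M hM
    rw [Finset.coe_filter, Set.mem_ofPred_eq, mem_orthSet] at hM
    rw [Finset.coe_filter, Set.mem_ofPred_eq, mem_orthSet]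
    refine ⟨fun v => ?_, hPP' M hM.2⟩
    rw [← Matrix.mulVec_mulVec, hT, hM.1]
  · intro M _ M' _ h
    exact (orth_isUnit hQ0 hND hT).mul_right_injective h

theorem card_orthSet_stageA [DecidableEq F] (Q : QuadraticForm F (ι → F)) (hND : QND Q)
    (e : ι → F) (he : Q e = 0) (he0 : e ≠ 0) :
    (orthSet Q).card = (Finset.univ.filter (fun u : ι → F => u ≠ 0 ∧ Q u = 0)).card *
      ((orthSet Q).filter (fun M => M *ᵥ e = e)).card := by
  have hQ0 : Q 0 = 0 := QuadraticMap.map_zero Q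
  have hfib : ∀ u ∈ Finset.univ.filter (fun u : ι → F => u ≠ 0 ∧ Q u = 0),
      ((orthSet Q).filter (fun M => M *ᵥ e = u)).card =
        ((orthSet Q).filter (fun M => M *ᵥ e = e)).card := by
    intro u hu
    rw [Finset.mem_filter] at hu
    obtain ⟨g₁, hg₁, hg₁u⟩ := exists_isometry_singular Q hND u e hu.2.2 hu.2.1 he he0
    obtain ⟨g₂, hg₂, hg₂u⟩ := exists_isometry_singular Q hND e u he he0 hu.2.2 hu.2.1
    obtain ⟨T₁, hT₁⟩ := exists_matrix_of_linear g₁
    obtain ⟨T₂, hT₂⟩ := exists_matrix_of_linear g₂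
    apply le_antisymm
    · apply orth_fiber_le hQ0 hND _ _ T₁ (fun v => by rw [hT₁, hg₁])
      intro M hM
      rw [← Matrix.mulVec_mulVec, hM, hT₁, hg₁u]
    · apply orth_fiber_le hQ0 hND _ _ T₂ (fun v => by rw [hT₂, hg₂])
      intro M hM
      rw [← Matrix.mulVec_mulVec, hM, hT₂, hg₂u]
  rw [Finset.card_eq_sum_card_fiberwise (s := orthSet (⇑Q)) (f := fun M => M *ᵥ e)
    (t := Finset.univ.filter (fun u : ι → F => u ≠ 0 ∧ Q u = 0)),
    Finset.sum_congr rfl hfib, Finset.sum_const, smul_eq_mul]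
  intro M hM
  have hM' := mem_orthSet.mp (Finset.mem_coe.mp hM)
  rw [Finset.coe_filter, Set.mem_ofPred_eq]
  refine ⟨Finset.mem_univ _, ?_, by rw [hM', he]⟩
  intro h0
  have hinj := Matrix.mulVec_injective_iff_isUnit.mpr (orth_isUnit hQ0 hND hM')
  have h0' : M *ᵥ e = 0 := h0
  exact he0 (hinj (by rw [h0', Matrix.mulVec_zero]))

theorem card_orthSet_stageB [DecidableEq F] (Q : QuadraticForm F (ι → F)) (hND : QND Q)
    (e f : ι → F) (he : Q e = 0) (hf : Q f = 0) (hef : polar Q e f = 1) :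
    ((orthSet Q).filter (fun M => M *ᵥ e = e)).card =
      (Finset.univ.filter (fun v : ι → F => Q v = 0 ∧ polar Q e v = 1)).card *
      ((orthSet Q).filter (fun M => M *ᵥ e = e ∧ M *ᵥ f = f)).card := by
  have hQ0 : Q 0 = 0 := QuadraticMap.map_zero Q
  have hfib : ∀ v ∈ Finset.univ.filter (fun v : ι → F => Q v = 0 ∧ polar Q e v = 1),
      (((orthSet Q).filter (fun M => M *ᵥ e = e)).filter (fun M => M *ᵥ f = v)).card =
        ((orthSet Q).filter (fun M => M *ᵥ e = e ∧ M *ᵥ f = f)).card := by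
    intro v hv
    rw [Finset.mem_filter] at hv
    rw [Finset.filter_filter]
    obtain ⟨g₁, hg₁, hg₁e, hg₁v⟩ := exists_isometry_fix Q e v f he hv.2.1 hf hv.2.2 hef
    obtain ⟨g₂, hg₂, hg₂e, hg₂f⟩ := exists_isometry_fix Q e f v he hf hv.2.1 hef hv.2.2
    obtain ⟨T₁, hT₁⟩ := exists_matrix_of_linear g₁
    obtain ⟨T₂, hT₂⟩ := exists_matrix_of_linear g₂
    apply le_antisymm
    · apply orth_fiber_le hQ0 hND _ _ T₁ (fun v => by rw [hT₁, hg₁])
      intro M hM
      rw [← Matrix.mulVec_mulVec, ← Matrix.mulVec_mulVec, hM.1, hM.2, hT₁, hT₁, hg₁e, hg₁v]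
      exact ⟨rfl, rfl⟩
    · apply orth_fiber_le hQ0 hND _ _ T₂ (fun v => by rw [hT₂, hg₂])
      intro M hM
      rw [← Matrix.mulVec_mulVec, ← Matrix.mulVec_mulVec, hM.1, hM.2, hT₂, hT₂, hg₂e, hg₂f]
      exact ⟨rfl, rfl⟩
  rw [Finset.card_eq_sum_card_fiberwise (s := (orthSet (⇑Q)).filter (fun M => M *ᵥ e = e))
    (f := fun M => M *ᵥ f)
    (t := Finset.univ.filter (fun v : ι → F => Q v = 0 ∧ polar Q e v = 1)),
    Finset.sum_congr rfl hfib, Finset.sum_const, smul_eq_mul]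
  intro M hM
  rw [Finset.coe_filter, Set.mem_ofPred_eq, mem_orthSet] at hM
  rw [Finset.coe_filter, Set.mem_ofPred_eq]
  refine ⟨Finset.mem_univ _, by rw [hM.1, hf], ?_⟩
  have := orth_polar hM.1 e f
  rw [hM.2] at this
  rw [this, hef]

end OrthCount

end Cfsg.Agent.Lib.Helper45
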