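import Mathlib
import Cfsg.Agent.Lib.Helper45.OrthCount

set_option autoImplicit false

namespace Cfsg.Agent.Lib.Helper45

open QuadraticMap Matrix

section OrthHext

set_option linter.unusedSectionVars false

variable {F : Type*} [Field F] [Fintype F] {ι : Type} [Fintype ι] [DecidableEq ι]

/-- Orthogonal sum of a hyperbolic plane with `Q`. -/
def hextFun {F : Type*} [Field F] {ι : Type} (Q : (ι → F) → F) (v : Fin 2 ⊕ ι → F) : F :=
  v (Sum.inl 0) * v (Sum.inl 1) + Q (fun i => v (Sum.inr i))

theorem hextFun_elim (Q : (ι → F) → F) (p : Fin 2 → F) (z : ι → F) :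
    hextFun Q (Sum.elim p z) = p 0 * p 1 + Q z := rfl

theorem elim_eta (v : Fin 2 ⊕ ι → F) :
    v = Sum.elim (fun k => v (Sum.inl k)) (fun i => v (Sum.inr i)) := by
  funext x
  cases x <;> rfl

theorem isQF_hext {Q : (ι → F) → F} (hQ : IsQF Q) : IsQF (hextFun Q) := by
  obtain ⟨Q', hQ'⟩ := hQ
  refine ⟨QuadraticMap.proj (R := F) (n := Fin 2 ⊕ ι) (A := F) (Sum.inl 0) (Sum.inl 1) +
    Q'.comp (LinearMap.funLeft F F Sum.inr), fun v => ?_⟩
  rw [_root_.add_apply, QuadraticMap.proj_apply, QuadraticMap.comp_apply, hQ']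
  rfl

theorem polar_hext_elim (Q : (ι → F) → F) (p p' : Fin 2 → F) (z z' : ι → F) :
    polar (hextFun Q) (Sum.elim p z) (Sum.elim p' z') =
      p 0 * p' 1 + p' 0 * p 1 + polar Q z z' := by
  have h : (Sum.elim p z + Sum.elim p' z' : Fin 2 ⊕ ι → F) = Sum.elim (p + p') (z + z') := by
    funext x
    cases x <;> rfl
  unfold polar
  rw [h, hextFun_elim, hextFun_elim, hextFun_elim]
  simp only [Pi.add_apply]
  ring

/-- The standard hyperbolic pair. -/
def hextE {F : Type*} [Field F] {ι : Type} : Fin 2 ⊕ ι → F := Sum.elim ![1, 0] 0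

/-- The standard hyperbolic pair. -/
def hextF {F : Type*} [Field F] {ι : Type} : Fin 2 ⊕ ι → F := Sum.elim ![0, 1] 0

theorem hextE_eq_single : (hextE : Fin 2 ⊕ ι → F) = Pi.single (Sum.inl 0) 1 := by
  funext x
  rcases x with k | i
  · fin_cases k <;> simp [hextE]
  · simp [hextE]

theorem hextF_eq_single : (hextF : Fin 2 ⊕ ι → F) = Pi.single (Sum.inl 1) 1 := by
  funext x
  rcases x with k | i
  · fin_cases k <;> simp [hextF]
  · simp [hextF]

theorem polar_zero_right' {Q : (ι → F) → F} (hQ0 : Q 0 = 0) (z : ι → F) : polar Q z 0 = 0 := by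
  unfold polar; rw [add_zero, hQ0]; ring

theorem polar_zero_left' {Q : (ι → F) → F} (hQ0 : Q 0 = 0) (z : ι → F) : polar Q 0 z = 0 := by
  unfold polar; rw [zero_add, hQ0]; ring

theorem polar_hextE {Q : (ι → F) → F} (hQ0 : Q 0 = 0) (v : Fin 2 ⊕ ι → F) :
    polar (hextFun Q) hextE v = v (Sum.inl 1) := by
  conv_lhs => rw [elim_eta v]
  unfold hextE
  rw [polar_hext_elim, polar_zero_left' hQ0]
  simp

theorem polar_hextF {Q : (ι → F) → F} (hQ0 : Q 0 = 0) (v : Fin 2 ⊕ ι → F) :
    polar (hextFun Q) hextF v = v (Sum.inl 0) := by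
  conv_lhs => rw [elim_eta v]
  unfold hextF
  rw [polar_hext_elim, polar_zero_left' hQ0]
  simp

theorem hextFun_E {Q : (ι → F) → F} (hQ0 : Q 0 = 0) : hextFun Q hextE = 0 := by
  unfold hextE
  rw [hextFun_elim, hQ0]; simp

theorem hextFun_F {Q : (ι → F) → F} (hQ0 : Q 0 = 0) : hextFun Q hextF = 0 := by
  unfold hextF
  rw [hextFun_elim, hQ0]; simp

theorem hextE_ne_zero : (hextE : Fin 2 ⊕ ι → F) ≠ 0 := by
  intro h
  have := congrFun h (Sum.inl 0)
  simp [hextE] at this

theorem qnd_hext {Q : (ι → F) → F} (hQ0 : Q 0 = 0) (hND : QND Q) : QND (hextFun Q) := by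
  intro v hv hpol
  have h1 : v (Sum.inl 1) = 0 := by
    have := hpol hextE
    rw [polar_comm, polar_hextE hQ0] at this
    exact this
  have h0 : v (Sum.inl 0) = 0 := by
    have := hpol hextF
    rw [polar_comm, polar_hextF hQ0] at this
    exact this
  have hz : (fun i => v (Sum.inr i)) = 0 := by
    apply hND
    · unfold hextFun at hv
      rw [h0, zero_mul, zero_add] at hv
      exact hv
    · intro w
      have := hpol (Sum.elim 0 w)
      rw [elim_eta v, polar_hext_elim] at this
      simpa using this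
  funext x
  rcases x with k | i
  · fin_cases k
    · exact h0
    · exact h1
  · exact congrFun hz i

theorem card_mul_eq [DecidableEq F] (c : F) :
    (Finset.univ.filter (fun p : F × F => p.1 * p.2 = c)).card =
      (Fintype.card F - 1) + if c = 0 then Fintype.card F else 0 := by
  rw [Finset.card_filter, Fintype.sum_prod_type]
  have hinner : ∀ a : F, (∑ b : F, if a * b = c then 1 else 0) =
      if a = 0 then (if c = 0 then Fintype.card F else 0) else 1 := by
    intro a
    by_cases ha : a = 0
    · subst ha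
      rw [if_pos rfl]
      by_cases hc : c = 0
      · subst hc; simp
      · rw [if_neg hc]
        apply Finset.sum_eq_zero
        intro b _
        rw [zero_mul, if_neg (Ne.symm hc)]
    · rw [if_neg ha, ← Finset.card_filter, Finset.card_eq_one]
      refine ⟨a⁻¹ * c, ?_⟩
      ext b
      rw [Finset.mem_filter, Finset.mem_singleton]
      constructor
      · rintro ⟨_, h⟩
        rw [← h, inv_mul_cancel_left₀ ha]
      · rintro rfl
        exact ⟨Finset.mem_univ _, mul_inv_cancel_left₀ ha c⟩
  rw [Finset.sum_congr rfl (fun a _ => hinner a), ← Finset.add_sum_erase _ _ (Finset.mem_univ (0 : F)),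
    if_pos rfl]
  have h2 : ∑ x ∈ Finset.univ.erase (0 : F),
      (if x = 0 then (if c = 0 then Fintype.card F else 0) else 1) = Fintype.card F - 1 := by
    rw [Finset.sum_congr rfl (g := fun _ => 1) (fun x hx => if_neg (Finset.ne_of_mem_erase hx)),
      Finset.sum_const, Finset.card_erase_of_mem (Finset.mem_univ _), Finset.card_univ, smul_eq_mul,
      mul_one]
  rw [h2, add_comm]

/-- Number of zeros of the hyperbolic extension. -/
theorem card_zeros_hext [DecidableEq F] (Q : (ι → F) → F) :
    (Finset.univ.filter (fun v : Fin 2 ⊕ ι → F => hextFun Q v = 0)).card =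
      (Fintype.card F - 1) * Fintype.card F ^ Fintype.card ι +
        Fintype.card F * (Finset.univ.filter (fun z : ι → F => Q z = 0)).card := by
  rw [Finset.card_filter]
  rw [← Equiv.sum_comp (((Equiv.sumArrowEquivProdArrow (Fin 2) ι F).trans
    ((finTwoArrowEquiv F).prodCongr (Equiv.refl _))).symm)]
  rw [Fintype.sum_prod_type_right]
  have hinner : ∀ z : ι → F, (∑ p : F × F,
      if hextFun Q (((Equiv.sumArrowEquivProdArrow (Fin 2) ι F).trans
        ((finTwoArrowEquiv F).prodCongr (Equiv.refl _))).symm (p, z)) = 0 then 1 else 0) =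
      (Fintype.card F - 1) + if Q z = 0 then Fintype.card F else 0 := by
    intro z
    have h1 : ∀ p : F × F, hextFun Q (((Equiv.sumArrowEquivProdArrow (Fin 2) ι F).trans
        ((finTwoArrowEquiv F).prodCongr (Equiv.refl _))).symm (p, z)) = p.1 * p.2 + Q z := by
      intro p
      rfl
    simp only [h1]
    have h2 := card_mul_eq (F := F) (-Q z)
    rw [Finset.card_filter] at h2
    have h3 : ∀ p : F × F, (p.1 * p.2 + Q z = 0) ↔ (p.1 * p.2 = -Q z) := by
      intro p
      constructor
      · intro h; linear_combination h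
      · intro h; linear_combination h
    simp only [h3]
    rw [h2]
    simp only [neg_eq_zero]
  rw [Finset.sum_congr rfl (fun z _ => hinner z), Finset.sum_add_distrib, Finset.sum_const,
    Finset.card_univ, Fintype.card_fun, smul_eq_mul, ← Finset.sum_filter, Finset.sum_const,
    smul_eq_mul]
  ring

/-- Number of singular vectors pairing to `1` with the standard singular vector. -/
theorem card_hext_T [DecidableEq F] {Q : (ι → F) → F} (hQ0 : Q 0 = 0) :
    (Finset.univ.filter (fun v : Fin 2 ⊕ ι → F =>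
      hextFun Q v = 0 ∧ polar (hextFun Q) hextE v = 1)).card = Fintype.card F ^ Fintype.card ι := by
  rw [← Fintype.card_fun, ← Finset.card_univ]
  apply Finset.card_bij (fun v _ => fun i => v (Sum.inr i))
  · intro v _; exact Finset.mem_univ _
  · intro v hv v' hv' h
    rw [Finset.mem_filter, polar_hextE hQ0] at hv hv'
    have h1 : v (Sum.inl 0) = v' (Sum.inl 0) := by
      have e1 := hv.2.1
      have e2 := hv'.2.1
      unfold hextFun at e1 e2
      rw [hv.2.2, mul_one] at e1
      rw [hv'.2.2, mul_one, ← h] at e2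
      linear_combination e1 - e2
    funext x
    rcases x with k | i
    · fin_cases k
      · exact h1
      · exact hv.2.2.trans hv'.2.2.symm
    · exact congrFun h i
  · intro z _
    refine ⟨Sum.elim ![-Q z, 1] z, ?_, rfl⟩
    rw [Finset.mem_filter, polar_hextE hQ0, hextFun_elim]
    refine ⟨Finset.mem_univ _, ?_, ?_⟩
    · simp
    · simp

theorem hext_blocks_mulVec (M' : Matrix ι ι F) (v : Fin 2 ⊕ ι → F) :
    fromBlocks (1 : Matrix (Fin 2) (Fin 2) F) 0 0 M' *ᵥ v =
      Sum.elim (fun k => v (Sum.inl k)) (M' *ᵥ (fun i => v (Sum.inr i))) := by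
  rw [Matrix.fromBlocks_mulVec, Matrix.one_mulVec, Matrix.zero_mulVec, Matrix.zero_mulVec,
    add_zero, zero_add]
  rfl

/-- The stabiliser of the standard hyperbolic pair is the isometry group of `Q`. -/
theorem card_hext_stab [DecidableEq F] {Q : (ι → F) → F} (hQ0 : Q 0 = 0) :
    ((orthSet (hextFun Q)).filter (fun M => M *ᵥ hextE = hextE ∧ M *ᵥ hextF = hextF)).card =
      (orthSet Q).card := by
  symm
  apply Finset.card_bij (fun M' _ => fromBlocks (1 : Matrix (Fin 2) (Fin 2) F) 0 0 M')
  · intro M' hM'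
    rw [mem_orthSet] at hM'
    rw [Finset.mem_filter, mem_orthSet]
    refine ⟨fun v => ?_, ?_, ?_⟩
    · rw [hext_blocks_mulVec, hextFun_elim, hM']; rfl
    · rw [hext_blocks_mulVec]
      have : (fun i => (hextE : Fin 2 ⊕ ι → F) (Sum.inr i)) = 0 := rfl
      rw [this, Matrix.mulVec_zero]
      funext x
      cases x <;> rfl
    · rw [hext_blocks_mulVec]
      have : (fun i => (hextF : Fin 2 ⊕ ι → F) (Sum.inr i)) = 0 := rfl
      rw [this, Matrix.mulVec_zero]
      funext x
      cases x <;> rfl
  · intro M₁ _ M₂ _ h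
    exact (Matrix.fromBlocks_inj.mp h).2.2.2
  · intro M hM
    rw [Finset.mem_filter, mem_orthSet] at hM
    obtain ⟨hM, hMe, hMf⟩ := hM
    have hc0 : ∀ i, M i (Sum.inl 0) = (hextE : Fin 2 ⊕ ι → F) i := by
      intro i
      have := congrFun hMe i
      rw [hextE_eq_single, Matrix.mulVec_single_one] at this
      rw [hextE_eq_single]
      exact this
    have hc1 : ∀ i, M i (Sum.inl 1) = (hextF : Fin 2 ⊕ ι → F) i := by
      intro i
      have := congrFun hMf i
      rw [hextF_eq_single, Matrix.mulVec_single_one] at this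
      rw [hextF_eq_single]
      exact this
    have h11 : M.toBlocks₁₁ = 1 := by
      ext k l
      fin_cases l
      · show M (Sum.inl k) (Sum.inl 0) = _
        rw [hc0]
        fin_cases k <;> simp [hextE]
      · show M (Sum.inl k) (Sum.inl 1) = _
        rw [hc1]
        fin_cases k <;> simp [hextF]
    have h21 : M.toBlocks₂₁ = 0 := by
      ext j l
      fin_cases l
      · show M (Sum.inr j) (Sum.inl 0) = _
        rw [hc0]; rfl
      · show M (Sum.inr j) (Sum.inl 1) = _
        rw [hc1]; rfl
    have h12 : M.toBlocks₁₂ = 0 := by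
      ext k j
      show M (Sum.inl k) (Sum.inr j) = 0
      have hcol : M *ᵥ Pi.single (Sum.inr j) 1 = M.col (Sum.inr j) := Matrix.mulVec_single_one M _
      have hE := orth_polar hM hextE (Pi.single (Sum.inr j) 1)
      have hF := orth_polar hM hextF (Pi.single (Sum.inr j) 1)
      rw [hMe, polar_hextE hQ0, polar_hextE hQ0, hcol] at hE
      rw [hMf, polar_hextF hQ0, polar_hextF hQ0, hcol] at hF
      fin_cases k
      · simpa using hF
      · simpa using hE
    have hM' : fromBlocks (1 : Matrix (Fin 2) (Fin 2) F) 0 0 M.toBlocks₂₂ = M := by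
      conv_rhs => rw [← Matrix.fromBlocks_toBlocks M, h11, h12, h21]
    refine ⟨M.toBlocks₂₂, ?_, hM'⟩
    rw [mem_orthSet]
    intro z
    have := hM (Sum.elim 0 z)
    rw [← hM', hext_blocks_mulVec, hextFun_elim, hextFun_elim] at this
    simpa using this

/-- The order recursion for the hyperbolic extension. -/
theorem card_orthSet_hext [DecidableEq F] {Q : (ι → F) → F} (hQ : IsQF Q) (hND : QND Q) :
    (orthSet (hextFun Q)).card =
      ((Finset.univ.filter (fun v : Fin 2 ⊕ ι → F => hextFun Q v = 0)).card - 1) *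
        Fintype.card F ^ Fintype.card ι * (orthSet Q).card := by
  have hQ0 := isQF_zero hQ
  obtain ⟨Q', hQ'⟩ := isQF_hext hQ
  have hfun : ⇑Q' = hextFun Q := funext hQ'
  have hND' : QND (⇑Q') := hfun ▸ qnd_hext hQ0 hND
  have hA := card_orthSet_stageA Q' hND' hextE (by rw [hQ']; exact hextFun_E hQ0) hextE_ne_zero
  have hB := card_orthSet_stageB Q' hND' hextE hextF (by rw [hQ']; exact hextFun_E hQ0)
    (by rw [hQ']; exact hextFun_F hQ0) (by rw [hfun, polar_hextE hQ0]; rfl)
  simp only [hfun] at hA hB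
  rw [hA, hB, card_hext_T hQ0, card_hext_stab hQ0]
  have hS : (Finset.univ.filter (fun u : Fin 2 ⊕ ι → F => u ≠ 0 ∧ hextFun Q u = 0)).card =
      (Finset.univ.filter (fun v : Fin 2 ⊕ ι → F => hextFun Q v = 0)).card - 1 := by
    have h0 : (0 : Fin 2 ⊕ ι → F) ∈ Finset.univ.filter (fun v : Fin 2 ⊕ ι → F => hextFun Q v = 0) := by
      rw [Finset.mem_filter]
      refine ⟨Finset.mem_univ _, ?_⟩
      show (0 : F) * 0 + Q 0 = 0
      rw [hQ0]; ring
    rw [← Finset.card_erase_of_mem h0]
    congr 1
    ext u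
    simp
  rw [hS]
  ring

end OrthHext

end Cfsg.Agent.Lib.Helper45
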