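import Mathlib
import Cfsg.Agent.Lib.Helper45.OrthHext

set_option autoImplicit false

namespace Cfsg.Agent.Lib.Helper45

open QuadraticMap Matrix

section Transfer

set_option linter.unusedSectionVars false

variable {F : Type*} [Field F] [Fintype F] {ι ι' : Type} [Fintype ι] [DecidableEq ι]
  [Fintype ι'] [DecidableEq ι']

theorem isQF_reindex (e : ι ≃ ι') {Q : (ι → F) → F} {Q' : (ι' → F) → F}
    (h : ∀ v, Q' v = Q (fun i => v (e i))) (hQ : IsQF Q) : IsQF Q' := by
  obtain ⟨Qq, hQq⟩ := hQ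
  refine ⟨Qq.comp (LinearMap.funLeft F F e), fun v => ?_⟩
  rw [QuadraticMap.comp_apply, hQq, h]
  rfl

theorem polar_reindex (e : ι ≃ ι') {Q : (ι → F) → F} {Q' : (ι' → F) → F}
    (h : ∀ v, Q' v = Q (fun i => v (e i))) (v w : ι' → F) :
    polar Q' v w = polar Q (fun i => v (e i)) (fun i => w (e i)) := by
  unfold polar
  rw [h, h, h]
  rfl

theorem qnd_reindex (e : ι ≃ ι') {Q : (ι → F) → F} {Q' : (ι' → F) → F}
    (h : ∀ v, Q' v = Q (fun i => v (e i))) (hND : QND Q) : QND Q' := by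
  intro v hv hpol
  have hz : (fun i => v (e i)) = 0 := by
    apply hND
    · rw [← h]; exact hv
    · intro w
      have := hpol (fun j => w (e.symm j))
      rw [polar_reindex e h] at this
      simpa using this
  funext j
  have := congrFun hz (e.symm j)
  simpa using this

theorem card_zeros_reindex [DecidableEq F] (e : ι ≃ ι') {Q : (ι → F) → F} {Q' : (ι' → F) → F}
    (h : ∀ v, Q' v = Q (fun i => v (e i))) :
    (Finset.univ.filter (fun v : ι' → F => Q' v = 0)).card =
      (Finset.univ.filter (fun w : ι → F => Q w = 0)).card := by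
  apply Finset.card_nbij' (fun v => fun i => v (e i)) (fun w => fun j => w (e.symm j))
  · intro v hv
    rw [Finset.coe_filter, Set.mem_ofPred_eq] at hv ⊢
    exact ⟨Finset.mem_univ _, by rw [← h]; exact hv.2⟩
  · intro w hw
    rw [Finset.coe_filter, Set.mem_ofPred_eq] at hw ⊢
    refine ⟨Finset.mem_univ _, ?_⟩
    rw [h]
    simpa using hw.2
  · intro v _
    funext j
    simp
  · intro w _
    funext i
    simp

theorem card_orthSet_reindex (e : ι ≃ ι') {Q : (ι → F) → F} {Q' : (ι' → F) → F}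
    (h : ∀ v, Q' v = Q (fun i => v (e i))) :
    (orthSet Q').card = (orthSet Q).card := by
  apply Finset.card_nbij' (fun M => M.submatrix e e) (fun N => N.submatrix e.symm e.symm)
  · intro M hM
    have hM' := mem_orthSet.mp (Finset.mem_coe.mp hM)
    rw [Finset.mem_coe, mem_orthSet]
    intro w
    rw [Matrix.submatrix_mulVec_equiv]
    have h1 := h (M *ᵥ (w ∘ e.symm))
    rw [hM', h] at h1
    have h2 : (fun i => (w ∘ e.symm) (e i)) = w := by funext i; simp
    rw [h2] at h1
    exact h1.symm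
  · intro N hN
    have hN' := mem_orthSet.mp (Finset.mem_coe.mp hN)
    rw [Finset.mem_coe, mem_orthSet]
    intro v
    rw [Matrix.submatrix_mulVec_equiv, h, h]
    have h2 : (fun i => ((N *ᵥ (v ∘ e.symm.symm)) ∘ e.symm) (e i)) = N *ᵥ (fun i => v (e i)) := by
      funext i; simp; rfl
    rw [h2, hN']
  · intro M _
    ext i j
    simp
  · intro N _
    ext i j
    simp

end Transfer

section Family

set_option linter.unusedSectionVars false

variable {F : Type*} [Field F] [Fintype F] {κ : Type} [Fintype κ] [DecidableEq κ]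

/-- The form `Σ x_i y_i + R(z)` on `(Fin m ⊕ Fin m) ⊕ κ`. -/
def qfam {F : Type*} [Field F] (m : ℕ) {κ : Type} (R : (κ → F) → F)
    (v : (Fin m ⊕ Fin m) ⊕ κ → F) : F :=
  ∑ i : Fin m, v (Sum.inl (Sum.inl i)) * v (Sum.inl (Sum.inr i)) + R (fun k => v (Sum.inr k))

/-- Splitting off the last hyperbolic pair. -/
def sEquiv (m : ℕ) (κ : Type) :
    Fin 2 ⊕ ((Fin m ⊕ Fin m) ⊕ κ) ≃ (Fin (m + 1) ⊕ Fin (m + 1)) ⊕ κ where
  toFun := Sum.elim ![Sum.inl (Sum.inl (Fin.last m)), Sum.inl (Sum.inr (Fin.last m))]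
    (Sum.map (Sum.map Fin.castSucc Fin.castSucc) id)
  invFun := Sum.elim
    (Sum.elim (Fin.lastCases (Sum.inl 0) (fun i => Sum.inr (Sum.inl (Sum.inl i))))
      (Fin.lastCases (Sum.inl 1) (fun i => Sum.inr (Sum.inl (Sum.inr i)))))
    (fun k => Sum.inr (Sum.inr k))
  left_inv := by
    rintro (k | (i | i) | k)
    · fin_cases k <;> simp
    · simp
    · simp
    · simp
  right_inv := by
    rintro ((j | j) | k)
    · induction j using Fin.lastCases <;> simp
    · induction j using Fin.lastCases <;> simp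
    · simp

theorem qfam_succ (m : ℕ) (R : (κ → F) → F) (v : (Fin (m + 1) ⊕ Fin (m + 1)) ⊕ κ → F) :
    qfam (m + 1) R v = hextFun (qfam m R) (fun x => v (sEquiv m κ x)) := by
  unfold qfam hextFun
  rw [Fin.sum_univ_castSucc]
  simp only [sEquiv, Equiv.coe_fn_mk, Sum.elim_inl, Sum.elim_inr, Sum.map_inl, Sum.map_inr,
    Matrix.cons_val_zero, Matrix.cons_val_one, id_eq]
  ring

theorem qfam_zero (R : (κ → F) → F) (v : (Fin 0 ⊕ Fin 0) ⊕ κ → F) :
    qfam 0 R v = R (fun k => v ((Equiv.emptySum (Fin 0 ⊕ Fin 0) κ).symm k)) := by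
  unfold qfam
  simp

theorem qfam_isQF_qnd {R : (κ → F) → F} (hR : IsQF R) (hND : QND R) (m : ℕ) :
    IsQF (qfam m R) ∧ QND (qfam m R) := by
  induction m with
  | zero =>
    exact ⟨isQF_reindex (Equiv.emptySum (Fin 0 ⊕ Fin 0) κ).symm (qfam_zero R) hR,
      qnd_reindex (Equiv.emptySum (Fin 0 ⊕ Fin 0) κ).symm (qfam_zero R) hND⟩
  | succ m ih =>
    exact ⟨isQF_reindex (sEquiv m κ) (qfam_succ m R) (isQF_hext ih.1),
      qnd_reindex (sEquiv m κ) (qfam_succ m R) (qnd_hext (isQF_zero ih.1) ih.2)⟩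

theorem card_zeros_qfam_zero [DecidableEq F] (R : (κ → F) → F) :
    (Finset.univ.filter (fun v : (Fin 0 ⊕ Fin 0) ⊕ κ → F => qfam 0 R v = 0)).card =
      (Finset.univ.filter (fun z : κ → F => R z = 0)).card :=
  card_zeros_reindex (Equiv.emptySum (Fin 0 ⊕ Fin 0) κ).symm (qfam_zero R)

theorem card_zeros_qfam_succ [DecidableEq F] (R : (κ → F) → F) (m : ℕ) :
    (Finset.univ.filter (fun v : (Fin (m + 1) ⊕ Fin (m + 1)) ⊕ κ → F => qfam (m + 1) R v = 0)).card =
      (Fintype.card F - 1) * Fintype.card F ^ (2 * m + Fintype.card κ) +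
        Fintype.card F *
          (Finset.univ.filter (fun v : (Fin m ⊕ Fin m) ⊕ κ → F => qfam m R v = 0)).card := by
  rw [card_zeros_reindex (sEquiv m κ) (qfam_succ m R), card_zeros_hext]
  congr 3
  simp
  ring

theorem card_orthSet_qfam_zero (R : (κ → F) → F) :
    (orthSet (qfam 0 R)).card = (orthSet R).card :=
  card_orthSet_reindex (Equiv.emptySum (Fin 0 ⊕ Fin 0) κ).symm (qfam_zero R)

theorem card_orthSet_qfam_succ [DecidableEq F] {R : (κ → F) → F} (hR : IsQF R) (hND : QND R)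
    (m : ℕ) :
    (orthSet (qfam (m + 1) R)).card =
      ((Finset.univ.filter (fun v : (Fin (m + 1) ⊕ Fin (m + 1)) ⊕ κ → F =>
          qfam (m + 1) R v = 0)).card - 1) *
        Fintype.card F ^ (2 * m + Fintype.card κ) * (orthSet (qfam m R)).card := by
  have ih := qfam_isQF_qnd hR hND m
  rw [card_orthSet_reindex (sEquiv m κ) (qfam_succ m R), card_orthSet_hext ih.1 ih.2,
    card_zeros_reindex (sEquiv m κ) (qfam_succ m R)]
  congr 3
  simp
  ring

end Family

end Cfsg.Agent.Lib.Helper45
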