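import Mathlib
import Cfsg.Agent.Lib.Helper45.OrthFam
import Cfsg.Prelude.Def_Classical

set_option autoImplicit false

namespace Cfsg.Agent.Lib.Helper45

open QuadraticMap Matrix

section Zeros

set_option linter.unusedSectionVars false

variable {F : Type*} [Field F] [Fintype F]

/-- The zero form on the empty index type. -/
def rEmpty {F : Type*} [Field F] : (Empty → F) → F := fun _ => 0

/-- The binary form `z₀² + a z₀ z₁ + b z₁²`. -/
def rBin {F : Type*} [Field F] (a b : F) : (Fin 2 → F) → F :=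
  fun z => z 0 ^ 2 + a * z 0 * z 1 + b * z 1 ^ 2

/-- The form `z²`. -/
def rUnit {F : Type*} [Field F] : (Unit → F) → F := fun z => z () ^ 2

theorem rEmpty_isQF : IsQF (rEmpty : (Empty → F) → F) := ⟨0, fun _ => rfl⟩

theorem rEmpty_qnd : QND (rEmpty : (Empty → F) → F) := fun _ _ _ => Subsingleton.elim _ _

theorem rBin_isQF (a b : F) : IsQF (rBin a b) := by
  refine ⟨QuadraticMap.proj (R := F) (n := Fin 2) (A := F) 0 0 +
    a • QuadraticMap.proj (R := F) (n := Fin 2) (A := F) 0 1 +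
    b • QuadraticMap.proj (R := F) (n := Fin 2) (A := F) 1 1, fun v => ?_⟩
  simp [rBin, QuadraticMap.proj_apply]
  ring

theorem rBin_eq_zero {a b : F}
    (hab : ∀ z₁ z₂ : F, z₁ ^ 2 + a * z₁ * z₂ + b * z₂ ^ 2 = 0 → z₁ = 0 ∧ z₂ = 0)
    (z : Fin 2 → F) (hz : rBin a b z = 0) : z = 0 := by
  obtain ⟨h0, h1⟩ := hab (z 0) (z 1) hz
  funext k
  fin_cases k
  · exact h0
  · exact h1

theorem rBin_qnd {a b : F}
    (hab : ∀ z₁ z₂ : F, z₁ ^ 2 + a * z₁ * z₂ + b * z₂ ^ 2 = 0 → z₁ = 0 ∧ z₂ = 0) :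
    QND (rBin a b) := fun z hz _ => rBin_eq_zero hab z hz

theorem rUnit_isQF : IsQF (rUnit : (Unit → F) → F) := by
  refine ⟨QuadraticMap.proj (R := F) (n := Unit) (A := F) () (), fun v => ?_⟩
  simp [rUnit, QuadraticMap.proj_apply, _root_.sq]

theorem rUnit_eq_zero (z : Unit → F) (hz : rUnit z = 0) : z = 0 := by
  funext k
  exact pow_eq_zero_iff (two_ne_zero) |>.mp hz

theorem rUnit_qnd : QND (rUnit : (Unit → F) → F) := fun z hz _ => rUnit_eq_zero z hz

theorem card_zeros_rEmpty [DecidableEq F] :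
    (Finset.univ.filter (fun z : Empty → F => rEmpty z = 0)).card = 1 := by
  rw [Finset.card_eq_one]
  refine ⟨0, ?_⟩
  ext z
  rw [Finset.mem_filter, Finset.mem_singleton]
  exact ⟨fun _ => Subsingleton.elim _ _, fun _ => ⟨Finset.mem_univ _, rfl⟩⟩

theorem card_zeros_rBin [DecidableEq F] {a b : F}
    (hab : ∀ z₁ z₂ : F, z₁ ^ 2 + a * z₁ * z₂ + b * z₂ ^ 2 = 0 → z₁ = 0 ∧ z₂ = 0) :
    (Finset.univ.filter (fun z : Fin 2 → F => rBin a b z = 0)).card = 1 := by
  rw [Finset.card_eq_one]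
  refine ⟨0, ?_⟩
  ext z
  rw [Finset.mem_filter, Finset.mem_singleton]
  constructor
  · rintro ⟨_, hz⟩; exact rBin_eq_zero hab z hz
  · rintro rfl; exact ⟨Finset.mem_univ _, by simp [rBin]⟩

theorem card_zeros_rUnit [DecidableEq F] :
    (Finset.univ.filter (fun z : Unit → F => rUnit z = 0)).card = 1 := by
  rw [Finset.card_eq_one]
  refine ⟨0, ?_⟩
  ext z
  rw [Finset.mem_filter, Finset.mem_singleton]
  constructor
  · rintro ⟨_, hz⟩; exact rUnit_eq_zero z hz
  · rintro rfl; exact ⟨Finset.mem_univ _, by simp [rUnit]⟩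

variable {κ : Type} [Fintype κ] [DecidableEq κ]

/-- Closed form for the number of zeros of `Σ x_i y_i + R(z)` when `R` has the single zero `0`. -/
theorem qfam_zeros_closed [DecidableEq F] (R : (κ → F) → F)
    (hR : (Finset.univ.filter (fun z : κ → F => R z = 0)).card = 1) (m : ℕ) :
    (Fintype.card F : ℤ) *
        ((Finset.univ.filter (fun v : (Fin m ⊕ Fin m) ⊕ κ → F => qfam m R v = 0)).card : ℤ) =
      (Fintype.card F : ℤ) ^ (m + 1) + (Fintype.card F : ℤ) ^ (2 * m + Fintype.card κ)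
        - (Fintype.card F : ℤ) ^ (m + Fintype.card κ) := by
  have hq : 1 ≤ Fintype.card F := Fintype.card_pos
  induction m with
  | zero =>
    rw [card_zeros_qfam_zero, hR]
    simp
  | succ m ih =>
    rw [card_zeros_qfam_succ]
    push_cast [Nat.cast_sub hq]
    have e1 : 2 * (m + 1) + Fintype.card κ = (2 * m + Fintype.card κ) + 2 := by ring
    have e2 : m + 1 + Fintype.card κ = (m + Fintype.card κ) + 1 := by ring
    rw [e1, e2]
    linear_combination (Fintype.card F : ℤ) * ih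

/-- `Z(m+1) - 1 = (q^(m+1) - 1)(q^(m+d) + 1)`. -/
theorem qfam_zeros_pred [DecidableEq F] (R : (κ → F) → F)
    (hR : (Finset.univ.filter (fun z : κ → F => R z = 0)).card = 1) (m : ℕ) :
    (Finset.univ.filter (fun v : (Fin (m + 1) ⊕ Fin (m + 1)) ⊕ κ → F => qfam (m + 1) R v = 0)).card - 1
      = (Fintype.card F ^ (m + 1) - 1) * (Fintype.card F ^ (m + Fintype.card κ) + 1) := by
  have hq : 1 ≤ Fintype.card F := Fintype.card_pos
  have hq0 : (Fintype.card F : ℤ) ≠ 0 := by exact_mod_cast (by omega : Fintype.card F ≠ 0)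
  have h := qfam_zeros_closed R hR (m + 1)
  have hpow : 1 ≤ Fintype.card F ^ (m + 1) := Nat.one_le_pow _ _ hq
  set Z := (Finset.univ.filter
    (fun v : (Fin (m + 1) ⊕ Fin (m + 1)) ⊕ κ → F => qfam (m + 1) R v = 0)).card with hZ
  have key : (Z : ℤ) = ((Fintype.card F : ℤ) ^ (m + 1) - 1) *
      ((Fintype.card F : ℤ) ^ (m + Fintype.card κ) + 1) + 1 := by
    apply mul_left_cancel₀ hq0
    rw [h]
    have e1 : 2 * (m + 1) + Fintype.card κ = (m + Fintype.card κ) + (m + 1) + 1 := by ring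
    have e2 : m + 1 + Fintype.card κ = (m + Fintype.card κ) + 1 := by ring
    rw [e1, e2]
    ring
  have key2 : Z = (Fintype.card F ^ (m + 1) - 1) * (Fintype.card F ^ (m + Fintype.card κ) + 1) + 1 := by
    zify [hpow]
    exact key
  rw [key2, Nat.add_sub_cancel]

end Zeros

section Statements

set_option linter.unusedSectionVars false

variable {F : Type*} [Field F] [Fintype F]

theorem plus_eq (m : ℕ) (v : Fin m ⊕ Fin m → F) :
    Cfsg.quadFormPlus m F v =
      qfam m rEmpty (fun i => v (Equiv.sumEmpty (Fin m ⊕ Fin m) Empty i)) := by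
  unfold Cfsg.quadFormPlus qfam rEmpty
  simp

theorem minus_eq (m : ℕ) (a b : F) : Cfsg.quadFormMinus m F a b = qfam m (rBin a b) := rfl

theorem odd_eq (m : ℕ) (v : Unit ⊕ (Fin m ⊕ Fin m) → F) :
    Cfsg.quadFormOdd m F v =
      qfam m rUnit (fun i => v (Equiv.sumComm (Fin m ⊕ Fin m) Unit i)) := by
  unfold Cfsg.quadFormOdd qfam rUnit
  simp
  ring

/-- Zeros of the hyperbolic form (S0289). -/
theorem card_zeros_plus {q : ℕ} (hF : Fintype.card F = q) (m : ℕ) (hm : 1 ≤ m) :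
    Nat.card {v : Fin m ⊕ Fin m → F // Cfsg.quadFormPlus m F v = 0} =
      q ^ (2 * m - 1) + q ^ m - q ^ (m - 1) := by
  classical
  obtain ⟨k, rfl⟩ : ∃ k, m = k + 1 := ⟨m - 1, by omega⟩
  have hq : 1 ≤ Fintype.card F := Fintype.card_pos
  have hq0 : (Fintype.card F : ℤ) ≠ 0 := by exact_mod_cast (by omega : Fintype.card F ≠ 0)
  rw [Nat.card_eq_fintype_card, Fintype.card_of_subtype (Finset.univ.filter
    (fun v : Fin (k + 1) ⊕ Fin (k + 1) → F => Cfsg.quadFormPlus (k + 1) F v = 0)) (fun x => by simp),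
    card_zeros_reindex (F := F) (Equiv.sumEmpty (Fin (k + 1) ⊕ Fin (k + 1)) Empty)
      (plus_eq (F := F) (k + 1))]
  have h := qfam_zeros_closed (rEmpty : (Empty → F) → F) card_zeros_rEmpty (k + 1)
  rw [hF] at h
  have e1 : 2 * (k + 1) - 1 = 2 * k + 1 := by omega
  have e2 : k + 1 - 1 = k := by omega
  rw [e1, e2]
  set Z := (Finset.univ.filter
    (fun v : (Fin (k + 1) ⊕ Fin (k + 1)) ⊕ Empty → F => qfam (k + 1) rEmpty v = 0)).card with hZ
  rw [hF] at hq0
  have key : (Z : ℤ) = (q : ℤ) ^ (k + 1) + (q : ℤ) ^ (2 * k + 1) - (q : ℤ) ^ k := by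
    apply mul_left_cancel₀ hq0
    rw [h]
    simp only [Fintype.card_empty, add_zero]
    ring
  have key2 : Z + q ^ k = q ^ (2 * k + 1) + q ^ (k + 1) := by
    have : (Z : ℤ) + (q : ℤ) ^ k = (q : ℤ) ^ (2 * k + 1) + (q : ℤ) ^ (k + 1) := by
      rw [key]; ring
    exact_mod_cast this
  omega

/-- Zeros of the minus-type form (S0290). -/
theorem card_zeros_minus {q : ℕ} (hF : Fintype.card F = q) (m : ℕ) (hm : 1 ≤ m) (a b : F)
    (hab : ∀ z₁ z₂ : F, z₁ ^ 2 + a * z₁ * z₂ + b * z₂ ^ 2 = 0 → z₁ = 0 ∧ z₂ = 0) :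
    Nat.card {v : (Fin (m - 1) ⊕ Fin (m - 1)) ⊕ Fin 2 → F //
        Cfsg.quadFormMinus (m - 1) F a b v = 0} = q ^ (2 * m - 1) + q ^ (m - 1) - q ^ m := by
  classical
  obtain ⟨k, rfl⟩ : ∃ k, m = k + 1 := ⟨m - 1, by omega⟩
  have hq : 1 ≤ Fintype.card F := Fintype.card_pos
  have hq0 : (Fintype.card F : ℤ) ≠ 0 := by exact_mod_cast (by omega : Fintype.card F ≠ 0)
  have e1 : 2 * (k + 1) - 1 = 2 * k + 1 := by omega
  have e2 : k + 1 - 1 = k := by omega
  rw [e1, e2, Nat.card_eq_fintype_card, Fintype.card_subtype, minus_eq]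
  have h := qfam_zeros_closed (rBin a b) (card_zeros_rBin hab) k
  rw [hF] at h
  set Z := (Finset.univ.filter
    (fun v : (Fin k ⊕ Fin k) ⊕ Fin 2 → F => qfam k (rBin a b) v = 0)).card with hZ
  rw [hF] at hq0
  have key : (Z : ℤ) = (q : ℤ) ^ k + (q : ℤ) ^ (2 * k + 1) - (q : ℤ) ^ (k + 1) := by
    apply mul_left_cancel₀ hq0
    rw [h]
    simp only [Fintype.card_fin]
    ring
  have key2 : Z + q ^ (k + 1) = q ^ (2 * k + 1) + q ^ k := by
    have : (Z : ℤ) + (q : ℤ) ^ (k + 1) = (q : ℤ) ^ (2 * k + 1) + (q : ℤ) ^ k := by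
      rw [key]; ring
    exact_mod_cast this
  omega

/-- Zeros of the odd-dimensional form (S0291); true in every characteristic. -/
theorem card_zeros_odd {q : ℕ} (hF : Fintype.card F = q) (m : ℕ) :
    Nat.card {v : Unit ⊕ (Fin m ⊕ Fin m) → F // Cfsg.quadFormOdd m F v = 0} = q ^ (2 * m) := by
  classical
  have hq : 1 ≤ Fintype.card F := Fintype.card_pos
  have hq0 : (Fintype.card F : ℤ) ≠ 0 := by exact_mod_cast (by omega : Fintype.card F ≠ 0)
  rw [Nat.card_eq_fintype_card, Fintype.card_of_subtype (Finset.univ.filter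
    (fun v : Unit ⊕ (Fin m ⊕ Fin m) → F => Cfsg.quadFormOdd m F v = 0)) (fun x => by simp),
    card_zeros_reindex (F := F) (Equiv.sumComm (Fin m ⊕ Fin m) Unit) (odd_eq (F := F) m)]
  have h := qfam_zeros_closed (rUnit : (Unit → F) → F) card_zeros_rUnit m
  rw [hF] at h
  set Z := (Finset.univ.filter
    (fun v : (Fin m ⊕ Fin m) ⊕ Unit → F => qfam m rUnit v = 0)).card with hZ
  rw [hF] at hq0
  have key : (Z : ℤ) = (q : ℤ) ^ (2 * m) := by
    apply mul_left_cancel₀ hq0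
    rw [h]
    simp only [Fintype.card_unit]
    ring
  exact_mod_cast key

end Statements

end Cfsg.Agent.Lib.Helper45
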