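import Mathlib
import Cfsg.Agent.Lib.Helper45.OrthZeros

set_option autoImplicit false

namespace Cfsg.Agent.Lib.Helper45

open QuadraticMap Matrix

section Order

set_option linter.unusedSectionVars false

variable {F : Type*} [Field F] [Fintype F]

theorem card_orthSet_rEmpty : (orthSet (rEmpty : (Empty → F) → F)).card = 1 := by
  rw [Finset.card_eq_one]
  refine ⟨1, ?_⟩
  ext M
  rw [mem_orthSet, Finset.mem_singleton]
  exact ⟨fun _ => Subsingleton.elim _ _, fun _ _ => rfl⟩

theorem mem_orthSet_rUnit (M : Matrix Unit Unit F) :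
    M ∈ orthSet (rUnit : (Unit → F) → F) ↔ M () () ^ 2 = 1 := by
  rw [mem_orthSet]
  have hmv : ∀ v : Unit → F, (M *ᵥ v) () = M () () * v () := by
    intro v
    simp [Matrix.mulVec, dotProduct]
  constructor
  · intro h
    have := h 1
    unfold rUnit at this
    rw [hmv] at this
    simpa using this
  · intro h v
    unfold rUnit
    rw [hmv, mul_pow, h, one_mul]

theorem card_orthSet_rUnit (h2 : (2 : F) ≠ 0) : (orthSet (rUnit : (Unit → F) → F)).card = 2 := by
  classical
  have hne : (1 : Matrix Unit Unit F) ≠ -1 := by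
    intro h
    have := congrFun (congrFun h ()) ()
    simp only [Matrix.one_apply_eq, Matrix.neg_apply] at this
    apply h2
    linear_combination this
  rw [← Finset.card_pair hne]
  congr 1
  ext M
  rw [mem_orthSet_rUnit, Finset.mem_insert, Finset.mem_singleton]
  have hsq : M () () ^ 2 = 1 ↔ M () () = 1 ∨ M () () = -1 := by
    rw [_root_.sq]; exact mul_self_eq_one_iff
  rw [hsq]
  constructor
  · rintro (h | h)
    · left; ext i j; simpa using h
    · right; ext i j; simpa using h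
  · rintro (h | h)
    · left; rw [h]; simp
    · right; rw [h]; simp

theorem pm_lemma (a : ℕ) (ha : 1 ≤ a) : (a - 1) * (a + 1) = a ^ 2 - 1 := by
  obtain ⟨b, rfl⟩ : ∃ b, a = b + 1 := ⟨a - 1, by omega⟩
  simp only [Nat.add_sub_cancel]
  have : (b + 1) ^ 2 = b * (b + 1 + 1) + 1 := by ring
  omega

theorem pm_pow (q m : ℕ) (hq : 1 ≤ q) :
    (q ^ (m + 1) - 1) * (q ^ (m + 1) + 1) = q ^ (2 * (m + 1)) - 1 := by
  rw [pm_lemma _ (Nat.one_le_pow _ _ hq), ← pow_mul, mul_comm]

/-- Order of the isometry set of the hyperbolic form. -/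
theorem card_orthSet_plus [DecidableEq F] (m : ℕ) :
    (orthSet (qfam (m + 1) (rEmpty : (Empty → F) → F))).card =
      2 * Fintype.card F ^ ((m + 1) * m) * (Fintype.card F ^ (m + 1) - 1) *
        ∏ i ∈ Finset.range m, (Fintype.card F ^ (2 * (i + 1)) - 1) := by
  have hq : 1 ≤ Fintype.card F := Fintype.card_pos
  induction m with
  | zero =>
    rw [card_orthSet_qfam_succ rEmpty_isQF rEmpty_qnd, qfam_zeros_pred _ card_zeros_rEmpty,
      card_orthSet_qfam_zero, card_orthSet_rEmpty]
    simp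
    ring
  | succ m ih =>
    rw [card_orthSet_qfam_succ rEmpty_isQF rEmpty_qnd, qfam_zeros_pred _ card_zeros_rEmpty, ih,
      Finset.prod_range_succ, ← pm_pow _ m hq]
    have hE : Fintype.card F ^ (2 * (m + 1) + Fintype.card Empty) * Fintype.card F ^ ((m + 1) * m) =
        Fintype.card F ^ ((m + 1 + 1) * (m + 1)) := by
      rw [← pow_add]; congr 1; simp; ring
    rw [← hE]
    simp only [Fintype.card_empty, add_zero]
    ring

/-- Order of the isometry set of the odd-dimensional form. -/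
theorem card_orthSet_odd [DecidableEq F] (h2 : (2 : F) ≠ 0) (m : ℕ) :
    (orthSet (qfam m (rUnit : (Unit → F) → F))).card =
      2 * Fintype.card F ^ (m ^ 2) * ∏ i ∈ Finset.range m, (Fintype.card F ^ (2 * (i + 1)) - 1) := by
  have hq : 1 ≤ Fintype.card F := Fintype.card_pos
  induction m with
  | zero =>
    rw [card_orthSet_qfam_zero, card_orthSet_rUnit h2]
    simp
  | succ m ih =>
    rw [card_orthSet_qfam_succ rUnit_isQF rUnit_qnd, qfam_zeros_pred _ card_zeros_rUnit, ih,
      Finset.prod_range_succ]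
    simp only [Fintype.card_unit]
    rw [pm_pow _ m hq]
    have hE : Fintype.card F ^ (2 * m + 1) * Fintype.card F ^ (m ^ 2) =
        Fintype.card F ^ ((m + 1) ^ 2) := by
      rw [← pow_add]; congr 1; ring
    rw [← hE]
    ring

/-- Order of the isometry set of the minus-type form, given the order for the anisotropic plane. -/
theorem card_orthSet_minus [DecidableEq F] {a b : F}
    (hab : ∀ z₁ z₂ : F, z₁ ^ 2 + a * z₁ * z₂ + b * z₂ ^ 2 = 0 → z₁ = 0 ∧ z₂ = 0)
    (hbase : (orthSet (rBin a b)).card = 2 * (Fintype.card F + 1)) (k : ℕ) :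
    (orthSet (qfam k (rBin a b))).card =
      2 * Fintype.card F ^ ((k + 1) * k) * (Fintype.card F ^ (k + 1) + 1) *
        ∏ i ∈ Finset.range k, (Fintype.card F ^ (2 * (i + 1)) - 1) := by
  have hq : 1 ≤ Fintype.card F := Fintype.card_pos
  induction k with
  | zero =>
    rw [card_orthSet_qfam_zero, hbase]
    simp
  | succ k ih =>
    rw [card_orthSet_qfam_succ (rBin_isQF a b) (rBin_qnd hab),
      qfam_zeros_pred _ (card_zeros_rBin hab), ih, Finset.prod_range_succ, ← pm_pow _ k hq]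
    simp only [Fintype.card_fin]
    have hE : Fintype.card F ^ (2 * k + 2) * Fintype.card F ^ ((k + 1) * k) =
        Fintype.card F ^ ((k + 1 + 1) * (k + 1)) := by
      rw [← pow_add]; congr 1; ring
    rw [← hE]
    ring

end Order

section GOStatements

set_option linter.unusedSectionVars false

variable {F : Type*} [Field F] [Fintype F]

theorem two_ne_zero_of_odd_card' (hF : Odd (Fintype.card F)) : (2 : F) ≠ 0 := by
  apply Ring.two_ne_zero
  intro hc
  have := FiniteField.even_card_of_char_two hc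
  rw [Nat.odd_iff] at hF
  omega

/-- `|GO⁺_{2m}(q)|` (S0287). -/
theorem card_GO_plus {q : ℕ} (hF : Fintype.card F = q) (m : ℕ) (hm : 1 ≤ m) :
    Nat.card (Cfsg.isometryGroup F (Cfsg.quadFormPlus m F)) =
      2 * q ^ (m * (m - 1)) * (q ^ m - 1) *
        ∏ i ∈ Finset.range (m - 1), (q ^ (2 * (i + 1)) - 1) := by
  classical
  obtain ⟨k, rfl⟩ : ∃ k, m = k + 1 := ⟨m - 1, by omega⟩
  have hfam := qfam_isQF_qnd (rEmpty_isQF (F := F)) rEmpty_qnd (k + 1)
  have hQF : IsQF (Cfsg.quadFormPlus (k + 1) F) :=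
    isQF_reindex (Equiv.sumEmpty _ Empty) (plus_eq (F := F) (k + 1)) hfam.1
  have hND : QND (Cfsg.quadFormPlus (k + 1) F) :=
    qnd_reindex (Equiv.sumEmpty _ Empty) (plus_eq (F := F) (k + 1)) hfam.2
  rw [card_isometryGroup_eq hQF hND,
    card_orthSet_reindex (F := F) (Equiv.sumEmpty _ Empty) (plus_eq (F := F) (k + 1)),
    card_orthSet_plus, hF]
  simp

/-- `|GO_{2m+1}(q)|`, `q` odd (S0286). -/
theorem card_GO_odd {q : ℕ} (hF : Fintype.card F = q) (hodd : Odd q) (m : ℕ) :
    Nat.card (Cfsg.isometryGroup F (Cfsg.quadFormOdd m F)) =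
      2 * q ^ (m ^ 2) * ∏ i ∈ Finset.range m, (q ^ (2 * (i + 1)) - 1) := by
  classical
  have h2 : (2 : F) ≠ 0 := two_ne_zero_of_odd_card' (hF ▸ hodd)
  have hfam := qfam_isQF_qnd (rUnit_isQF (F := F)) rUnit_qnd m
  have hQF : IsQF (Cfsg.quadFormOdd m F) :=
    isQF_reindex (Equiv.sumComm _ Unit) (odd_eq (F := F) m) hfam.1
  have hND : QND (Cfsg.quadFormOdd m F) :=
    qnd_reindex (Equiv.sumComm _ Unit) (odd_eq (F := F) m) hfam.2
  rw [card_isometryGroup_eq hQF hND,
    card_orthSet_reindex (F := F) (Equiv.sumComm _ Unit) (odd_eq (F := F) m),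
    card_orthSet_odd h2, hF]

/-- `|GO⁻_{2m}(q)|` (S0288), given the order of the isometry group of the anisotropic plane. -/
theorem card_GO_minus_of_base {q : ℕ} (hF : Fintype.card F = q) (m : ℕ) (hm : 1 ≤ m) (a b : F)
    (hab : ∀ z₁ z₂ : F, z₁ ^ 2 + a * z₁ * z₂ + b * z₂ ^ 2 = 0 → z₁ = 0 ∧ z₂ = 0)
    (hbase : (orthSet (rBin a b)).card = 2 * (Fintype.card F + 1)) :
    Nat.card (Cfsg.isometryGroup F (Cfsg.quadFormMinus (m - 1) F a b)) =
      2 * q ^ (m * (m - 1)) * (q ^ m + 1) *
        ∏ i ∈ Finset.range (m - 1), (q ^ (2 * (i + 1)) - 1) := by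
  classical
  obtain ⟨k, rfl⟩ : ∃ k, m = k + 1 := ⟨m - 1, by omega⟩
  have hfam := qfam_isQF_qnd (rBin_isQF a b) (rBin_qnd hab) k
  show Nat.card (Cfsg.isometryGroup F (Cfsg.quadFormMinus k F a b)) =
      2 * q ^ ((k + 1) * k) * (q ^ (k + 1) + 1) *
        ∏ i ∈ Finset.range k, (q ^ (2 * (i + 1)) - 1)
  rw [minus_eq, card_isometryGroup_eq hfam.1 hfam.2, card_orthSet_minus hab hbase, hF]

end GOStatements

end Cfsg.Agent.Lib.Helper45
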