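import Mathlib
import Cfsg.Agent.Lib.Helper45.G320Iso

set_option autoImplicit false

namespace Cfsg.Agent.Lib.Helper45.G320

open Cfsg.Agent.Lib.Helper21.Suz2
open Cfsg.Agent.Lib.Helper45.Hig
open scoped commutatorElement
open scoped IsMulCommutative

universe u

theorem fix5 {α : Type*} [Finite α] (f : α → α) (hf : ∀ a, f (f (f (f (f a)))) = a) :
    Nat.card α % 5 = Nat.card {a : α // f a = a} % 5 := by
  classical
  haveI : Fintype α := Fintype.ofFinite α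
  haveI : Fact (Nat.Prime 5) := ⟨by norm_num⟩
  obtain ⟨F, hF⟩ : ∃ F : Function.End α, F = f := ⟨f, rfl⟩
  have hf' : F ^ 5 ^ 1 = 1 := by
    subst hF
    exact funext fun a => hf a
  have h := Equiv.Perm.card_fixedPoints_modEq (p := 5) (n := 1) hf'
  rw [← Nat.card_eq_fintype_card, ← Nat.card_eq_fintype_card] at h
  subst hF
  exact h

theorem card_modEq_fix {G : Type*} [Group G] [Finite G] (q : G) (hq : q ^ 5 = 1) (W : Subgroup G)
    (hW : ∀ w ∈ W, q * w * q⁻¹ ∈ W) :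
    Nat.card W % 5 = Nat.card ↥(W ⊓ Subgroup.centralizer {q}) % 5 := by
  have h := fix5 (α := ↥W) (fun w => ⟨q * w.1 * q⁻¹, hW w.1 w.2⟩) (by
    intro a
    apply Subtype.ext
    show q * (q * (q * (q * (q * a.1 * q⁻¹) * q⁻¹) * q⁻¹) * q⁻¹) * q⁻¹ = a.1
    have hq' : q * q * q * q * q = 1 := by
      have := hq
      simpa [pow_succ] using this
    have e : q * (q * (q * (q * (q * a.1 * q⁻¹) * q⁻¹) * q⁻¹) * q⁻¹) * q⁻¹
        = (q * q * q * q * q) * a.1 * (q * q * q * q * q)⁻¹ := by group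
    rw [e, hq']; simp)
  rw [h]
  congr 1
  apply Nat.card_congr
  exact
    { toFun := fun x => ⟨x.1.1, Subgroup.mem_inf.mpr ⟨x.1.2, by
        rw [Subgroup.mem_centralizer_iff]
        intro h hh
        rw [Set.mem_singleton_iff] at hh
        rw [hh]
        have := congrArg Subtype.val x.2
        exact mul_inv_eq_iff_eq_mul.mp this⟩⟩
      invFun := fun y => ⟨⟨y.1, (Subgroup.mem_inf.mp y.2).1⟩, Subtype.ext
        (mul_inv_eq_iff_eq_mul.mpr
          (Subgroup.mem_centralizer_iff.mp (Subgroup.mem_inf.mp y.2).2 q (Set.mem_singleton q)))⟩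
      left_inv := fun x => rfl
      right_inv := fun y => rfl }

theorem exists_mul_of_sup_central {G : Type*} [Group G] (A C : Subgroup G)
    (hC : C ≤ Subgroup.center G) : ∀ x ∈ A ⊔ C, ∃ a ∈ A, ∃ c ∈ C, x = a * c := by
  let M : Subgroup G :=
    { carrier := {x | ∃ a ∈ A, ∃ c ∈ C, x = a * c}
      one_mem' := ⟨1, A.one_mem, 1, C.one_mem, by simp⟩
      mul_mem' := by
        rintro x y ⟨a, ha, c, hc, rfl⟩ ⟨a', ha', c', hc', rfl⟩
        refine ⟨a * a', A.mul_mem ha ha', c * c', C.mul_mem hc hc', ?_⟩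
        have h := Subgroup.mem_center_iff.mp (hC hc) a'
        calc a * c * (a' * c') = a * (c * a') * c' := by group
          _ = a * (a' * c) * c' := by rw [h]
          _ = a * a' * (c * c') := by group
      inv_mem' := by
        rintro x ⟨a, ha, c, hc, rfl⟩
        refine ⟨a⁻¹, A.inv_mem ha, c⁻¹, C.inv_mem hc, ?_⟩
        have h := Subgroup.mem_center_iff.mp (hC (C.inv_mem hc)) a⁻¹
        rw [mul_inv_rev, h] }
  have hle : A ⊔ C ≤ M :=
    sup_le (fun a ha => ⟨a, ha, 1, C.one_mem, by simp⟩) (fun c hc => ⟨1, A.one_mem, c, hc, by simp⟩)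
  exact fun x hx => hle hx

theorem comm_mul_central_left {G : Type*} [Group G] (a b c : G) (hc : ∀ g, g * c = c * g) :
    ⁅a * c, b⁆ = ⁅a, b⁆ := by
  rw [commutatorElement_def, commutatorElement_def]
  calc a * c * b * (a * c)⁻¹ * b⁻¹ = a * (c * b) * c⁻¹ * a⁻¹ * b⁻¹ := by group
    _ = a * (b * c) * c⁻¹ * a⁻¹ * b⁻¹ := by rw [hc b]
    _ = a * b * a⁻¹ * b⁻¹ := by group

theorem comm_mul_central_right {G : Type*} [Group G] (a b c : G) (hc : ∀ g, g * c = c * g) :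
    ⁅a, b * c⁆ = ⁅a, b⁆ := by
  rw [commutatorElement_def, commutatorElement_def]
  calc a * (b * c) * a⁻¹ * (b * c)⁻¹ = a * b * (c * a⁻¹) * c⁻¹ * b⁻¹ := by group
    _ = a * b * (a⁻¹ * c) * c⁻¹ * b⁻¹ := by rw [hc a⁻¹]
    _ = a * b * a⁻¹ * b⁻¹ := by group

theorem comm_of_sup_central {G : Type*} [Group G] (A C : Subgroup G)
    (hC : C ≤ Subgroup.center G) (h : A ⊔ C = ⊤) (g₁ g₂ : G) :
    ∃ a₁ ∈ A, ∃ a₂ ∈ A, ⁅g₁, g₂⁆ = ⁅a₁, a₂⁆ := by
  obtain ⟨a₁, ha₁, c₁, hc₁, rfl⟩ := exists_mul_of_sup_central A C hC g₁ (by rw [h]; trivial)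
  obtain ⟨a₂, ha₂, c₂, hc₂, rfl⟩ := exists_mul_of_sup_central A C hC g₂ (by rw [h]; trivial)
  refine ⟨a₁, ha₁, a₂, ha₂, ?_⟩
  rw [comm_mul_central_left _ _ _ (Subgroup.mem_center_iff.mp (hC hc₁)),
    comm_mul_central_right _ _ _ (Subgroup.mem_center_iff.mp (hC hc₂))]

theorem dvd64_mod5 (n : ℕ) (hd : n ∣ 64) (hm : n % 5 = 4) : n = 4 ∨ n = 64 := by
  have h1 : n ≤ 64 := Nat.le_of_dvd (by norm_num) hd
  interval_cases n <;> omega

theorem comm_calc {M : Type*} [CommGroup M] (z a b : M) (hz : z * z = 1) (ha : a * a = 1)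
    (hb : b * b = 1) (h : a * z * (b * a) * z * (b * b * a) = z) : z = a * b := by
  have e : a * z * (b * a) * z * (b * b * a) = (a * a) * (z * z) * (b * b) * (a * b) := by
    simp only [mul_comm, mul_left_comm]
  rw [e, ha, hz, hb] at h
  simpa using h.symm

/-- The working context: a group of order 320 with its commutator subgroup `T`, the centre `Z` of
`T` and an element `q` of order five. -/
structure Ctx (G : Type u) [Group G] (T Z : Subgroup G) (q : G) : Prop where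
  card : Nat.card G = 320
  q5 : q ^ 5 = 1
  Tn : ∀ g t : G, t ∈ T → g * t * g⁻¹ ∈ T
  T64 : Nat.card T = 64
  comm : commutator G = T
  Z4 : Nat.card Z = 4
  ZT : Z ≤ T
  Zc : Z ≤ Subgroup.center G
  Z2 : ∀ z ∈ Z, z * z = 1
  L6 : ∀ W : Subgroup G, Z ≤ W → W ≤ T → (∀ w ∈ W, q * w * q⁻¹ ∈ W) → W = Z ∨ W = T
  nc : ¬ (T ≤ Subgroup.centralizer {q})
  sc : ∃ t ∈ T, t ∉ Z ∧ ∀ s ∈ T, cm t s ∈ Z
  sup : T ⊔ Subgroup.zpowers q = ⊤

theorem ctx_exists {G : Type u} [Group G] [Finite G] (T : Subgroup G) [hTn : T.Normal]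
    (hG : Nat.card G = 320) (hTc : commutator G = T)
    (hT64 : Nat.card T = 64) (hZ : IsKleinFour (Subgroup.center ↥T)) :
    ∃ (Z : Subgroup G) (q : G), Ctx G T Z q := by
  classical
  haveI : Fact (Nat.Prime 5) := ⟨by norm_num⟩
  haveI : Fact (Nat.Prime 2) := ⟨Nat.prime_two⟩
  obtain ⟨q, hq⟩ := exists_prime_orderOf_dvd_card' (G := G) 5 (by rw [hG]; norm_num)
  have hq5 : q ^ 5 = 1 := by rw [← hq]; exact pow_orderOf_eq_one q
  have hconj : ∀ g t : G, t ∈ T → g * t * g⁻¹ ∈ T := fun g t ht => hTn.conj_mem t ht g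
  obtain ⟨Z, hZdef⟩ : ∃ Z : Subgroup G, Z = (Subgroup.center ↥T).map T.subtype := ⟨_, rfl⟩
  have hZmem : ∀ z : G, z ∈ Z ↔ z ∈ T ∧ ∀ t ∈ T, t * z = z * t := by
    intro z
    rw [hZdef, Subgroup.mem_map]
    constructor
    · rintro ⟨y, hy, rfl⟩
      refine ⟨y.2, fun t ht => ?_⟩
      have := Subgroup.mem_center_iff.mp hy ⟨t, ht⟩
      exact congrArg Subtype.val this
    · rintro ⟨hz, h⟩
      refine ⟨⟨z, hz⟩, ?_, rfl⟩
      rw [Subgroup.mem_center_iff]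
      intro g
      exact Subtype.ext (h g.1 g.2)
  have hZ4 : Nat.card Z = 4 := by
    rw [hZdef, Subgroup.card_map_of_injective T.subtype_injective]
    exact hZ.card_four
  have hZ2 : ∀ z ∈ Z, z * z = 1 := by
    intro z hz
    rw [hZdef, Subgroup.mem_map] at hz
    obtain ⟨y, hy, rfl⟩ := hz
    have h1 : (⟨y, hy⟩ : Subgroup.center ↥T) ^ 2 = 1 := by
      have := Monoid.pow_exponent_eq_one (⟨y, hy⟩ : Subgroup.center ↥T)
      rwa [hZ.exponent_two] at this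
    have h2 := congrArg (fun x : Subgroup.center ↥T => ((x : ↥T) : G)) h1
    simpa [pow_two] using h2
  have hZT : Z ≤ T := fun z hz => ((hZmem z).mp hz).1
  have hsup : T ⊔ Subgroup.zpowers q = ⊤ := by
    apply Subgroup.eq_top_of_card_eq
    have h1 : Nat.card T ∣ Nat.card ↥(T ⊔ Subgroup.zpowers q) :=
      Subgroup.card_dvd_of_le le_sup_left
    have h2 : Nat.card (Subgroup.zpowers q) ∣ Nat.card ↥(T ⊔ Subgroup.zpowers q) :=
      Subgroup.card_dvd_of_le le_sup_right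
    rw [hT64] at h1
    rw [Nat.card_zpowers, hq] at h2
    have h5 : Nat.card ↥(T ⊔ Subgroup.zpowers q) ≤ 320 := by
      rw [← hG]; exact Subgroup.card_le_card_group _
    have h6 : 0 < Nat.card ↥(T ⊔ Subgroup.zpowers q) := Nat.card_pos
    rw [hG]; omega
  have hZinv : ∀ g : G, ∀ z ∈ Z, g * z * g⁻¹ ∈ Z := by
    intro g z hz
    obtain ⟨hzT, hzc⟩ := (hZmem z).mp hz
    rw [hZmem]
    refine ⟨hconj g z hzT, fun t ht => ?_⟩
    have h1 := hzc (g⁻¹ * t * g) (by have := hconj g⁻¹ t ht; rwa [inv_inv] at this)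
    calc t * (g * z * g⁻¹) = g * (g⁻¹ * t * g * z) * g⁻¹ := by group
      _ = g * (z * (g⁻¹ * t * g)) * g⁻¹ := by rw [h1]
      _ = g * z * g⁻¹ * t := by group
  have hZq : Z ≤ Subgroup.centralizer {q} := by
    have h := card_modEq_fix q hq5 Z (fun z hz => hZinv q z hz)
    have h1 : Nat.card ↥(Z ⊓ Subgroup.centralizer {q}) ≤ Nat.card Z :=
      Subgroup.card_le_of_le inf_le_left
    have h2 : 0 < Nat.card ↥(Z ⊓ Subgroup.centralizer {q}) := Nat.card_pos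
    rw [hZ4] at h h1
    have h3 : Z ⊓ Subgroup.centralizer {q} = Z :=
      Subgroup.eq_of_le_of_card_ge inf_le_left (by rw [hZ4]; omega)
    intro z hz
    have : z ∈ Z ⊓ Subgroup.centralizer {q} := by rw [h3]; exact hz
    exact (Subgroup.mem_inf.mp this).2
  have hZc : Z ≤ Subgroup.center G := by
    intro z hz
    have hle : T ⊔ Subgroup.zpowers q ≤ Subgroup.centralizer {z} := by
      apply sup_le
      · intro t ht
        rw [Subgroup.mem_centralizer_iff]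
        intro h hh
        rw [Set.mem_singleton_iff] at hh
        rw [hh]
        exact (((hZmem z).mp hz).2 t ht).symm
      · rw [Subgroup.zpowers_le, Subgroup.mem_centralizer_iff]
        intro h hh
        rw [Set.mem_singleton_iff] at hh
        rw [hh]
        exact (Subgroup.mem_centralizer_iff.mp (hZq hz) q (Set.mem_singleton q)).symm
    rw [hsup] at hle
    rw [Subgroup.mem_center_iff]
    intro g
    exact (Subgroup.mem_centralizer_iff.mp (hle (Subgroup.mem_top g)) z (Set.mem_singleton z)).symm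
  have hnc : ¬ (T ≤ Subgroup.centralizer {q}) := by
    intro hle
    have hqc : Subgroup.zpowers q ≤ Subgroup.center G := by
      rw [Subgroup.zpowers_le, Subgroup.mem_center_iff]
      have hle2 : T ⊔ Subgroup.zpowers q ≤ Subgroup.centralizer {q} := by
        apply sup_le hle
        rw [Subgroup.zpowers_le, Subgroup.mem_centralizer_iff]
        intro h hh
        rw [Set.mem_singleton_iff] at hh
        rw [hh]
      rw [hsup] at hle2
      intro g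
      exact (Subgroup.mem_centralizer_iff.mp (hle2 (Subgroup.mem_top g)) q
        (Set.mem_singleton q)).symm
    have h1 : commutator G ≤ ⁅T, T⁆ := by
      rw [commutator_def, Subgroup.commutator_le]
      intro g₁ _ g₂ _
      obtain ⟨a₁, ha₁, a₂, ha₂, e⟩ := comm_of_sup_central T (Subgroup.zpowers q) hqc hsup g₁ g₂
      rw [e]
      exact Subgroup.commutator_mem_commutator ha₁ ha₂
    rw [hTc, ← Subgroup.map_subtype_commutator] at h1
    have hT2 : IsPGroup 2 ↥T := IsPGroup.of_card (n := 6) (by rw [hT64]; norm_num)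
    haveI : Nontrivial ↥T := Finite.one_lt_card_iff_nontrivial.mp (by rw [hT64]; norm_num)
    haveI : Group.IsNilpotent ↥T := hT2.isNilpotent
    have h2 : commutator ↥T < ⊤ := Group.IsSolvable.commutator_lt_top_of_nontrivial ↥T
    have h3 := Subgroup.card_le_of_le h1
    rw [Subgroup.card_map_of_injective T.subtype_injective] at h3
    have h4 : commutator ↥T = ⊤ :=
      Subgroup.eq_top_of_card_eq _ (le_antisymm (Subgroup.card_le_card_group _) h3)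
    exact h2.ne h4
  have hCT : T ⊓ Subgroup.centralizer {q} = Z := by
    have h := card_modEq_fix q hq5 T (fun t ht => hconj q t ht)
    rw [hT64] at h
    have h1 : Nat.card ↥(T ⊓ Subgroup.centralizer {q}) ∣ 64 := by
      rw [← hT64]; exact Subgroup.card_dvd_of_le inf_le_left
    have hle : Z ≤ T ⊓ Subgroup.centralizer {q} := le_inf hZT hZq
    rcases dvd64_mod5 _ h1 (by omega) with h2 | h2
    · exact (Subgroup.eq_of_le_of_card_ge hle (by rw [h2, hZ4])).symm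
    · exfalso
      apply hnc
      have h3 : T ⊓ Subgroup.centralizer {q} = T :=
        Subgroup.eq_of_le_of_card_ge inf_le_left (by rw [h2, hT64])
      intro t ht
      have : t ∈ T ⊓ Subgroup.centralizer {q} := by rw [h3]; exact ht
      exact (Subgroup.mem_inf.mp this).2
  have hL6 : ∀ W : Subgroup G, Z ≤ W → W ≤ T → (∀ w ∈ W, q * w * q⁻¹ ∈ W) → W = Z ∨ W = T := by
    intro W hZW hWT hWq
    have h := card_modEq_fix q hq5 W hWq
    have h0 : W ⊓ Subgroup.centralizer {q} = Z := by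
      apply le_antisymm
      · rw [← hCT]; exact inf_le_inf_right _ hWT
      · exact le_inf hZW hZq
    rw [h0, hZ4] at h
    have h1 : Nat.card W ∣ 64 := by rw [← hT64]; exact Subgroup.card_dvd_of_le hWT
    rcases dvd64_mod5 _ h1 (by omega) with h2 | h2
    · left; exact (Subgroup.eq_of_le_of_card_ge hZW (by rw [h2, hZ4])).symm
    · right; exact Subgroup.eq_of_le_of_card_ge hWT (by rw [h2, hT64])
  have hsc : ∃ t ∈ T, t ∉ Z ∧ ∀ s ∈ T, cm t s ∈ Z := by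
    have hT2 : IsPGroup 2 ↥T := IsPGroup.of_card (n := 6) (by rw [hT64]; norm_num)
    have hQ : IsPGroup 2 (↥T ⧸ Subgroup.center ↥T) := hT2.to_quotient _
    haveI : Nontrivial (↥T ⧸ Subgroup.center ↥T) := by
      have h := Subgroup.card_eq_card_quotient_mul_card_subgroup (Subgroup.center ↥T)
      rw [hT64, hZ.card_four] at h
      exact Finite.one_lt_card_iff_nontrivial.mp (by omega)
    haveI := hQ.center_nontrivial
    obtain ⟨⟨y, hy⟩, hy1⟩ := exists_ne (1 : Subgroup.center (↥T ⧸ Subgroup.center ↥T))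
    obtain ⟨t, rfl⟩ := QuotientGroup.mk_surjective y
    refine ⟨t.1, t.2, ?_, ?_⟩
    · intro htZ
      apply hy1
      apply Subtype.ext
      show (t : ↥T ⧸ Subgroup.center ↥T) = 1
      rw [QuotientGroup.eq_one_iff, Subgroup.mem_center_iff]
      intro g
      exact Subtype.ext (((hZmem t.1).mp htZ).2 g.1 g.2)
    · intro s hs
      have hmem : cm t ⟨s, hs⟩ ∈ Subgroup.center ↥T := by
        rw [← QuotientGroup.eq_one_iff]
        have h := Subgroup.mem_center_iff.mp hy (QuotientGroup.mk ⟨s, hs⟩)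
        unfold cm
        rw [QuotientGroup.mk_mul, QuotientGroup.mk_inv, QuotientGroup.mk_mul, QuotientGroup.mk_mul,
          h, inv_mul_cancel]
      rw [hZdef, Subgroup.mem_map]
      exact ⟨cm t ⟨s, hs⟩, hmem, rfl⟩
  exact ⟨Z, q, ⟨hG, hq5, hconj, hT64, hTc, hZ4, hZT, hZc, hZ2, hL6, hnc, hsc, hsup⟩⟩

section CtxFacts

variable {G : Type u} [Group G] [Finite G] {T Z : Subgroup G} {q : G}

theorem Ctx.zq (c : Ctx G T Z q) (z : G) (hz : z ∈ Z) (g : G) : g * z * g⁻¹ = z := by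
  rw [Subgroup.mem_center_iff.mp (c.Zc hz) g, mul_inv_cancel_right]

theorem Ctx.F1 (c : Ctx G T Z q) : ∀ t ∈ T, q * t * q⁻¹ * t⁻¹ ∈ Z → t ∈ Z := by
  let W₁ : Subgroup G :=
    { carrier := {t | t ∈ T ∧ q * t * q⁻¹ * t⁻¹ ∈ Z}
      one_mem' := ⟨T.one_mem, by simp⟩
      mul_mem' := by
        rintro t s ⟨ht, hzt⟩ ⟨hs, hzs⟩
        refine ⟨T.mul_mem ht hs, ?_⟩
        have hc := Subgroup.mem_center_iff.mp (c.Zc hzs)
        have e : q * (t * s) * q⁻¹ * (t * s)⁻¹ = (q * t * q⁻¹ * t⁻¹) * (q * s * q⁻¹ * s⁻¹) := by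
          calc q * (t * s) * q⁻¹ * (t * s)⁻¹
              = q * t * q⁻¹ * ((q * s * q⁻¹ * s⁻¹) * t⁻¹) := by group
            _ = q * t * q⁻¹ * (t⁻¹ * (q * s * q⁻¹ * s⁻¹)) := by rw [hc t⁻¹]
            _ = (q * t * q⁻¹ * t⁻¹) * (q * s * q⁻¹ * s⁻¹) := by group
        rw [e]; exact Z.mul_mem hzt hzs
      inv_mem' := by
        rintro t ⟨ht, hzt⟩
        refine ⟨T.inv_mem ht, ?_⟩
        have hc := Subgroup.mem_center_iff.mp (c.Zc (Z.inv_mem hzt))
        have e : q * t⁻¹ * q⁻¹ * t⁻¹⁻¹ = (q * t * q⁻¹ * t⁻¹)⁻¹ := by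
          calc q * t⁻¹ * q⁻¹ * t⁻¹⁻¹ = t⁻¹ * ((q * t * q⁻¹ * t⁻¹)⁻¹ * t) := by group
            _ = t⁻¹ * (t * (q * t * q⁻¹ * t⁻¹)⁻¹) := by rw [hc t]
            _ = (q * t * q⁻¹ * t⁻¹)⁻¹ := by group
        rw [e]; exact Z.inv_mem hzt }
  have hq : ∀ w ∈ W₁, q * w * q⁻¹ ∈ W₁ := by
    rintro w ⟨hw, hz⟩
    refine ⟨c.Tn q w hw, ?_⟩
    have e : q * (q * w * q⁻¹) * q⁻¹ * (q * w * q⁻¹)⁻¹ = q * (q * w * q⁻¹ * w⁻¹) * q⁻¹ := by group
    rw [e, c.zq _ hz q]; exact hz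
  have hZW : Z ≤ W₁ := by
    intro z hz
    refine ⟨c.ZT hz, ?_⟩
    show q * z * q⁻¹ * z⁻¹ ∈ Z
    rw [c.zq z hz q, mul_inv_cancel]; exact Z.one_mem
  have hWT : W₁ ≤ T := fun w hw => hw.1
  rcases c.L6 W₁ hZW hWT hq with h | h
  · intro t ht hz
    have : t ∈ W₁ := ⟨ht, hz⟩
    rw [h] at this; exact this
  · exfalso
    apply c.nc
    intro t ht
    have htW : t ∈ W₁ := by rw [h]; exact ht
    obtain ⟨z, hz⟩ : ∃ z, q * t * q⁻¹ * t⁻¹ = z := ⟨_, rfl⟩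
    have hzZ : z ∈ Z := by rw [← hz]; exact htW.2
    have e1 : q * t * q⁻¹ = z * t := by rw [← hz]; group
    have hpow : ∀ n : ℕ, q ^ n * t * (q ^ n)⁻¹ = z ^ n * t := by
      intro n
      induction n with
      | zero => simp
      | succ n ih =>
        have e : q ^ (n + 1) * t * (q ^ (n + 1))⁻¹ = q * (q ^ n * t * (q ^ n)⁻¹) * q⁻¹ := by
          rw [pow_succ']; group
        rw [e, ih]
        have e2 : q * (z ^ n * t) * q⁻¹ = (q * z ^ n * q⁻¹) * (q * t * q⁻¹) := by group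
        rw [e2, c.zq _ (Z.pow_mem hzZ n) q, e1, pow_succ, mul_assoc]
    have h5 := hpow 5
    rw [c.q5] at h5
    have hz2 := c.Z2 z hzZ
    have hz1 : z = 1 := by
      have h6 : z ^ 5 = 1 := by
        have h7 : z ^ 5 * t = 1 * t := by rw [← h5]; simp
        exact mul_right_cancel h7
      have h8 : z ^ 5 = z := by
        calc z ^ 5 = (z * z) * (z * z) * z := by
              simp only [pow_succ, pow_zero, one_mul, mul_assoc]
          _ = z := by rw [hz2]; simp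
      rw [← h8]; exact h6
    rw [hz1, one_mul] at e1
    rw [Subgroup.mem_centralizer_iff]
    intro h hh
    rw [Set.mem_singleton_iff] at hh
    rw [hh]
    exact mul_inv_eq_iff_eq_mul.mp e1

theorem Ctx.F2 (c : Ctx G T Z q) : ∀ t ∈ T, ∀ s ∈ T, cm t s ∈ Z := by
  let Wa : Subgroup G :=
    { carrier := {t | t ∈ T ∧ ∀ s ∈ T, cm t s ∈ Z}
      one_mem' := ⟨T.one_mem, fun s _ => by rw [cm_one_left]; exact Z.one_mem⟩
      mul_mem' := by
        rintro t t' ⟨ht, h⟩ ⟨ht', h'⟩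
        refine ⟨T.mul_mem ht ht', fun s hs => ?_⟩
        rw [cm_mul_left t t' s (c.Zc (h s hs))]
        exact Z.mul_mem (h s hs) (h' s hs)
      inv_mem' := by
        rintro t ⟨ht, h⟩
        refine ⟨T.inv_mem ht, fun s hs => ?_⟩
        have h1 := cm_mul_left t t⁻¹ s (c.Zc (h s hs))
        rw [mul_inv_cancel, cm_one_left] at h1
        rw [eq_inv_of_mul_eq_one_right h1.symm]
        exact Z.inv_mem (h s hs) }
  have hq : ∀ w ∈ Wa, q * w * q⁻¹ ∈ Wa := by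
    rintro w ⟨hw, h⟩
    refine ⟨c.Tn q w hw, fun s hs => ?_⟩
    have h1 := h (q⁻¹ * s * q) (by have := c.Tn q⁻¹ s hs; rwa [inv_inv] at this)
    have h2 := cm_map (MulAut.conj q) w (q⁻¹ * s * q)
    simp only [MulAut.conj_apply] at h2
    have e : q * (q⁻¹ * s * q) * q⁻¹ = s := by group
    rw [e, c.zq _ h1 q] at h2
    rw [← h2]; exact h1
  have hZW : Z ≤ Wa := by
    intro z hz
    refine ⟨c.ZT hz, fun s _ => ?_⟩
    rw [cm_of_central (c.Zc hz) s]; exact Z.one_mem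
  have hWT : Wa ≤ T := fun w hw => hw.1
  rcases c.L6 Wa hZW hWT hq with h | h
  · exfalso
    obtain ⟨t, ht, htZ, hts⟩ := c.sc
    have : t ∈ Wa := ⟨ht, hts⟩
    rw [h] at this
    exact htZ this
  · intro t ht
    have : t ∈ Wa := by rw [h]; exact ht
    exact this.2

theorem Ctx.F3 (c : Ctx G T Z q) : ∀ t ∈ T, t * t ∈ Z := by
  have F2 := c.F2
  let Wb : Subgroup G :=
    { carrier := {t | t ∈ T ∧ t * t ∈ Z}
      one_mem' := ⟨T.one_mem, by rw [mul_one]; exact Z.one_mem⟩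
      mul_mem' := by
        rintro t s ⟨ht, h⟩ ⟨hs, h'⟩
        refine ⟨T.mul_mem ht hs, ?_⟩
        rw [sq_mul t s (c.Zc (F2 s hs t ht))]
        exact Z.mul_mem (Z.mul_mem h h') (F2 s hs t ht)
      inv_mem' := by
        rintro t ⟨ht, h⟩
        refine ⟨T.inv_mem ht, ?_⟩
        have e : t⁻¹ * t⁻¹ = (t * t)⁻¹ := by group
        rw [e]; exact Z.inv_mem h }
  have hq : ∀ w ∈ Wb, q * w * q⁻¹ ∈ Wb := by
    rintro w ⟨hw, h⟩
    refine ⟨c.Tn q w hw, ?_⟩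
    have e : q * w * q⁻¹ * (q * w * q⁻¹) = q * (w * w) * q⁻¹ := by group
    rw [e, c.zq _ h q]; exact h
  have hZW : Z ≤ Wb := fun z hz => ⟨c.ZT hz, by rw [c.Z2 z hz]; exact Z.one_mem⟩
  have hWT : Wb ≤ T := fun w hw => hw.1
  rcases c.L6 Wb hZW hWT hq with h | h
  · exfalso
    obtain ⟨t, ht, htZ, -⟩ := c.sc
    have key : ∀ n : ℕ, ∀ t ∈ T, t ∉ Z → t ^ (2 ^ n) ∈ Z → ∃ u ∈ T, u ∉ Z ∧ u * u ∈ Z := by
      intro n
      induction n with
      | zero =>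
        intro t _ htZ h
        rw [pow_zero, pow_one] at h
        exact absurd h htZ
      | succ n ih =>
        intro t ht htZ h
        by_cases h2 : t * t ∈ Z
        · exact ⟨t, ht, htZ, h2⟩
        · apply ih (t * t) (T.mul_mem ht ht) h2
          have e : (t * t) ^ (2 ^ n) = t ^ (2 ^ (n + 1)) := by
            rw [← pow_two, ← pow_mul, pow_succ']
          rw [e]; exact h
    have h64 : t ^ (2 ^ 6) ∈ Z := by
      have h1 : (⟨t, ht⟩ : ↥T) ^ Nat.card ↥T = 1 := pow_card_eq_one'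
      rw [c.T64] at h1
      have h2 : t ^ 64 = 1 := by
        have := congrArg Subtype.val h1
        simpa using this
      have e : (2 : ℕ) ^ 6 = 64 := by norm_num
      rw [e, h2]; exact Z.one_mem
    obtain ⟨u, hu, huZ, hu2⟩ := key 6 t ht htZ h64
    have : u ∈ Wb := ⟨hu, hu2⟩
    rw [h] at this
    exact huZ this
  · intro t ht
    have : t ∈ Wb := by rw [h]; exact ht
    exact this.2

theorem Ctx.exists_GD (c : Ctx G T Z q) :
    ∃ x₀ x₁ x₂ x₃ c₁ c₂ : G, GD G q x₀ x₁ x₂ x₃ c₁ c₂ := by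
  have F1 := c.F1
  have F2 := c.F2
  have F3 := c.F3
  obtain ⟨k, hk⟩ : ∃ k : MulAut G, k = MulAut.conj q := ⟨_, rfl⟩
  have hka : ∀ g, k g = q * g * q⁻¹ := by intro g; rw [hk, MulAut.conj_apply]
  have kT : ∀ t ∈ T, k t ∈ T := fun t ht => by rw [hka]; exact c.Tn q t ht
  have kZ : ∀ z ∈ Z, k z = z := fun z hz => by rw [hka]; exact c.zq z hz q
  have k5 : ∀ g, k (k (k (k (k g)))) = g := by
    intro g
    simp only [hka]
    have hq' : q * q * q * q * q = 1 := by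
      have := c.q5
      simpa [pow_succ] using this
    have e : q * (q * (q * (q * (q * g * q⁻¹) * q⁻¹) * q⁻¹) * q⁻¹) * q⁻¹
        = (q * q * q * q * q) * g * (q * q * q * q * q)⁻¹ := by group
    rw [e, hq']; simp
  obtain ⟨a₀, ha₀, ha₀Z, -⟩ := c.sc
  obtain ⟨a₁, ha₁⟩ : ∃ a₁, k a₀ = a₁ := ⟨_, rfl⟩
  obtain ⟨a₂, ha₂⟩ : ∃ a₂, k a₁ = a₂ := ⟨_, rfl⟩
  obtain ⟨a₃, ha₃⟩ : ∃ a₃, k a₂ = a₃ := ⟨_, rfl⟩
  obtain ⟨a₄, ha₄⟩ : ∃ a₄, k a₃ = a₄ := ⟨_, rfl⟩
  have ha₅ : k a₄ = a₀ := by rw [← ha₄, ← ha₃, ← ha₂, ← ha₁]; exact k5 a₀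
  have m₁ : a₁ ∈ T := by rw [← ha₁]; exact kT _ ha₀
  have m₂ : a₂ ∈ T := by rw [← ha₂]; exact kT _ m₁
  have m₃ : a₃ ∈ T := by rw [← ha₃]; exact kT _ m₂
  have m₄ : a₄ ∈ T := by rw [← ha₄]; exact kT _ m₃
  obtain ⟨P, hP⟩ : ∃ P, a₀ * a₁ * a₂ * a₃ * a₄ = P := ⟨_, rfl⟩
  have hPT : P ∈ T := by
    rw [← hP]; exact T.mul_mem (T.mul_mem (T.mul_mem (T.mul_mem ha₀ m₁) m₂) m₃) m₄
  have hkP : k P = a₀⁻¹ * P * a₀ := by
    rw [← hP]
    simp only [map_mul, ha₁, ha₂, ha₃, ha₄, ha₅]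
    group
  have hPZ : P ∈ Z := by
    apply F1 P hPT
    have e : q * P * q⁻¹ * P⁻¹ = cm a₀ P⁻¹ := by
      rw [← hka, hkP]; unfold cm; group
    rw [e]; exact F2 a₀ ha₀ P⁻¹ (T.inv_mem hPT)
  have hPc := Subgroup.mem_center_iff.mp (c.Zc hPZ)
  have hP2 := c.Z2 P hPZ
  have hkPP : k P = P := kZ P hPZ
  have cancel2 : ∀ a b : G, a * P * (b * P) = a * b := by
    intro a b
    calc a * P * (b * P) = a * (P * b) * P := by group
      _ = a * (b * P) * P := by rw [hPc b]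
      _ = a * b * (P * P) := by group
      _ = a * b := by rw [hP2, mul_one]
  obtain ⟨x₀, hx₀⟩ : ∃ x₀, a₀ * P = x₀ := ⟨_, rfl⟩
  obtain ⟨x₁, hx₁⟩ : ∃ x₁, a₁ * P = x₁ := ⟨_, rfl⟩
  obtain ⟨x₂, hx₂⟩ : ∃ x₂, a₂ * P = x₂ := ⟨_, rfl⟩
  obtain ⟨x₃, hx₃⟩ : ∃ x₃, a₃ * P = x₃ := ⟨_, rfl⟩
  obtain ⟨x₄, hx₄⟩ : ∃ x₄, a₄ * P = x₄ := ⟨_, rfl⟩
  have k₀ : k x₀ = x₁ := by rw [← hx₀, ← hx₁, map_mul, hkPP, ha₁]
  have k₁ : k x₁ = x₂ := by rw [← hx₁, ← hx₂, map_mul, hkPP, ha₂]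
  have k₂ : k x₂ = x₃ := by rw [← hx₂, ← hx₃, map_mul, hkPP, ha₃]
  have k₃ : k x₃ = x₄ := by rw [← hx₃, ← hx₄, map_mul, hkPP, ha₄]
  have k₄ : k x₄ = x₀ := by rw [← hx₄, ← hx₀, map_mul, hkPP, ha₅]
  have t₀ : x₀ ∈ T := by rw [← hx₀]; exact T.mul_mem ha₀ hPT
  have t₁ : x₁ ∈ T := by rw [← hx₁]; exact T.mul_mem m₁ hPT
  have t₂ : x₂ ∈ T := by rw [← hx₂]; exact T.mul_mem m₂ hPT
  have t₃ : x₃ ∈ T := by rw [← hx₃]; exact T.mul_mem m₃ hPT
  have t₄ : x₄ ∈ T := by rw [← hx₄]; exact T.mul_mem m₄ hPT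
  have hx₀Z : x₀ ∉ Z := by
    intro h
    apply ha₀Z
    have e : a₀ = x₀ * P⁻¹ := by rw [← hx₀]; group
    rw [e]; exact Z.mul_mem h (Z.inv_mem hPZ)
  have hprod : x₀ * x₁ * x₂ * x₃ * x₄ = 1 := by
    calc x₀ * x₁ * x₂ * x₃ * x₄
        = (a₀ * P * (a₁ * P)) * (a₂ * P * (a₃ * P)) * (a₄ * P) := by
          rw [hx₀, hx₁, hx₂, hx₃, hx₄]; simp only [mul_assoc]
      _ = (a₀ * a₁) * (a₂ * a₃) * (a₄ * P) := by rw [cancel2, cancel2]
      _ = (a₀ * a₁ * a₂ * a₃ * a₄) * P := by simp only [mul_assoc]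
      _ = P * P := by rw [hP]
      _ = 1 := hP2
  have hx₄' : x₄ = (x₀ * x₁ * x₂ * x₃)⁻¹ := eq_inv_of_mul_eq_one_right hprod
  obtain ⟨c₁, hc₁⟩ : ∃ c₁, cm x₀ x₁ = c₁ := ⟨_, rfl⟩
  obtain ⟨c₂, hc₂⟩ : ∃ c₂, cm x₀ x₂ = c₂ := ⟨_, rfl⟩
  have z₁ : c₁ ∈ Z := by rw [← hc₁]; exact F2 _ t₀ _ t₁
  have z₂ : c₂ ∈ Z := by rw [← hc₂]; exact F2 _ t₀ _ t₂
  have c₁2 := c.Z2 c₁ z₁
  have c₂2 := c.Z2 c₂ z₂
  have i₁ : c₁⁻¹ = c₁ := inv_eq_of_mul_eq_one_left c₁2
  have i₂ : c₂⁻¹ = c₂ := inv_eq_of_mul_eq_one_left c₂2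
  have shift : ∀ x y : G, cm x y ∈ Z → cm (k x) (k y) = cm x y := by
    intro x y h
    rw [← cm_map, kZ _ h]
  have c₁₂ : cm x₁ x₂ = c₁ := by rw [← k₀, ← k₁, shift _ _ (by rw [hc₁]; exact z₁), hc₁]
  have c₂₃ : cm x₂ x₃ = c₁ := by rw [← k₁, ← k₂, shift _ _ (by rw [c₁₂]; exact z₁), c₁₂]
  have c₁₃ : cm x₁ x₃ = c₂ := by rw [← k₀, ← k₂, shift _ _ (by rw [hc₂]; exact z₂), hc₂]
  have c₂₀ : cm x₂ x₀ = c₂ := by rw [cm_symm x₀ x₂, hc₂, i₂]
  have c₃₁ : cm x₃ x₁ = c₂ := by rw [← k₂, ← k₀, shift _ _ (by rw [c₂₀]; exact z₂), c₂₀]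
  have c₄₂ : cm x₄ x₂ = c₂ := by rw [← k₃, ← k₁, shift _ _ (by rw [c₃₁]; exact z₂), c₃₁]
  have c₀₃ : cm x₀ x₃ = c₂ := by rw [← k₄, ← k₂, shift _ _ (by rw [c₄₂]; exact z₂), c₄₂]
  have c₁₀ : cm x₁ x₀ = c₁ := by rw [cm_symm x₀ x₁, hc₁, i₁]
  have c₂₁ : cm x₂ x₁ = c₁ := by rw [cm_symm x₁ x₂, c₁₂, i₁]
  have c₃₂ : cm x₃ x₂ = c₁ := by rw [cm_symm x₂ x₃, c₂₃, i₁]
  have c₃₀ : cm x₃ x₀ = c₂ := by rw [cm_symm x₀ x₃, c₀₃, i₂]
  obtain ⟨z, hz⟩ : ∃ z, x₀ * x₀ = z := ⟨_, rfl⟩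
  have zZ : z ∈ Z := by rw [← hz]; exact F3 x₀ t₀
  have sqk : ∀ x : G, x * x = z → k x * k x = z := by
    intro x h
    rw [← map_mul, h, kZ z zZ]
  have s₁ : x₁ * x₁ = z := by rw [← k₀]; exact sqk x₀ hz
  have s₂ : x₂ * x₂ = z := by rw [← k₁]; exact sqk x₁ s₁
  have s₃ : x₃ * x₃ = z := by rw [← k₂]; exact sqk x₂ s₂
  have s₄ : x₄ * x₄ = z := by rw [← k₃]; exact sqk x₃ s₃
  have z2 := c.Z2 z zZ
  have cen : ∀ w ∈ Z, w ∈ Subgroup.center G := fun w hw => c.Zc hw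
  have A2 : (x₀ * x₁) * (x₀ * x₁) = z * z * c₁ := by
    rw [sq_mul x₀ x₁ (by rw [c₁₀]; exact cen _ z₁), hz, s₁, c₁₀]
  have B2 : (x₀ * x₁ * x₂) * (x₀ * x₁ * x₂) = z * z * c₁ * z * (c₂ * c₁) := by
    have h1 : cm x₂ (x₀ * x₁) = c₂ * c₁ := by
      rw [cm_mul_right x₂ x₀ x₁ (by rw [c₂₀]; exact cen _ z₂), c₂₀, c₂₁]
    rw [sq_mul (x₀ * x₁) x₂ (by rw [h1]; exact cen _ (Z.mul_mem z₂ z₁)), A2, s₂, h1]
  have C2 : (x₀ * x₁ * x₂ * x₃) * (x₀ * x₁ * x₂ * x₃)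
      = z * z * c₁ * z * (c₂ * c₁) * z * (c₂ * c₂ * c₁) := by
    have h0 : cm x₃ (x₀ * x₁) = c₂ * c₂ := by
      rw [cm_mul_right x₃ x₀ x₁ (by rw [c₃₀]; exact cen _ z₂), c₃₀, c₃₁]
    have h1 : cm x₃ (x₀ * x₁ * x₂) = c₂ * c₂ * c₁ := by
      rw [cm_mul_right x₃ (x₀ * x₁) x₂ (by rw [h0]; exact cen _ (Z.mul_mem z₂ z₂)), h0, c₃₂]
    rw [sq_mul (x₀ * x₁ * x₂) x₃ (by rw [h1]; exact cen _ (Z.mul_mem (Z.mul_mem z₂ z₂) z₁)),
      B2, s₃, h1]
  have iz : z⁻¹ = z := inv_eq_of_mul_eq_one_left z2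
  have C2' : (x₀ * x₁ * x₂ * x₃) * (x₀ * x₁ * x₂ * x₃) = z := by
    have h1 : ((x₀ * x₁ * x₂ * x₃) * (x₀ * x₁ * x₂ * x₃))⁻¹ = z := by
      rw [mul_inv_rev, ← hx₄', s₄]
    rw [← iz, ← h1, inv_inv]
  have hrel : c₁ * z * (c₂ * c₁) * z * (c₂ * c₂ * c₁) = z := by
    have h := C2.symm.trans C2'
    rw [z2, one_mul] at h; exact h
  have hz12 : z = c₁ * c₂ := by
    have h := comm_calc (M := Subgroup.center G) ⟨z, cen z zZ⟩ ⟨c₁, cen c₁ z₁⟩ ⟨c₂, cen c₂ z₂⟩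
      (Subtype.ext z2) (Subtype.ext c₁2) (Subtype.ext c₂2) (Subtype.ext hrel)
    exact congrArg Subtype.val h
  have gen : Subgroup.closure ({q, x₀, x₁, x₂, x₃, c₁, c₂} : Set G) = ⊤ := by
    obtain ⟨K, hK⟩ : ∃ K, Subgroup.closure ({q, x₀, x₁, x₂, x₃, c₁, c₂} : Set G) = K := ⟨_, rfl⟩
    rw [hK]
    have kq : q ∈ K := by rw [← hK]; exact Subgroup.subset_closure (by simp)
    have kx₀ : x₀ ∈ K := by rw [← hK]; exact Subgroup.subset_closure (by simp)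
    have kx₁ : x₁ ∈ K := by rw [← hK]; exact Subgroup.subset_closure (by simp)
    have kx₂ : x₂ ∈ K := by rw [← hK]; exact Subgroup.subset_closure (by simp)
    have kx₃ : x₃ ∈ K := by rw [← hK]; exact Subgroup.subset_closure (by simp)
    obtain ⟨S', hS'⟩ : ∃ S' : Set G, S' = {x₀, x₁, x₂, x₃} ∪ (Z : Set G) := ⟨_, rfl⟩
    obtain ⟨H, hH⟩ : ∃ H, Subgroup.closure S' = H := ⟨_, rfl⟩
    have hx₀H : x₀ ∈ H := by rw [← hH]; exact Subgroup.subset_closure (by rw [hS']; simp)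
    have hx₁H : x₁ ∈ H := by rw [← hH]; exact Subgroup.subset_closure (by rw [hS']; simp)
    have hx₂H : x₂ ∈ H := by rw [← hH]; exact Subgroup.subset_closure (by rw [hS']; simp)
    have hx₃H : x₃ ∈ H := by rw [← hH]; exact Subgroup.subset_closure (by rw [hS']; simp)
    have hZH : Z ≤ H := by
      intro w hw
      rw [← hH]; exact Subgroup.subset_closure (by rw [hS']; exact Or.inr hw)
    have hHT : H ≤ T := by
      rw [← hH, Subgroup.closure_le, hS']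
      rintro w (hw | hw)
      · rcases hw with h | h | h | h
        · rw [h]; exact t₀
        · rw [h]; exact t₁
        · rw [h]; exact t₂
        · rw [h]; exact t₃
      · exact c.ZT hw
    have hkS : ∀ s ∈ S', k s ∈ Subgroup.closure S' := by
      intro s hs
      rw [hH]
      rw [hS'] at hs
      rcases hs with hs | hs
      · rcases hs with h | h | h | h
        · rw [h, k₀]; exact hx₁H
        · rw [h, k₁]; exact hx₂H
        · rw [h, k₂]; exact hx₃H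
        · rw [h, k₃, hx₄']
          exact H.inv_mem (H.mul_mem (H.mul_mem (H.mul_mem hx₀H hx₁H) hx₂H) hx₃H)
      · rw [kZ s hs]; exact hZH hs
    have hkH : ∀ w ∈ H, q * w * q⁻¹ ∈ H := by
      intro w hw
      have := closure_aut_inv k S' hkS w (by rw [hH]; exact hw)
      rw [hH, hka] at this
      exact this
    have hHeq : H = T := by
      rcases c.L6 H hZH hHT hkH with h | h
      · exfalso; apply hx₀Z; rw [← h]; exact hx₀H
      · exact h
    have hTK : T ≤ K ⊔ Z := by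
      rw [← hHeq, ← hH, Subgroup.closure_le, hS']
      rintro w (hw | hw)
      · rcases hw with h | h | h | h
        · rw [h]; exact (le_sup_left : K ≤ K ⊔ Z) kx₀
        · rw [h]; exact (le_sup_left : K ≤ K ⊔ Z) kx₁
        · rw [h]; exact (le_sup_left : K ≤ K ⊔ Z) kx₂
        · rw [h]; exact (le_sup_left : K ≤ K ⊔ Z) kx₃
      · exact (le_sup_right : Z ≤ K ⊔ Z) hw
    have hKZ : K ⊔ Z = ⊤ := by
      rw [eq_top_iff, ← c.sup]
      apply sup_le hTK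
      rw [Subgroup.zpowers_le]
      exact (le_sup_left : K ≤ K ⊔ Z) kq
    have hcK : commutator G ≤ K := by
      rw [commutator_def, Subgroup.commutator_le]
      intro g₁ _ g₂ _
      obtain ⟨b₁, hb₁, b₂, hb₂, e⟩ := comm_of_sup_central K Z c.Zc hKZ g₁ g₂
      rw [e, commutatorElement_def]
      exact K.mul_mem (K.mul_mem (K.mul_mem hb₁ hb₂) (K.inv_mem hb₁)) (K.inv_mem hb₂)
    rw [c.comm] at hcK
    rw [eq_top_iff, ← c.sup]
    apply sup_le hcK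
    rw [Subgroup.zpowers_le]
    exact kq
  refine ⟨x₀, x₁, x₂, x₃, c₁, c₂, ?_⟩
  exact
    { hc₁ := cen c₁ z₁
      hc₂ := cen c₂ z₂
      hc₁2 := c₁2
      hc₂2 := c₂2
      s₀ := by rw [hz, hz12]
      s₁ := by rw [s₁, hz12]
      s₂ := by rw [s₂, hz12]
      s₃ := by rw [s₃, hz12]
      c₀₁ := hc₁
      c₁₂ := c₁₂
      c₂₃ := c₂₃
      c₀₂ := hc₂
      c₁₃ := c₁₃
      c₀₃ := c₀₃
      q5 := c.q5
      a₀ := by rw [← hka, k₀]
      a₁ := by rw [← hka, k₁]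
      a₂ := by rw [← hka, k₂]
      a₃ := by rw [← hka, k₃, hx₄']
      gen := gen
      card := c.card }

end CtxFacts

/-- A group of order 320 whose derived subgroup has order 64 with Klein four centre has the
standard presentation data. -/
theorem exists_GD {G : Type u} [Group G] [Finite G] (hG : Nat.card G = 320)
    (hD : Nat.card (commutator G) = 64) (hZ : IsKleinFour (Subgroup.center (commutator G))) :
    ∃ q x₀ x₁ x₂ x₃ c₁ c₂ : G, GD G q x₀ x₁ x₂ x₃ c₁ c₂ := by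
  obtain ⟨Z, q, c⟩ := ctx_exists (commutator G) hG rfl hD hZ
  obtain ⟨x₀, x₁, x₂, x₃, c₁, c₂, h⟩ := c.exists_GD
  exact ⟨q, x₀, x₁, x₂, x₃, c₁, c₂, h⟩

end Cfsg.Agent.Lib.Helper45.G320
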