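import Mathlib
import Cfsg.Agent.Lib.Helper45.HermCenter
import Cfsg.Agent.Lib.Helper45.HermSigma
import Cfsg.Agent.Lib.Helper45.HermPlanes
import Cfsg.Agent.Lib.Helper45.U33L27

set_option autoImplicit false

namespace Cfsg.Agent.Lib.Helper45

open Matrix
open scoped commutatorElement

section Special64

variable {F : Type*} [Field F] [Fintype F]

theorem f16_charP (hF : Fintype.card F = 4 ^ 2) : CharP F 2 := by
  have h16 : ((Fintype.card F : ℕ) : F) = 0 := Nat.cast_card_eq_zero F
  rw [hF] at h16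
  have h4 : (4 : F) = 0 := by
    have : (4 : F) * 4 = 0 := by
      have e : ((4 ^ 2 : ℕ) : F) = 4 * 4 := by norm_num
      rw [← e]; exact h16
    exact mul_self_eq_zero.mp this
  have h2 : (2 : F) = 0 := by
    have : (2 : F) * 2 = 0 := by
      have e : (4 : F) = 2 * 2 := by norm_num
      rw [← e]; exact h4
    exact mul_self_eq_zero.mp this
  exact CharTwo.of_one_ne_zero_of_two_eq_zero one_ne_zero h2

/-- The structure of a group with the coordinates of the Sylow 2-subgroup of `SU₃(4)`. -/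
theorem special64_structure (hF : Fintype.card F = 4 ^ 2) {T : Type*} [Group T]
    (c : T → F × F) (hinj : Function.Injective c)
    (hmul : ∀ x y, c (x * y) = ((c x).1 + (c y).1, (c x).2 + (c y).2 + (c x).1 ^ 4 * (c y).1))
    (hrange : ∀ a b : F, (∃ x, c x = (a, b)) ↔ b + b ^ 4 = a ^ 5) :
    Nat.card T = 64 ∧ IsKleinFour (Subgroup.center T) ∧
    Subgroup.center T = Subgroup.closure {x : T | orderOf x = 2} ∧
    Subgroup.center T = commutator T ∧
    Nat.card (T ⧸ Subgroup.center T) = 16 ∧ ∀ x : T ⧸ Subgroup.center T, x ^ 2 = 1 := by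
  classical
  have hch : CharP F 2 := f16_charP hF
  have h2 : ∀ x : F, x + x = 0 := fun x => CharTwo.add_self_eq_zero x
  have h16 : ∀ x : F, x ^ 16 = x := by
    intro x
    have h := FiniteField.pow_card x
    rw [hF] at h
    exact h
  have hfin : Finite T := Finite.of_injective c hinj
  have hfst : ∀ x y, (c (x * y)).1 = (c x).1 + (c y).1 := fun x y => by rw [hmul]
  have hsnd : ∀ x y, (c (x * y)).2 = (c x).2 + (c y).2 + (c x).1 ^ 4 * (c y).1 :=
    fun x y => by rw [hmul]
  have hc1a : (c 1).1 = 0 := by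
    have h := hfst 1 1
    rw [mul_one, h2] at h
    exact h
  have hc1b : (c 1).2 = 0 := by
    have h := hsnd 1 1
    rw [mul_one, hc1a, h2] at h
    rw [h]; ring
  have hcond : ∀ x, (c x).2 + (c x).2 ^ 4 = (c x).1 ^ 5 := fun x => (hrange _ _).1 ⟨x, rfl⟩
  have hext : ∀ x y, (c x).1 = (c y).1 → (c x).2 = (c y).2 → x = y :=
    fun x y h1 h2 => hinj (Prod.ext h1 h2)
  -- trace fibres
  have htr : ∀ a₀ : F, a₀ ^ 4 = a₀ → Nat.card {b : F // b + b ^ 4 = a₀} = 4 := by
    intro a₀ ha₀
    have h := card_trace_fiber hF (1 : F) a₀ one_ne_zero ha₀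
    rw [Nat.card_eq_fintype_card, Fintype.card_subtype, ← h]
    congr 1
    apply Finset.filter_congr
    intro b _
    constructor <;> intro hb <;> grind
  have hnorm : ∀ a : F, (a ^ 5) ^ 4 = a ^ 5 := by
    intro a
    have h := h16 a
    calc (a ^ 5) ^ 4 = a ^ 16 * a ^ 4 := by ring
      _ = a ^ 5 := by rw [h]; ring
  have hfib : ∀ a : F, Nat.card {x : T // (c x).1 = a} = 4 := by
    intro a
    rw [← htr (a ^ 5) (hnorm a)]
    apply Nat.card_congr
    refine Equiv.ofBijective
      (fun x => (⟨(c x.1).2, by have h := hcond x.1; rw [x.2] at h; exact h⟩ :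
        {b : F // b + b ^ 4 = a ^ 5})) ⟨?_, ?_⟩
    · intro x y hxy
      have h := congrArg Subtype.val hxy
      exact Subtype.ext (hext _ _ (x.2.trans y.2.symm) h)
    · rintro ⟨b, hb⟩
      obtain ⟨x, hx⟩ := (hrange a b).2 hb
      exact ⟨⟨x, by rw [hx]⟩, Subtype.ext (by show (c x).2 = b; rw [hx])⟩
  have hT : Nat.card T = 64 := by
    have h := card_eq_mul_of_fibers (fun x : T => (c x).1) 4 hfib
    rw [h, Nat.card_eq_fintype_card, hF]; norm_num
  have hsurj : ∀ a : F, ∃ x, (c x).1 = a := by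
    intro a
    have h := hfib a
    have hne : Nonempty {x : T // (c x).1 = a} := by
      by_contra hne
      rw [not_nonempty_iff] at hne
      rw [Nat.card_of_isEmpty] at h
      omega
    obtain ⟨x, hx⟩ := hne
    exact ⟨x, hx⟩
  have hnotfixed : ∃ a' : F, a' ^ 4 ≠ a' := by
    by_contra hall
    have hall' : ∀ b : F, b + b ^ 4 = 0 := by
      intro b
      have hb : b ^ 4 = b := by
        by_contra hb
        exact hall ⟨b, hb⟩
      rw [hb]; exact h2 b
    have h := htr 0 (by ring)
    rw [Nat.card_congr (Equiv.subtypeUnivEquiv hall'), Nat.card_eq_fintype_card, hF] at h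
    omega
  -- the centre
  have hZ : ∀ x : T, x ∈ Subgroup.center T ↔ (c x).1 = 0 := by
    intro x
    rw [Subgroup.mem_center_iff]
    constructor
    · intro hx
      have key : ∀ a' : F, a' ^ 4 * (c x).1 = (c x).1 ^ 4 * a' := by
        intro a'
        obtain ⟨y, hy⟩ := hsurj a'
        have h1 := hsnd y x
        have h2' := hsnd x y
        rw [hx y] at h1
        rw [h1, hy] at h2'
        linear_combination h2'
      have k1 := key 1
      obtain ⟨a', ha'⟩ := hnotfixed
      have k2 := key a'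
      have e : (c x).1 ^ 4 = (c x).1 := by
        rw [one_pow, one_mul, mul_one] at k1
        exact k1.symm
      have h0 : (a' ^ 4 - a') * (c x).1 = 0 := by
        rw [e] at k2
        linear_combination k2
      rcases mul_eq_zero.mp h0 with h | h
      · exact absurd (sub_eq_zero.mp h) ha'
      · exact h
    · intro hx y
      apply hext
      · rw [hfst, hfst, add_comm]
      · rw [hsnd, hsnd, hx]; ring
  have hZcard : Nat.card (Subgroup.center T) = 4 := by
    rw [← hfib 0]
    exact Nat.card_congr (Equiv.subtypeEquivRight (fun x => hZ x))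
  have hsq : ∀ x : T, (c (x * x)).1 = 0 := fun x => by rw [hfst, h2]
  have hsq2 : ∀ x : T, (c (x * x)).2 = (c x).1 ^ 5 := fun x => by rw [hsnd, h2, zero_add]; ring
  have hone : ∀ x : T, (c x).1 = 0 → (c x).2 = 0 → x = 1 :=
    fun x h1 h2 => hext x 1 (h1.trans hc1a.symm) (h2.trans hc1b.symm)
  have hZsq : ∀ x : T, (c x).1 = 0 → x * x = 1 := by
    intro x hx
    apply hone
    · exact hsq x
    · rw [hsq2, hx]; ring
  have hklein : IsKleinFour (Subgroup.center T) := by
    refine ⟨hZcard, ?_⟩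
    have hdvd : Monoid.exponent (Subgroup.center T) ∣ 2 := by
      apply Monoid.exponent_dvd_of_forall_pow_eq_one
      intro z
      apply Subtype.ext
      rw [pow_two]
      exact hZsq z.1 ((hZ z.1).1 z.2)
    have hne1 : Monoid.exponent (Subgroup.center T) ≠ 1 := by
      intro h1
      rw [Monoid.exp_eq_one_iff] at h1
      have := Finite.card_le_one_iff_subsingleton.mpr h1
      omega
    rcases (Nat.dvd_prime Nat.prime_two).mp hdvd with h | h
    · exact absurd h hne1
    · exact h
  have h3 : Subgroup.center T = Subgroup.closure {x : T | orderOf x = 2} := by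
    have hp : Fact (Nat.Prime 2) := ⟨Nat.prime_two⟩
    apply le_antisymm
    · intro z hz
      by_cases hz1 : z = 1
      · rw [hz1]; exact one_mem _
      · apply Subgroup.subset_closure
        exact orderOf_eq_prime (by rw [pow_two]; exact hZsq z ((hZ z).1 hz)) hz1
    · rw [Subgroup.closure_le]
      intro x hx
      have hx' : orderOf x = 2 := hx
      have hx2 : x * x = 1 := by rw [← pow_two, ← hx']; exact pow_orderOf_eq_one x
      rw [SetLike.mem_coe, hZ]
      have h5 := hsq2 x
      rw [hx2, hc1b] at h5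
      exact (pow_eq_zero_iff (by norm_num)).mp h5.symm
  have hcomm_fst : ∀ x y : T, (c ⁅x, y⁆).1 = 0 := by
    intro x y
    have hwyx : ⁅x, y⁆ * (y * x) = x * y := by rw [commutatorElement_def]; group
    have h := hfst ⁅x, y⁆ (y * x)
    rw [hwyx, hfst, hfst] at h
    linear_combination (-1 : F) * h
  have h4 : Subgroup.center T = commutator T := by
    apply le_antisymm
    · intro z hz
      have hza := (hZ z).1 hz
      have hzb : (c z).2 ^ 4 = (c z).2 := by
        have h := hcond z
        rw [hza] at h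
        grind
      have hne : Nonempty {a' : F // a' + a' ^ 4 = (c z).2} := by
        by_contra hne
        rw [not_nonempty_iff] at hne
        have h := htr (c z).2 hzb
        rw [Nat.card_of_isEmpty] at h
        omega
      obtain ⟨a', ha'⟩ := hne
      obtain ⟨x, hx⟩ := hsurj 1
      obtain ⟨y, hy⟩ := hsurj a'
      have hw : ⁅x, y⁆ = z := by
        have hwyx : ⁅x, y⁆ * (y * x) = x * y := by rw [commutatorElement_def]; group
        have hwa := hcomm_fst x y
        apply hext
        · rw [hwa, hza]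
        · have h := hsnd ⁅x, y⁆ (y * x)
          rw [hwyx, hsnd x y, hsnd y x, hwa, hx, hy] at h
          have h2F : (2 : F) = 0 := CharTwo.two_eq_zero
          linear_combination (-1 : F) * h + ha' - a' ^ 4 * h2F
      rw [← hw]
      exact Subgroup.commutator_mem_commutator (Subgroup.mem_top x) (Subgroup.mem_top y)
    · rw [commutator_def, Subgroup.commutator_le]
      intro x _ y _
      rw [hZ]
      exact hcomm_fst x y
  have h5 : Nat.card (T ⧸ Subgroup.center T) = 16 := by
    have h := Subgroup.card_eq_card_quotient_mul_card_subgroup (Subgroup.center T)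
    rw [hT, hZcard] at h
    omega
  have h6 : ∀ x : T ⧸ Subgroup.center T, x ^ 2 = 1 := by
    intro x
    obtain ⟨t, rfl⟩ := QuotientGroup.mk_surjective x
    rw [← QuotientGroup.mk_pow, QuotientGroup.eq_one_iff, pow_two, hZ]
    exact hsq t
  exact ⟨hT, hklein, h3, h4, h5, h6⟩

end Special64

section Unipotent

variable {F : Type*} [Field F]

/-- The unipotent elements fixing the isotropic vector `(1, 1, 0)`. -/
def mU (a b : F) : Matrix (Fin 3) (Fin 3) F := !![1 + b, b, a ^ 4; b, 1 + b, a ^ 4; a, a, 1]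

theorem mU_det [CharP F 2] (a b : F) : (mU a b).det = 1 := by
  rw [Matrix.det_fin_three]
  simp [mU]
  grind

theorem mU_gram [CharP F 2] (a b : F) (ha : a ^ 16 = a) (h : b + b ^ 4 = a ^ 5) :
    (mU a b)ᵀ * (mU a b).map (fun x => x ^ 4) = 1 := by
  ext i j
  fin_cases i <;> fin_cases j <;> simp [mU, Matrix.mul_apply, Fin.sum_univ_three] <;> grind

theorem mU_mul [CharP F 2] (a b a' b' : F) :
    mU a b * mU a' b' = mU (a + a') (b + b' + a ^ 4 * a') := by
  ext i j
  fin_cases i <;> fin_cases j <;> simp [mU, Matrix.mul_apply, Fin.sum_univ_three] <;> grind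

theorem mU_zero : mU (0 : F) 0 = 1 := by
  ext i j
  fin_cases i <;> fin_cases j <;> simp [mU]

theorem mU_fst (a b : F) : mU a b 2 0 = a := by simp [mU]

theorem mU_snd (a b : F) : mU a b 0 1 = b := by simp [mU]

variable [Fintype F]

/-- The unipotent subgroup of `SU₃(4)`. -/
def unipU (hF : Fintype.card F = 4 ^ 2) : Subgroup ↥(Cfsg.SU 3 F 4) where
  carrier := {g | ∃ a b : F, b + b ^ 4 = a ^ 5 ∧ (g.1.1 : Matrix (Fin 3) (Fin 3) F) = mU a b}
  mul_mem' := by
    rintro g g' ⟨a, b, hab, hg⟩ ⟨a', b', hab', hg'⟩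
    have hch : CharP F 2 := f16_charP hF
    have h16 : ∀ x : F, x ^ 16 = x := by
      intro x
      have h := FiniteField.pow_card x
      rw [hF] at h
      exact h
    refine ⟨a + a', b + b' + a ^ 4 * a', ?_, ?_⟩
    · have h1 := h16 a
      grind
    · show (g.1.1 : Matrix (Fin 3) (Fin 3) F) * g'.1.1 = _
      rw [hg, hg', mU_mul]
  one_mem' := ⟨0, 0, by ring, mU_zero.symm⟩
  inv_mem' := by
    rintro g ⟨a, b, hab, hg⟩
    have hch : CharP F 2 := f16_charP hF
    have h16 : ∀ x : F, x ^ 16 = x := by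
      intro x
      have h := FiniteField.pow_card x
      rw [hF] at h
      exact h
    have hab' : b ^ 4 + (b ^ 4) ^ 4 = a ^ 5 := by
      have h1 := h16 b
      grind
    let g' : ↥(Cfsg.SU 3 F 4) := mkSU hF (mU a (b ^ 4)) (mU_det a (b ^ 4))
      (mU_gram a (b ^ 4) (h16 a) hab')
    have hgg' : g * g' = 1 := by
      apply su_ext
      show (g.1.1 : Matrix (Fin 3) (Fin 3) F) * mU a (b ^ 4) = 1
      rw [hg, mU_mul, ← mU_zero]
      congr 1
      · exact CharTwo.add_self_eq_zero a
      · grind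
    rw [inv_eq_of_mul_eq_one_right hgg']
    exact ⟨a, b ^ 4, hab', rfl⟩

/-- Coordinates on the unipotent subgroup. -/
def unipCoord (hF : Fintype.card F = 4 ^ 2) (g : ↥(unipU hF)) : F × F :=
  ((g.1.1.1 : Matrix (Fin 3) (Fin 3) F) 2 0, (g.1.1.1 : Matrix (Fin 3) (Fin 3) F) 0 1)

theorem unipCoord_spec (hF : Fintype.card F = 4 ^ 2) (g : ↥(unipU hF)) :
    (unipCoord hF g).2 + (unipCoord hF g).2 ^ 4 = (unipCoord hF g).1 ^ 5 ∧
      (g.1.1.1 : Matrix (Fin 3) (Fin 3) F) = mU (unipCoord hF g).1 (unipCoord hF g).2 := by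
  obtain ⟨a, b, hab, hg⟩ := g.2
  have h1 : (unipCoord hF g).1 = a := by
    show (g.1.1.1 : Matrix (Fin 3) (Fin 3) F) 2 0 = a
    rw [hg, mU_fst]
  have h2 : (unipCoord hF g).2 = b := by
    show (g.1.1.1 : Matrix (Fin 3) (Fin 3) F) 0 1 = b
    rw [hg, mU_snd]
  rw [h1, h2]
  exact ⟨hab, hg⟩

theorem unipCoord_injective (hF : Fintype.card F = 4 ^ 2) :
    Function.Injective (unipCoord hF) := by
  intro g g' h
  apply Subtype.ext
  apply su_ext
  rw [(unipCoord_spec hF g).2, (unipCoord_spec hF g').2, h]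

theorem unipCoord_mul (hF : Fintype.card F = 4 ^ 2) (g g' : ↥(unipU hF)) :
    unipCoord hF (g * g') = ((unipCoord hF g).1 + (unipCoord hF g').1,
      (unipCoord hF g).2 + (unipCoord hF g').2 + (unipCoord hF g).1 ^ 4 * (unipCoord hF g').1) := by
  have hch : CharP F 2 := f16_charP hF
  have hm : ((g * g').1.1.1 : Matrix (Fin 3) (Fin 3) F) =
      mU ((unipCoord hF g).1 + (unipCoord hF g').1)
        ((unipCoord hF g).2 + (unipCoord hF g').2 + (unipCoord hF g).1 ^ 4 * (unipCoord hF g').1) := by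
    show (g.1.1.1 : Matrix (Fin 3) (Fin 3) F) * g'.1.1.1 = _
    rw [(unipCoord_spec hF g).2, (unipCoord_spec hF g').2, mU_mul]
  apply Prod.ext
  · show ((g * g').1.1.1 : Matrix (Fin 3) (Fin 3) F) 2 0 = _
    rw [hm, mU_fst]
  · show ((g * g').1.1.1 : Matrix (Fin 3) (Fin 3) F) 0 1 = _
    rw [hm, mU_snd]

theorem unipCoord_range (hF : Fintype.card F = 4 ^ 2) (a b : F) :
    (∃ g, unipCoord hF g = (a, b)) ↔ b + b ^ 4 = a ^ 5 := by
  have hch : CharP F 2 := f16_charP hF
  constructor
  · rintro ⟨g, hg⟩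
    have h := (unipCoord_spec hF g).1
    rw [hg] at h
    exact h
  · intro hab
    have h16 : a ^ 16 = a := by
      have h := FiniteField.pow_card a
      rw [hF] at h
      exact h
    refine ⟨⟨mkSU hF (mU a b) (mU_det a b) (mU_gram a b h16 hab), ⟨a, b, hab, rfl⟩⟩, ?_⟩
    apply Prod.ext
    · show mU a b 2 0 = a
      exact mU_fst a b
    · show mU a b 0 1 = b
      exact mU_snd a b

/-- The structure of the Sylow 2-subgroups of `PSU₃(4)`. -/
theorem psu34_sylow_structure (hF : Fintype.card F = 4 ^ 2) (S : Sylow 2 (Cfsg.PSU 3 F 4)) :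
    Nat.card S = 64 ∧ IsKleinFour (Subgroup.center (S : Subgroup (Cfsg.PSU 3 F 4))) ∧
    Subgroup.center (S : Subgroup (Cfsg.PSU 3 F 4)) =
      Subgroup.closure {x : (S : Subgroup (Cfsg.PSU 3 F 4)) | orderOf x = 2} ∧
    Subgroup.center (S : Subgroup (Cfsg.PSU 3 F 4)) = commutator (S : Subgroup (Cfsg.PSU 3 F 4)) ∧
    Nat.card ((S : Subgroup (Cfsg.PSU 3 F 4)) ⧸ Subgroup.center (S : Subgroup (Cfsg.PSU 3 F 4))) = 16 ∧
    ∀ x : (S : Subgroup (Cfsg.PSU 3 F 4)) ⧸ Subgroup.center (S : Subgroup (Cfsg.PSU 3 F 4)),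
      x ^ 2 = 1 := by
  classical
  have hp : Fact (Nat.Prime 2) := ⟨Nat.prime_two⟩
  -- orders
  have hcen : Nat.card (Subgroup.center (Cfsg.SU 3 F 4)) = 1 := by
    rw [card_center_SU hF 3 (by norm_num)]
    norm_num
  have hcenbot : Subgroup.center (Cfsg.SU 3 F 4) = ⊥ := Subgroup.card_eq_one.mp hcen
  have hSU : Nat.card (Cfsg.SU 3 F 4) = 62400 := by
    have h5 : 5 * Nat.card (Cfsg.SU 3 F 4) = 312000 := by
      have h := card_SU hF 3 (by norm_num)
      rw [h]
      simp [Finset.prod_range_succ]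
    omega
  have hPSU : Nat.card (Cfsg.PSU 3 F 4) = 62400 := by
    have h := Subgroup.card_eq_card_quotient_mul_card_subgroup (Subgroup.center (Cfsg.SU 3 F 4))
    rw [hcen, hSU, mul_one] at h
    exact h.symm
  have hfinP : Finite (Cfsg.PSU 3 F 4) := Nat.finite_of_card_ne_zero (by rw [hPSU]; norm_num)
  let π : ↥(Cfsg.SU 3 F 4) →* Cfsg.PSU 3 F 4 :=
    QuotientGroup.mk' (Subgroup.center (↥(Cfsg.SU 3 F 4)))
  have hπinj : Function.Injective π := by
    rw [← MonoidHom.ker_eq_bot_iff, QuotientGroup.ker_mk']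
    exact hcenbot
  -- the unipotent group has 64 elements
  have hU := special64_structure hF (unipCoord hF) (unipCoord_injective hF) (unipCoord_mul hF)
    (unipCoord_range hF)
  have hU64 : Nat.card ↥(unipU hF) = 64 := hU.1
  have hS0 : Nat.card ↥((unipU hF).map π) = 64 := by
    rw [Subgroup.card_map_of_injective hπinj, hU64]
  have hS0p : IsPGroup 2 ↥((unipU hF).map π) := IsPGroup.of_card (n := 6) (by rw [hS0]; norm_num)
  obtain ⟨Q, hQ⟩ := hS0p.exists_le_sylow
  obtain ⟨m, hm⟩ := IsPGroup.exists_card_eq Q.isPGroup'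
  have hQdvd : Nat.card ↥(Q : Subgroup (Cfsg.PSU 3 F 4)) ∣ 62400 :=
    hPSU ▸ Subgroup.card_subgroup_dvd_card (Q : Subgroup (Cfsg.PSU 3 F 4))
  have hQle : Nat.card ↥(Q : Subgroup (Cfsg.PSU 3 F 4)) ≤ 64 := by
    rw [hm] at hQdvd ⊢
    have hm7 : m < 7 := by
      by_contra h7
      have h128 : 2 ^ 7 ∣ 62400 := (pow_dvd_pow 2 (not_lt.mp h7)).trans hQdvd
      norm_num at h128
    exact Nat.pow_le_pow_right (by norm_num) (by omega : m ≤ 6)
  have hQeq : (unipU hF).map π = (Q : Subgroup (Cfsg.PSU 3 F 4)) :=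
    Subgroup.eq_of_le_of_card_ge hQ (by rw [hS0]; exact hQle)
  -- the isomorphism of `S` with the unipotent group
  let ψ : ↥(S : Subgroup (Cfsg.PSU 3 F 4)) ≃* ↥(unipU hF) :=
    ((Sylow.equiv S Q).trans (MulEquiv.subgroupCongr hQeq.symm)).trans
      ((unipU hF).equivMapOfInjective π hπinj).symm
  have key := special64_structure hF (T := ↥(S : Subgroup (Cfsg.PSU 3 F 4)))
    (fun x => unipCoord hF (ψ x))
    ((unipCoord_injective hF).comp ψ.injective)
    (fun x y => by
      show unipCoord hF (ψ (x * y)) = _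
      rw [map_mul, unipCoord_mul])
    (fun a b => by
      rw [← unipCoord_range hF a b]
      constructor
      · rintro ⟨x, hx⟩
        exact ⟨ψ x, hx⟩
      · rintro ⟨g, hg⟩
        exact ⟨ψ.symm g, by show unipCoord hF (ψ (ψ.symm g)) = _; rw [ψ.apply_symm_apply, hg]⟩)
  exact key

end Unipotent

end Cfsg.Agent.Lib.Helper45
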