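import Mathlib
import Cfsg.Agent.Lib.Helper45.SU34Sylow
import Cfsg.Agent.Lib.Helper45.G320Abs

set_option autoImplicit false

namespace Cfsg.Agent.Lib.Helper45.G320

open Matrix
open scoped commutatorElement
open Cfsg.Agent.Lib.Helper45

section Mats

variable {F : Type*} [Field F]

/-- The involution. -/
def tauM : Matrix (Fin 3) (Fin 3) F := !![0, 1, 0; 1, 0, 0; 0, 0, 1]

/-- The diagonal elements. -/
def dM (l : F) : Matrix (Fin 3) (Fin 3) F := !![l, 0, 0; 0, l, 0; 0, 0, l ^ 3]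

theorem tauM_det [CharP F 2] : (tauM : Matrix (Fin 3) (Fin 3) F).det = 1 := by
  rw [Matrix.det_fin_three]
  simp [tauM]
  exact CharTwo.neg_eq 1

theorem tauM_gram :
    (tauM : Matrix (Fin 3) (Fin 3) F)ᵀ * (tauM : Matrix (Fin 3) (Fin 3) F).map (fun x => x ^ 4)
      = 1 := by
  ext i j
  fin_cases i <;> fin_cases j <;> simp [tauM, Matrix.mul_apply, Fin.sum_univ_three]

theorem tauM_mul_self : (tauM : Matrix (Fin 3) (Fin 3) F) * tauM = 1 := by
  ext i j
  fin_cases i <;> fin_cases j <;> simp [tauM, Matrix.mul_apply, Fin.sum_univ_three]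

theorem tauM_ne_one : (tauM : Matrix (Fin 3) (Fin 3) F) ≠ 1 := by
  intro h
  have := congrFun (congrFun h 0) 0
  simp [tauM] at this

theorem tauM_mU (a b : F) : tauM * mU a b = mU a b * tauM := by
  ext i j
  fin_cases i <;> fin_cases j <;> simp [mU, tauM, Matrix.mul_apply, Fin.sum_univ_three]

theorem dM_det (l : F) (hl : l ^ 5 = 1) : (dM l).det = 1 := by
  rw [Matrix.det_fin_three]
  simp [dM]
  linear_combination hl

theorem dM_gram (l : F) (hl : l ^ 5 = 1) : (dM l)ᵀ * (dM l).map (fun x => x ^ 4) = 1 := by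
  ext i j
  fin_cases i <;> fin_cases j <;> simp [dM, Matrix.mul_apply, Fin.sum_univ_three]
  · linear_combination hl
  · linear_combination hl
  · linear_combination (l ^ 10 + l ^ 5 + 1) * hl

theorem tauM_dM (l : F) : tauM * dM l = dM l * tauM := by
  ext i j
  fin_cases i <;> fin_cases j <;> simp [dM, tauM, Matrix.mul_apply, Fin.sum_univ_three]

theorem cent_entries (M : Matrix (Fin 3) (Fin 3) F) (h : tauM * M = M * tauM) :
    M 1 0 = M 0 1 ∧ M 1 1 = M 0 0 ∧ M 1 2 = M 0 2 ∧ M 2 1 = M 2 0 := by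
  have h00 := congrFun (congrFun h 0) 0
  have h01 := congrFun (congrFun h 0) 1
  have h02 := congrFun (congrFun h 0) 2
  have h20 := congrFun (congrFun h 2) 0
  simp [tauM, Matrix.mul_apply, Fin.sum_univ_three] at h00 h01 h02 h20
  exact ⟨h00, h01, h02, h20.symm⟩

theorem gram_entries (M : Matrix (Fin 3) (Fin 3) F) (h : Mᵀ * M.map (fun x => x ^ 4) = 1) :
    M 0 0 * M 0 0 ^ 4 + M 1 0 * M 1 0 ^ 4 + M 2 0 * M 2 0 ^ 4 = 1 ∧
    M 0 0 * M 0 1 ^ 4 + M 1 0 * M 1 1 ^ 4 + M 2 0 * M 2 1 ^ 4 = 0 ∧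
    M 0 0 * M 0 2 ^ 4 + M 1 0 * M 1 2 ^ 4 + M 2 0 * M 2 2 ^ 4 = 0 := by
  have h00 := congrFun (congrFun h 0) 0
  have h01 := congrFun (congrFun h 0) 1
  have h02 := congrFun (congrFun h 0) 2
  simp [Matrix.mul_apply, Fin.sum_univ_three] at h00 h01 h02
  exact ⟨h00, h01, h02⟩

theorem shape_lam [CharP F 2] (M : Matrix (Fin 3) (Fin 3) F) (hc : tauM * M = M * tauM)
    (hg : Mᵀ * M.map (fun x => x ^ 4) = 1) : (M 0 0 + M 0 1) ^ 5 = 1 := by
  obtain ⟨c10, c11, c12, c21⟩ := cent_entries M hc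
  obtain ⟨E1, E2, E3⟩ := gram_entries M hg
  rw [c10, c11, c21] at E2
  rw [c10] at E1
  have h2 : (2 : F) = 0 := CharTwo.two_eq_zero
  linear_combination E1 + E2 + (2 * M 0 0 ^ 4 * M 0 1 + 5 * M 0 0 ^ 3 * M 0 1 ^ 2
    + 5 * M 0 0 ^ 2 * M 0 1 ^ 3 + 2 * M 0 0 * M 0 1 ^ 4 - M 2 0 ^ 5) * h2

theorem shape_unip [CharP F 2] (h16 : ∀ x : F, x ^ 16 = x) (M : Matrix (Fin 3) (Fin 3) F)
    (hc : tauM * M = M * tauM) (hg : Mᵀ * M.map (fun x => x ^ 4) = 1) (hdet : M.det = 1)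
    (hl : M 0 0 + M 0 1 = 1) : ∃ a b : F, b + b ^ 4 = a ^ 5 ∧ M = mU a b := by
  obtain ⟨c10, c11, c12, c21⟩ := cent_entries M hc
  obtain ⟨E1, E2, E3⟩ := gram_entries M hg
  rw [Matrix.det_fin_three] at hdet
  rw [c10, c11, c12, c21] at hdet
  rw [c10, c11, c21] at E2
  rw [c10, c12] at E3
  have h2 : (2 : F) = 0 := CharTwo.two_eq_zero
  obtain ⟨a, ha⟩ : ∃ a, M 2 0 = a := ⟨_, rfl⟩
  obtain ⟨b, hb⟩ : ∃ b, M 0 1 = b := ⟨_, rfl⟩
  obtain ⟨c, hcc⟩ : ∃ c, M 0 2 = c := ⟨_, rfl⟩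
  obtain ⟨d, hd⟩ : ∃ d, M 2 2 = d := ⟨_, rfl⟩
  obtain ⟨p, hp⟩ : ∃ p, M 0 0 = p := ⟨_, rfl⟩
  rw [ha, hb, hcc, hd, hp] at hdet
  rw [ha, hb, hp] at E2
  rw [ha, hb, hcc, hd, hp] at E3
  rw [hb, hp] at hl
  have e00 : p = 1 + b := by linear_combination hl - b * h2
  rw [e00] at hdet E2 E3
  have e22 : d = 1 := by linear_combination hdet - (b * d - c * a) * h2
  rw [e22] at E3
  have ec : c ^ 4 = a := by linear_combination E3 - (b * c ^ 4 + a) * h2
  have e02 : c = a ^ 4 := by rw [← ec, ← pow_mul]; exact (h16 c).symm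
  have hab : b + b ^ 4 = a ^ 5 := by
    linear_combination E2 - (2 * b ^ 4 + b ^ 5 + 2 * b ^ 2 + 3 * b ^ 3 + a ^ 5) * h2
  refine ⟨a, b, hab, ?_⟩
  rw [Matrix.eta_fin_three M, c10, c11, c12, c21, ha, hb, hcc, hd, hp, e00, e22, e02]
  rfl

theorem lam_mul [CharP F 2] (M N : Matrix (Fin 3) (Fin 3) F) (hc : tauM * N = N * tauM) :
    (M * N) 0 0 + (M * N) 0 1 = (M 0 0 + M 0 1) * (N 0 0 + N 0 1) := by
  obtain ⟨c10, c11, c12, c21⟩ := cent_entries N hc
  simp only [Matrix.mul_apply, Fin.sum_univ_three]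
  rw [c10, c11, c21]
  have h2 : (2 : F) = 0 := CharTwo.two_eq_zero
  linear_combination (M 0 2 * N 2 0) * h2

theorem mU_dM_entry (a' b' a₀ b₀ l : F) :
    (mU a' b' * (mU a₀ b₀ * dM l)) 2 0 = a' * ((1 + b₀) * l) + a' * (b₀ * l) + a₀ * l ∧
      (dM l * mU a₀ b₀) 2 0 = l ^ 3 * a₀ := by
  constructor <;> simp [mU, dM, Matrix.mul_apply, Fin.sum_univ_three]

end Mats

section Grp

variable {F : Type*} [Field F] [Fintype F]

/-- The involution `τ` of `SU₃(4)`. -/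
def tau (hF : Fintype.card F = 4 ^ 2) : ↥(Cfsg.SU 3 F 4) :=
  mkSU hF tauM (@tauM_det F _ (f16_charP hF)) tauM_gram

/-- The diagonal elements of `SU₃(4)`. -/
def dL (hF : Fintype.card F = 4 ^ 2) (l : F) (hl : l ^ 5 = 1) : ↥(Cfsg.SU 3 F 4) :=
  mkSU hF (dM l) (dM_det l hl) (dM_gram l hl)

theorem dL_congr (hF : Fintype.card F = 4 ^ 2) (l l' : F) (hl : l ^ 5 = 1) (hl' : l' ^ 5 = 1)
    (h : l = l') : dL hF l hl = dL hF l' hl' := by
  subst h
  rfl

theorem mem_cent_iff (hF : Fintype.card F = 4 ^ 2) (g : ↥(Cfsg.SU 3 F 4)) :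
    g ∈ Subgroup.centralizer {tau hF} ↔
      tauM * (g.1.1 : Matrix (Fin 3) (Fin 3) F) = g.1.1 * tauM := by
  rw [Subgroup.mem_centralizer_iff]
  constructor
  · intro h
    have := h (tau hF) (Set.mem_singleton _)
    exact congrArg (fun x : ↥(Cfsg.SU 3 F 4) => (x.1.1 : Matrix (Fin 3) (Fin 3) F)) this
  · intro h x hx
    rw [Set.mem_singleton_iff] at hx
    rw [hx]
    exact su_ext h

theorem unip_le_cent (hF : Fintype.card F = 4 ^ 2) :
    unipU hF ≤ Subgroup.centralizer {tau hF} := by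
  rintro g ⟨a, b, hab, hg⟩
  rw [mem_cent_iff, hg]
  exact tauM_mU a b

theorem dL_mem_cent (hF : Fintype.card F = 4 ^ 2) (l : F) (hl : l ^ 5 = 1) :
    dL hF l hl ∈ Subgroup.centralizer {tau hF} := by
  rw [mem_cent_iff]
  exact tauM_dM l

/-- The eigenvalue on `(1, 1, 0)`. -/
def lam (g : ↥(Cfsg.SU 3 F 4)) : F :=
  (g.1.1 : Matrix (Fin 3) (Fin 3) F) 0 0 + (g.1.1 : Matrix (Fin 3) (Fin 3) F) 0 1

theorem lam_mul' (hF : Fintype.card F = 4 ^ 2) (g h : ↥(Cfsg.SU 3 F 4))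
    (hh : h ∈ Subgroup.centralizer {tau hF}) : lam (g * h) = lam g * lam h := by
  haveI := f16_charP hF
  exact lam_mul g.1.1 h.1.1 ((mem_cent_iff hF h).mp hh)

omit [Fintype F] in
theorem lam_one : lam (1 : ↥(Cfsg.SU 3 F 4)) = 1 := by
  show (1 : Matrix (Fin 3) (Fin 3) F) 0 0 + (1 : Matrix (Fin 3) (Fin 3) F) 0 1 = 1
  simp

theorem lam_dL (hF : Fintype.card F = 4 ^ 2) (l : F) (hl : l ^ 5 = 1) : lam (dL hF l hl) = l := by
  show (dM l) 0 0 + (dM l) 0 1 = l
  simp [dM]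

theorem lam_pow5 (hF : Fintype.card F = 4 ^ 2) (g : ↥(Cfsg.SU 3 F 4))
    (hg : g ∈ Subgroup.centralizer {tau hF}) : lam g ^ 5 = 1 := by
  haveI := f16_charP hF
  exact shape_lam g.1.1 ((mem_cent_iff hF g).mp hg) ((isHermIso_iff_gram hF g.1.1).1 g.2)

theorem mem_unip_of_lam (hF : Fintype.card F = 4 ^ 2) (g : ↥(Cfsg.SU 3 F 4))
    (hg : g ∈ Subgroup.centralizer {tau hF}) (hl : lam g = 1) : g ∈ unipU hF := by
  haveI := f16_charP hF
  have h16 : ∀ x : F, x ^ 16 = x := by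
    intro x
    have h := FiniteField.pow_card x
    rw [hF] at h
    exact h
  exact shape_unip h16 g.1.1 ((mem_cent_iff hF g).mp hg) ((isHermIso_iff_gram hF g.1.1).1 g.2)
    g.1.2 hl

theorem lam_unip (hF : Fintype.card F = 4 ^ 2) (g : ↥(Cfsg.SU 3 F 4)) (hg : g ∈ unipU hF) :
    lam g = 1 := by
  haveI := f16_charP hF
  obtain ⟨a, b, hab, hm⟩ := hg
  show (g.1.1 : Matrix (Fin 3) (Fin 3) F) 0 0 + (g.1.1 : Matrix (Fin 3) (Fin 3) F) 0 1 = 1
  rw [hm]
  have h2 : (2 : F) = 0 := CharTwo.two_eq_zero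
  have e : mU a b 0 0 + mU a b 0 1 = 1 + b + b := by simp [mU]
  rw [e]
  linear_combination b * h2

theorem mul_dL_inv_mem (hF : Fintype.card F = 4 ^ 2) (g : ↥(Cfsg.SU 3 F 4))
    (hg : g ∈ Subgroup.centralizer {tau hF}) (l : F) (hl : l ^ 5 = 1) (h : lam g = l) :
    g * (dL hF l hl)⁻¹ ∈ unipU hF := by
  have hd := dL_mem_cent hF l hl
  have hdi := (Subgroup.centralizer {tau hF}).inv_mem hd
  apply mem_unip_of_lam hF _ ((Subgroup.centralizer {tau hF}).mul_mem hg hdi)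
  rw [lam_mul' hF _ _ hdi]
  have h1 : lam (dL hF l hl) * lam (dL hF l hl)⁻¹ = 1 := by
    rw [← lam_mul' hF _ _ hdi, mul_inv_cancel, lam_one]
  rw [lam_dL] at h1
  rw [h, h1]

theorem card_mu5 (hF : Fintype.card F = 4 ^ 2) : Nat.card {x : F // x ^ 5 = 1} = 5 := by
  have h := card_roots_gcd hF 5
  have e : Nat.card {x : F // x ^ 5 = 1} = Nat.card {c : F // c ^ 5 = 1 ∧ c ^ (4 + 1) = 1} :=
    Nat.card_congr (Equiv.subtypeEquivRight (fun x => ⟨fun hx => ⟨hx, hx⟩, fun hx => hx.1⟩))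
  rw [e, h]
  norm_num

theorem card_cent (hF : Fintype.card F = 4 ^ 2) :
    Nat.card ↥(Subgroup.centralizer {tau hF}) = 320 := by
  have hU := special64_structure hF (unipCoord hF) (unipCoord_injective hF) (unipCoord_mul hF)
    (unipCoord_range hF)
  have hU64 : Nat.card ↥(unipU hF) = 64 := hU.1
  have key : Nat.card ↥(Subgroup.centralizer {tau hF})
      = Nat.card ({x : F // x ^ 5 = 1} × ↥(unipU hF)) := by
    apply Nat.card_congr
    refine Equiv.ofBijective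
      (fun g => (⟨lam g.1, lam_pow5 hF g.1 g.2⟩,
        ⟨g.1 * (dL hF (lam g.1) (lam_pow5 hF g.1 g.2))⁻¹,
          mul_dL_inv_mem hF g.1 g.2 _ _ rfl⟩)) ⟨?_, ?_⟩
    · intro g g' h
      have h1 : lam g.1 = lam g'.1 :=
        congrArg (fun p : {x : F // x ^ 5 = 1} × ↥(unipU hF) => (p.1.1 : F)) h
      have h2 : g.1 * (dL hF (lam g.1) (lam_pow5 hF g.1 g.2))⁻¹
          = g'.1 * (dL hF (lam g'.1) (lam_pow5 hF g'.1 g'.2))⁻¹ :=
        congrArg (fun p : {x : F // x ^ 5 = 1} × ↥(unipU hF) => (p.2.1 : ↥(Cfsg.SU 3 F 4))) h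
      rw [dL_congr hF _ _ (lam_pow5 hF g.1 g.2) (lam_pow5 hF g'.1 g'.2) h1] at h2
      exact Subtype.ext (mul_right_cancel h2)
    · rintro ⟨⟨l, hl⟩, ⟨u, hu⟩⟩
      have hgC : u * dL hF l hl ∈ Subgroup.centralizer {tau hF} :=
        Subgroup.mul_mem _ (unip_le_cent hF hu) (dL_mem_cent hF l hl)
      have hlam : lam (u * dL hF l hl) = l := by
        rw [lam_mul' hF _ _ (dL_mem_cent hF l hl), lam_unip hF u hu, one_mul, lam_dL]
      refine ⟨⟨u * dL hF l hl, hgC⟩, ?_⟩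
      apply Prod.ext
      · exact Subtype.ext hlam
      · apply Subtype.ext
        show u * dL hF l hl * (dL hF (lam (u * dL hF l hl)) _)⁻¹ = u
        rw [dL_congr hF _ _ _ hl hlam, mul_inv_cancel_right]
  rw [key, Nat.card_prod, card_mu5 hF, hU64]

theorem trace_surj (hF : Fintype.card F = 4 ^ 2) (a : F) : ∃ b : F, b + b ^ 4 = a ^ 5 := by
  classical
  haveI := f16_charP hF
  have h2 : (2 : F) = 0 := CharTwo.two_eq_zero
  have h16 : a ^ 16 = a := by
    have h := FiniteField.pow_card a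
    rw [hF] at h
    exact h
  have hnorm : (a ^ 5) ^ 4 = a ^ 5 := by
    calc (a ^ 5) ^ 4 = a ^ 16 * a ^ 4 := by ring
      _ = a ^ 5 := by rw [h16]; ring
  have h := card_trace_fiber hF (1 : F) (a ^ 5) one_ne_zero hnorm
  have hne := Finset.card_pos.mp (lt_of_lt_of_eq (by norm_num : 0 < 4) h.symm)
  obtain ⟨t, ht⟩ := hne
  rw [Finset.mem_filter] at ht
  exact ⟨t, by linear_combination ht.2 - a ^ 5 * h2⟩

theorem comm_cent_le (hF : Fintype.card F = 4 ^ 2) :
    ⁅Subgroup.centralizer {tau hF}, Subgroup.centralizer {tau hF}⁆ ≤ unipU hF := by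
  rw [Subgroup.commutator_le]
  intro g₁ h₁ g₂ h₂
  have hw : ⁅g₁, g₂⁆ ∈ Subgroup.centralizer {tau hF} := by
    rw [commutatorElement_def]
    exact Subgroup.mul_mem _ (Subgroup.mul_mem _ (Subgroup.mul_mem _ h₁ h₂)
      (Subgroup.inv_mem _ h₁)) (Subgroup.inv_mem _ h₂)
  apply mem_unip_of_lam hF _ hw
  have e : ⁅g₁, g₂⁆ * (g₂ * g₁) = g₁ * g₂ := by rw [commutatorElement_def]; group
  have h := congrArg lam e
  rw [lam_mul' hF _ _ (Subgroup.mul_mem _ h₂ h₁), lam_mul' hF _ _ h₁, lam_mul' hF _ _ h₂] at h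
  have n₁ : lam g₁ ≠ 0 := by
    intro h0
    have := lam_pow5 hF g₁ h₁
    rw [h0] at this
    simp at this
  have n₂ : lam g₂ ≠ 0 := by
    intro h0
    have := lam_pow5 hF g₂ h₂
    rw [h0] at this
    simp at this
  have h' : (lam ⁅g₁, g₂⁆ - 1) * (lam g₂ * lam g₁) = 0 := by linear_combination h
  rcases mul_eq_zero.mp h' with h3 | h3
  · exact sub_eq_zero.mp h3
  · exact absurd h3 (mul_ne_zero n₂ n₁)

theorem unip_le_comm_cent (hF : Fintype.card F = 4 ^ 2) :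
    unipU hF ≤ ⁅Subgroup.centralizer {tau hF}, Subgroup.centralizer {tau hF}⁆ := by
  classical
  haveI hch := f16_charP hF
  have h2 : (2 : F) = 0 := CharTwo.two_eq_zero
  have h16 : ∀ x : F, x ^ 16 = x := by
    intro x
    have h := FiniteField.pow_card x
    rw [hF] at h
    exact h
  obtain ⟨D, hD⟩ :
      ∃ D, ⁅Subgroup.centralizer {tau hF}, Subgroup.centralizer {tau hF}⁆ = D := ⟨_, rfl⟩
  rw [hD]
  have hDU : D ≤ unipU hF := by rw [← hD]; exact comm_cent_le hF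
  have hU := special64_structure hF (unipCoord hF) (unipCoord_injective hF) (unipCoord_mul hF)
    (unipCoord_range hF)
  have hcen : Subgroup.center ↥(unipU hF) = commutator ↥(unipU hF) := hU.2.2.2.1
  have stepA : ∀ x ∈ unipU hF, (x.1.1 : Matrix (Fin 3) (Fin 3) F) 2 0 = 0 → x ∈ D := by
    intro x hx h0
    have hxc : (⟨x, hx⟩ : ↥(unipU hF)) ∈ Subgroup.center ↥(unipU hF) := by
      rw [Subgroup.mem_center_iff]
      intro y
      apply unipCoord_injective hF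
      rw [unipCoord_mul, unipCoord_mul]
      have e : (unipCoord hF ⟨x, hx⟩).1 = 0 := h0
      rw [e]
      apply Prod.ext
      · simp
      · simp
        ring
    rw [hcen] at hxc
    have hx' : x ∈ (commutator ↥(unipU hF)).map (unipU hF).subtype := ⟨⟨x, hx⟩, hxc, rfl⟩
    rw [Subgroup.map_subtype_commutator] at hx'
    rw [← hD]
    exact Subgroup.commutator_mono (unip_le_cent hF) (unip_le_cent hF) hx'
  have h5 := card_mu5 hF
  haveI : Nontrivial {x : F // x ^ 5 = 1} :=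
    Finite.one_lt_card_iff_nontrivial.mp (by rw [h5]; norm_num)
  obtain ⟨⟨l, hl⟩, hne⟩ := exists_ne (⟨1, one_pow 5⟩ : {x : F // x ^ 5 = 1})
  have hl1 : l ≠ 1 := fun h => hne (Subtype.ext h)
  have hl0 : l ≠ 0 := by
    intro h0
    rw [h0] at hl
    simp at hl
  have hl2 : l ^ 2 + 1 ≠ 0 := by
    intro h
    apply hl1
    have h3 : (l + 1) ^ 2 = 0 := by linear_combination h + l * h2
    have h4 : l + 1 = 0 := by
      rcases pow_eq_zero_iff (two_ne_zero) |>.mp h3 with h4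
      exact h4
    linear_combination h4 - h2
  intro u hu
  obtain ⟨a, b, hab, hm⟩ := hu
  obtain ⟨a₀, ha₀⟩ : ∃ a₀, a₀ = a / (l ^ 2 + 1) := ⟨_, rfl⟩
  have ha₀' : (l ^ 2 + 1) * a₀ = a := by rw [ha₀]; field_simp
  obtain ⟨b₀, hb₀⟩ := trace_surj hF a₀
  obtain ⟨u₀, hu₀⟩ : ∃ u₀ : ↥(Cfsg.SU 3 F 4),
      u₀ = mkSU hF (mU a₀ b₀) (mU_det a₀ b₀) (mU_gram a₀ b₀ (h16 a₀) hb₀) := ⟨_, rfl⟩
  have hu₀m : (u₀.1.1 : Matrix (Fin 3) (Fin 3) F) = mU a₀ b₀ := by rw [hu₀]; rfl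
  have hu₀U : u₀ ∈ unipU hF := ⟨a₀, b₀, hb₀, hu₀m⟩
  obtain ⟨w, hw⟩ : ∃ w, ⁅dL hF l hl, u₀⁆ = w := ⟨_, rfl⟩
  have hwD : w ∈ D := by
    rw [← hw, ← hD]
    exact Subgroup.commutator_mem_commutator (dL_mem_cent hF l hl) (unip_le_cent hF hu₀U)
  have hwU : w ∈ unipU hF := hDU hwD
  obtain ⟨a', b', hab', hwm⟩ := hDU hwD
  have hrel : w * (u₀ * dL hF l hl) = dL hF l hl * u₀ := by
    rw [← hw, commutatorElement_def]; group
  have hrelm : mU a' b' * (mU a₀ b₀ * dM l) = dM l * mU a₀ b₀ := by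
    have h := congrArg (fun x : ↥(Cfsg.SU 3 F 4) => (x.1.1 : Matrix (Fin 3) (Fin 3) F)) hrel
    rw [← hwm, ← hu₀m]
    exact h
  have ha' : a' = a := by
    have h20 := congrFun (congrFun hrelm 2) 0
    rw [(mU_dM_entry a' b' a₀ b₀ l).1, (mU_dM_entry a' b' a₀ b₀ l).2] at h20
    have h3 : l * (a' - a) = 0 := by
      rw [← ha₀']
      linear_combination h20 - (a' * b₀ * l + a₀ * l) * h2
    rcases mul_eq_zero.mp h3 with h4 | h4
    · exact absurd h4 hl0
    · exact sub_eq_zero.mp h4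
  have huU : u ∈ unipU hF := ⟨a, b, hab, hm⟩
  have hvU : u * w⁻¹ ∈ unipU hF := (unipU hF).mul_mem huU ((unipU hF).inv_mem hwU)
  obtain ⟨av, bv, habv, hvm⟩ := (unipU hF).mul_mem huU ((unipU hF).inv_mem hwU)
  have hvw : (u * w⁻¹) * w = u := by group
  have hvwm : mU av bv * mU a' b' = mU a b := by
    have h := congrArg (fun x : ↥(Cfsg.SU 3 F 4) => (x.1.1 : Matrix (Fin 3) (Fin 3) F)) hvw
    rw [← hvm, ← hwm, ← hm]
    exact h
  rw [mU_mul] at hvwm
  have h20 := congrFun (congrFun hvwm 2) 0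
  rw [mU_fst, mU_fst, ha'] at h20
  have hav : av = 0 := by linear_combination h20
  have hv : u * w⁻¹ ∈ D := by
    apply stepA _ hvU
    rw [hvm, mU_fst]
    exact hav
  have e : u = (u * w⁻¹) * w := by group
  rw [e]
  exact D.mul_mem hv hwD

/-- The hypotheses of the abstract characterisation hold in the centraliser of `τ`. -/
theorem cent_GD_hyp (hF : Fintype.card F = 4 ^ 2) :
    Nat.card ↥(Subgroup.centralizer {tau hF}) = 320 ∧
    Nat.card (commutator ↥(Subgroup.centralizer {tau hF})) = 64 ∧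
    IsKleinFour (Subgroup.center (commutator ↥(Subgroup.centralizer {tau hF}))) := by
  have hmap : (commutator ↥(Subgroup.centralizer {tau hF})).map
      (Subgroup.centralizer {tau hF}).subtype = unipU hF := by
    rw [Subgroup.map_subtype_commutator]
    exact le_antisymm (comm_cent_le hF) (unip_le_comm_cent hF)
  let ψ : ↥(commutator ↥(Subgroup.centralizer {tau hF})) ≃* ↥(unipU hF) :=
    ((commutator ↥(Subgroup.centralizer {tau hF})).equivMapOfInjective
      (Subgroup.centralizer {tau hF}).subtype (Subgroup.subtype_injective _)).trans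
      (MulEquiv.subgroupCongr hmap)
  have key := special64_structure hF (T := ↥(commutator ↥(Subgroup.centralizer {tau hF})))
    (fun x => unipCoord hF (ψ x))
    ((unipCoord_injective hF).comp ψ.injective)
    (fun x y => by
      show unipCoord hF (ψ (x * y)) = _
      rw [map_mul, unipCoord_mul])
    (fun a b => by
      rw [← unipCoord_range hF a b]
      constructor
      · rintro ⟨x, hx⟩
        exact ⟨ψ x, hx⟩
      · rintro ⟨g, hg⟩
        exact ⟨ψ.symm g, by show unipCoord hF (ψ (ψ.symm g)) = _; rw [ψ.apply_symm_apply, hg]⟩)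
  exact ⟨card_cent hF, key.1, key.2.1⟩

/-- The centraliser of `τ` in `SU₃(4)` is the centraliser of an involution of `PSU₃(4)`. -/
theorem psu_centralizer (hF : Fintype.card F = 4 ^ 2) :
    ∃ t : Cfsg.PSU 3 F 4, orderOf t = 2 ∧
      Nonempty (↥(Subgroup.centralizer {tau hF}) ≃*
        ↥(Subgroup.centralizer ({t} : Set (Cfsg.PSU 3 F 4)))) := by
  have hcen : Nat.card (Subgroup.center (Cfsg.SU 3 F 4)) = 1 := by
    rw [card_center_SU hF 3 (by norm_num)]
    norm_num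
  have hcenbot : Subgroup.center (Cfsg.SU 3 F 4) = ⊥ := Subgroup.card_eq_one.mp hcen
  let π : ↥(Cfsg.SU 3 F 4) →* Cfsg.PSU 3 F 4 :=
    QuotientGroup.mk' (Subgroup.center (↥(Cfsg.SU 3 F 4)))
  have hπinj : Function.Injective π := by
    rw [← MonoidHom.ker_eq_bot_iff, QuotientGroup.ker_mk']
    exact hcenbot
  have hπsurj : Function.Surjective π := QuotientGroup.mk'_surjective _
  refine ⟨π (tau hF), ?_, ?_⟩
  · rw [orderOf_injective π hπinj]
    haveI : Fact (Nat.Prime 2) := ⟨Nat.prime_two⟩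
    apply orderOf_eq_prime
    · rw [pow_two]
      apply su_ext
      show (tauM : Matrix (Fin 3) (Fin 3) F) * tauM = 1
      exact tauM_mul_self
    · intro h
      exact tauM_ne_one
        (congrArg (fun x : ↥(Cfsg.SU 3 F 4) => (x.1.1 : Matrix (Fin 3) (Fin 3) F)) h)
  · have hmap : (Subgroup.centralizer {tau hF}).map π
        = Subgroup.centralizer ({π (tau hF)} : Set (Cfsg.PSU 3 F 4)) := by
      ext y
      rw [Subgroup.mem_map, Subgroup.mem_centralizer_iff]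
      constructor
      · rintro ⟨x, hx, rfl⟩ h hh
        rw [Set.mem_singleton_iff] at hh
        rw [hh, ← map_mul, ← map_mul,
          Subgroup.mem_centralizer_iff.mp hx (tau hF) (Set.mem_singleton _)]
      · intro h
        obtain ⟨x, rfl⟩ := hπsurj y
        refine ⟨x, ?_, rfl⟩
        rw [Subgroup.mem_centralizer_iff]
        intro k hk
        rw [Set.mem_singleton_iff] at hk
        rw [hk]
        apply hπinj
        rw [map_mul, map_mul]
        exact h _ (Set.mem_singleton _)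
    exact ⟨((Subgroup.centralizer {tau hF}).equivMapOfInjective π hπinj).trans
      (MulEquiv.subgroupCongr hmap)⟩

end Grp

end Cfsg.Agent.Lib.Helper45.G320
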