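import Mathlib
import Cfsg.Agent.Lib.Helper45.Heis64Iso

set_option autoImplicit false

namespace Cfsg.Agent.Lib.Helper45.Heis64

open Cfsg.Agent.Lib.Helper21.Suz2
open Cfsg.Agent.Lib.Helper45.Hig
open scoped IsMulCommutative

universe u

theorem fix3 {α : Type*} [Finite α] (f : α → α) (hf : ∀ a, f (f (f a)) = a) :
    Nat.card α % 3 = Nat.card {a : α // f a = a} % 3 := by
  classical
  haveI : Fintype α := Fintype.ofFinite α
  haveI : Fact (Nat.Prime 3) := ⟨by norm_num⟩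
  obtain ⟨F, hF⟩ : ∃ F : Function.End α, F = f := ⟨f, rfl⟩
  have hf' : F ^ 3 ^ 1 = 1 := by
    subst hF
    exact funext fun a => hf a
  have h := Equiv.Perm.card_fixedPoints_modEq (p := 3) (n := 1) hf'
  rw [← Nat.card_eq_fintype_card, ← Nat.card_eq_fintype_card] at h
  subst hF
  exact h

theorem dvd64_mod3 (n : ℕ) (hd : n ∣ 64) (hm : n % 3 = 1) :
    n = 1 ∨ n = 4 ∨ n = 16 ∨ n = 64 := by
  have h1 : n ≤ 64 := Nat.le_of_dvd (by norm_num) hd
  interval_cases n <;> omega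

theorem cm_one_right' {P : Type u} [Group P] (g : P) : cm g (1 : P) = 1 := by unfold cm; group

theorem cm_of_rel {P : Type u} [Group P] {a b z : P} (h : a * b = b * a * z) : cm a b = z := by
  unfold cm; rw [h]; group

theorem comm_of_card_small {H : Type*} [Group H] [Finite H]
    (hc : Nat.card H = 1 ∨ Nat.card H = 2 ∨ Nat.card H = 4) (a b : H) : a * b = b * a := by
  haveI : Fact (Nat.Prime 2) := ⟨Nat.prime_two⟩
  rcases hc with hc | hc | hc
  · haveI : Subsingleton H := (Nat.card_eq_one_iff_unique.mp hc).1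
    exact Subsingleton.elim _ _
  · haveI : IsCyclic H := isCyclic_of_prime_card (p := 2) hc
    obtain ⟨g, hg⟩ := IsCyclic.exists_generator (α := H)
    obtain ⟨i, rfl⟩ := Subgroup.mem_zpowers_iff.mp (hg a)
    obtain ⟨j, rfl⟩ := Subgroup.mem_zpowers_iff.mp (hg b)
    rw [← zpow_add, ← zpow_add, add_comm]
  · exact (IsPGroup.isMulCommutative_of_card_eq_prime_sq (p := 2) (G := H)
      (hc.trans (by norm_num))).is_comm.comm a b

/-- A fixed-point-free automorphism of order three on a nonabelian group of order 64. -/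
structure R3 (T : Type u) [Group T] (ρ : MulAut T) : Prop where
  card : Nat.card T = 64
  ρ3 : ∀ t : T, ρ (ρ (ρ t)) = t
  fpf : ∀ t : T, ρ t = t → t = 1
  na : ∃ a b : T, a * b ≠ b * a

section R3facts

variable {T : Type u} [Group T] {ρ : MulAut T}

theorem R3.fin (h : R3 T ρ) : Finite T :=
  Nat.finite_of_card_ne_zero (by rw [h.card]; norm_num)

theorem R3.inv_card (h : R3 T ρ) (R : Subgroup T) (hR : ∀ r ∈ R, ρ r ∈ R) :
    Nat.card R = 1 ∨ Nat.card R = 4 ∨ Nat.card R = 16 ∨ Nat.card R = 64 := by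
  haveI := h.fin
  apply dvd64_mod3
  · rw [← h.card]; exact Subgroup.card_subgroup_dvd_card R
  · have h1 := fix3 (α := ↥R) (fun r => ⟨ρ r.1, hR r.1 r.2⟩) (fun a => Subtype.ext (h.ρ3 a.1))
    have h2 : Nat.card {a : ↥R // (⟨ρ a.1, hR a.1 a.2⟩ : ↥R) = a} = 1 := by
      rw [Nat.card_eq_one_iff_unique]
      refine ⟨⟨?_⟩, ⟨⟨1, Subtype.ext (map_one ρ)⟩⟩⟩
      intro a b
      have ha : a.1.1 = 1 := h.fpf _ (congrArg Subtype.val a.2)
      have hb : b.1.1 = 1 := h.fpf _ (congrArg Subtype.val b.2)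
      exact Subtype.ext (Subtype.ext (ha.trans hb.symm))
    have h3 : Nat.card ↥R % 3 = Nat.card {a : ↥R // (⟨ρ a.1, hR a.1 a.2⟩ : ↥R) = a} % 3 := h1
    rw [h3, h2]

theorem R3.surj (h : R3 T ρ) (t : T) : ∃ s : T, s⁻¹ * ρ s = t := by
  haveI := h.fin
  have hinj : Function.Injective (fun s : T => s⁻¹ * ρ s) := by
    intro s r hsr
    have hsr' : s⁻¹ * ρ s = r⁻¹ * ρ r := hsr
    have h1 : ρ (s * r⁻¹) = s * r⁻¹ := by
      rw [map_mul, map_inv]
      have e : ρ s = s * r⁻¹ * ρ r := by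
        calc ρ s = s * (s⁻¹ * ρ s) := by group
          _ = s * (r⁻¹ * ρ r) := by rw [hsr']
          _ = s * r⁻¹ * ρ r := by group
      rw [e]; group
    exact mul_inv_eq_one.mp (h.fpf _ h1)
  exact (Finite.injective_iff_surjective.mp hinj) t

theorem R3.N1 (h : R3 T ρ) (t : T) : t * ρ t * ρ (ρ t) = 1 := by
  obtain ⟨s, hs⟩ := h.surj t
  rw [← hs]
  simp only [map_mul, map_inv, h.ρ3]
  group

theorem R3.ρρ (h : R3 T ρ) (t : T) : ρ (ρ t) = (t * ρ t)⁻¹ :=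
  eq_inv_of_mul_eq_one_right (h.N1 t)

theorem R3.N2 (h : R3 T ρ) (t : T) : t * ρ t = ρ t * t := by
  have e1 := h.ρρ t
  have e2 := h.ρρ t⁻¹
  simp only [map_inv] at e2
  rw [e1] at e2
  rw [inv_inv, mul_inv_rev, inv_inv, inv_inv] at e2
  exact e2

theorem exists_not_center (h : R3 T ρ) : ∃ a : T, a ∉ Subgroup.center T := by
  obtain ⟨a, b, hab⟩ := h.na
  refine ⟨b, fun hb => hab ?_⟩
  exact Subgroup.mem_center_iff.mp hb a

/-- The abelian invariant subgroup generated by the centre, `a` and `ρ a`. -/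
def Asub (ρ : MulAut T) (a : T) : Subgroup T :=
  Subgroup.closure ((Subgroup.center T : Set T) ∪ {a, ρ a})

theorem center_le_Asub (a : T) : Subgroup.center T ≤ Asub ρ a := fun _ hz =>
  Subgroup.subset_closure (Or.inl hz)

theorem mem_Asub (a : T) : a ∈ Asub ρ a :=
  Subgroup.subset_closure (Or.inr (Or.inl rfl))

theorem mem_Asub' (a : T) : ρ a ∈ Asub ρ a :=
  Subgroup.subset_closure (Or.inr (Or.inr rfl))

theorem R3.Asub_comm (h : R3 T ρ) (a : T) :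
    ∀ x ∈ Asub ρ a, ∀ y ∈ Asub ρ a, x * y = y * x := by
  have key : ∀ x ∈ ((Subgroup.center T : Set T) ∪ {a, ρ a}),
      ∀ y ∈ ((Subgroup.center T : Set T) ∪ {a, ρ a}), x * y = y * x := by
    intro x hx y hy
    rcases hx with hx | hx
    · exact (Subgroup.mem_center_iff.mp hx y).symm
    · rcases hy with hy | hy
      · exact Subgroup.mem_center_iff.mp hy x
      · rcases hx with hx | hx <;> rcases hy with hy | hy
        · rw [hx, hy]
        · rw [hx, hy]; exact h.N2 a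
        · rw [hx, hy]; exact (h.N2 a).symm
        · rw [hx, hy]
  exact closure_comm _ key

theorem R3.Asub_inv (h : R3 T ρ) (a : T) : ∀ x ∈ Asub ρ a, ρ x ∈ Asub ρ a := by
  have key : ∀ s ∈ ((Subgroup.center T : Set T) ∪ {a, ρ a}), ρ s ∈ Asub ρ a := by
    intro s hs
    rcases hs with hs | hs | hs
    · exact center_le_Asub a (aut_center ρ hs)
    · rw [hs]; exact mem_Asub' a
    · rw [hs, h.ρρ a]
      exact Subgroup.inv_mem _ (Subgroup.mul_mem _ (mem_Asub a) (mem_Asub' a))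
  exact closure_aut_inv ρ _ key

theorem R3.Asub_card (h : R3 T ρ) (a : T) (ha : a ∉ Subgroup.center T) :
    Nat.card (Subgroup.center T) = 4 ∧ Nat.card (Asub ρ a) = 16 := by
  haveI := h.fin
  haveI : Fact (Nat.Prime 2) := ⟨Nat.prime_two⟩
  have hZ := h.inv_card (Subgroup.center T) (fun r hr => aut_center ρ hr)
  have hA := h.inv_card (Asub ρ a) (h.Asub_inv a)
  have hZ1 : Nat.card (Subgroup.center T) ≠ 1 := by
    have hp : IsPGroup 2 T := IsPGroup.of_card (n := 6) (by rw [h.card]; norm_num)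
    haveI : Nontrivial T := by
      rw [← Finite.one_lt_card_iff_nontrivial, h.card]; norm_num
    have hnt := hp.center_nontrivial
    intro e
    rw [← Finite.one_lt_card_iff_nontrivial] at hnt
    omega
  have hA64 : Nat.card (Asub ρ a) ≠ 64 := by
    intro e
    have htop : Asub ρ a = ⊤ := Subgroup.eq_top_of_card_eq _ (by rw [e, h.card])
    obtain ⟨x, y, hxy⟩ := h.na
    exact hxy (h.Asub_comm a x (by rw [htop]; trivial) y (by rw [htop]; trivial))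
  have hlt : Nat.card (Subgroup.center T) < Nat.card (Asub ρ a) := by
    rcases Nat.lt_or_ge (Nat.card (Subgroup.center T)) (Nat.card (Asub ρ a)) with h1 | h1
    · exact h1
    · exfalso
      have := Subgroup.eq_of_le_of_card_ge (center_le_Asub (ρ := ρ) a) h1
      exact ha (by rw [this]; exact mem_Asub a)
  omega

theorem R3.Zcard (h : R3 T ρ) : Nat.card (Subgroup.center T) = 4 := by
  obtain ⟨a, ha⟩ := exists_not_center h
  exact (h.Asub_card a ha).1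

/-- The central elements of square one. -/
def OmegaZ (T : Type u) [Group T] : Subgroup T where
  carrier := {w | w ∈ Subgroup.center T ∧ w * w = 1}
  one_mem' := ⟨one_mem _, mul_one 1⟩
  mul_mem' := by
    rintro a b ⟨ha, ha2⟩ ⟨hb, hb2⟩
    refine ⟨mul_mem ha hb, ?_⟩
    have hc := Subgroup.mem_center_iff.mp ha b
    calc a * b * (a * b) = a * (b * a) * b := by simp only [mul_assoc]
      _ = a * (a * b) * b := by rw [hc]
      _ = (a * a) * (b * b) := by simp only [mul_assoc]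
      _ = 1 := by rw [ha2, hb2, mul_one]
  inv_mem' := by
    rintro a ⟨ha, ha2⟩
    refine ⟨inv_mem ha, ?_⟩
    rw [← mul_inv_rev, ha2, inv_one]

theorem mem_OmegaZ (w : T) : w ∈ OmegaZ T ↔ w ∈ Subgroup.center T ∧ w * w = 1 := Iff.rfl

theorem R3.Zsq (h : R3 T ρ) (z : T) (hz : z ∈ Subgroup.center T) : z * z = 1 := by
  haveI := h.fin
  haveI : Fact (Nat.Prime 2) := ⟨Nat.prime_two⟩
  have hΩle : OmegaZ T ≤ Subgroup.center T := fun w hw => hw.1
  have hΩinv : ∀ r ∈ OmegaZ T, ρ r ∈ OmegaZ T := by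
    intro r hr
    rw [mem_OmegaZ] at hr ⊢
    refine ⟨aut_center ρ hr.1, ?_⟩
    rw [← map_mul, hr.2, map_one]
  have hc := h.inv_card (OmegaZ T) hΩinv
  have hle := Subgroup.card_le_of_le hΩle
  rw [h.Zcard] at hle
  have hΩ1 : Nat.card (OmegaZ T) ≠ 1 := by
    intro e
    obtain ⟨w, hw⟩ := exists_prime_orderOf_dvd_card' (G := ↥(Subgroup.center T)) 2
      (by rw [h.Zcard]; norm_num)
    have hw2 : w.1 * w.1 = 1 := by
      have := pow_orderOf_eq_one w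
      rw [hw, pow_two] at this
      exact congrArg Subtype.val this
    have hw1 : w.1 ≠ 1 := by
      intro e1
      have : w = 1 := Subtype.ext e1
      rw [this, orderOf_one] at hw
      norm_num at hw
    have hmem : w.1 ∈ OmegaZ T := (mem_OmegaZ _).mpr ⟨w.2, hw2⟩
    have hbot : OmegaZ T = ⊥ := Subgroup.card_eq_one.mp e
    rw [hbot, Subgroup.mem_bot] at hmem
    exact hw1 hmem
  have hΩ4 : Nat.card (OmegaZ T) = 4 := by omega
  have heq : OmegaZ T = Subgroup.center T :=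
    Subgroup.eq_of_le_of_card_ge hΩle (by rw [hΩ4, h.Zcard])
  have hmem : z ∈ OmegaZ T := by rw [heq]; exact hz
  exact hmem.2

/-- Elements of the abelian subgroup with central square. -/
def Bsub (ρ : MulAut T) (a : T) (hcomm : ∀ x ∈ Asub ρ a, ∀ y ∈ Asub ρ a, x * y = y * x) :
    Subgroup T where
  carrier := {b | b ∈ Asub ρ a ∧ b * b ∈ Subgroup.center T}
  one_mem' := ⟨one_mem _, by rw [mul_one]; exact one_mem _⟩
  mul_mem' := by
    rintro b c ⟨hb, hb2⟩ ⟨hc, hc2⟩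
    refine ⟨mul_mem hb hc, ?_⟩
    have e : b * c * (b * c) = (b * b) * (c * c) := by
      calc b * c * (b * c) = b * (c * b) * c := by simp only [mul_assoc]
        _ = b * (b * c) * c := by rw [hcomm c hc b hb]
        _ = (b * b) * (c * c) := by simp only [mul_assoc]
    rw [e]; exact mul_mem hb2 hc2
  inv_mem' := by
    rintro b ⟨hb, hb2⟩
    refine ⟨inv_mem hb, ?_⟩
    rw [← mul_inv_rev]; exact inv_mem hb2

theorem R3.sqZ (h : R3 T ρ) (t : T) : t * t ∈ Subgroup.center T := by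
  haveI := h.fin
  by_cases ht : t ∈ Subgroup.center T
  · exact mul_mem ht ht
  have hcomm := h.Asub_comm t
  obtain ⟨B, hB⟩ : ∃ B : Subgroup T, B = Bsub ρ t hcomm := ⟨_, rfl⟩
  have hBmem : ∀ b : T, b ∈ B ↔ b ∈ Asub ρ t ∧ b * b ∈ Subgroup.center T := by
    intro b; rw [hB]; exact Iff.rfl
  have hBinv : ∀ r ∈ B, ρ r ∈ B := by
    intro r hr
    rw [hBmem] at hr ⊢
    refine ⟨h.Asub_inv t r hr.1, ?_⟩
    rw [← map_mul]; exact aut_center ρ hr.2
  have hZB : Subgroup.center T ≤ B := by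
    intro z hz
    rw [hBmem]
    exact ⟨center_le_Asub t hz, mul_mem hz hz⟩
  have hBA : B ≤ Asub ρ t := fun b hb => ((hBmem b).mp hb).1
  have hcard := h.Asub_card t ht
  have hBc := h.inv_card B hBinv
  have key : ∀ k : ℕ, t ^ 2 ^ k ∈ Subgroup.center T →
      ∃ b ∈ Asub ρ t, b ∉ Subgroup.center T ∧ b * b ∈ Subgroup.center T := by
    intro k
    induction k with
    | zero => intro h0; rw [pow_zero, pow_one] at h0; exact absurd h0 ht
    | succ k ih =>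
      intro hk
      by_cases hk' : t ^ 2 ^ k ∈ Subgroup.center T
      · exact ih hk'
      · refine ⟨t ^ 2 ^ k, pow_mem (mem_Asub t) _, hk', ?_⟩
        rw [← pow_two, ← pow_mul, ← pow_succ]
        exact hk
  obtain ⟨b, hbA, hbZ, hb2⟩ := key 6 (by
    have e1 : t ^ 2 ^ 6 = 1 := by
      have e : (2 : ℕ) ^ 6 = Nat.card T := by rw [h.card]; norm_num
      rw [e]; exact pow_card_eq_one'
    rw [e1]; exact one_mem _)
  have hbB : b ∈ B := (hBmem b).mpr ⟨hbA, hb2⟩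
  have hne : Nat.card B ≠ 4 := by
    intro e
    have := Subgroup.eq_of_le_of_card_ge hZB (by rw [e, hcard.1])
    exact hbZ (by rw [this]; exact hbB)
  have hZle := Subgroup.card_le_of_le hZB
  have hBle := Subgroup.card_le_of_le hBA
  rw [hcard.1] at hZle
  rw [hcard.2] at hBle
  have hB16 : Nat.card B = 16 := by omega
  have hBeq : B = Asub ρ t := Subgroup.eq_of_le_of_card_ge hBA (by rw [hB16, hcard.2])
  have hmem : t ∈ B := by rw [hBeq]; exact mem_Asub t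
  exact ((hBmem t).mp hmem).2

theorem R3.cmZ (h : R3 T ρ) (u v : T) : cm u v ∈ Subgroup.center T :=
  cm_mem_of_sq_mem (Subgroup.center T) h.sqZ u v

theorem R3.X (h : R3 T ρ) (u v : T) : cm (ρ u) v = ρ (ρ (cm u v)) := by
  have hc := h.cmZ
  let κ : Subgroup.center T →* Subgroup.center T :=
    { toFun := fun x => ⟨ρ x.1, aut_center ρ x.2⟩
      map_one' := Subtype.ext (map_one ρ)
      map_mul' := fun x y => Subtype.ext (map_mul ρ x.1 y.1) }
  have h2 : ∀ x : Subgroup.center T, x * x = 1 := fun x => Subtype.ext (h.Zsq x.1 x.2)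
  have hκ3 : ∀ x : Subgroup.center T, x * κ x * κ (κ x) = 1 :=
    fun x => Subtype.ext (h.N1 x.1)
  have hi : cm u v * (cm (ρ u) v * cm (ρ (ρ u)) v) = 1 := by
    have h1 : cm (u * (ρ u * ρ (ρ u))) v = 1 := by
      rw [← mul_assoc, h.N1, cm_one_left]
    rw [cm_mul_left _ _ _ (hc _ _), cm_mul_left _ _ _ (hc _ _)] at h1
    exact h1
  have hii : cm u v * (ρ (cm (ρ (ρ u)) v) * ρ (ρ (cm (ρ u) v))) = 1 := by
    have h1 : cm u (v * (ρ v * ρ (ρ v))) = 1 := by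
      rw [← mul_assoc, h.N1, cm_one_right']
    rw [cm_mul_right _ _ _ (hc _ _), cm_mul_right _ _ _ (hc _ _)] at h1
    have e1 : ρ (cm (ρ (ρ u)) v) = cm u (ρ v) := by rw [cm_map, h.ρ3]
    have e2 : ρ (ρ (cm (ρ u) v)) = cm u (ρ (ρ v)) := by rw [cm_map, cm_map, h.ρ3]
    rw [e1, e2]; exact h1
  have key := f4_lemma h2 κ hκ3 ⟨cm u v, hc _ _⟩ ⟨cm (ρ u) v, hc _ _⟩
    ⟨cm (ρ (ρ u)) v, hc _ _⟩ (Subtype.ext hi) (Subtype.ext hii)
  exact congrArg Subtype.val key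

theorem R3.X' (h : R3 T ρ) (u v : T) : cm u (ρ v) = ρ (ρ (cm u v)) := by
  have h1 := h.X v u
  rw [cm_symm u (ρ v), cm_symm u v, map_inv, map_inv, inv_inj] at h1
  exact h1

theorem R3.Zel (h : R3 T ρ) (z : T) (hz : z ∈ Subgroup.center T) :
    z * ρ z = ρ (ρ z) ∧ ρ z * ρ (ρ z) = z ∧ z * ρ (ρ z) = ρ z := by
  have h1 := h.N1 z
  have hz2 := h.Zsq z hz
  have hρρz2 := h.Zsq (ρ (ρ z)) (aut_center ρ (aut_center ρ hz))
  have e1 : z * ρ z = ρ (ρ z) := by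
    calc z * ρ z = z * ρ z * (ρ (ρ z) * ρ (ρ z)) := by rw [hρρz2, mul_one]
      _ = (z * ρ z * ρ (ρ z)) * ρ (ρ z) := by simp only [mul_assoc]
      _ = ρ (ρ z) := by rw [h1, one_mul]
  refine ⟨e1, ?_, ?_⟩
  · calc ρ z * ρ (ρ z) = (z * z) * (ρ z * ρ (ρ z)) := by rw [hz2, one_mul]
      _ = z * (z * ρ z * ρ (ρ z)) := by simp only [mul_assoc]
      _ = z := by rw [h1, mul_one]
  · calc z * ρ (ρ z) = z * (z * ρ z) := by rw [e1]
      _ = (z * z) * ρ z := by rw [mul_assoc]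
      _ = ρ z := by rw [hz2, one_mul]

theorem R3.Zex (h : R3 T ρ) (z : T) (hz : z ∈ Subgroup.center T) (hz1 : z ≠ 1) (w : T)
    (hw : w ∈ Subgroup.center T) : w = 1 ∨ w = z ∨ w = ρ z ∨ w = ρ (ρ z) := by
  have hρz1 : ρ z ≠ 1 := fun e => hz1 ((map_eq_one_iff ρ ρ.injective).mp e)
  have hρρz1 : ρ (ρ z) ≠ 1 := fun e => hρz1 ((map_eq_one_iff ρ ρ.injective).mp e)
  have hne : ρ z ≠ z := fun e => hz1 (h.fpf z e)
  have h4 := four_exhaust h.Zcard (1 : Subgroup.center T) ⟨z, hz⟩ ⟨ρ z, aut_center ρ hz⟩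
    ⟨ρ (ρ z), aut_center ρ (aut_center ρ hz)⟩
    (fun e => hz1 (congrArg Subtype.val e).symm)
    (fun e => hρz1 (congrArg Subtype.val e).symm)
    (fun e => hρρz1 (congrArg Subtype.val e).symm)
    (fun e => hne (congrArg Subtype.val e).symm)
    (fun e => by
      have e' : z = ρ (ρ z) := congrArg Subtype.val e
      apply hne
      calc ρ z = ρ (ρ (ρ z)) := by rw [← e']
        _ = z := h.ρ3 z)
    (fun e => by
      have e' : ρ z = ρ (ρ z) := congrArg Subtype.val e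
      exact hne (ρ.injective e').symm)
    ⟨w, hw⟩
  rcases h4 with h' | h' | h' | h'
  · exact Or.inl (congrArg Subtype.val h')
  · exact Or.inr (Or.inl (congrArg Subtype.val h'))
  · exact Or.inr (Or.inr (Or.inl (congrArg Subtype.val h')))
  · exact Or.inr (Or.inr (Or.inr (congrArg Subtype.val h')))

theorem R3.hd_of_pair (h : R3 T ρ) (z₀ : T) (hz₀ : z₀ ∈ Subgroup.center T) (hz1 : z₀ ≠ 1)
    (a b : T) (ha : a * a = 1) (hb : b * b = 1) (hab : cm a b = z₀) :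
    HD T a (ρ a) b (ρ b) z₀ (ρ (ρ z₀)) := by
  haveI := h.fin
  have hel := h.Zel z₀ hz₀
  have hρρz₀ : ρ (ρ z₀) ∈ Subgroup.center T := aut_center ρ (aut_center ρ hz₀)
  refine
    { hz₁ := hz₀
      hz₂ := hρρz₀
      hz₁2 := h.Zsq z₀ hz₀
      hz₂2 := h.Zsq _ hρρz₀
      s₁ := ha
      s₂ := by rw [← map_mul, ha, map_one]
      s₃ := hb
      s₄ := by rw [← map_mul, hb, map_one]
      c₁₂ := (cm_eq_one_iff _ _).mpr (h.N2 a)
      c₃₄ := (cm_eq_one_iff _ _).mpr (h.N2 b)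
      c₁₃ := hab
      c₁₄ := by rw [h.X', hab]
      c₂₃ := by rw [h.X, hab]
      c₂₄ := by rw [← cm_map ρ a b, hab]; exact hel.2.2.symm
      gen := ?_
      card := h.card }
  obtain ⟨K, hK⟩ : ∃ K : Subgroup T,
      K = Subgroup.closure ({a, ρ a, b, ρ b, z₀, ρ (ρ z₀)} : Set T) := ⟨_, rfl⟩
  rw [← hK]
  have ma : a ∈ K := by rw [hK]; exact Subgroup.subset_closure (by simp)
  have mρa : ρ a ∈ K := by rw [hK]; exact Subgroup.subset_closure (by simp)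
  have mb : b ∈ K := by rw [hK]; exact Subgroup.subset_closure (by simp)
  have mρb : ρ b ∈ K := by rw [hK]; exact Subgroup.subset_closure (by simp)
  have mz : z₀ ∈ K := by rw [hK]; exact Subgroup.subset_closure (by simp)
  have mρρz : ρ (ρ z₀) ∈ K := by rw [hK]; exact Subgroup.subset_closure (by simp)
  have mρz : ρ z₀ ∈ K := by rw [← hel.2.2]; exact K.mul_mem mz mρρz
  have hKinv : ∀ r ∈ K, ρ r ∈ K := by
    have key : ∀ s ∈ ({a, ρ a, b, ρ b, z₀, ρ (ρ z₀)} : Set T), ρ s ∈ K := by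
      intro s hs
      rcases hs with e | e | e | e | e | e
      · rw [e]; exact mρa
      · rw [e, h.ρρ a]; exact K.inv_mem (K.mul_mem ma mρa)
      · rw [e]; exact mρb
      · rw [e, h.ρρ b]; exact K.inv_mem (K.mul_mem mb mρb)
      · rw [e]; exact mρz
      · rw [e, h.ρ3]; exact mz
    rw [hK] at key ⊢
    exact closure_aut_inv ρ _ key
  have hcK := h.inv_card K hKinv
  have haZ : a ∉ Subgroup.center T := by
    intro hc
    rw [cm_of_central hc] at hab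
    exact hz1 hab.symm
  have hcA := h.Asub_card a haZ
  have hAK : Asub ρ a ≤ K := by
    unfold Asub
    rw [Subgroup.closure_le]
    intro s hs
    rcases hs with hs | hs | hs
    · rcases h.Zex z₀ hz₀ hz1 s hs with e | e | e | e
      · rw [e]; exact K.one_mem
      · rw [e]; exact mz
      · rw [e]; exact mρz
      · rw [e]; exact mρρz
    · rw [hs]; exact ma
    · rw [hs]; exact mρa
  have hbA : b ∉ Asub ρ a := by
    intro hbA
    have := h.Asub_comm a a (mem_Asub a) b hbA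
    rw [(cm_eq_one_iff a b).mpr this] at hab
    exact hz1 hab.symm
  have hne : Nat.card (Asub ρ a) ≠ Nat.card K := by
    intro e
    have := Subgroup.eq_of_le_of_card_ge hAK e.ge
    exact hbA (by rw [this]; exact mb)
  have hle := Subgroup.card_le_of_le hAK
  apply Subgroup.eq_top_of_card_eq
  rw [h.card]
  omega

end R3facts

/-- The data with an involutory automorphism inverting `ρ`. -/
structure R3x (T : Type u) [Group T] (ρ x : MulAut T) : Prop where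
  base : R3 T ρ
  x2 : ∀ t : T, x (x t) = t
  xρ : ∀ t : T, x (ρ t) = ρ (ρ (x t))

section R3xfacts

variable {T : Type u} [Group T] {ρ x : MulAut T}

theorem R3x.exists_z0 (h : R3x T ρ x) : ∃ z₀ ∈ Subgroup.center T, z₀ ≠ 1 ∧ x z₀ = z₀ := by
  haveI := h.base.fin
  have hZ := h.base.Zcard
  have hnt : Nontrivial (Subgroup.center T) := by
    rw [← Finite.one_lt_card_iff_nontrivial, hZ]; norm_num
  obtain ⟨⟨z, hz⟩, hz1'⟩ := exists_ne (1 : Subgroup.center T)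
  have hz1 : z ≠ 1 := fun e => hz1' (Subtype.ext e)
  by_cases hx : x z = z
  · exact ⟨z, hz, hz1, hx⟩
  · have hxz := aut_center x hz
    refine ⟨z * x z, mul_mem hz hxz, ?_, ?_⟩
    · intro e
      apply hx
      have e2 : x z = z⁻¹ := eq_inv_of_mul_eq_one_right e
      rw [e2]; exact inv_eq_of_mul_eq_one_left (h.base.Zsq z hz)
    · rw [map_mul, h.x2]
      exact Subgroup.mem_center_iff.mp hz (x z)

theorem R3x.fixZ (h : R3x T ρ x) (z₀ : T) (hz₀ : z₀ ∈ Subgroup.center T) (hz1 : z₀ ≠ 1)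
    (hx : x z₀ = z₀) (w : T) (hw : w ∈ Subgroup.center T) (hxw : x w = w) :
    w = 1 ∨ w = z₀ := by
  have hne : ρ z₀ ≠ z₀ := fun e => hz1 (h.base.fpf z₀ e)
  rcases h.base.Zex z₀ hz₀ hz1 w hw with e | e | e | e
  · exact Or.inl e
  · exact Or.inr e
  · exfalso
    rw [e, h.xρ, hx] at hxw
    exact hne (ρ.injective hxw)
  · exfalso
    rw [e, h.xρ, h.xρ, hx, h.base.ρ3] at hxw
    exact hne (ρ.injective hxw).symm

theorem R3x.exists_pair (h : R3x T ρ x) (z₀ : T) (hz₀ : z₀ ∈ Subgroup.center T) (hz1 : z₀ ≠ 1)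
    (hx : x z₀ = z₀) : ∃ g₁ g₂ : T, x g₁ = g₁ ∧ x g₂ = g₂ ∧ cm g₁ g₂ = z₀ := by
  have hb := h.base
  have hcZ := hb.cmZ
  have hel := hb.Zel z₀ hz₀
  have hρz₀ : ρ z₀ ∈ Subgroup.center T := aut_center ρ hz₀
  have hxρz₀ : x (ρ z₀) = ρ (ρ z₀) := by rw [h.xρ, hx]
  have step3 : ∀ t : T, ∃ g : T, x g = g ∧ ∃ w ∈ Subgroup.center T, g = t * x t * w := by
    intro t
    have hc : cm (x t) t ∈ Subgroup.center T := hcZ _ _
    have hxc : x (cm (x t) t) = cm (x t) t := by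
      rw [cm_map, h.x2, cm_symm (x t) t]
      exact inv_eq_of_mul_eq_one_left (hb.Zsq _ hc)
    have hxs : x (t * x t) = t * x t * cm (x t) t := by
      rw [map_mul, h.x2]; exact mul_eq_cm (x t) t
    rcases h.fixZ z₀ hz₀ hz1 hx _ hc hxc with e | e
    · refine ⟨t * x t, ?_, 1, one_mem _, (mul_one _).symm⟩
      rw [hxs, e, mul_one]
    · refine ⟨t * x t * ρ z₀, ?_, ρ z₀, hρz₀, rfl⟩
      rw [map_mul, hxs, e, hxρz₀, mul_assoc, hel.2.2]
  have step1 : ∃ t₂ : T, t₂ * x t₂ ∉ Subgroup.center T := by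
    by_contra hall
    push Not at hall
    obtain ⟨a, b, hab⟩ := hb.na
    have hcen : ∀ t : T, t ∈ Subgroup.center T := by
      intro t
      obtain ⟨s, hs⟩ := hb.surj t
      obtain ⟨s', hs'⟩ : ∃ s', ρ (ρ s) = s' := ⟨_, rfl⟩
      have hss' : s = ρ s' := by rw [← hs', hb.ρ3]
      have hp := hall s'
      have hq := hall (ρ s')
      rw [h.xρ] at hq
      have hpp : ρ (ρ (s' * x s')) ∈ Subgroup.center T := aut_center ρ (aut_center ρ hp)
      have h3 : ρ s' * (ρ (ρ s'))⁻¹ ∈ Subgroup.center T := by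
        have h5 := mul_mem hq (inv_mem hpp)
        have e2 : ρ s' * ρ (ρ (x s')) * (ρ (ρ (s' * x s')))⁻¹ = ρ s' * (ρ (ρ s'))⁻¹ := by
          simp only [map_mul]
          group
        rw [e2] at h5
        exact h5
      have h4 : t = (ρ s' * (ρ (ρ s'))⁻¹)⁻¹ := by
        have hcomm := Subgroup.mem_center_iff.mp (inv_mem h3) (ρ s')⁻¹
        calc t = (ρ s')⁻¹ * ρ (ρ s') := by rw [← hs, hss']
          _ = (ρ s')⁻¹ * (ρ s' * (ρ (ρ s'))⁻¹)⁻¹ * ρ s' := by group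
          _ = (ρ s' * (ρ (ρ s'))⁻¹)⁻¹ := by rw [hcomm]; group
      rw [h4]; exact inv_mem h3
    exact hab (Subgroup.mem_center_iff.mp (hcen b) a)
  obtain ⟨t₂, ht₂⟩ := step1
  obtain ⟨s, hs⟩ : ∃ s, t₂ * x t₂ = s := ⟨_, rfl⟩
  rw [hs] at ht₂
  have hxs : ∃ c ∈ Subgroup.center T, x s = s * c := by
    refine ⟨cm (x t₂) t₂, hcZ _ _, ?_⟩
    rw [← hs, map_mul, h.x2]; exact mul_eq_cm (x t₂) t₂
  obtain ⟨c, hc, hxsc⟩ := hxs
  have step2 : ∃ t₁ : T, cm t₁ s = ρ z₀ := by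
    have hex : ∃ t₀ : T, cm t₀ s ≠ 1 := by
      by_contra hall
      push Not at hall
      apply ht₂
      rw [Subgroup.mem_center_iff]
      intro g
      exact (cm_eq_one_iff g s).mp (hall g)
    obtain ⟨t₀, ht₀⟩ := hex
    rcases hb.Zex (cm t₀ s) (hcZ _ _) ht₀ (ρ z₀) hρz₀ with e | e | e | e
    · exfalso
      exact hz1 ((map_eq_one_iff ρ ρ.injective).mp e)
    · exact ⟨t₀, e.symm⟩
    · refine ⟨ρ (ρ t₀), ?_⟩
      rw [hb.X, hb.X, hb.ρ3, e]
    · refine ⟨ρ t₀, ?_⟩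
      rw [hb.X, e]
  obtain ⟨t₁, ht₁⟩ := step2
  obtain ⟨g₁, hg₁, w₁, hw₁, e₁⟩ := step3 t₁
  obtain ⟨g₂, hg₂, w₂, hw₂, e₂⟩ := step3 t₂
  refine ⟨g₁, g₂, hg₁, hg₂, ?_⟩
  rw [e₁, e₂, hs]
  have hd : x (cm t₁ s) = cm (x t₁) s := by
    rw [cm_map, hxsc, cm_mul_right _ _ _ (hcZ _ _), cm_central_right hc, mul_one]
  rw [cm_mul_right _ _ _ (hcZ _ _), cm_central_right hw₂, mul_one,
    cm_mul_left _ _ _ (hcZ _ _), cm_of_central hw₁, mul_one,
    cm_mul_left _ _ _ (hcZ _ _), ← hd, ht₁, hxρz₀]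
  exact hel.2.1

theorem R3x.card_fix (h : R3x T ρ x) (C : Subgroup T) (hC : ∀ y : T, y ∈ C ↔ x y = y) :
    Nat.card C = 8 := by
  haveI := h.base.fin
  have hb := h.base
  obtain ⟨z₀, hz₀, hz1, hxz⟩ := h.exists_z0
  obtain ⟨g₁, g₂, hg₁, hg₂, hg⟩ := h.exists_pair z₀ hz₀ hz1 hxz
  have hinj : Function.Injective (fun p : ↥C × ↥C => p.1.1 * ρ p.2.1) := by
    rintro ⟨c, d⟩ ⟨c', d'⟩ hcd
    have hcd' : c.1 * ρ d.1 = c'.1 * ρ d'.1 := hcd
    have hf : ρ (d'.1 * d.1⁻¹) = c'.1⁻¹ * c.1 := by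
      rw [map_mul, map_inv]
      calc ρ d'.1 * (ρ d.1)⁻¹ = c'.1⁻¹ * (c'.1 * ρ d'.1) * (ρ d.1)⁻¹ := by group
        _ = c'.1⁻¹ * (c.1 * ρ d.1) * (ρ d.1)⁻¹ := by rw [hcd']
        _ = c'.1⁻¹ * c.1 := by group
    have hxf : x (d'.1 * d.1⁻¹) = d'.1 * d.1⁻¹ := by
      rw [map_mul, map_inv, (hC _).mp d'.2, (hC _).mp d.2]
    have hxe : x (c'.1⁻¹ * c.1) = c'.1⁻¹ * c.1 := by
      rw [map_mul, map_inv, (hC _).mp c'.2, (hC _).mp c.2]
    rw [← hf, h.xρ, hxf] at hxe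
    have h1 : d'.1 * d.1⁻¹ = 1 := hb.fpf _ (ρ.injective hxe)
    have hd : d' = d := Subtype.ext (mul_inv_eq_one.mp h1)
    have hc : c = c' := by
      apply Subtype.ext
      rw [hd] at hcd'
      exact mul_right_cancel hcd'
    rw [hc, hd]
  have hle := Nat.card_le_card_of_injective _ hinj
  rw [Nat.card_prod, hb.card] at hle
  have hdvd : Nat.card C ∣ 64 := by rw [← hb.card]; exact Subgroup.card_subgroup_dvd_card C
  have hnc : ¬ (Nat.card C = 1 ∨ Nat.card C = 2 ∨ Nat.card C = 4) := by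
    intro hc
    have hcomm := comm_of_card_small hc (⟨g₁, (hC _).mpr hg₁⟩ : ↥C) ⟨g₂, (hC _).mpr hg₂⟩
    have h2 : g₁ * g₂ = g₂ * g₁ := congrArg Subtype.val hcomm
    rw [(cm_eq_one_iff g₁ g₂).mpr h2] at hg
    exact hz1 hg.symm
  have h8 : Nat.card C ≤ 8 := by
    by_contra hgt
    push Not at hgt
    have h81 : 9 * 9 ≤ Nat.card C * Nat.card C := Nat.mul_le_mul hgt hgt
    omega
  have hpos : 0 < Nat.card C := Nat.card_pos
  obtain ⟨n, hn⟩ : ∃ n, Nat.card C = n := ⟨_, rfl⟩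
  rw [hn] at hdvd hnc h8 hpos ⊢
  interval_cases n <;> omega

end R3xfacts

/-- The abstract part: generators and relations for `T`, and the fixed points of `x`. -/
theorem main_abs {T : Type u} [Group T] [Finite T] (hT : Nat.card T = 64)
    (hna : ¬ IsMulCommutative T) (ρ x : MulAut T) (hρ : orderOf ρ = 3) (hx : orderOf x = 2)
    (hxr : x * ρ * x⁻¹ = ρ⁻¹) (hfp : ∀ y : T, ρ y = y → y = 1) (C : Subgroup T)
    (hC : ∀ y : T, y ∈ C ↔ x y = y) :
    (∃ g₁ g₂ g₃ g₄ z₁ z₂ : T, HD T g₁ g₂ g₃ g₄ z₁ z₂) ∧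
      (Nonempty (↥C ≃* DihedralGroup 4) ∨ Nonempty (↥C ≃* QuaternionGroup 2)) := by
  have hρ3 : ρ ^ 3 = 1 := by rw [← hρ]; exact pow_orderOf_eq_one ρ
  have hρ3' : ∀ t : T, ρ (ρ (ρ t)) = t := by
    intro t
    rw [← pow3_apply, hρ3]; rfl
  have hx2 : x * x = 1 := by rw [← pow_two, ← hx]; exact pow_orderOf_eq_one x
  have hx2' : ∀ t : T, x (x t) = t := by
    intro t
    have h1 : (x * x) t = (1 : MulAut T) t := by rw [hx2]
    exact h1
  have hinv : ∀ s : T, ρ⁻¹ s = ρ (ρ s) := by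
    intro s
    apply ρ.injective
    rw [MulAut.apply_inv_self, hρ3' s]
  have hxρ' : ∀ t : T, x (ρ t) = ρ (ρ (x t)) := by
    intro t
    have h1 : x * ρ = ρ⁻¹ * x := by rw [← hxr]; group
    have h2 : (x * ρ) t = (ρ⁻¹ * x) t := by rw [h1]
    have h3 : x (ρ t) = ρ⁻¹ (x t) := h2
    rw [h3, hinv]
  have hna' : ∃ a b : T, a * b ≠ b * a := by
    by_contra hno
    push Not at hno
    exact hna ⟨⟨hno⟩⟩
  have hR : R3 T ρ := ⟨hT, hρ3', hfp, hna'⟩
  have hRx : R3x T ρ x := ⟨hR, hx2', hxρ'⟩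
  obtain ⟨z₀, hz₀, hz1, hxz⟩ := hRx.exists_z0
  obtain ⟨g₁, g₂, hg₁, hg₂, hg⟩ := hRx.exists_pair z₀ hz₀ hz1 hxz
  have hC8 := hRx.card_fix C hC
  have hz2 := hR.Zsq z₀ hz₀
  have mz : z₀ ∈ C := (hC _).mpr hxz
  have m₁ : g₁ ∈ C := (hC _).mpr hg₁
  have m₂ : g₂ ∈ C := (hC _).mpr hg₂
  have hζc : ∀ g : ↥C, g * (⟨z₀, mz⟩ : ↥C) = ⟨z₀, mz⟩ * g := fun g =>
    Subtype.ext (Subgroup.mem_center_iff.mp hz₀ g.1)
  have hζ2 : (⟨z₀, mz⟩ : ↥C) * ⟨z₀, mz⟩ = 1 := Subtype.ext hz2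
  have hζ1 : (⟨z₀, mz⟩ : ↥C) ≠ 1 := fun e => hz1 (congrArg Subtype.val e)
  have huv : (⟨g₁, m₁⟩ : ↥C) * ⟨g₂, m₂⟩ = ⟨g₂, m₂⟩ * ⟨g₁, m₁⟩ * ⟨z₀, mz⟩ := by
    apply Subtype.ext
    show g₁ * g₂ = g₂ * g₁ * z₀
    rw [← hg]; exact mul_eq_cm g₁ g₂
  have hsq : ∀ g : T, x g = g → g * g = 1 ∨ g * g = z₀ := by
    intro g hgx
    apply hRx.fixZ z₀ hz₀ hz1 hxz _ (hR.sqZ g)
    rw [map_mul, hgx]
  have hu : (⟨g₁, m₁⟩ : ↥C) * ⟨g₁, m₁⟩ = 1 ∨ (⟨g₁, m₁⟩ : ↥C) * ⟨g₁, m₁⟩ = ⟨z₀, mz⟩ := by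
    rcases hsq g₁ hg₁ with e | e
    · exact Or.inl (Subtype.ext e)
    · exact Or.inr (Subtype.ext e)
  have hv : (⟨g₂, m₂⟩ : ↥C) * ⟨g₂, m₂⟩ = 1 ∨ (⟨g₂, m₂⟩ : ↥C) * ⟨g₂, m₂⟩ = ⟨z₀, mz⟩ := by
    rcases hsq g₂ hg₂ with e | e
    · exact Or.inl (Subtype.ext e)
    · exact Or.inr (Subtype.ext e)
  rcases pair_cases _ _ _ hζc hζ2 huv hu hv with ⟨u', v', huv', hu', hv'⟩ | ⟨hu', hv'⟩
  · have ha : u'.1 * u'.1 = 1 := congrArg Subtype.val hu'
    have hb : v'.1 * v'.1 = 1 := congrArg Subtype.val hv'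
    have hrel : u'.1 * v'.1 = v'.1 * u'.1 * z₀ := congrArg Subtype.val huv'
    have hab : cm u'.1 v'.1 = z₀ := cm_of_rel hrel
    exact ⟨⟨_, _, _, _, _, _, hR.hd_of_pair z₀ hz₀ hz1 _ _ ha hb hab⟩,
      Or.inl (d8_of hC8 u' v' ⟨z₀, mz⟩ hζc hζ2 hζ1 huv' hu' hv')⟩
  · have h1 : g₁ * g₁ = z₀ := congrArg Subtype.val hu'
    have h2 : g₂ * g₂ = z₀ := congrArg Subtype.val hv'
    have hcZ := hR.cmZ
    have hel := hR.Zel z₀ hz₀
    have hρz₀ : ρ z₀ ∈ Subgroup.center T := aut_center ρ hz₀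
    have hg' : cm g₂ g₁ = z₀ := by
      rw [cm_symm g₁ g₂, hg]; exact inv_eq_of_mul_eq_one_left hz2
    have c1 : cm g₂ (ρ g₁) = ρ (ρ z₀) := by rw [hR.X', hg']
    have c2 : cm g₂ (ρ (ρ g₁)) = ρ z₀ := by rw [hR.X', c1, hR.ρ3]
    have sq1 : (ρ g₁ * g₂) * (ρ g₁ * g₂) = 1 := by
      rw [sq_mul _ _ (hcZ _ _), c1, ← map_mul ρ g₁ g₁, h1, h2, mul_assoc, hel.2.2]
      exact hR.Zsq _ hρz₀
    have sq2 : (ρ (ρ g₁) * g₂) * (ρ (ρ g₁) * g₂) = 1 := by
      rw [sq_mul _ _ (hcZ _ _), c2, ← map_mul ρ (ρ g₁) (ρ g₁), ← map_mul ρ g₁ g₁, h1, h2,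
        mul_assoc, hel.1]
      exact hR.Zsq _ (aut_center ρ hρz₀)
    have cm12 : cm (ρ g₁ * g₂) (ρ (ρ g₁) * g₂) = z₀ := by
      rw [cm_mul_right _ _ _ (hcZ _ _), cm_mul_left _ _ _ (hcZ _ _),
        cm_mul_left _ _ _ (hcZ _ _), cm_self, mul_one, c2,
        (cm_eq_one_iff _ _).mpr (hR.N2 (ρ g₁)), one_mul, hR.X, hg]
      exact hel.2.1
    exact ⟨⟨_, _, _, _, _, _, hR.hd_of_pair z₀ hz₀ hz1 _ _ sq1 sq2 cm12⟩,
      Or.inr (q8_of hC8 _ _ ⟨z₀, mz⟩ hζc hζ2 hζ1 huv hu' hv')⟩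

end Cfsg.Agent.Lib.Helper45.Heis64
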