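import Mathlib
import Cfsg.Agent.Lib.Helper45.Heis64Abs
import Cfsg.Agent.Lib.Helper40.PSLOrders
import Cfsg.Agent.Lib.Helper40.PSL34Three

set_option autoImplicit false

namespace Cfsg.Agent.Lib.Helper45.Heis64

open Cfsg.Agent.Lib.Helper21.Suz2

universe u v

section Concrete

variable {F : Type u} [Field F]

/-- Upper unitriangular matrices. -/
def hM (s t w : F) : Matrix (Fin 3) (Fin 3) F := !![1, s, w; 0, 1, t; 0, 0, 1]

theorem hM_det (s t w : F) : (hM s t w).det = 1 := by
  simp [hM, Matrix.det_fin_three]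

theorem hM_mul (s t w s' t' w' : F) :
    hM s t w * hM s' t' w' = hM (s + s') (t + t') (w + w' + s * t') := by
  ext i j
  fin_cases i <;> fin_cases j <;> simp [hM, Matrix.mul_apply, Fin.sum_univ_three] <;> ring

/-- Upper unitriangular matrices as elements of the special linear group. -/
def hS (s t w : F) : Matrix.SpecialLinearGroup (Fin 3) F := ⟨hM s t w, hM_det s t w⟩

theorem hS_mul (s t w s' t' w' : F) :
    hS s t w * hS s' t' w' = hS (s + s') (t + t') (w + w' + s * t') :=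
  Subtype.ext (hM_mul s t w s' t' w')

theorem hS_one : hS (0 : F) 0 0 = 1 := by
  apply Subtype.ext
  show hM (0 : F) 0 0 = 1
  ext i j
  fin_cases i <;> fin_cases j <;> simp [hM]

theorem hS_inj {s t w s' t' w' : F} (h : hS s t w = hS s' t' w') :
    s = s' ∧ t = t' ∧ w = w' := by
  have hm : hM s t w = hM s' t' w' := congrArg Subtype.val h
  refine ⟨?_, ?_, ?_⟩
  · simpa [hM] using congrFun (congrFun hm 0) 1
  · simpa [hM] using congrFun (congrFun hm 1) 2
  · simpa [hM] using congrFun (congrFun hm 0) 2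

/-- The unitriangular subgroup. -/
def hU (F : Type u) [Field F] : Subgroup (Matrix.SpecialLinearGroup (Fin 3) F) where
  carrier := {A | ∃ s t w : F, A = hS s t w}
  one_mem' := ⟨0, 0, 0, hS_one.symm⟩
  mul_mem' := by
    rintro _ _ ⟨s, t, w, rfl⟩ ⟨s', t', w', rfl⟩
    exact ⟨_, _, _, hS_mul s t w s' t' w'⟩
  inv_mem' := by
    rintro _ ⟨s, t, w, rfl⟩
    refine ⟨-s, -t, s * t - w, ?_⟩
    apply inv_eq_of_mul_eq_one_right
    rw [hS_mul]
    have e1 : s + -s = 0 := by ring
    have e2 : t + -t = 0 := by ring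
    have e3 : w + (s * t - w) + s * -t = 0 := by ring
    rw [e1, e2, e3, hS_one]

theorem mem_hU (A : Matrix.SpecialLinearGroup (Fin 3) F) :
    A ∈ hU F ↔ ∃ s t w : F, A = hS s t w := Iff.rfl

/-- Elements of the unitriangular subgroup. -/
def mkU (s t w : F) : ↥(hU F) := ⟨hS s t w, ⟨s, t, w, rfl⟩⟩

theorem mkU_mul (s t w s' t' w' : F) :
    mkU s t w * mkU s' t' w' = mkU (s + s') (t + t') (w + w' + s * t') :=
  Subtype.ext (hS_mul s t w s' t' w')

theorem mkU_one : mkU (0 : F) 0 0 = 1 := Subtype.ext hS_one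

theorem mkU_eq {s t w s' t' w' : F} (h1 : s = s') (h2 : t = t') (h3 : w = w') :
    mkU s t w = mkU s' t' w' := by rw [h1, h2, h3]

theorem mkU_eq_one {s t w : F} (h1 : s = 0) (h2 : t = 0) (h3 : w = 0) :
    mkU s t w = 1 := by rw [h1, h2, h3, mkU_one]

theorem mkU_surj (g : ↥(hU F)) : ∃ s t w : F, g = mkU s t w := by
  obtain ⟨s, t, w, h⟩ := (mem_hU g.1).mp g.2
  exact ⟨s, t, w, Subtype.ext h⟩

variable [Fintype F]

theorem card_hU (hF : Fintype.card F = 4) : Nat.card ↥(hU F) = 64 := by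
  have e : (F × F × F) ≃ ↥(hU F) :=
    Equiv.ofBijective (fun p => mkU p.1 p.2.1 p.2.2) ⟨by
      rintro ⟨s, t, w⟩ ⟨s', t', w'⟩ h
      have h' : hS s t w = hS s' t' w' := congrArg Subtype.val h
      obtain ⟨h1, h2, h3⟩ := hS_inj h'
      rw [h1, h2, h3], by
      intro g
      obtain ⟨s, t, w, h⟩ := mkU_surj g
      exact ⟨(s, t, w), h.symm⟩⟩
  rw [← Nat.card_congr e, Nat.card_prod, Nat.card_prod, Nat.card_eq_fintype_card, hF]

theorem exists_omega (hF : Fintype.card F = 4) : ∃ ω : F, ω ≠ 0 ∧ ω ≠ 1 := by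
  classical
  by_contra hno
  push Not at hno
  have hsub : (Finset.univ : Finset F) ⊆ {0, 1} := by
    intro a _
    by_cases ha : a = 0
    · simp [ha]
    · simp [hno a ha]
  have h1 := Finset.card_le_card hsub
  rw [Finset.card_univ, hF] at h1
  have h2 : ({0, 1} : Finset F).card ≤ 2 := Finset.card_le_two
  omega

theorem omega_sq (hF : Fintype.card F = 4) (h20 : (2 : F) = 0) (ω : F) (h0 : ω ≠ 0)
    (h1 : ω ≠ 1) : ω * ω = ω + 1 := by
  have h3 : ω ^ 3 = 1 := by
    have h := FiniteField.pow_card_sub_one_eq_one ω h0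
    rw [hF] at h
    exact h
  have h4 : (ω - 1) * (ω * ω + ω + 1) = 0 := by
    have e : (ω - 1) * (ω * ω + ω + 1) = ω ^ 3 - 1 := by ring
    rw [e, h3, sub_self]
  rcases mul_eq_zero.mp h4 with h | h
  · exact absurd (sub_eq_zero.mp h) h1
  · linear_combination h - (ω + 1) * h20

theorem F4_exhaust (hF : Fintype.card F = 4) (h20 : (2 : F) = 0) (ω : F) (h0 : ω ≠ 0)
    (h1 : ω ≠ 1) (s : F) : s = 0 ∨ s = 1 ∨ s = ω ∨ s = ω + 1 := by
  have hc : Nat.card F = 4 := by rw [Nat.card_eq_fintype_card, hF]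
  exact four_exhaust hc 0 1 ω (ω + 1) zero_ne_one (fun e => h0 e.symm)
    (fun e => h1 (by linear_combination -e - h20)) (fun e => h1 e.symm)
    (fun e => h0 (by linear_combination -e))
    (fun e => zero_ne_one (α := F) (by linear_combination e)) s

theorem hU_HD (hF : Fintype.card F = 4) :
    ∃ g₁ g₂ g₃ g₄ z₁ z₂ : ↥(hU F), HD ↥(hU F) g₁ g₂ g₃ g₄ z₁ z₂ := by
  have h20 : (2 : F) = 0 := Cfsg.Agent.Lib.Helper40.two_eq_zero_of_card_four hF
  have h11 : (1 : F) + 1 = 0 := by rw [one_add_one_eq_two, h20]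
  obtain ⟨ω, h0, h1⟩ := exists_omega hF
  have hω2 := omega_sq hF h20 ω h0 h1
  have hωω : ω + ω = 0 := by linear_combination ω * h20
  have hex := F4_exhaust hF h20 ω h0 h1
  have hcen : ∀ c : F, mkU (0 : F) 0 c ∈ Subgroup.center ↥(hU F) := by
    intro c
    rw [Subgroup.mem_center_iff]
    intro g
    obtain ⟨s, t, w, rfl⟩ := mkU_surj g
    simp only [mkU_mul]
    exact mkU_eq (by ring) (by ring) (by ring)
  refine ⟨mkU 1 0 0, mkU ω 0 0, mkU 0 1 0, mkU 0 ω 0, mkU 0 0 1, mkU 0 0 ω, ?_⟩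
  refine
    { hz₁ := hcen 1
      hz₂ := hcen ω
      hz₁2 := by
        simp only [mkU_mul]
        exact mkU_eq_one (by ring) (by ring) (by linear_combination h11)
      hz₂2 := by
        simp only [mkU_mul]
        exact mkU_eq_one (by ring) (by ring) (by linear_combination hωω)
      s₁ := by
        simp only [mkU_mul]
        exact mkU_eq_one (by linear_combination h11) (by ring) (by ring)
      s₂ := by
        simp only [mkU_mul]
        exact mkU_eq_one (by linear_combination hωω) (by ring) (by ring)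
      s₃ := by
        simp only [mkU_mul]
        exact mkU_eq_one (by ring) (by linear_combination h11) (by ring)
      s₄ := by
        simp only [mkU_mul]
        exact mkU_eq_one (by ring) (by linear_combination hωω) (by ring)
      c₁₂ := (cm_eq_one_iff _ _).mpr (by
        simp only [mkU_mul]
        exact mkU_eq (by ring) (by ring) (by ring))
      c₃₄ := (cm_eq_one_iff _ _).mpr (by
        simp only [mkU_mul]
        exact mkU_eq (by ring) (by ring) (by ring))
      c₁₃ := cm_of_rel (by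
        simp only [mkU_mul]
        exact mkU_eq (by ring) (by ring) (by ring))
      c₁₄ := cm_of_rel (by
        simp only [mkU_mul]
        exact mkU_eq (by ring) (by ring) (by ring))
      c₂₃ := cm_of_rel (by
        simp only [mkU_mul]
        exact mkU_eq (by ring) (by ring) (by ring))
      c₂₄ := cm_of_rel (by
        simp only [mkU_mul]
        exact mkU_eq (by ring) (by ring) (by linear_combination hω2))
      gen := ?_
      card := card_hU hF }
  rw [eq_top_iff]
  intro g _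
  obtain ⟨K, hK⟩ : ∃ K, Subgroup.closure ({mkU 1 0 0, mkU ω 0 0, mkU 0 1 0, mkU 0 ω 0,
      mkU 0 0 1, mkU 0 0 ω} : Set ↥(hU F)) = K := ⟨_, rfl⟩
  rw [hK]
  have m1 : mkU (1 : F) 0 0 ∈ K := by rw [← hK]; exact Subgroup.subset_closure (by simp)
  have m2 : mkU ω 0 0 ∈ K := by rw [← hK]; exact Subgroup.subset_closure (by simp)
  have m3 : mkU (0 : F) 1 0 ∈ K := by rw [← hK]; exact Subgroup.subset_closure (by simp)
  have m4 : mkU 0 ω 0 ∈ K := by rw [← hK]; exact Subgroup.subset_closure (by simp)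
  have m5 : mkU (0 : F) 0 1 ∈ K := by rw [← hK]; exact Subgroup.subset_closure (by simp)
  have m6 : mkU 0 0 ω ∈ K := by rw [← hK]; exact Subgroup.subset_closure (by simp)
  have hX : ∀ s : F, mkU s 0 0 ∈ K := by
    intro s
    rcases hex s with e | e | e | e
    · rw [e, mkU_one]; exact K.one_mem
    · rw [e]; exact m1
    · rw [e]; exact m2
    · have e' : mkU (ω + 1) 0 0 = mkU ω 0 0 * mkU (1 : F) 0 0 := by
        simp only [mkU_mul]; exact mkU_eq (by ring) (by ring) (by ring)
      rw [e, e']; exact K.mul_mem m2 m1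
  have hY : ∀ t : F, mkU 0 t 0 ∈ K := by
    intro t
    rcases hex t with e | e | e | e
    · rw [e, mkU_one]; exact K.one_mem
    · rw [e]; exact m3
    · rw [e]; exact m4
    · have e' : mkU 0 (ω + 1) 0 = mkU 0 ω 0 * mkU (0 : F) 1 0 := by
        simp only [mkU_mul]; exact mkU_eq (by ring) (by ring) (by ring)
      rw [e, e']; exact K.mul_mem m4 m3
  have hZ : ∀ w : F, mkU 0 0 w ∈ K := by
    intro w
    rcases hex w with e | e | e | e
    · rw [e, mkU_one]; exact K.one_mem
    · rw [e]; exact m5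
    · rw [e]; exact m6
    · have e' : mkU 0 0 (ω + 1) = mkU 0 0 ω * mkU (0 : F) 0 1 := by
        simp only [mkU_mul]; exact mkU_eq (by ring) (by ring) (by ring)
      rw [e, e']; exact K.mul_mem m6 m5
  obtain ⟨s, t, w, rfl⟩ := mkU_surj g
  have e' : mkU s t w = mkU s 0 0 * mkU 0 t 0 * mkU 0 0 (w - s * t) := by
    simp only [mkU_mul]; exact mkU_eq (by ring) (by ring) (by ring)
  rw [e']; exact K.mul_mem (K.mul_mem (hX s) (hY t)) (hZ _)

theorem psl34_sylow (hF : Fintype.card F = 4) :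
    ∃ S : Sylow 2 (Matrix.ProjectiveSpecialLinearGroup (Fin 3) F),
      Nonempty (↥(hU F) ≃* ↥(S : Subgroup (Matrix.ProjectiveSpecialLinearGroup (Fin 3) F))) := by
  classical
  haveI : Fact (Nat.Prime 2) := ⟨Nat.prime_two⟩
  have hPSL := Cfsg.Agent.Lib.Helper40.card_PSL_three_four hF
  haveI hfinP : Finite (Matrix.ProjectiveSpecialLinearGroup (Fin 3) F) :=
    Nat.finite_of_card_ne_zero (by rw [hPSL]; norm_num)
  let π : Matrix.SpecialLinearGroup (Fin 3) F →* Matrix.ProjectiveSpecialLinearGroup (Fin 3) F :=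
    QuotientGroup.mk' (Subgroup.center (Matrix.SpecialLinearGroup (Fin 3) F))
  let φ : ↥(hU F) →* Matrix.ProjectiveSpecialLinearGroup (Fin 3) F := π.comp (hU F).subtype
  have hφ : Function.Injective φ := by
    rw [injective_iff_map_eq_one]
    intro a ha
    have hc : a.1 ∈ Subgroup.center (Matrix.SpecialLinearGroup (Fin 3) F) := by
      have h1 : π a.1 = 1 := ha
      exact (QuotientGroup.eq_one_iff a.1).mp h1
    obtain ⟨s, t, w, rfl⟩ := mkU_surj a
    rw [Matrix.SpecialLinearGroup.mem_center_iff] at hc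
    obtain ⟨r, -, hr⟩ := hc
    have hm : Matrix.scalar (Fin 3) r = hM s t w := hr
    have e01 : (0 : F) = s := by
      simpa [hM, Matrix.diagonal_apply] using congrFun (congrFun hm 0) 1
    have e12 : (0 : F) = t := by
      simpa [hM, Matrix.diagonal_apply] using congrFun (congrFun hm 1) 2
    have e02 : (0 : F) = w := by
      simpa [hM, Matrix.diagonal_apply] using congrFun (congrFun hm 0) 2
    exact mkU_eq_one e01.symm e12.symm e02.symm
  have hV : Nat.card ↥φ.range = 64 := by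
    rw [← Nat.card_congr (MonoidHom.ofInjective hφ).toEquiv, card_hU hF]
  have hVp : IsPGroup 2 ↥φ.range := IsPGroup.of_card (n := 6) (by rw [hV]; norm_num)
  obtain ⟨Q, hQ⟩ := hVp.exists_le_sylow
  obtain ⟨m, hm⟩ := IsPGroup.exists_card_eq Q.isPGroup'
  have hQdvd : Nat.card ↥(Q : Subgroup (Matrix.ProjectiveSpecialLinearGroup (Fin 3) F)) ∣ 20160 :=
    hPSL ▸ Subgroup.card_subgroup_dvd_card
      (Q : Subgroup (Matrix.ProjectiveSpecialLinearGroup (Fin 3) F))
  have hQle : Nat.card ↥(Q : Subgroup (Matrix.ProjectiveSpecialLinearGroup (Fin 3) F)) ≤ 64 := by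
    rw [hm] at hQdvd ⊢
    have hm7 : m < 7 := by
      by_contra h7
      have h128 : 2 ^ 7 ∣ 20160 := (pow_dvd_pow 2 (not_lt.mp h7)).trans hQdvd
      norm_num at h128
    exact Nat.pow_le_pow_right (by norm_num) (by omega : m ≤ 6)
  have hQeq : φ.range = (Q : Subgroup (Matrix.ProjectiveSpecialLinearGroup (Fin 3) F)) :=
    Subgroup.eq_of_le_of_card_ge hQ (by rw [hV]; exact hQle)
  exact ⟨Q, ⟨(MonoidHom.ofInjective hφ).trans (MulEquiv.subgroupCongr hQeq)⟩⟩

theorem psl34_iso (hF : Fintype.card F = 4) :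
    ∃ S : Sylow 2 (Matrix.ProjectiveSpecialLinearGroup (Fin 3) F),
      ∀ (T : Type v) [Group T] (g₁ g₂ g₃ g₄ z₁ z₂ : T), HD T g₁ g₂ g₃ g₄ z₁ z₂ →
        Nonempty (T ≃* ↥(S : Subgroup (Matrix.ProjectiveSpecialLinearGroup (Fin 3) F))) := by
  obtain ⟨S, ⟨e⟩⟩ := psl34_sylow hF
  obtain ⟨a₁, a₂, a₃, a₄, b₁, b₂, hd⟩ := hU_HD hF
  refine ⟨S, fun T _ g₁ g₂ g₃ g₄ z₁ z₂ h => ?_⟩
  obtain ⟨e'⟩ := h.iso hd
  exact ⟨e'.trans e⟩

end Concrete

end Cfsg.Agent.Lib.Helper45.Heis64
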