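import Mathlib
import Cfsg.Agent.Lib.Helper45.SU3Spec

set_option autoImplicit false

namespace Cfsg.Agent.Lib.Helper45

section SL3NT

theorem sl3_hd (q : ℕ) : (Nat.gcd 3 (q - 1) = 1 ∧ Nat.Coprime 3 (q - 1)) ∨
    (Nat.gcd 3 (q - 1) = 3 ∧ 3 ∣ q - 1) := by
  have h3 : Nat.Prime 3 := by norm_num
  by_cases h : 3 ∣ q - 1
  · exact Or.inr ⟨Nat.gcd_eq_left h, h⟩
  · have hc : Nat.Coprime 3 (q - 1) := (Nat.Prime.coprime_iff_not_dvd h3).mpr h
    exact Or.inl ⟨hc, hc⟩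

theorem sl3_I1 (q d : ℕ) (hd : (d = 1 ∧ Nat.Coprime 3 (q - 1)) ∨ (d = 3 ∧ 3 ∣ q - 1)) :
    3 * ((q - 1) / d) = (3 / d) * (q - 1) := by
  rcases hd with ⟨rfl, -⟩ | ⟨rfl, b, hb⟩
  · simp
  · rw [hb, Nat.mul_div_cancel_left _ (by norm_num)]
    norm_num

theorem sl3_sq (q : ℕ) (hq : 1 ≤ q) : q ^ 2 - 1 = (q - 1) * (q + 1) := by
  obtain ⟨r, rfl⟩ : ∃ r, q = r + 1 := ⟨q - 1, by omega⟩
  simp only [Nat.add_sub_cancel]
  have : (r + 1) ^ 2 = r * (r + 1 + 1) + 1 := by ring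
  omega

theorem sl3_I2 (q d : ℕ) (hq : 1 ≤ q) (hd : (d = 1 ∧ Nat.Coprime 3 (q - 1)) ∨ (d = 3 ∧ 3 ∣ q - 1)) :
    (q ^ 2 - 1) / d * (q - 1) = (q ^ 2 - 1) * ((q - 1) / d) := by
  rcases hd with ⟨rfl, -⟩ | ⟨rfl, b, hb⟩
  · simp
  · rw [sl3_sq q hq, hb, Nat.mul_assoc, Nat.mul_div_cancel_left _ (by norm_num),
      Nat.mul_div_cancel_left _ (by norm_num)]
    ring

theorem sl3_I3 (q d : ℕ) (hq : 1 ≤ q) (hd : (d = 1 ∧ Nat.Coprime 3 (q - 1)) ∨ (d = 3 ∧ 3 ∣ q - 1)) :
    (q + 2) * ((q ^ 2 - 1) / d) = (q ^ 2 - 1) * ((q + 2) / d) := by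
  rcases hd with ⟨rfl, -⟩ | ⟨rfl, b, hb⟩
  · simp [mul_comm]
  · have e : q + 2 = 3 * (b + 1) := by omega
    have e' : q ^ 2 - 1 = 3 * (b * (q + 1)) := by rw [sl3_sq q hq, hb]; ring
    rw [e', e, Nat.mul_div_cancel_left _ (by norm_num), Nat.mul_div_cancel_left _ (by norm_num)]
    ring

theorem sl3_n1 (q : ℕ) (hq : 1 ≤ q) : q ^ 2 + q + 1 = (q - 1) * (q + 2) + 3 := by
  obtain ⟨r, rfl⟩ : ∃ r, q = r + 1 := ⟨q - 1, by omega⟩
  simp only [Nat.add_sub_cancel]
  ring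

theorem sl3_I4 (q d : ℕ) (hq : 1 ≤ q) (hd : (d = 1 ∧ Nat.Coprime 3 (q - 1)) ∨ (d = 3 ∧ 3 ∣ q - 1)) :
    (q ^ 2 + q + 1) / d * (q - 1) = (q ^ 2 + q + 1) * ((q - 1) / d) := by
  rcases hd with ⟨rfl, -⟩ | ⟨rfl, b, hb⟩
  · simp
  · have e : q ^ 2 + q + 1 = 3 * (b * (q + 2) + 1) := by rw [sl3_n1 q hq, hb]; ring
    rw [e, hb, Nat.mul_div_cancel_left _ (by norm_num), Nat.mul_div_cancel_left _ (by norm_num)]
    ring

/-- Singer exponent. -/
theorem sl3_I6 (q d k : ℕ) (hq : 1 ≤ q)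
    (hd : (d = 1 ∧ Nat.Coprime 3 (q - 1)) ∨ (d = 3 ∧ 3 ∣ q - 1)) :
    (q ^ 2 + q + 1) ∣ k * (q - 1) ↔ (q ^ 2 + q + 1) / d ∣ k := by
  rcases hd with ⟨rfl, hc⟩ | ⟨rfl, b, hb⟩
  · rw [Nat.div_one]
    have hcop : Nat.Coprime (q ^ 2 + q + 1) (q - 1) := by
      rw [sl3_n1 q hq]
      have : Nat.gcd ((q - 1) * (q + 2) + 3) (q - 1) = Nat.gcd 3 (q - 1) := by
        rw [add_comm, Nat.gcd_add_mul_left_left]
      exact this.trans hc
    constructor
    · intro h; exact hcop.dvd_of_dvd_mul_right h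
    · intro h; exact Dvd.dvd.mul_right h _
  · have e : q ^ 2 + q + 1 = 3 * (b * (q + 2) + 1) := by rw [sl3_n1 q hq, hb]; ring
    rw [e, hb, Nat.mul_div_cancel_left _ (by norm_num)]
    have hcop : Nat.Coprime (b * (q + 2) + 1) b := by
      have : Nat.gcd (b * (q + 2) + 1) b = Nat.gcd 1 b := by
        rw [add_comm, Nat.gcd_add_mul_left_left]
      rw [Nat.Coprime, this]; simp
    have e2 : k * (3 * b) = 3 * (k * b) := by ring
    rw [e2, Nat.mul_dvd_mul_iff_left (by norm_num)]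
    constructor
    · intro h; exact hcop.dvd_of_dvd_mul_right h
    · intro h; exact Dvd.dvd.mul_right h _

/-- Exponent of the `(q²-1)/d` torus. -/
theorem sl3_I7 (q d k : ℕ) (hq : 2 ≤ q)
    (hd : (d = 1 ∧ Nat.Coprime 3 (q - 1)) ∨ (d = 3 ∧ 3 ∣ q - 1)) :
    ((q + 1) ∣ k ∧ (q ^ 2 - 1) ∣ (q + 2) * k) ↔ (q ^ 2 - 1) / d ∣ k := by
  have hsq := sl3_sq q (by omega)
  have hq1 : 0 < q + 1 := by omega
  have key : ∀ k' : ℕ, (q - 1) * (q + 1) ∣ (q + 2) * ((q + 1) * k') ↔ (q - 1) ∣ 3 * k' := by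
    intro k'
    have e1 : (q + 2) * ((q + 1) * k') = ((q + 2) * k') * (q + 1) := by ring
    rw [e1, Nat.mul_dvd_mul_iff_right hq1]
    have e2 : (q + 2) * k' = (q - 1) * k' + 3 * k' := by
      obtain ⟨r, rfl⟩ : ∃ r, q = r + 1 := ⟨q - 1, by omega⟩
      simp only [Nat.add_sub_cancel]; ring
    rw [e2]
    exact (Nat.dvd_add_right (Dvd.intro _ rfl))
  rcases hd with ⟨rfl, hc⟩ | ⟨rfl, b, hb⟩
  · rw [Nat.div_one, hsq]
    constructor
    · rintro ⟨⟨k', rfl⟩, h2⟩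
      rw [key] at h2
      have : q - 1 ∣ k' := (Nat.Coprime.symm hc).dvd_of_dvd_mul_left h2
      rw [mul_comm]
      exact Nat.mul_dvd_mul_left _ this
    · rintro ⟨j, rfl⟩
      refine ⟨⟨(q - 1) * j, by ring⟩, ?_⟩
      have : (q - 1) * (q + 1) * j = (q + 1) * ((q - 1) * j) := by ring
      rw [this, key]
      exact Dvd.intro (3 * j) (by ring)
  · rw [hsq, hb, Nat.mul_assoc, Nat.mul_div_cancel_left _ (by norm_num)]
    constructor
    · rintro ⟨⟨k', rfl⟩, h2⟩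
      rw [← Nat.mul_assoc, ← hb, key, hb, Nat.mul_dvd_mul_iff_left (by norm_num)] at h2
      rw [mul_comm]
      exact Nat.mul_dvd_mul_left _ h2
    · rintro ⟨j, rfl⟩
      refine ⟨⟨b * j, by ring⟩, ?_⟩
      have : b * (q + 1) * j = (q + 1) * (b * j) := by ring
      rw [← Nat.mul_assoc, ← hb, this, key, hb]
      exact Dvd.intro j (by ring)

/-- Exponent of the non-semisimple class. -/
theorem sl3_I8 (q d k p : ℕ) (hp : Nat.Coprime p (q - 1))
    (hd : (d = 1 ∧ Nat.Coprime 3 (q - 1)) ∨ (d = 3 ∧ 3 ∣ q - 1)) :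
    (p ∣ k ∧ (q - 1) ∣ 3 * k) ↔ p * (q - 1) / d ∣ k := by
  rcases hd with ⟨rfl, hc⟩ | ⟨rfl, b, hb⟩
  · rw [Nat.div_one]
    constructor
    · rintro ⟨h1, h2⟩
      have : q - 1 ∣ k := (Nat.Coprime.symm hc).dvd_of_dvd_mul_left h2
      exact hp.mul_dvd_of_dvd_of_dvd h1 this
    · intro h
      exact ⟨(Dvd.intro _ rfl).trans h, ((Dvd.intro_left _ rfl).trans h).mul_left 3⟩
  · rw [hb] at hp ⊢
    have e : p * (3 * b) / 3 = p * b := by
      rw [show p * (3 * b) = 3 * (p * b) by ring, Nat.mul_div_cancel_left _ (by norm_num)]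
    rw [e, Nat.mul_dvd_mul_iff_left (by norm_num)]
    have hpb : Nat.Coprime p b := Nat.Coprime.coprime_mul_left_right hp
    constructor
    · rintro ⟨h1, h2⟩
      exact hpb.mul_dvd_of_dvd_of_dvd h1 h2
    · intro h
      exact ⟨(Dvd.intro _ rfl).trans h, (Dvd.intro_left _ rfl).trans h⟩

end SL3NT

open Polynomial

section SL3A

set_option linter.unusedSectionVars false

variable {F : Type*} [Field F] [Fintype F]

/-- A power of `g` dies in `PSL₃` exactly when the matrix power is scalar. -/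
theorem psl3_pow_eq_one_iff (g : Matrix.SpecialLinearGroup (Fin 3) F) (k : ℕ) :
    (QuotientGroup.mk g : Matrix.ProjectiveSpecialLinearGroup (Fin 3) F) ^ k = 1 ↔
      ∃ c : F, (g.1 : Matrix (Fin 3) (Fin 3) F) ^ k = c • 1 := by
  rw [← QuotientGroup.mk_pow, QuotientGroup.eq_one_iff, Matrix.SpecialLinearGroup.mem_center_iff]
  constructor
  · rintro ⟨r, hr, h⟩
    refine ⟨r, ?_⟩
    rw [Matrix.SpecialLinearGroup.coe_pow] at h
    rw [← h]
    ext i j
    simp [Matrix.scalar_apply, Matrix.diagonal_apply, Matrix.one_apply]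
  · rintro ⟨c, hc⟩
    have hc3 : c ^ 3 = 1 := (scalar_cube g.1 g.2 k c hc).1
    refine ⟨c, by simpa using hc3, ?_⟩
    rw [Matrix.SpecialLinearGroup.coe_pow, hc]
    ext i j
    simp [Matrix.scalar_apply, Matrix.diagonal_apply, Matrix.one_apply]

/-- Generic production of element orders in `PSL₃(F)` from one matrix. -/
theorem psl3_orders_of_elt (N : ℕ) (hN : 0 < N)
    (M : Matrix (Fin 3) (Fin 3) F) (hdet : M.det = 1)
    (h1 : ∃ c : F, M ^ N = c • 1) (h2 : ∀ (m : ℕ) (c : F), M ^ m = c • 1 → N ∣ m)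
    (s : ℕ) (hs : s ∣ N) : ∃ x : Matrix.ProjectiveSpecialLinearGroup (Fin 3) F, orderOf x = s := by
  obtain ⟨g, hg⟩ : ∃ g : Matrix.SpecialLinearGroup (Fin 3) F, g.1 = M := ⟨⟨M, hdet⟩, rfl⟩
  have hx1 : (QuotientGroup.mk g : Matrix.ProjectiveSpecialLinearGroup (Fin 3) F) ^ N = 1 :=
    (psl3_pow_eq_one_iff g N).mpr (by rw [hg]; exact h1)
  have ho : orderOf (QuotientGroup.mk g : Matrix.ProjectiveSpecialLinearGroup (Fin 3) F) = N := by
    apply Nat.dvd_antisymm (orderOf_dvd_of_pow_eq_one hx1)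
    obtain ⟨c, hc⟩ := (psl3_pow_eq_one_iff g _).mp
      (pow_orderOf_eq_one (QuotientGroup.mk g : Matrix.ProjectiveSpecialLinearGroup (Fin 3) F))
    rw [hg] at hc
    exact h2 _ c hc
  refine ⟨(QuotientGroup.mk g : Matrix.ProjectiveSpecialLinearGroup (Fin 3) F) ^ (N / s), ?_⟩
  have := orderOf_pow_orderOf_div
    (x := (QuotientGroup.mk g : Matrix.ProjectiveSpecialLinearGroup (Fin 3) F)) (n := s)
    (by rw [ho]; omega) (by rw [ho]; exact hs)
  rwa [ho] at this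

/-- Fixed points of `x ↦ x ^ |F|` in an extension of `F` lie in `F`. -/
theorem fixed_mem_range' {K : Type*} [Field K] [Algebra F K]
    (z : K) (hz : z ^ (Fintype.card F) = z) : ∃ c : F, algebraMap F K c = z := by
  classical
  have h1 : 1 < Fintype.card F := Fintype.one_lt_card
  have hP0 : (X ^ (Fintype.card F) - X : K[X]) ≠ 0 := FiniteField.X_pow_card_sub_X_ne_zero K h1
  have hdeg : (X ^ (Fintype.card F) - X : K[X]).natDegree = Fintype.card F :=
    FiniteField.X_pow_card_sub_X_natDegree_eq K h1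
  have hsub : (Finset.univ.image (algebraMap F K)) ⊆
      (X ^ (Fintype.card F) - X : K[X]).roots.toFinset := by
    intro x hx
    obtain ⟨c, -, rfl⟩ := Finset.mem_image.mp hx
    rw [Multiset.mem_toFinset, mem_roots hP0, IsRoot.def, eval_sub, eval_pow, eval_X,
      sub_eq_zero, ← map_pow, FiniteField.pow_card]
  have hcard : (X ^ (Fintype.card F) - X : K[X]).roots.toFinset.card ≤
      (Finset.univ.image (algebraMap F K)).card := by
    rw [Finset.card_image_of_injective _ (algebraMap F K).injective, Finset.card_univ]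
    calc (X ^ (Fintype.card F) - X : K[X]).roots.toFinset.card
        ≤ Multiset.card (X ^ (Fintype.card F) - X : K[X]).roots := Multiset.toFinset_card_le _
      _ ≤ (X ^ (Fintype.card F) - X : K[X]).natDegree := card_roots' _
      _ = Fintype.card F := hdeg
  have heq := Finset.eq_of_subset_of_card_le hsub hcard
  have hzmem : z ∈ (X ^ (Fintype.card F) - X : K[X]).roots.toFinset := by
    rw [Multiset.mem_toFinset, mem_roots hP0, IsRoot.def, eval_sub, eval_pow, eval_X, hz, sub_self]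
  rw [← heq] at hzmem
  obtain ⟨c, -, hc⟩ := Finset.mem_image.mp hzmem
  exact ⟨c, hc⟩

/-- Elements of `F` are fixed by the `|F|`-th power map in any extension. -/
theorem algebraMap_pow_card {K : Type*} [Field K] [Algebra F K] (c : F) :
    (algebraMap F K c) ^ (Fintype.card F) = algebraMap F K c := by
  rw [← map_pow, FiniteField.pow_card]

theorem pow_card_sub_one_eq_one' (x : F) (hx : x ≠ 0) : x ^ (Fintype.card F - 1) = 1 :=
  FiniteField.pow_card_sub_one_eq_one x hx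

end SL3A

section SL3B

set_option linter.unusedSectionVars false

variable {F : Type*} [Field F]

/-- A double root and a simple root with equal `j`-th powers, any characteristic. -/
theorem pow_eq_smul_of_double (p : ℕ) [Fact p.Prime] [CharP F p]
    {A : Type*} [Ring A] [Algebra F A] (M : A) (x z e : F) (j : ℕ) (hxz : x ≠ z)
    (hM : M ^ 3 - (x + x + z) • M ^ 2 + (x * x + x * z + x * z) • M - (x * x * z) • 1 = 0)
    (hx : x ^ j = e) (hz : z ^ j = e) : M ^ (j * p) = (e ^ p) • 1 := by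
  have hp2 : 2 ≤ p := (Fact.out : p.Prime).two_le
  have hroot : ∀ y : F, y ^ j = e → (X - C y) ∣ (X ^ j - C e : F[X]) := by
    intro y hy
    rw [dvd_iff_isRoot]
    simp [hy]
  have hcop : IsCoprime ((X - C x) * (X - C x) : F[X]) (X - C z) := by
    have h1 : IsCoprime (X - C x : F[X]) (X - C z) :=
      isCoprime_X_sub_C_of_isUnit_sub (sub_ne_zero.mpr hxz).isUnit
    exact h1.mul_left h1
  have hdvd : (X - C x) * (X - C x) * (X - C z) ∣ (X ^ j - C e : F[X]) ^ p := by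
    apply IsCoprime.mul_dvd hcop
    · have h2 : (X - C x) * (X - C x) ∣ (X ^ j - C e : F[X]) ^ 2 := by
        rw [sq]; exact mul_dvd_mul (hroot x hx) (hroot x hx)
      exact h2.trans (pow_dvd_pow _ hp2)
    · exact (hroot z hz).trans (dvd_pow_self _ (by omega))
  have hpow : (X ^ j - C e : F[X]) ^ p = X ^ (j * p) - C (e ^ p) := by
    rw [sub_pow_char, ← pow_mul, ← C_pow]
  rw [hpow] at hdvd
  obtain ⟨R, hR⟩ := hdvd
  have h := congrArg (aeval M) hR
  rw [cubic_factor, map_mul, aeval_cubic, hM, zero_mul] at h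
  simp only [map_sub, map_pow, aeval_X, aeval_C] at h
  rw [sub_eq_zero] at h
  rw [h, ← map_pow, Algebra.algebraMap_eq_smul_one]

/-- A triple root in characteristic two. -/
theorem pow_four_of_triple [CharP F 2] {A : Type*} [Ring A] [Algebra F A] (M : A) (x : F)
    (hM : M ^ 3 - (x + x + x) • M ^ 2 + (x * x + x * x + x * x) • M - (x * x * x) • 1 = 0) :
    M ^ 4 = (x ^ 4) • 1 := by
  haveI : Fact (Nat.Prime 2) := ⟨Nat.prime_two⟩
  have hdvd : (X - C x) * (X - C x) * (X - C x) ∣ (X - C x : F[X]) ^ 4 := ⟨X - C x, by ring⟩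
  have hpow : (X - C x : F[X]) ^ 4 = X ^ 4 - C (x ^ 4) := by
    have e1 : (X - C x : F[X]) ^ 4 = ((X - C x) ^ 2) ^ 2 := by ring
    rw [e1, sub_pow_char, sub_pow_char, ← pow_mul, ← pow_mul, ← C_pow]
  rw [hpow] at hdvd
  obtain ⟨R, hR⟩ := hdvd
  have h := congrArg (aeval M) hR
  rw [cubic_factor, map_mul, aeval_cubic, hM, zero_mul] at h
  simp only [map_sub, map_pow, aeval_X, aeval_C] at h
  rw [sub_eq_zero] at h
  rw [h, ← map_pow, Algebra.algebraMap_eq_smul_one]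

variable [Fintype F]

/-- Two equal eigenvalues in `F`. -/
theorem two_equal_case (p : ℕ) [Fact p.Prime] [CharP F p] (d : ℕ)
    (hd : (d = 1 ∧ Nat.Coprime 3 (Fintype.card F - 1)) ∨ (d = 3 ∧ 3 ∣ Fintype.card F - 1))
    {A : Type*} [Ring A] [Algebra F A] (M : A) (x z a b c : F) (hxz : x * x * z = 1)
    (ha : a = x + x + z) (hb : b = x * x + x * z + x * z) (hc : c = x * x * z)
    (hM : M ^ 3 - a • M ^ 2 + b • M - c • 1 = 0) :
    (∃ e : F, M ^ (p * ((Fintype.card F - 1) / d)) = e • 1) ∨ (p = 2 ∧ ∃ e : F, M ^ 4 = e • 1) := by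
  subst ha hb hc
  have hx0 : x ≠ 0 := by
    rintro rfl
    simp at hxz
  obtain ⟨j, hj⟩ : ∃ j, (Fintype.card F - 1) / d = j := ⟨_, rfl⟩
  rw [hj]
  have hx3 : x ^ (3 * j) = 1 := by
    rw [← hj, sl3_I1 _ d hd, pow_mul, FiniteField.pow_card_sub_one_eq_one _ (pow_ne_zero _ hx0)]
  have hxj : x ^ j = z ^ j := by
    have h1 : z ^ j * x ^ (2 * j) = 1 := by
      have : z ^ j * x ^ (2 * j) = (x * x * z) ^ j := by
        rw [mul_pow, mul_pow, pow_mul, sq]; ring
      rw [this, hxz, one_pow]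
    have h2 : x ^ j * x ^ (2 * j) = 1 := by
      rw [← pow_add, ← hx3]; congr 1; ring
    exact mul_right_cancel₀ (pow_ne_zero _ hx0) (h2.trans h1.symm)
  by_cases hxz' : x = z
  · subst hxz'
    by_cases hp : p = 2
    · right
      subst hp
      exact ⟨rfl, _, pow_four_of_triple M x hM⟩
    · left
      have := pow_eq_smul_of_char p hp M x x x (x ^ j) j hM rfl rfl rfl
      rw [mul_comm] at this
      exact ⟨_, this⟩
  · left
    have := pow_eq_smul_of_double p M x z (x ^ j) j hxz' hM rfl hxj.symm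
    rw [mul_comm] at this
    exact ⟨_, this⟩

/-- All three eigenvalues in `F`. -/
theorem split_case (p : ℕ) [Fact p.Prime] [CharP F p] (d : ℕ)
    (hd : (d = 1 ∧ Nat.Coprime 3 (Fintype.card F - 1)) ∨ (d = 3 ∧ 3 ∣ Fintype.card F - 1))
    {A : Type*} [Ring A] [Algebra F A] (M : A) (μ ν ρ : F) (h1 : μ * ν * ρ = 1)
    (hM : M ^ 3 - (μ + ν + ρ) • M ^ 2 + (μ * ν + μ * ρ + ν * ρ) • M - (μ * ν * ρ) • 1 = 0) :
    (∃ e : F, M ^ (Fintype.card F - 1) = e • 1) ∨
      (∃ e : F, M ^ (p * ((Fintype.card F - 1) / d)) = e • 1) ∨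
      (p = 2 ∧ ∃ e : F, M ^ 4 = e • 1) := by
  have hμ0 : μ ≠ 0 := by rintro rfl; simp at h1
  have hν0 : ν ≠ 0 := by rintro rfl; simp at h1
  have hρ0 : ρ ≠ 0 := by rintro rfl; simp at h1
  by_cases h12 : μ = ν
  · right
    subst h12
    exact two_equal_case p d hd M μ ρ _ _ _ h1 (by ring) (by ring) (by ring) hM
  by_cases h13 : μ = ρ
  · right
    subst h13
    exact two_equal_case p d hd M μ ν _ _ _ (by rw [← h1]; ring) (by ring) (by ring) (by ring) hM
  by_cases h23 : ν = ρ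
  · right
    subst h23
    exact two_equal_case p d hd M ν μ _ _ _ (by rw [← h1]; ring) (by ring) (by ring) (by ring) hM
  · left
    exact ⟨1, pow_eq_smul_of_distinct_roots M μ ν ρ 1 _ h12 h13 h23 hM
      (FiniteField.pow_card_sub_one_eq_one _ hμ0) (FiniteField.pow_card_sub_one_eq_one _ hν0)
      (FiniteField.pow_card_sub_one_eq_one _ hρ0)⟩

end SL3B

section SL3C

set_option linter.unusedSectionVars false

variable {F : Type*} [Field F] [Fintype F]

/-- Powers of the roots of an irreducible quadratic factor. -/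
theorem quad_roots_pow {K : Type*} [Field K] [Algebra F K] (d : ℕ)
    (hd : (d = 1 ∧ Nat.Coprime 3 (Fintype.card F - 1)) ∨ (d = 3 ∧ 3 ∣ Fintype.card F - 1))
    (μ s t : F) (hμt : μ * t = 1) (hno : ∀ ν : F, ν ^ 2 - s * ν + t ≠ 0) (ν ρ : K)
    (hρ : ρ = algebraMap F K s - ν)
    (hν : ν ^ 2 - algebraMap F K s * ν + algebraMap F K t = 0) :
    ∃ c : F, ν ^ ((Fintype.card F ^ 2 - 1) / d) = algebraMap F K c ∧
      ρ ^ ((Fintype.card F ^ 2 - 1) / d) = algebraMap F K c ∧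
      (algebraMap F K μ) ^ ((Fintype.card F ^ 2 - 1) / d) = algebraMap F K c ∧
      ν ≠ ρ ∧ algebraMap F K μ ≠ ν ∧ algebraMap F K μ ≠ ρ := by
  obtain ⟨q, hq⟩ : ∃ q, Fintype.card F = q := ⟨_, rfl⟩
  have hq2 : 2 ≤ q := by rw [← hq]; exact Fintype.one_lt_card
  have hφ : ∀ x : K, FiniteField.frobeniusAlgHom F K x = x ^ q := fun x => by
    rw [← hq]; rfl
  rw [hq] at hd ⊢
  have hνρ : ν * ρ = algebraMap F K t := by
    rw [hρ]; linear_combination (-1 : K) * hν
  have hroot : ∀ z : K, z ^ 2 - algebraMap F K s * z + algebraMap F K t = 0 → z = ν ∨ z = ρ := by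
    intro z hz
    have : (z - ν) * (z - ρ) = 0 := by
      rw [hρ]; linear_combination hz - hν
    rcases mul_eq_zero.mp this with h | h
    · exact Or.inl (sub_eq_zero.mp h)
    · exact Or.inr (sub_eq_zero.mp h)
  have hνq : (ν ^ q) ^ 2 - algebraMap F K s * ν ^ q + algebraMap F K t = 0 := by
    have h := congrArg (FiniteField.frobeniusAlgHom F K) hν
    simp only [map_sub, map_add, map_mul, map_pow, AlgHom.commutes, map_zero] at h
    rw [hφ] at h
    exact h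
  have hnotin : ∀ c : F, algebraMap F K c ≠ ν := by
    intro c hc
    apply hno c
    apply (algebraMap F K).injective
    rw [map_zero, map_add, map_sub, map_mul, map_pow, hc]
    exact hν
  have hνq_ne : ν ^ q ≠ ν := by
    intro h
    rw [← hq] at h
    obtain ⟨c, hc⟩ := fixed_mem_range' ν h
    exact hnotin c hc
  have hνq_eq : ν ^ q = ρ := (hroot _ hνq).resolve_left hνq_ne
  have hρq : ρ ^ q = ν := by
    have h1 : ρ ^ q = FiniteField.frobeniusAlgHom F K ρ := (hφ ρ).symm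
    rw [h1, hρ, map_sub, AlgHom.commutes, hφ, hνq_eq, hρ]
    ring
  have ht0 : algebraMap F K t ≠ 0 := by
    intro h
    have : t = 0 := (algebraMap F K).injective (by rw [h, map_zero])
    rw [this, mul_zero] at hμt
    exact zero_ne_one hμt
  have hν0 : ν ≠ 0 := by
    rintro rfl
    rw [zero_mul] at hνρ
    exact ht0 hνρ.symm
  have hνq2 : ν ^ (q ^ 2) = ν := by
    rw [sq, pow_mul, hνq_eq, hρq]
  have hq21 : q ^ 2 - 1 + 1 = q ^ 2 := by
    have : 1 ≤ q ^ 2 := Nat.one_le_pow _ _ (by omega)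
    omega
  have hνord : ν ^ (q ^ 2 - 1) = 1 := by
    apply mul_right_cancel₀ hν0
    rw [← pow_succ, hq21, hνq2, one_mul]
  obtain ⟨n2, hn2⟩ : ∃ n2, (q ^ 2 - 1) / d = n2 := ⟨_, rfl⟩
  rw [hn2]
  have h_a : ν ^ (n2 * (q - 1)) = 1 := by
    rw [← hn2, sl3_I2 q d (by omega) hd, pow_mul, hνord, one_pow]
  have h_b : ν ^ ((q + 2) * n2) = 1 := by
    rw [← hn2, sl3_I3 q d (by omega) hd, pow_mul, hνord, one_pow]
  have hcq : (ν ^ n2) ^ q = ν ^ n2 := by
    have : n2 * q = n2 * (q - 1) + n2 := by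
      obtain ⟨r, rfl⟩ : ∃ r, q = r + 1 := ⟨q - 1, by omega⟩
      simp only [Nat.add_sub_cancel]; ring
    rw [← pow_mul, this, pow_add, h_a, one_mul]
  have hcq' : (ν ^ n2) ^ (Fintype.card F) = ν ^ n2 := by rw [hq]; exact hcq
  obtain ⟨c, hc⟩ := fixed_mem_range' (ν ^ n2) hcq'
  have hρn : ρ ^ n2 = algebraMap F K c := by
    rw [← hνq_eq, ← pow_mul, mul_comm, pow_mul, hcq, hc]
  have hμn : (algebraMap F K μ) ^ n2 = algebraMap F K c := by
    have h1 : algebraMap F K μ * ν ^ (q + 1) = 1 := by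
      rw [pow_succ, hνq_eq, mul_comm (ρ) ν, hνρ, ← map_mul, hμt, map_one]
    have h2 : (algebraMap F K μ) ^ n2 * ν ^ ((q + 1) * n2) = 1 := by
      rw [pow_mul, ← mul_pow, h1, one_pow]
    have h3 : ν ^ n2 * ν ^ ((q + 1) * n2) = 1 := by
      rw [← pow_add, ← h_b]; congr 1; ring
    rw [hc]
    exact mul_right_cancel₀ (pow_ne_zero _ hν0) (h2.trans h3.symm)
  refine ⟨c, hc.symm, hρn, hμn, ?_, ?_, ?_⟩
  · intro h
    apply hνq_ne
    rw [hνq_eq, ← h]
  · exact hnotin μ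
  · intro h
    apply hνq_ne
    have h1 : ρ ^ q = ρ := by
      rw [← h, ← hq]; exact algebraMap_pow_card μ
    rw [hνq_eq, ← hρq, h1]

theorem mapMatrix_smul' {K : Type*} [Field K] (f : F →+* K) (c : F)
    (X : Matrix (Fin 3) (Fin 3) F) : f.mapMatrix (c • X) = f c • f.mapMatrix X := by
  ext i j
  simp [RingHom.mapMatrix_apply]

/-- A root in `F` and an irreducible quadratic factor. -/
theorem quad_case (d : ℕ)
    (hd : (d = 1 ∧ Nat.Coprime 3 (Fintype.card F - 1)) ∨ (d = 3 ∧ 3 ∣ Fintype.card F - 1))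
    (M : Matrix (Fin 3) (Fin 3) F) (μ s t : F) (hμt : μ * t = 1)
    (hM : M ^ 3 - (μ + s) • M ^ 2 + (μ * s + t) • M - 1 = 0)
    (hno : ∀ ν : F, ν ^ 2 - s * ν + t ≠ 0) :
    ∃ c : F, M ^ ((Fintype.card F ^ 2 - 1) / d) = c • 1 := by
  classical
  have hdeg : (X ^ 2 - C s * X + C t : F[X]).natDegree = 2 := by compute_degree!
  have hirr : Irreducible (X ^ 2 - C s * X + C t : F[X]) := by
    apply irreducible_of_degree_le_three_of_not_isRoot
    · rw [hdeg]; decide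
    · intro x hx
      apply hno x
      have : eval x (X ^ 2 - C s * X + C t : F[X]) = 0 := hx
      simpa using this
  haveI : Fact (Irreducible (X ^ 2 - C s * X + C t : F[X])) := ⟨hirr⟩
  have hν : (AdjoinRoot.root (X ^ 2 - C s * X + C t : F[X])) ^ 2 -
      algebraMap F (AdjoinRoot (X ^ 2 - C s * X + C t : F[X])) s *
        (AdjoinRoot.root (X ^ 2 - C s * X + C t : F[X])) +
      algebraMap F (AdjoinRoot (X ^ 2 - C s * X + C t : F[X])) t = 0 := by
    have h : aeval (AdjoinRoot.root (X ^ 2 - C s * X + C t : F[X]))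
        (X ^ 2 - C s * X + C t : F[X]) = 0 := by
      rw [AdjoinRoot.aeval_eq, AdjoinRoot.mk_self]
    simp only [map_add, map_sub, map_mul, map_pow, aeval_X, aeval_C] at h
    exact h
  obtain ⟨ν, hνdef⟩ : ∃ ν, ν = AdjoinRoot.root (X ^ 2 - C s * X + C t : F[X]) := ⟨_, rfl⟩
  rw [← hνdef] at hν
  obtain ⟨ρ, hρ⟩ : ∃ ρ, ρ = algebraMap F (AdjoinRoot (X ^ 2 - C s * X + C t : F[X])) s - ν :=
    ⟨_, rfl⟩
  obtain ⟨c, h1, h2, h3, d1, d2, d3⟩ := quad_roots_pow d hd μ s t hμt hno ν ρ hρ hν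
  refine ⟨c, ?_⟩
  obtain ⟨f, hf⟩ : ∃ f, f = algebraMap F (AdjoinRoot (X ^ 2 - C s * X + C t : F[X])) := ⟨_, rfl⟩
  rw [← hf] at h1 h2 h3 d2 d3 hρ hν
  have hνρ : ν * ρ = f t := by
    rw [hρ]; linear_combination (-1 : AdjoinRoot (X ^ 2 - C s * X + C t : F[X])) * hν
  have hM' : (f.mapMatrix M) ^ 3 - (f μ + ν + ρ) • (f.mapMatrix M) ^ 2 +
      (f μ * ν + f μ * ρ + ν * ρ) • (f.mapMatrix M) - (f μ * ν * ρ) • 1 = 0 := by
    have h := congrArg f.mapMatrix hM
    rw [map_sub, map_add, map_sub, map_pow, mapMatrix_smul', mapMatrix_smul', map_pow, map_one,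
      map_zero, map_add, map_add, map_mul] at h
    have e1 : f μ + ν + ρ = f μ + f s := by rw [hρ]; ring
    have e2 : f μ * ν + f μ * ρ + ν * ρ = f μ * f s + f t := by rw [hνρ, hρ]; ring
    have e3 : f μ * ν * ρ = 1 := by rw [mul_assoc, hνρ, ← map_mul, hμt, map_one]
    rw [e1, e2, e3, one_smul]
    exact h
  have hpow := pow_eq_smul_of_distinct_roots (f.mapMatrix M) (f μ) ν ρ (f c) _ d2 d3 d1 hM'
    h3 h1 h2
  have hfin : f.mapMatrix (M ^ ((Fintype.card F ^ 2 - 1) / d)) =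
      f.mapMatrix (c • (1 : Matrix (Fin 3) (Fin 3) F)) := by
    rw [map_pow, hpow, mapMatrix_smul', map_one]
  exact Matrix.map_injective f.injective hfin

end SL3C

section SL3D

set_option linter.unusedSectionVars false

variable {F : Type*} [Field F] [Fintype F]

theorem chiPoly_card' (a b : F) :
    Nat.card (AdjoinRoot (chiPoly a b)) = Fintype.card F ^ 3 := by
  have := (chiPoly_monic a b).finite_adjoinRoot
  have := (chiPoly_monic a b).free_adjoinRoot
  rw [Module.natCard_eq_pow_finrank (K := F), Nat.card_eq_fintype_card,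
    (AdjoinRoot.powerBasis' (chiPoly_monic a b)).finrank, AdjoinRoot.powerBasis'_dim,
    chiPoly_natDegree]

/-- Powers of a root of an irreducible characteristic cubic. -/
theorem irred_root_pow' {K : Type*} [Field K] [Algebra F K] [Finite K]
    (hK : Nat.card K = Fintype.card F ^ 3) (d : ℕ)
    (hd : (d = 1 ∧ Nat.Coprime 3 (Fintype.card F - 1)) ∨ (d = 3 ∧ 3 ∣ Fintype.card F - 1))
    (a b : F) (hno : ∀ μ : F, μ ^ 3 - a * μ ^ 2 + b * μ - 1 ≠ 0) (l : K)
    (hl : l ^ 3 - algebraMap F K a * l ^ 2 + algebraMap F K b * l - 1 = 0) :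
    ∃ c : F, l ^ ((Fintype.card F ^ 2 + Fintype.card F + 1) / d) = algebraMap F K c := by
  obtain ⟨q, hq⟩ : ∃ q, Fintype.card F = q := ⟨_, rfl⟩
  have hq2 : 2 ≤ q := by rw [← hq]; exact Fintype.one_lt_card
  have hφ : ∀ x : K, FiniteField.frobeniusAlgHom F K x = x ^ q := fun x => by
    rw [← hq]; rfl
  rw [hq] at hd hK ⊢
  have hfrob : ∀ z : K, z ^ 3 - algebraMap F K a * z ^ 2 + algebraMap F K b * z - 1 = 0 →
      (z ^ q) ^ 3 - algebraMap F K a * (z ^ q) ^ 2 + algebraMap F K b * z ^ q - 1 = 0 := by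
    intro z hz
    have h := congrArg (FiniteField.frobeniusAlgHom F K) hz
    simp only [map_sub, map_add, map_mul, map_pow, AlgHom.commutes, map_zero, map_one] at h
    rw [hφ] at h
    exact h
  have hnotin : ∀ z : K, z ^ 3 - algebraMap F K a * z ^ 2 + algebraMap F K b * z - 1 = 0 →
      z ^ q ≠ z := by
    intro z hz h
    rw [← hq] at h
    obtain ⟨c, hc⟩ := fixed_mem_range' z h
    apply hno c
    apply (algebraMap F K).injective
    rw [map_zero, map_sub, map_add, map_sub, map_mul, map_mul, map_pow, map_pow, map_one, hc]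
    exact hz
  have hl1 := hfrob l hl
  have hl2 := hfrob _ hl1
  have hne1 : l ^ q ≠ l := hnotin l hl
  have hne2 : (l ^ q) ^ q ≠ l ^ q := hnotin _ hl1
  have hcardpow : l ^ (q ^ 3) = l := by
    haveI := Fintype.ofFinite K
    have h := FiniteField.pow_card l
    rw [← Nat.card_eq_fintype_card, hK] at h
    exact h
  have hne3 : (l ^ q) ^ q ≠ l := by
    intro h
    apply hne1
    have : l ^ (q ^ 3) = l ^ q := by
      rw [show q ^ 3 = q * q * q by ring, pow_mul, pow_mul, h]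
    rw [← this, hcardpow]
  obtain ⟨hprod, -⟩ := three_roots (algebraMap F K a) (algebraMap F K b) l (l ^ q) ((l ^ q) ^ q)
    (Ne.symm hne1) (Ne.symm hne3) (Ne.symm hne2) hl hl1 hl2
  have hnorm : l ^ (q ^ 2 + q + 1) = 1 := by
    rw [← hprod, pow_add, pow_add, pow_one, sq, pow_mul]
    ring
  obtain ⟨n1, hn1⟩ : ∃ n1, (q ^ 2 + q + 1) / d = n1 := ⟨_, rfl⟩
  rw [hn1]
  have h_a : l ^ (n1 * (q - 1)) = 1 := by
    rw [← hn1, sl3_I4 q d (by omega) hd, pow_mul, hnorm, one_pow]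
  have hcq : (l ^ n1) ^ q = l ^ n1 := by
    have : n1 * q = n1 * (q - 1) + n1 := by
      obtain ⟨r, rfl⟩ : ∃ r, q = r + 1 := ⟨q - 1, by omega⟩
      simp only [Nat.add_sub_cancel]; ring
    rw [← pow_mul, this, pow_add, h_a, one_mul]
  have hcq' : (l ^ n1) ^ (Fintype.card F) = l ^ n1 := by rw [hq]; exact hcq
  obtain ⟨c, hc⟩ := fixed_mem_range' (l ^ n1) hcq'
  exact ⟨c, hc.symm⟩

/-- Irreducible characteristic cubic. -/
theorem irred_case' (d : ℕ)
    (hd : (d = 1 ∧ Nat.Coprime 3 (Fintype.card F - 1)) ∨ (d = 3 ∧ 3 ∣ Fintype.card F - 1))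
    (M : Matrix (Fin 3) (Fin 3) F) (a b : F) (hM : M ^ 3 - a • M ^ 2 + b • M - 1 = 0)
    (hno : ∀ μ : F, μ ^ 3 - a * μ ^ 2 + b * μ - 1 ≠ 0) :
    ∃ c : F, M ^ ((Fintype.card F ^ 2 + Fintype.card F + 1) / d) = c • 1 := by
  haveI : Fact (Irreducible (chiPoly a b)) := ⟨chiPoly_irreducible a b hno⟩
  haveI := chiPoly_finite a b
  obtain ⟨c, hc⟩ := irred_root_pow' (chiPoly_card' a b) d hd a b hno
    (AdjoinRoot.root (chiPoly a b)) (chiPoly_root a b)
  refine ⟨c, ?_⟩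
  have hMa : aeval M (chiPoly a b) = 0 := by rw [aeval_chiPoly]; exact hM
  have h := congrArg (adjLift (chiPoly a b) M hMa) hc
  rw [map_pow, adjLift_root, AlgHom.commutes, Algebra.algebraMap_eq_smul_one] at h
  exact h

/-- Upper bound for the spectrum of `PSL₃(F)`. -/
theorem psl3_order_upper (p : ℕ) [Fact p.Prime] [CharP F p]
    (x : Matrix.ProjectiveSpecialLinearGroup (Fin 3) F) :
    orderOf x ∣ (Fintype.card F ^ 2 + Fintype.card F + 1) / Nat.gcd 3 (Fintype.card F - 1) ∨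
      orderOf x ∣ (Fintype.card F ^ 2 - 1) / Nat.gcd 3 (Fintype.card F - 1) ∨
      orderOf x ∣ Fintype.card F - 1 ∨
      orderOf x ∣ p * (Fintype.card F - 1) / Nat.gcd 3 (Fintype.card F - 1) ∨
      (p = 2 ∧ orderOf x ∣ 4) := by
  obtain ⟨g, rfl⟩ := QuotientGroup.mk_surjective x
  have hd := sl3_hd (Fintype.card F)
  obtain ⟨d, hdd⟩ : ∃ d, Nat.gcd 3 (Fintype.card F - 1) = d := ⟨_, rfl⟩
  rw [hdd] at hd ⊢
  have hdvd : d ∣ Fintype.card F - 1 := by rw [← hdd]; exact Nat.gcd_dvd_right _ _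
  have key : ∀ N : ℕ, (∃ c : F, (g.1 : Matrix (Fin 3) (Fin 3) F) ^ N = c • 1) →
      orderOf (QuotientGroup.mk g : Matrix.ProjectiveSpecialLinearGroup (Fin 3) F) ∣ N :=
    fun N h => orderOf_dvd_of_pow_eq_one ((psl3_pow_eq_one_iff g N).mpr h)
  have hCH := cayley_hamilton_three (g.1 : Matrix (Fin 3) (Fin 3) F)
  have hdet : (g.1 : Matrix (Fin 3) (Fin 3) F).det = 1 := g.2
  rw [hdet, one_smul] at hCH
  obtain ⟨a, ha⟩ : ∃ a, (g.1 : Matrix (Fin 3) (Fin 3) F).trace = a := ⟨_, rfl⟩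
  obtain ⟨b, hb⟩ : ∃ b, (Matrix.adjugate (g.1 : Matrix (Fin 3) (Fin 3) F)).trace = b := ⟨_, rfl⟩
  rw [ha, hb] at hCH
  by_cases hroot : ∃ μ : F, μ ^ 3 - a * μ ^ 2 + b * μ - 1 = 0
  · obtain ⟨μ, hμ⟩ := hroot
    have hμ0 : μ ≠ 0 := by
      rintro rfl
      have : (-1 : F) = 0 := by linear_combination hμ
      exact one_ne_zero (neg_eq_zero.mp this)
    obtain ⟨s, hs⟩ : ∃ s, s = a - μ := ⟨_, rfl⟩
    obtain ⟨t, ht⟩ : ∃ t, t = μ⁻¹ := ⟨_, rfl⟩
    have hμt : μ * t = 1 := by rw [ht]; exact mul_inv_cancel₀ hμ0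
    have ha' : a = μ + s := by rw [hs]; ring
    have hb' : b = μ * s + t := by
      have : μ * b = μ * (μ * s + t) := by
        rw [hs]
        linear_combination hμ - hμt
      exact mul_left_cancel₀ hμ0 this
    by_cases hquad : ∃ ν : F, ν ^ 2 - s * ν + t = 0
    · obtain ⟨ν, hν⟩ := hquad
      obtain ⟨ρ, hρ⟩ : ∃ ρ, ρ = s - ν := ⟨_, rfl⟩
      have hνρ : ν * ρ = t := by rw [hρ]; linear_combination (-1 : F) * hν
      have h1 : μ * ν * ρ = 1 := by rw [mul_assoc, hνρ, hμt]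
      have hM' : (g.1 : Matrix (Fin 3) (Fin 3) F) ^ 3 -
          (μ + ν + ρ) • (g.1 : Matrix (Fin 3) (Fin 3) F) ^ 2 +
          (μ * ν + μ * ρ + ν * ρ) • (g.1 : Matrix (Fin 3) (Fin 3) F) - (μ * ν * ρ) • 1 = 0 := by
        have e1 : μ + ν + ρ = a := by rw [ha', hρ]; ring
        have e2 : μ * ν + μ * ρ + ν * ρ = b := by rw [hb', hνρ, hρ]; ring
        rw [e1, e2, h1, one_smul]
        exact hCH
      rcases split_case p d hd (g.1 : Matrix (Fin 3) (Fin 3) F) μ ν ρ h1 hM' with h | h | ⟨h2, h⟩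
      · exact Or.inr (Or.inr (Or.inl (key _ h)))
      · refine Or.inr (Or.inr (Or.inr (Or.inl ?_)))
        rw [Nat.mul_div_assoc p hdvd]
        exact key _ h
      · exact Or.inr (Or.inr (Or.inr (Or.inr ⟨h2, key _ h⟩)))
    · have hno : ∀ ν : F, ν ^ 2 - s * ν + t ≠ 0 := fun ν hν => hquad ⟨ν, hν⟩
      rw [ha', hb'] at hCH
      exact Or.inr (Or.inl (key _ (quad_case d hd _ μ s t hμt hCH hno)))
  · have hno : ∀ μ : F, μ ^ 3 - a * μ ^ 2 + b * μ - 1 ≠ 0 := fun μ hμ => hroot ⟨μ, hμ⟩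
    exact Or.inl (key _ (irred_case' d hd _ a b hCH hno))

end SL3D

section SL3E

set_option linter.unusedSectionVars false

variable {F : Type*} [Field F] [Fintype F]

theorem exists_zeta' : ∃ ζ : F, orderOf ζ = Fintype.card F - 1 := by
  classical
  obtain ⟨g, hg⟩ := IsCyclic.exists_ofOrder_eq_natCard (α := Fˣ)
  refine ⟨(g : F), ?_⟩
  rw [orderOf_units, hg, Nat.card_eq_fintype_card, Fintype.card_units]

theorem card_pos_sub : 0 < Fintype.card F - 1 := by
  have : 1 < Fintype.card F := Fintype.one_lt_card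
  omega

theorem char_coprime (p : ℕ) [Fact p.Prime] [CharP F p] : Nat.Coprime p (Fintype.card F - 1) := by
  have hp : p.Prime := Fact.out
  obtain ⟨n, -, hn⟩ := FiniteField.card F p
  rw [Nat.Prime.coprime_iff_not_dvd hp]
  intro h
  have h1 : p ∣ Fintype.card F := by rw [hn]; exact dvd_pow_self p n.ne_zero
  have h2 : 1 < Fintype.card F := Fintype.one_lt_card
  have h3 : p ∣ Fintype.card F - (Fintype.card F - 1) := Nat.dvd_sub h1 h
  have h4 : Fintype.card F - (Fintype.card F - 1) = 1 := by omega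
  rw [h4] at h3
  exact hp.one_lt.ne' (Nat.dvd_one.mp h3)

/-- Orders dividing `q - 1`. -/
theorem psl3_orders_L3' (s : ℕ) (hs : s ∣ Fintype.card F - 1) :
    ∃ x : Matrix.ProjectiveSpecialLinearGroup (Fin 3) F, orderOf x = s := by
  obtain ⟨ζ, hζ⟩ := exists_zeta' (F := F)
  have hN : 0 < Fintype.card F - 1 := card_pos_sub
  have hζ0 : ζ ≠ 0 := by
    rintro rfl
    rw [orderOf_eq_zero_iff'.mpr (fun n hn => by simp [zero_pow hn.ne'])] at hζ
    omega
  have hζ1 : ζ ^ (Fintype.card F - 1) = 1 := by rw [← hζ]; exact pow_orderOf_eq_one ζ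
  refine psl3_orders_of_elt (Fintype.card F - 1) hN (B3 ζ 0 0 ζ⁻¹ 1) ?_ ⟨1, ?_⟩ ?_ s hs
  · rw [B3_det]; field_simp; ring
  · rw [B3_diag_pow, inv_pow, hζ1, inv_one, one_pow, one_smul, B3_one]
  · intro m c hc
    rw [B3_diag_pow, B3_eq_smul_iff] at hc
    obtain ⟨-, -, h1, -, h3⟩ := hc
    rw [one_pow] at h3
    rw [← hζ]
    apply orderOf_dvd_of_pow_eq_one
    rw [h1, ← h3]

/-- Jordan-type matrices `[[x,y,0],[0,x,0],[0,0,z]]`. -/
def J3 (x y z : F) : Matrix (Fin 3) (Fin 3) F := !![x, y, 0; 0, x, 0; 0, 0, z]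

theorem J3_mul (x y z x' y' z' : F) :
    J3 x y z * J3 x' y' z' = J3 (x * x') (x * y' + y * x') (z * z') := by
  ext i j
  fin_cases i <;> fin_cases j <;> simp [J3, Matrix.mul_apply, Fin.sum_univ_three]

theorem J3_det (x y z : F) : (J3 x y z).det = x * x * z := by
  rw [Matrix.det_fin_three]
  simp [J3]

theorem J3_eq_smul_iff (x y z e : F) : J3 x y z = e • 1 ↔ x = e ∧ y = 0 ∧ z = e := by
  constructor
  · intro h
    have h00 := congrFun (congrFun h 0) 0
    have h01 := congrFun (congrFun h 0) 1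
    have h22 := congrFun (congrFun h 2) 2
    simp [J3] at h00 h01 h22
    exact ⟨h00, h01, h22⟩
  · rintro ⟨rfl, rfl, rfl⟩
    ext i j
    fin_cases i <;> fin_cases j <;> simp [J3]

theorem J3_one : J3 (1 : F) 0 1 = 1 := by
  have := (J3_eq_smul_iff (1 : F) 0 1 1).mpr ⟨rfl, rfl, rfl⟩
  rw [this, one_smul]

theorem J3_pow (x z : F) (m : ℕ) : (J3 x x z) ^ m = J3 (x ^ m) ((m : F) * x ^ m) (z ^ m) := by
  induction m with
  | zero => simp [J3_one]
  | succ m ih =>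
    rw [pow_succ, ih, J3_mul]
    congr 1
    · ring
    · push_cast; ring
    · ring

/-- Orders dividing `p (q - 1) / d`. -/
theorem psl3_orders_L4' (p : ℕ) [Fact p.Prime] [CharP F p] (s : ℕ)
    (hs : s ∣ p * (Fintype.card F - 1) / Nat.gcd 3 (Fintype.card F - 1)) :
    ∃ x : Matrix.ProjectiveSpecialLinearGroup (Fin 3) F, orderOf x = s := by
  obtain ⟨ζ, hζ⟩ := exists_zeta' (F := F)
  have hp : p.Prime := Fact.out
  have hq1 : 0 < Fintype.card F - 1 := card_pos_sub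
  have hd := sl3_hd (Fintype.card F)
  obtain ⟨d, hdd⟩ : ∃ d, Nat.gcd 3 (Fintype.card F - 1) = d := ⟨_, rfl⟩
  rw [hdd] at hd hs
  have hdvd : d ∣ Fintype.card F - 1 := by rw [← hdd]; exact Nat.gcd_dvd_right _ _
  have hdpos : 0 < d := by rw [← hdd]; exact Nat.gcd_pos_of_pos_left _ (by norm_num)
  have hcop := char_coprime (F := F) p
  have hζ0 : ζ ≠ 0 := by
    rintro rfl
    rw [orderOf_eq_zero_iff'.mpr (fun n hn => by simp [zero_pow hn.ne'])] at hζ
    omega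
  obtain ⟨N, hNdef⟩ : ∃ N, p * (Fintype.card F - 1) / d = N := ⟨_, rfl⟩
  rw [hNdef] at hs
  have hN : 0 < N := by
    rw [← hNdef, Nat.mul_div_assoc p hdvd]
    exact Nat.mul_pos hp.pos (Nat.div_pos (Nat.le_of_dvd hq1 hdvd) hdpos)
  have hI8 : ∀ k : ℕ, (p ∣ k ∧ (Fintype.card F - 1) ∣ 3 * k) ↔ N ∣ k := by
    intro k
    rw [← hNdef]
    exact sl3_I8 (Fintype.card F) d k p hcop hd
  have hpow : ∀ k : ℕ, ζ ^ (3 * k) = 1 ↔ (Fintype.card F - 1) ∣ 3 * k := by
    intro k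
    rw [← hζ]
    exact orderOf_dvd_iff_pow_eq_one.symm
  have hw : ∀ k : ℕ, ((ζ ^ 2)⁻¹) ^ k = ζ ^ k ↔ ζ ^ (3 * k) = 1 := by
    intro k
    have h2 : (ζ ^ 2) ≠ 0 := pow_ne_zero _ hζ0
    have e : ζ ^ k * (ζ ^ 2) ^ k = ζ ^ (3 * k) := by
      rw [← pow_mul, ← pow_add]; congr 1; ring
    constructor
    · intro h
      rw [← e, ← h, ← mul_pow, inv_mul_cancel₀ h2, one_pow]
    · intro h
      rw [← e] at h
      rw [inv_pow]
      exact (eq_inv_of_mul_eq_one_left h).symm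
  refine psl3_orders_of_elt N hN (J3 ζ ζ (ζ ^ 2)⁻¹) ?_ ⟨ζ ^ N, ?_⟩ ?_ s hs
  · rw [J3_det]; field_simp
  · obtain ⟨h1, h2⟩ := (hI8 N).mpr dvd_rfl
    rw [J3_pow, J3_eq_smul_iff]
    refine ⟨rfl, ?_, ?_⟩
    · rw [(CharP.cast_eq_zero_iff F p N).mpr h1, zero_mul]
    · rw [hw, hpow]; exact h2
  · intro m c hc
    rw [J3_pow, J3_eq_smul_iff] at hc
    obtain ⟨h1, h2, h3⟩ := hc
    rw [← hI8]
    constructor
    · rcases mul_eq_zero.mp h2 with h | h
      · exact (CharP.cast_eq_zero_iff F p m).mp h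
      · exact absurd h (pow_ne_zero _ hζ0)
    · rw [← hpow, ← hw, h3, h1]

/-- Orders dividing `4` in characteristic two. -/
theorem psl3_orders_L5' [CharP F 2] (s : ℕ) (hs : s ∣ 4) :
    ∃ x : Matrix.ProjectiveSpecialLinearGroup (Fin 3) F, orderOf x = s := by
  haveI : Fact (Nat.Prime 2) := ⟨Nat.prime_two⟩
  have h2 : (2 : F) = 0 := CharTwo.two_eq_zero
  have hdet : (!![1, 1, 0; 0, 1, 1; 0, 0, 1] : Matrix (Fin 3) (Fin 3) F).det = 1 := by
    rw [Matrix.det_fin_three]; simp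
  have hsq : (!![1, 1, 0; 0, 1, 1; 0, 0, 1] : Matrix (Fin 3) (Fin 3) F) ^ 2 =
      !![1, 0, 1; 0, 1, 0; 0, 0, 1] := by
    ext i j
    fin_cases i <;> fin_cases j <;> simp [sq, Matrix.mul_apply, Fin.sum_univ_three] <;>
      linear_combination h2
  have h4 : (!![1, 1, 0; 0, 1, 1; 0, 0, 1] : Matrix (Fin 3) (Fin 3) F) ^ 4 = 1 := by
    rw [show (4 : ℕ) = 2 * 2 by norm_num, pow_mul, hsq]
    ext i j
    fin_cases i <;> fin_cases j <;> simp [sq, Matrix.mul_apply, Fin.sum_univ_three] <;>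
      linear_combination h2
  obtain ⟨g, hg⟩ : ∃ g : Matrix.SpecialLinearGroup (Fin 3) F,
      g.1 = !![1, 1, 0; 0, 1, 1; 0, 0, 1] := ⟨⟨_, hdet⟩, rfl⟩
  have ho : orderOf (QuotientGroup.mk g : Matrix.ProjectiveSpecialLinearGroup (Fin 3) F) = 4 := by
    have := orderOf_eq_prime_pow
      (x := (QuotientGroup.mk g : Matrix.ProjectiveSpecialLinearGroup (Fin 3) F)) (p := 2) (n := 1)
      ?_ ?_
    · simpa using this
    · rw [psl3_pow_eq_one_iff, hg]
      rintro ⟨c, hc⟩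
      rw [pow_one, hsq] at hc
      have h02 := congrFun (congrFun hc 0) 2
      simp at h02
    · rw [psl3_pow_eq_one_iff, hg]
      exact ⟨1, by rw [one_smul]; exact h4⟩
  refine ⟨(QuotientGroup.mk g : Matrix.ProjectiveSpecialLinearGroup (Fin 3) F) ^ (4 / s), ?_⟩
  have := orderOf_pow_orderOf_div
    (x := (QuotientGroup.mk g : Matrix.ProjectiveSpecialLinearGroup (Fin 3) F)) (n := s)
    (by rw [ho]; norm_num) (by rw [ho]; exact hs)
  rwa [ho] at this

end SL3E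

section SL3F

set_option linter.unusedSectionVars false

variable {F : Type*} [Field F] [Fintype F]

theorem exists_irred_cubic : ∃ a b : F, ∀ μ : F, μ ^ 3 - a * μ ^ 2 + b * μ - 1 ≠ 0 := by
  classical
  by_contra hcon
  simp only [not_exists, not_forall, not_not] at hcon
  have hsurj : Function.Surjective
      (fun x : Fˣ × F => ((x.1 : F) + x.2, (x.1 : F) * x.2 + ((x.1 : F))⁻¹)) := by
    rintro ⟨a, b⟩
    obtain ⟨μ, hμ⟩ := hcon a b
    have hμ0 : μ ≠ 0 := by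
      rintro rfl
      have : (-1 : F) = 0 := by linear_combination hμ
      exact one_ne_zero (neg_eq_zero.mp this)
    refine ⟨(Units.mk0 μ hμ0, a - μ), ?_⟩
    simp only [Units.val_mk0]
    apply Prod.ext
    · simp
    · show μ * (a - μ) + μ⁻¹ = b
      field_simp
      linear_combination (-1 : F) * hμ
  have hcard := Fintype.card_le_of_surjective _ hsurj
  rw [Fintype.card_prod, Fintype.card_prod, Fintype.card_units] at hcard
  have h1 : 1 < Fintype.card F := Fintype.one_lt_card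
  obtain ⟨r, hr⟩ : ∃ r, Fintype.card F = r + 1 := ⟨Fintype.card F - 1, by omega⟩
  rw [hr, Nat.add_sub_cancel] at hcard
  nlinarith

theorem exists_irred_quad : ∃ c₀ : F, ∀ x : F, x ^ 2 - x - c₀ ≠ 0 := by
  by_contra hcon
  simp only [not_exists, not_forall, not_not] at hcon
  have hsurj : Function.Surjective (fun x : F => x ^ 2 - x) := fun c => by
    obtain ⟨x, hx⟩ := hcon c
    exact ⟨x, by linear_combination hx⟩
  have hinj := Finite.injective_iff_surjective.mpr hsurj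
  have := hinj (show (fun x : F => x ^ 2 - x) 0 = (fun x : F => x ^ 2 - x) 1 by simp)
  exact zero_ne_one this

theorem sl3_cube (q : ℕ) (hq : 1 ≤ q) : q ^ 3 - 1 = (q - 1) * (q ^ 2 + q + 1) := by
  obtain ⟨r, rfl⟩ : ∃ r, q = r + 1 := ⟨q - 1, by omega⟩
  simp only [Nat.add_sub_cancel]
  have : (r + 1) ^ 3 = r * ((r + 1) ^ 2 + (r + 1) + 1) + 1 := by ring
  omega

/-- Elements of a finite extension lying in `F`, via Frobenius. -/
theorem pow_mem_range_iff {K : Type*} [Field K] [Algebra F K] (η : K) (hη : η ≠ 0) (k : ℕ) :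
    (∃ e : F, η ^ k = algebraMap F K e) ↔ η ^ (k * (Fintype.card F - 1)) = 1 := by
  have h1 : 1 < Fintype.card F := Fintype.one_lt_card
  have e : k * Fintype.card F = k * (Fintype.card F - 1) + k := by
    obtain ⟨r, hr⟩ : ∃ r, Fintype.card F = r + 1 := ⟨Fintype.card F - 1, by omega⟩
    rw [hr, Nat.add_sub_cancel]; ring
  have hk0 : η ^ k ≠ 0 := pow_ne_zero _ hη
  constructor
  · rintro ⟨c, hc⟩
    have h2 : (η ^ k) ^ (Fintype.card F) = η ^ k := by rw [hc]; exact algebraMap_pow_card c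
    rw [← pow_mul, e, pow_add] at h2
    exact mul_right_cancel₀ hk0 (h2.trans (one_mul _).symm)
  · intro h
    have h2 : (η ^ k) ^ (Fintype.card F) = η ^ k := by
      rw [← pow_mul, e, pow_add, h, one_mul]
    obtain ⟨c, hc⟩ := fixed_mem_range' (η ^ k) h2
    exact ⟨c, hc.symm⟩

/-- Singer-type elements: orders dividing `(q² + q + 1) / d`. -/
theorem singer_orders {K : Type*} [Field K] [Algebra F K] [Finite K]
    (hK : Nat.card K = Fintype.card F ^ 3) (ψ : K →ₐ[F] Matrix (Fin 3) (Fin 3) F) (s : ℕ)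
    (hs : s ∣ (Fintype.card F ^ 2 + Fintype.card F + 1) / Nat.gcd 3 (Fintype.card F - 1)) :
    ∃ x : Matrix.ProjectiveSpecialLinearGroup (Fin 3) F, orderOf x = s := by
  classical
  have hinj : Function.Injective ψ := (ψ : K →+* Matrix (Fin 3) (Fin 3) F).injective
  have hd := sl3_hd (Fintype.card F)
  obtain ⟨d, hdd⟩ : ∃ d, Nat.gcd 3 (Fintype.card F - 1) = d := ⟨_, rfl⟩
  rw [hdd] at hd hs
  have hd3 : d ≤ 3 := by
    rw [← hdd]; exact Nat.le_of_dvd (by norm_num) (Nat.gcd_dvd_left _ _)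
  have hdpos : 0 < d := by rw [← hdd]; exact Nat.gcd_pos_of_pos_left _ (by norm_num)
  obtain ⟨q, hq⟩ : ∃ q, Fintype.card F = q := ⟨_, rfl⟩
  have hq2 : 2 ≤ q := by rw [← hq]; exact Fintype.one_lt_card
  have hq1 : 0 < q - 1 := by omega
  obtain ⟨u, hu⟩ := IsCyclic.exists_ofOrder_eq_natCard (α := Kˣ)
  have hθ : orderOf (u : K) = q ^ 3 - 1 := by
    rw [orderOf_units, hu, Nat.card_units, hK, hq]
  have hθ0 : (u : K) ≠ 0 := u.ne_zero
  have hq3 : 0 < q ^ 3 - 1 := by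
    have : 2 ^ 3 ≤ q ^ 3 := Nat.pow_le_pow_left hq2 3
    omega
  obtain ⟨η, hη⟩ : ∃ η : K, η = (u : K) ^ (q - 1) := ⟨_, rfl⟩
  have hη0 : η ≠ 0 := by rw [hη]; exact pow_ne_zero _ hθ0
  have hdet : (ψ η).det = 1 := by
    have h1 : (ψ (u : K)) ^ (q ^ 3 - 1) = 1 := by
      rw [← map_pow, ← hθ, pow_orderOf_eq_one, map_one]
    have h2 : (ψ (u : K)).det ^ (q ^ 3 - 1) = 1 := by
      rw [← Matrix.det_pow, h1, Matrix.det_one]
    have h3 : (ψ (u : K)).det ≠ 0 := by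
      intro h
      rw [h, zero_pow hq3.ne'] at h2
      exact zero_ne_one h2
    rw [hη, map_pow, Matrix.det_pow, ← hq]
    exact FiniteField.pow_card_sub_one_eq_one _ h3
  have key : ∀ k : ℕ, (∃ e : F, η ^ k = algebraMap F K e) ↔ (q ^ 2 + q + 1) ∣ k * (q - 1) := by
    intro k
    rw [pow_mem_range_iff η hη0 k, hq, hη, ← pow_mul, ← orderOf_dvd_iff_pow_eq_one, hθ,
      sl3_cube q (by omega), Nat.mul_dvd_mul_iff_left hq1]
  obtain ⟨N, hNdef⟩ : ∃ N, (Fintype.card F ^ 2 + Fintype.card F + 1) / d = N := ⟨_, rfl⟩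
  rw [hNdef] at hs
  have hI6 : ∀ k : ℕ, (q ^ 2 + q + 1) ∣ k * (q - 1) ↔ N ∣ k := by
    intro k
    rw [← hNdef, hq]
    rw [hq] at hd
    exact sl3_I6 q d k (by omega) hd
  have hN : 0 < N := by
    rw [← hNdef]
    apply Nat.div_pos _ hdpos
    rw [hq]
    nlinarith
  refine psl3_orders_of_elt N hN (ψ η) hdet ?_ ?_ s hs
  · obtain ⟨e, he⟩ := (key N).mpr ((hI6 N).mpr dvd_rfl)
    refine ⟨e, ?_⟩
    rw [← map_pow, he, AlgHom.commutes, Algebra.algebraMap_eq_smul_one]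
  · intro m c hc
    rw [← hI6, ← key]
    refine ⟨c, hinj ?_⟩
    rw [map_pow, hc, AlgHom.commutes, Algebra.algebraMap_eq_smul_one]

/-- Orders dividing `(q² + q + 1) / d`. -/
theorem psl3_orders_L1' (s : ℕ)
    (hs : s ∣ (Fintype.card F ^ 2 + Fintype.card F + 1) / Nat.gcd 3 (Fintype.card F - 1)) :
    ∃ x : Matrix.ProjectiveSpecialLinearGroup (Fin 3) F, orderOf x = s := by
  obtain ⟨a, b, hno⟩ := exists_irred_cubic (F := F)
  haveI : Fact (Irreducible (chiPoly a b)) := ⟨chiPoly_irreducible a b hno⟩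
  haveI := chiPoly_finite a b
  have hC : aeval (!![0, 0, 1; 1, 0, -b; 0, 1, a] : Matrix (Fin 3) (Fin 3) F) (chiPoly a b) = 0 := by
    rw [aeval_chiPoly]
    ext i j
    fin_cases i <;> fin_cases j <;>
      simp [pow_succ, Matrix.mul_apply, Fin.sum_univ_three, Matrix.one_apply] <;> ring
  exact singer_orders (chiPoly_card' a b) (adjLift (chiPoly a b) _ hC) s hs

end SL3F

section SL3G

set_option linter.unusedSectionVars false

variable {F : Type*} [Field F] [Fintype F]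

theorem cayley_hamilton_two (A : Matrix (Fin 2) (Fin 2) F) :
    A ^ 2 - A.trace • A + A.det • 1 = 0 := by
  rw [Matrix.det_fin_two]
  ext i j
  fin_cases i <;> fin_cases j <;>
    simp [sq, Matrix.mul_apply, Fin.sum_univ_two, Matrix.trace] <;> ring

/-- Block matrix with a `2 × 2` block on rows/columns `0, 2` and a scalar in the middle. -/
def blk (A : Matrix (Fin 2) (Fin 2) F) (r : F) : Matrix (Fin 3) (Fin 3) F :=
  B3 (A 0 0) (A 0 1) (A 1 0) (A 1 1) r

theorem blk_mul (A A' : Matrix (Fin 2) (Fin 2) F) (r r' : F) :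
    blk A r * blk A' r' = blk (A * A') (r * r') := by
  unfold blk
  rw [B3_mul]
  simp [Matrix.mul_apply, Fin.sum_univ_two]

theorem blk_one : blk (1 : Matrix (Fin 2) (Fin 2) F) 1 = 1 := by
  unfold blk
  simp [B3_one]

theorem blk_pow (A : Matrix (Fin 2) (Fin 2) F) (r : F) (m : ℕ) :
    (blk A r) ^ m = blk (A ^ m) (r ^ m) := by
  induction m with
  | zero => simp [blk_one]
  | succ m ih => rw [pow_succ, ih, blk_mul, pow_succ, pow_succ]

theorem blk_det (A : Matrix (Fin 2) (Fin 2) F) (r : F) : (blk A r).det = r * A.det := by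
  unfold blk
  rw [B3_det, Matrix.det_fin_two]

theorem blk_eq_smul_iff (A : Matrix (Fin 2) (Fin 2) F) (r e : F) :
    blk A r = e • 1 ↔ A = e • 1 ∧ r = e := by
  unfold blk
  rw [B3_eq_smul_iff]
  constructor
  · rintro ⟨h1, h2, h3, h4, h5⟩
    refine ⟨?_, h5⟩
    ext i j
    fin_cases i <;> fin_cases j <;> simp [h1, h2, h3, h4]
  · rintro ⟨h, h5⟩
    rw [h]
    simp [h5]

/-- Elements of order `(q² - 1) / d` from a nonsplit torus of `GL₂`. -/
theorem torus2_orders {K : Type*} [Field K] [Algebra F K] [Finite K]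
    (hK : Nat.card K = Fintype.card F ^ 2) (ψ : K →ₐ[F] Matrix (Fin 2) (Fin 2) F) (s : ℕ)
    (hs : s ∣ (Fintype.card F ^ 2 - 1) / Nat.gcd 3 (Fintype.card F - 1)) :
    ∃ x : Matrix.ProjectiveSpecialLinearGroup (Fin 3) F, orderOf x = s := by
  classical
  have hinj : Function.Injective ψ := (ψ : K →+* Matrix (Fin 2) (Fin 2) F).injective
  have hd := sl3_hd (Fintype.card F)
  obtain ⟨d, hdd⟩ : ∃ d, Nat.gcd 3 (Fintype.card F - 1) = d := ⟨_, rfl⟩
  rw [hdd] at hd hs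
  have hd3 : d ≤ 3 := by
    rw [← hdd]; exact Nat.le_of_dvd (by norm_num) (Nat.gcd_dvd_left _ _)
  have hdpos : 0 < d := by rw [← hdd]; exact Nat.gcd_pos_of_pos_left _ (by norm_num)
  have hφ : ∀ x : K, FiniteField.frobeniusAlgHom F K x = x ^ (Fintype.card F) := fun x => rfl
  obtain ⟨q, hq⟩ : ∃ q, Fintype.card F = q := ⟨_, rfl⟩
  have hq2 : 2 ≤ q := by rw [← hq]; exact Fintype.one_lt_card
  have hq1 : 0 < q - 1 := by omega
  have hsq := sl3_sq q (by omega)
  obtain ⟨u, hu⟩ := IsCyclic.exists_ofOrder_eq_natCard (α := Kˣ)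
  obtain ⟨θ, hθdef⟩ : ∃ θ : K, θ = (u : K) := ⟨_, rfl⟩
  have hθ : orderOf θ = q ^ 2 - 1 := by
    rw [hθdef, orderOf_units, hu, Nat.card_units, hK, hq]
  have hθ0 : θ ≠ 0 := by rw [hθdef]; exact u.ne_zero
  have hpow : ∀ k : ℕ, θ ^ k = 1 ↔ (q ^ 2 - 1) ∣ k := by
    intro k
    rw [← hθ]
    exact orderOf_dvd_iff_pow_eq_one.symm
  -- the quadratic satisfied by θ
  obtain ⟨τ, hτ⟩ : ∃ τ, (ψ θ).trace = τ := ⟨_, rfl⟩
  obtain ⟨δ, hδ⟩ : ∃ δ, (ψ θ).det = δ := ⟨_, rfl⟩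
  have hθeq : θ ^ 2 - algebraMap F K τ * θ + algebraMap F K δ = 0 := by
    apply hinj
    rw [map_add, map_sub, map_mul, map_pow, AlgHom.commutes, AlgHom.commutes, map_zero,
      Algebra.algebraMap_eq_smul_one, Algebra.algebraMap_eq_smul_one, smul_mul_assoc, one_mul,
      ← hτ, ← hδ]
    exact cayley_hamilton_two (ψ θ)
  have hθq : (θ ^ q) ^ 2 - algebraMap F K τ * θ ^ q + algebraMap F K δ = 0 := by
    have h := congrArg (FiniteField.frobeniusAlgHom F K) hθeq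
    simp only [map_sub, map_add, map_mul, map_pow, AlgHom.commutes, map_zero] at h
    rw [hφ, hq] at h
    exact h
  have hne : θ ^ q ≠ θ := by
    intro h
    have h1 : θ ^ (q - 1) = 1 := by
      apply mul_right_cancel₀ hθ0
      rw [← pow_succ, one_mul]
      have : q - 1 + 1 = q := by omega
      rw [this, h]
    have h2 := (hpow _).mp h1
    have h3 := Nat.le_of_dvd hq1 h2
    rw [hsq] at h3
    nlinarith
  have hδθ : algebraMap F K δ = θ ^ (q + 1) := by
    have e1 : (θ - θ ^ q) * (θ + θ ^ q - algebraMap F K τ) = 0 := by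
      linear_combination hθeq - hθq
    have e2 : θ + θ ^ q - algebraMap F K τ = 0 := by
      rcases mul_eq_zero.mp e1 with h | h
      · exact absurd (sub_eq_zero.mp h).symm hne
      · exact h
    rw [pow_succ]
    linear_combination hθeq - θ * e2
  have hδ0 : δ ≠ 0 := by
    rintro rfl
    rw [map_zero] at hδθ
    exact pow_ne_zero _ hθ0 hδθ.symm
  have hdet : (blk (ψ θ) δ⁻¹).det = 1 := by
    rw [blk_det, hδ, inv_mul_cancel₀ hδ0]
  have key : ∀ k : ℕ, (∃ e : F, (blk (ψ θ) δ⁻¹) ^ k = e • 1) ↔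
      ((q + 1) ∣ k ∧ (q ^ 2 - 1) ∣ (q + 2) * k) := by
    intro k
    have hA : ∀ e : F, (ψ θ) ^ k = e • 1 ↔ θ ^ k = algebraMap F K e := by
      intro e
      constructor
      · intro h
        apply hinj
        rw [map_pow, h, AlgHom.commutes, Algebra.algebraMap_eq_smul_one]
      · intro h
        rw [← map_pow, h, AlgHom.commutes, Algebra.algebraMap_eq_smul_one]
    have hB : ∀ e : F, θ ^ k = algebraMap F K e → ((δ⁻¹) ^ k = e ↔ θ ^ ((q + 2) * k) = 1) := by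
      intro e he
      have e1 : θ ^ ((q + 2) * k) = algebraMap F K (e * δ ^ k) := by
        rw [map_mul, map_pow, hδθ, ← he, ← pow_mul, ← pow_add]
        congr 1; ring
      rw [e1]
      constructor
      · intro h
        rw [← h, inv_pow, inv_mul_cancel₀ (pow_ne_zero _ hδ0), map_one]
      · intro h
        have h2 : e * δ ^ k = 1 := (algebraMap F K).injective (by rw [h, map_one])
        rw [inv_pow]
        exact (eq_inv_of_mul_eq_one_left h2).symm
    have hC : (∃ e : F, θ ^ k = algebraMap F K e) ↔ (q + 1) ∣ k := by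
      rw [pow_mem_range_iff θ hθ0 k, hq, hpow, hsq, mul_comm k, Nat.mul_dvd_mul_iff_left hq1]
    constructor
    · rintro ⟨e, he⟩
      rw [blk_pow, blk_eq_smul_iff] at he
      obtain ⟨h1, h2⟩ := he
      have h3 := (hA e).mp h1
      exact ⟨hC.mp ⟨e, h3⟩, (hpow _).mp ((hB e h3).mp h2)⟩
    · rintro ⟨h1, h2⟩
      obtain ⟨e, he⟩ := hC.mpr h1
      refine ⟨e, ?_⟩
      rw [blk_pow, blk_eq_smul_iff]
      exact ⟨(hA e).mpr he, (hB e he).mpr ((hpow _).mpr h2)⟩
  obtain ⟨N, hNdef⟩ : ∃ N, (Fintype.card F ^ 2 - 1) / d = N := ⟨_, rfl⟩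
  rw [hNdef] at hs
  have hI7 : ∀ k : ℕ, ((q + 1) ∣ k ∧ (q ^ 2 - 1) ∣ (q + 2) * k) ↔ N ∣ k := by
    intro k
    rw [← hNdef, hq]
    rw [hq] at hd
    exact sl3_I7 q d k hq2 hd
  have hN : 0 < N := by
    rw [← hNdef]
    apply Nat.div_pos _ hdpos
    rw [hq, hsq]
    have : 1 * 3 ≤ (q - 1) * (q + 1) := Nat.mul_le_mul (by omega) (by omega)
    omega
  refine psl3_orders_of_elt N hN (blk (ψ θ) δ⁻¹) hdet ?_ ?_ s hs
  · exact (key N).mpr ((hI7 N).mpr dvd_rfl)
  · intro m c hc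
    exact (hI7 m).mp ((key m).mp ⟨c, hc⟩)

theorem adjoinRoot_card (g : F[X]) (hg : g.Monic) :
    Nat.card (AdjoinRoot g) = Fintype.card F ^ g.natDegree := by
  have := hg.finite_adjoinRoot
  have := hg.free_adjoinRoot
  rw [Module.natCard_eq_pow_finrank (K := F), Nat.card_eq_fintype_card,
    (AdjoinRoot.powerBasis' hg).finrank, AdjoinRoot.powerBasis'_dim]

/-- Orders dividing `(q² - 1) / d`. -/
theorem psl3_orders_L2' (s : ℕ)
    (hs : s ∣ (Fintype.card F ^ 2 - 1) / Nat.gcd 3 (Fintype.card F - 1)) :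
    ∃ x : Matrix.ProjectiveSpecialLinearGroup (Fin 3) F, orderOf x = s := by
  obtain ⟨c₀, hno⟩ := exists_irred_quad (F := F)
  have hdeg : (X ^ 2 - X - C c₀ : F[X]).natDegree = 2 := by compute_degree!
  have hmonic : (X ^ 2 - X - C c₀ : F[X]).Monic := by monicity!
  have hirr : Irreducible (X ^ 2 - X - C c₀ : F[X]) := by
    apply irreducible_of_degree_le_three_of_not_isRoot
    · rw [hdeg]; decide
    · intro x hx
      apply hno x
      have : eval x (X ^ 2 - X - C c₀ : F[X]) = 0 := hx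
      simpa using this
  haveI : Fact (Irreducible (X ^ 2 - X - C c₀ : F[X])) := ⟨hirr⟩
  haveI : Finite (AdjoinRoot (X ^ 2 - X - C c₀ : F[X])) := by
    have := hmonic.finite_adjoinRoot
    exact Module.finite_of_finite F
  have hcard : Nat.card (AdjoinRoot (X ^ 2 - X - C c₀ : F[X])) = Fintype.card F ^ 2 := by
    rw [adjoinRoot_card _ hmonic, hdeg]
  have hR : aeval (!![0, c₀; 1, 1] : Matrix (Fin 2) (Fin 2) F) (X ^ 2 - X - C c₀ : F[X]) = 0 := by
    simp only [map_sub, map_pow, aeval_X, aeval_C]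
    ext i j
    fin_cases i <;> fin_cases j <;>
      simp [sq, Matrix.mul_apply, Fin.sum_univ_two, Matrix.algebraMap_matrix_apply]
  exact torus2_orders hcard (adjLift _ _ hR) s hs

end SL3G

end Cfsg.Agent.Lib.Helper45
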