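import Mathlib
import Cfsg.Agent.Lib.Helper45.G320Iso

set_option autoImplicit false

namespace Cfsg.Agent.Lib.Helper45.X648

open Cfsg.Agent.Lib.Helper45.Hig
open Cfsg.Agent.Lib.Helper45.G320

universe u v

section Tower

variable {G : Type*} [Group G] [Finite G]

theorem conj_closure (S : Set G) (g : G) (hS : ∀ s ∈ S, g * s * g⁻¹ ∈ Subgroup.closure S) :
    ∀ h ∈ Subgroup.closure S, g * h * g⁻¹ ∈ Subgroup.closure S := by
  intro h hh
  have := closure_aut_inv (MulAut.conj g) S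
    (fun s hs => by rw [MulAut.conj_apply]; exact hS s hs) h hh
  rw [MulAut.conj_apply] at this
  exact this

/-- Adjoining an element of order dividing `m + 1` that normalises `closure S`. -/
theorem tower_pow (S : Set G) (g : G) (m : ℕ) (hg : g ^ (m + 1) = 1)
    (hS : ∀ s ∈ S, g * s * g⁻¹ ∈ Subgroup.closure S) :
    Nat.card (Subgroup.closure (insert g S)) ≤ (m + 1) * Nat.card (Subgroup.closure S) := by
  have hrH := conj_closure S g hS
  obtain ⟨H₀, hH₀⟩ : ∃ H₀, Subgroup.closure S = H₀ := ⟨_, rfl⟩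
  rw [hH₀] at hrH ⊢
  have hKn : ∀ k ∈ Subgroup.zpowers g, ∀ h ∈ H₀, k * h * k⁻¹ ∈ H₀ := by
    have hle : Subgroup.zpowers g ≤ Subgroup.normalizer (H₀ : Set G) := by
      rw [Subgroup.zpowers_le, Subgroup.mem_normalizer_iff]
      intro h
      constructor
      · exact hrH h
      · intro hh
        have h1 : ∀ n : ℕ, ∀ y ∈ H₀, g ^ n * y * (g ^ n)⁻¹ ∈ H₀ := by
          intro n
          induction n with
          | zero => intro y hy; simpa using hy
          | succ n ih =>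
            intro y hy
            have e : g ^ (n + 1) * y * (g ^ (n + 1))⁻¹ = g ^ n * (g * y * g⁻¹) * (g ^ n)⁻¹ := by
              rw [pow_succ]; group
            rw [e]; exact ih _ (hrH y hy)
        have h2 := h1 m _ hh
        have e : g ^ m * (g * h * g⁻¹) * (g ^ m)⁻¹ = g ^ (m + 1) * h * (g ^ (m + 1))⁻¹ := by
          rw [pow_succ]; group
        rw [e, hg] at h2
        simpa using h2
    intro k hk h hh
    exact (Subgroup.mem_normalizer_iff.mp (hle hk) h).mp hh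
  have hK : Nat.card (Subgroup.zpowers g) ≤ m + 1 := by
    rw [Nat.card_zpowers]
    exact Nat.le_of_dvd (Nat.succ_pos m) (orderOf_dvd_of_pow_eq_one hg)
  have hle : Subgroup.closure (insert g S) ≤ H₀ ⊔ Subgroup.zpowers g := by
    rw [Subgroup.closure_le]
    intro x hx
    rcases hx with h | hx
    · rw [h]
      exact (le_sup_right : Subgroup.zpowers g ≤ H₀ ⊔ Subgroup.zpowers g) (Subgroup.mem_zpowers g)
    · exact (le_sup_left : H₀ ≤ H₀ ⊔ Subgroup.zpowers g)
        (by rw [← hH₀]; exact Subgroup.subset_closure hx)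
  calc Nat.card (Subgroup.closure (insert g S))
      ≤ Nat.card ↥(H₀ ⊔ Subgroup.zpowers g) := Subgroup.card_le_of_le hle
    _ ≤ Nat.card H₀ * Nat.card (Subgroup.zpowers g) := card_sup_le_mul H₀ (Subgroup.zpowers g) hKn
    _ ≤ Nat.card H₀ * (m + 1) := Nat.mul_le_mul_left _ hK
    _ = (m + 1) * Nat.card H₀ := Nat.mul_comm _ _

/-- Adjoining an element whose square lies in `closure S` and which normalises `closure S`. -/
theorem tower_two (S : Set G) (g : G) (hg : g * g ∈ Subgroup.closure S)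
    (hS : ∀ s ∈ S, g * s * g⁻¹ ∈ Subgroup.closure S) :
    Nat.card (Subgroup.closure (insert g S)) ≤ 2 * Nat.card (Subgroup.closure S) := by
  have hrH := conj_closure S g hS
  obtain ⟨H₀, hH₀⟩ : ∃ H₀, Subgroup.closure S = H₀ := ⟨_, rfl⟩
  rw [hH₀] at hrH hg ⊢
  have hn : ∀ h ∈ H₀, g⁻¹ * h * g ∈ H₀ := by
    intro h hh
    have e : g⁻¹ * h * g = (g * g)⁻¹ * (g * h * g⁻¹) * (g * g) := by group
    rw [e]
    exact H₀.mul_mem (H₀.mul_mem (H₀.inv_mem hg) (hrH h hh)) hg
  have hle : Subgroup.closure (insert g S) ≤ stepSub H₀ g hg hn := by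
    rw [Subgroup.closure_le]
    intro x hx
    rcases hx with h | hx
    · rw [h]
      exact Or.inr (by rw [inv_mul_cancel]; exact H₀.one_mem)
    · exact Or.inl (by rw [← hH₀]; exact Subgroup.subset_closure hx)
  exact (Subgroup.card_le_of_le hle).trans (card_stepSub H₀ g hg hn)

end Tower

/-- Relations for the group `3^{1+2} : SL₂(3)` of order 648. -/
structure XR (G : Type u) [Group G] (z a b i j c : G) : Prop where
  z3 : z ^ 3 = 1
  a3 : a ^ 3 = 1
  b3 : b ^ 3 = 1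
  i4 : i ^ 4 = 1
  j2 : j * j = i * i
  c3 : c ^ 3 = 1
  az : a * z * a⁻¹ = z
  bz : b * z * b⁻¹ = z
  ba : b * a * b⁻¹ = a * z
  iz : i * z * i⁻¹ = z
  ia : i * a * i⁻¹ = b
  ib : i * b * i⁻¹ = a⁻¹
  jz : j * z * j⁻¹ = z
  ja : j * a * j⁻¹ = a⁻¹ * b * a⁻¹
  jb : j * b * j⁻¹ = b * a * b
  ji : j * i * j⁻¹ = i⁻¹
  cz : c * z * c⁻¹ = z
  ca : c * a * c⁻¹ = a
  cb : c * b * c⁻¹ = a⁻¹ * b * a⁻¹
  ci : c * i * c⁻¹ = j
  cj : c * j * c⁻¹ = i * j

theorem XR.map {G : Type u} {H : Type v} [Group G] [Group H] {z a b i j c : G}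
    (p : XR G z a b i j c) (f : G →* H) : XR H (f z) (f a) (f b) (f i) (f j) (f c) where
  z3 := by simpa only [map_pow, map_one] using congrArg f p.z3
  a3 := by simpa only [map_pow, map_one] using congrArg f p.a3
  b3 := by simpa only [map_pow, map_one] using congrArg f p.b3
  i4 := by simpa only [map_pow, map_one] using congrArg f p.i4
  j2 := by simpa only [map_mul] using congrArg f p.j2
  c3 := by simpa only [map_pow, map_one] using congrArg f p.c3
  az := by simpa only [map_mul, map_inv] using congrArg f p.az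
  bz := by simpa only [map_mul, map_inv] using congrArg f p.bz
  ba := by simpa only [map_mul, map_inv] using congrArg f p.ba
  iz := by simpa only [map_mul, map_inv] using congrArg f p.iz
  ia := by simpa only [map_mul, map_inv] using congrArg f p.ia
  ib := by simpa only [map_mul, map_inv] using congrArg f p.ib
  jz := by simpa only [map_mul, map_inv] using congrArg f p.jz
  ja := by simpa only [map_mul, map_inv] using congrArg f p.ja
  jb := by simpa only [map_mul, map_inv] using congrArg f p.jb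
  ji := by simpa only [map_mul, map_inv] using congrArg f p.ji
  cz := by simpa only [map_mul, map_inv] using congrArg f p.cz
  ca := by simpa only [map_mul, map_inv] using congrArg f p.ca
  cb := by simpa only [map_mul, map_inv] using congrArg f p.cb
  ci := by simpa only [map_mul, map_inv] using congrArg f p.ci
  cj := by simpa only [map_mul, map_inv] using congrArg f p.cj

/-- The relations determine a homomorphism out of any group of order 648 generated by a
solution of the relations. -/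
theorem XR.hom {G₁ : Type u} {G₂ : Type v} [Group G₁] [Group G₂] [Finite G₁] [Finite G₂]
    {z a b i j c : G₁} {z' a' b' i' j' c' : G₂}
    (p : XR G₁ z a b i j c) (p' : XR G₂ z' a' b' i' j' c')
    (hgen : Subgroup.closure ({c, j, i, b, a, z} : Set G₁) = ⊤) (hcard : Nat.card G₁ = 648) :
    ∃ φ : G₁ →* G₂, φ z = z' ∧ φ a = a' ∧ φ b = b' ∧ φ i = i' ∧ φ j = j' ∧ φ c = c' := by
  have q : XR (G₁ × G₂) (z, z') (a, a') (b, b') (i, i') (j, j') (c, c') :=
    { z3 := Prod.ext p.z3 p'.z3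
      a3 := Prod.ext p.a3 p'.a3
      b3 := Prod.ext p.b3 p'.b3
      i4 := Prod.ext p.i4 p'.i4
      j2 := Prod.ext p.j2 p'.j2
      c3 := Prod.ext p.c3 p'.c3
      az := Prod.ext p.az p'.az
      bz := Prod.ext p.bz p'.bz
      ba := Prod.ext p.ba p'.ba
      iz := Prod.ext p.iz p'.iz
      ia := Prod.ext p.ia p'.ia
      ib := Prod.ext p.ib p'.ib
      jz := Prod.ext p.jz p'.jz
      ja := Prod.ext p.ja p'.ja
      jb := Prod.ext p.jb p'.jb
      ji := Prod.ext p.ji p'.ji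
      cz := Prod.ext p.cz p'.cz
      ca := Prod.ext p.ca p'.ca
      cb := Prod.ext p.cb p'.cb
      ci := Prod.ext p.ci p'.ci
      cj := Prod.ext p.cj p'.cj }
  obtain ⟨ζ, hζ⟩ : ∃ ζ : G₁ × G₂, ζ = (z, z') := ⟨_, rfl⟩
  obtain ⟨α, hα⟩ : ∃ α : G₁ × G₂, α = (a, a') := ⟨_, rfl⟩
  obtain ⟨β, hβ⟩ : ∃ β : G₁ × G₂, β = (b, b') := ⟨_, rfl⟩
  obtain ⟨ι, hι⟩ : ∃ ι : G₁ × G₂, ι = (i, i') := ⟨_, rfl⟩
  obtain ⟨κ, hκ⟩ : ∃ κ : G₁ × G₂, κ = (j, j') := ⟨_, rfl⟩
  obtain ⟨γ, hγ⟩ : ∃ γ : G₁ × G₂, γ = (c, c') := ⟨_, rfl⟩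
  rw [← hζ, ← hα, ← hβ, ← hι, ← hκ, ← hγ] at q
  have h1 : Nat.card (Subgroup.closure ({ζ} : Set (G₁ × G₂))) ≤ 3 := by
    rw [← Subgroup.zpowers_eq_closure, Nat.card_zpowers]
    exact Nat.le_of_dvd (by norm_num) (orderOf_dvd_of_pow_eq_one q.z3)
  have h2 : Nat.card (Subgroup.closure ({α, ζ} : Set (G₁ × G₂))) ≤ 3 * 3 := by
    refine (tower_pow {ζ} α 2 q.a3 ?_).trans (Nat.mul_le_mul_left _ h1)
    intro s hs
    rw [Set.mem_singleton_iff] at hs
    rw [hs, q.az]
    exact Subgroup.subset_closure (by simp)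
  have h3 : Nat.card (Subgroup.closure ({β, α, ζ} : Set (G₁ × G₂))) ≤ 3 * (3 * 3) := by
    refine (tower_pow {α, ζ} β 2 q.b3 ?_).trans (Nat.mul_le_mul_left _ h2)
    intro s hs
    have mα : α ∈ Subgroup.closure ({α, ζ} : Set (G₁ × G₂)) :=
      Subgroup.subset_closure (by simp)
    have mζ : ζ ∈ Subgroup.closure ({α, ζ} : Set (G₁ × G₂)) :=
      Subgroup.subset_closure (by simp)
    rcases hs with h | h
    · rw [h, q.ba]; exact Subgroup.mul_mem _ mα mζ
    · rw [h, q.bz]; exact mζ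
  have h4 : Nat.card (Subgroup.closure ({ι, β, α, ζ} : Set (G₁ × G₂))) ≤ 4 * (3 * (3 * 3)) := by
    refine (tower_pow {β, α, ζ} ι 3 q.i4 ?_).trans (Nat.mul_le_mul_left _ h3)
    intro s hs
    have mβ : β ∈ Subgroup.closure ({β, α, ζ} : Set (G₁ × G₂)) :=
      Subgroup.subset_closure (by simp)
    have mα : α ∈ Subgroup.closure ({β, α, ζ} : Set (G₁ × G₂)) :=
      Subgroup.subset_closure (by simp)
    have mζ : ζ ∈ Subgroup.closure ({β, α, ζ} : Set (G₁ × G₂)) :=
      Subgroup.subset_closure (by simp)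
    rcases hs with h | h | h
    · rw [h, q.ib]; exact Subgroup.inv_mem _ mα
    · rw [h, q.ia]; exact mβ
    · rw [h, q.iz]; exact mζ
  have h5 : Nat.card (Subgroup.closure ({κ, ι, β, α, ζ} : Set (G₁ × G₂))) ≤
      2 * (4 * (3 * (3 * 3))) := by
    have mι : ι ∈ Subgroup.closure ({ι, β, α, ζ} : Set (G₁ × G₂)) :=
      Subgroup.subset_closure (by simp)
    have mβ : β ∈ Subgroup.closure ({ι, β, α, ζ} : Set (G₁ × G₂)) :=
      Subgroup.subset_closure (by simp)
    have mα : α ∈ Subgroup.closure ({ι, β, α, ζ} : Set (G₁ × G₂)) :=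
      Subgroup.subset_closure (by simp)
    have mζ : ζ ∈ Subgroup.closure ({ι, β, α, ζ} : Set (G₁ × G₂)) :=
      Subgroup.subset_closure (by simp)
    refine (tower_two {ι, β, α, ζ} κ (by rw [q.j2]; exact Subgroup.mul_mem _ mι mι) ?_).trans
      (Nat.mul_le_mul_left _ h4)
    intro s hs
    rcases hs with h | h | h | h
    · rw [h, q.ji]; exact Subgroup.inv_mem _ mι
    · rw [h, q.jb]; exact Subgroup.mul_mem _ (Subgroup.mul_mem _ mβ mα) mβ
    · rw [h, q.ja]
      exact Subgroup.mul_mem _ (Subgroup.mul_mem _ (Subgroup.inv_mem _ mα) mβ)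
        (Subgroup.inv_mem _ mα)
    · rw [h, q.jz]; exact mζ
  have h6 : Nat.card (Subgroup.closure ({γ, κ, ι, β, α, ζ} : Set (G₁ × G₂))) ≤
      3 * (2 * (4 * (3 * (3 * 3)))) := by
    have mκ : κ ∈ Subgroup.closure ({κ, ι, β, α, ζ} : Set (G₁ × G₂)) :=
      Subgroup.subset_closure (by simp)
    have mι : ι ∈ Subgroup.closure ({κ, ι, β, α, ζ} : Set (G₁ × G₂)) :=
      Subgroup.subset_closure (by simp)
    have mβ : β ∈ Subgroup.closure ({κ, ι, β, α, ζ} : Set (G₁ × G₂)) :=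
      Subgroup.subset_closure (by simp)
    have mα : α ∈ Subgroup.closure ({κ, ι, β, α, ζ} : Set (G₁ × G₂)) :=
      Subgroup.subset_closure (by simp)
    have mζ : ζ ∈ Subgroup.closure ({κ, ι, β, α, ζ} : Set (G₁ × G₂)) :=
      Subgroup.subset_closure (by simp)
    refine (tower_pow {κ, ι, β, α, ζ} γ 2 q.c3 ?_).trans (Nat.mul_le_mul_left _ h5)
    intro s hs
    rcases hs with h | h | h | h | h
    · rw [h, q.cj]; exact Subgroup.mul_mem _ mι mκ
    · rw [h, q.ci]; exact mκ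
    · rw [h, q.cb]
      exact Subgroup.mul_mem _ (Subgroup.mul_mem _ (Subgroup.inv_mem _ mα) mβ)
        (Subgroup.inv_mem _ mα)
    · rw [h, q.ca]; exact mα
    · rw [h, q.cz]; exact mζ
  obtain ⟨D, hD⟩ : ∃ D, Subgroup.closure ({γ, κ, ι, β, α, ζ} : Set (G₁ × G₂)) = D := ⟨_, rfl⟩
  rw [hD] at h6
  have nγ : γ ∈ D := by rw [← hD]; exact Subgroup.subset_closure (by simp)
  have nκ : κ ∈ D := by rw [← hD]; exact Subgroup.subset_closure (by simp)
  have nι : ι ∈ D := by rw [← hD]; exact Subgroup.subset_closure (by simp)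
  have nβ : β ∈ D := by rw [← hD]; exact Subgroup.subset_closure (by simp)
  have nα : α ∈ D := by rw [← hD]; exact Subgroup.subset_closure (by simp)
  have nζ : ζ ∈ D := by rw [← hD]; exact Subgroup.subset_closure (by simp)
  have hs₁ : Function.Surjective ((MonoidHom.fst G₁ G₂).comp D.subtype) := by
    rw [← MonoidHom.range_eq_top, eq_top_iff, ← hgen, Subgroup.closure_le]
    intro x hx
    rcases hx with h | h | h | h | h | h
    · exact ⟨⟨γ, nγ⟩, by rw [h]; show γ.1 = c; rw [hγ]⟩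
    · exact ⟨⟨κ, nκ⟩, by rw [h]; show κ.1 = j; rw [hκ]⟩
    · exact ⟨⟨ι, nι⟩, by rw [h]; show ι.1 = i; rw [hι]⟩
    · exact ⟨⟨β, nβ⟩, by rw [h]; show β.1 = b; rw [hβ]⟩
    · exact ⟨⟨α, nα⟩, by rw [h]; show α.1 = a; rw [hα]⟩
    · exact ⟨⟨ζ, nζ⟩, by rw [h]; show ζ.1 = z; rw [hζ]⟩
  have hb₁ := hs₁.bijective_of_nat_card_le (by rw [hcard]; exact h6)
  obtain ⟨ε, hε⟩ : ∃ ε : ↥D ≃* G₁, ∀ d : ↥D, ε d = (d : G₁ × G₂).1 :=
    ⟨MulEquiv.ofBijective _ hb₁, fun d => rfl⟩
  have key : ∀ (x : G₁) (y : G₂), (x, y) ∈ D →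
      ((MonoidHom.snd G₁ G₂).comp D.subtype).comp ε.symm.toMonoidHom x = y := by
    intro x y h
    have e1 : ε.symm x = ⟨(x, y), h⟩ := by
      rw [MulEquiv.symm_apply_eq, hε]
    show ((ε.symm x : ↥D) : G₁ × G₂).2 = y
    rw [e1]
  refine ⟨((MonoidHom.snd G₁ G₂).comp D.subtype).comp ε.symm.toMonoidHom, ?_, ?_, ?_, ?_, ?_, ?_⟩
  · exact key z z' (by rw [← hζ]; exact nζ)
  · exact key a a' (by rw [← hα]; exact nα)
  · exact key b b' (by rw [← hβ]; exact nβ)
  · exact key i i' (by rw [← hι]; exact nι)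
  · exact key j j' (by rw [← hκ]; exact nκ)
  · exact key c c' (by rw [← hγ]; exact nγ)

end Cfsg.Agent.Lib.Helper45.X648
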