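import Mathlib
import Cfsg.Agent.Lib.Helper45.X648Iso

set_option autoImplicit false

namespace Cfsg.Agent.Lib.Helper45.X648

open Cfsg.Agent.Lib.Helper45.Hig

universe u

/-- `SL₂(3)`. -/
abbrev SL23 : Type := Matrix.SpecialLinearGroup (Fin 2) (ZMod 3)

section SLfacts

set_option maxRecDepth 100000

theorem sl_card : Fintype.card SL23 = 24 := by decide

theorem sl_neg_ne : (-1 : SL23) ≠ 1 := by decide

theorem sl_neg_sq : (-1 : SL23) * (-1) = 1 := by decide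

theorem sl_neg_cube : (-1 : SL23) ^ 3 = -1 := by decide

theorem sl_neg_pow9 : (-1 : SL23) ^ 9 = -1 := by decide

theorem sl_neg_conj : ∀ M : SL23, (-1 : SL23)⁻¹ * (M * (-1) * M⁻¹) = 1 := by decide

theorem sl_neg_conj' : ∀ M : SL23, M * (-1) * M⁻¹ = -1 := by decide

theorem sl_two_sq : ∀ M : SL23, ∃ A B : SL23, M = A * A * (B * B) := by decide

theorem sl_exists_i : ∃ I : SL23, I * I = -1 := by decide

theorem sl_conj : ∀ C I : SL23, C ^ 3 = 1 → C ≠ 1 → I * I = -1 →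
    (C * I * C⁻¹) * I * (C * I * C⁻¹)⁻¹ = I⁻¹ := by decide

theorem sl_class : ∀ C I : SL23, C ^ 3 = 1 → C ≠ 1 → I * I = -1 →
    (C * (C * I * C⁻¹) * C⁻¹ = I * (C * I * C⁻¹) ∨
      C⁻¹ * (C⁻¹ * I * C⁻¹⁻¹) * C⁻¹⁻¹ = I * (C⁻¹ * I * C⁻¹⁻¹)) := by decide

theorem sl_norm : ∀ M : SL23, M ≠ 1 → ∃ A : SL23, M = -1 ∨ M * A * M⁻¹ * A⁻¹ = -1 ∨
    (M * A * M⁻¹ * A⁻¹) * (M * A * M⁻¹ * A⁻¹) = -1 := by decide

theorem sl_gen : ∀ C I : SL23, C ^ 3 = 1 → C ≠ 1 → I * I = -1 → ∀ M : SL23,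
    ∃ x : Fin 4, ∃ y : Fin 2, ∃ k : Fin 3,
      M = I ^ (x : ℕ) * (C * I * C⁻¹) ^ (y : ℕ) * C ^ (k : ℕ) := by decide

end SLfacts

section General

variable {G : Type*} [Group G]

theorem eq_one_of_cube_sq {x : G} (h3 : x ^ 3 = 1) (h2 : x * x = 1) : x = 1 := by
  calc x = x ^ 3 * (x * x)⁻¹ := by group
    _ = 1 := by rw [h3, h2]; simp

theorem cube_expand {x : G} (h : x ^ 3 = 1) : x * x * x = 1 := by
  simpa only [pow_succ, pow_zero, one_mul] using h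

theorem fourth {x : G} (h3 : x ^ 3 = 1) : x = (x * x) * (x * x) := by
  calc x = (x * x) * (x * x) * (x ^ 3)⁻¹ := by group
    _ = (x * x) * (x * x) := by rw [h3, inv_one, mul_one]

theorem zp3 {a w : G} (ha3 : a ^ 3 = 1) (hw : w ∈ Subgroup.zpowers a) :
    w = 1 ∨ w = a ∨ w = a⁻¹ := by
  obtain ⟨n, rfl⟩ := Subgroup.mem_zpowers_iff.mp hw
  rw [zpow_eq_zpow_emod' n ha3]
  have h3 : ((3 : ℕ) : ℤ) = 3 := rfl
  rw [h3]
  have : n % 3 = 0 ∨ n % 3 = 1 ∨ n % 3 = 2 := by omega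
  rcases this with e | e | e
  · left; rw [e, zpow_zero]
  · right; left; rw [e, zpow_one]
  · right; right
    rw [e]
    have h1 : a * a * a = 1 := cube_expand ha3
    rw [zpow_two]
    exact eq_inv_of_mul_eq_one_left h1

theorem comm_of_card_139 {H : Type*} [Group H] [Finite H]
    (hc : Nat.card H = 1 ∨ Nat.card H = 3 ∨ Nat.card H = 9) (a b : H) : a * b = b * a := by
  haveI : Fact (Nat.Prime 3) := ⟨Nat.prime_three⟩
  rcases hc with hc | hc | hc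
  · haveI : Subsingleton H := (Nat.card_eq_one_iff_unique.mp hc).1
    exact Subsingleton.elim _ _
  · haveI : IsCyclic H := isCyclic_of_prime_card (p := 3) hc
    obtain ⟨g, hg⟩ := IsCyclic.exists_generator (α := H)
    obtain ⟨i, rfl⟩ := Subgroup.mem_zpowers_iff.mp (hg a)
    obtain ⟨j, rfl⟩ := Subgroup.mem_zpowers_iff.mp (hg b)
    rw [← zpow_add, ← zpow_add, add_comm]
  · exact (IsPGroup.isMulCommutative_of_card_eq_prime_sq (p := 3) (G := H)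
      (hc.trans (by norm_num))).is_comm.comm a b

end General

/-- The abstract hypotheses: `R` is extraspecial of order 27 and exponent 3 with centre `Z`,
normal in `G` with quotient `SL₂(3)`, and `G` has no central involution. -/
structure AX (G : Type u) [Group G] (R Z : Subgroup G) (π : G →* SL23) : Prop where
  Rn : ∀ g : G, ∀ r ∈ R, g * r * g⁻¹ ∈ R
  ker : ∀ g : G, π g = 1 ↔ g ∈ R
  surj : Function.Surjective π
  Rcard : Nat.card R = 27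
  exp : ∀ r ∈ R, r ^ 3 = 1
  ZR : Z ≤ R
  Zcard : Nat.card Z = 3
  Zc : ∀ ζ ∈ Z, ∀ r ∈ R, ζ * r = r * ζ
  Zm : ∀ r ∈ R, (∀ s ∈ R, r * s = s * r) → r ∈ Z
  cm : ∀ r ∈ R, ∀ s ∈ R, r * s * r⁻¹ * s⁻¹ ∈ Z
  O2 : ∀ t : G, t * t = 1 → (∀ g : G, g * t * g⁻¹ = t) → t = 1

section AXfacts

variable {G : Type u} [Group G] [Finite G] {R Z : Subgroup G} {π : G →* SL23}

theorem AX.Zexp (h : AX G R Z π) (ζ : G) (hζ : ζ ∈ Z) : ζ ^ 3 = 1 := h.exp ζ (h.ZR hζ)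

theorem AX.Zconj (h : AX G R Z π) (g : G) (ζ : G) (hζ : ζ ∈ Z) : g * ζ * g⁻¹ ∈ Z := by
  apply h.Zm _ (h.Rn g ζ (h.ZR hζ))
  intro s hs
  have hs' : g⁻¹ * s * g ∈ R := by simpa using h.Rn g⁻¹ s hs
  have := h.Zc ζ hζ _ hs'
  calc g * ζ * g⁻¹ * s = g * (ζ * (g⁻¹ * s * g)) * g⁻¹ := by group
    _ = g * ((g⁻¹ * s * g) * ζ) * g⁻¹ := by rw [this]
    _ = s * (g * ζ * g⁻¹) := by group

theorem AX.three (h : AX G R Z π) (z : G) (hz : z ∈ Z) (hz1 : z ≠ 1) (w : G) (hw : w ∈ Z) :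
    w = 1 ∨ w = z ∨ w = z⁻¹ := by
  have hz3 := h.Zexp z hz
  have hne : z ≠ z⁻¹ := by
    intro e
    have : z * z = 1 := by
      calc z * z = z * z⁻¹ := by rw [← e]
        _ = 1 := mul_inv_cancel z
    exact hz1 (eq_one_of_cube_sq hz3 this)
  have := three_exhaust h.Zcard (1 : ↥Z) ⟨z, hz⟩ ⟨z⁻¹, Z.inv_mem hz⟩
    (fun e => hz1 (congrArg Subtype.val e).symm)
    (fun e => hz1 (inv_eq_one.mp (congrArg Subtype.val e).symm))
    (fun e => hne (congrArg Subtype.val e)) ⟨w, hw⟩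
  rcases this with e | e | e
  · exact Or.inl (congrArg Subtype.val e)
  · exact Or.inr (Or.inl (congrArg Subtype.val e))
  · exact Or.inr (Or.inr (congrArg Subtype.val e))

theorem AX.sq_central (h : AX G R Z π) (g : G) (ζ : G) (hζ : ζ ∈ Z) :
    (g * g) * ζ = ζ * (g * g) := by
  by_cases h1 : ζ = 1
  · rw [h1, mul_one, one_mul]
  have hw := h.Zconj g ζ hζ
  rcases h.three ζ hζ h1 (g * ζ * g⁻¹) hw with e | e | e
  · exfalso
    apply h1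
    calc ζ = g⁻¹ * (g * ζ * g⁻¹) * g := by group
      _ = 1 := by rw [e]; group
  · have e' : g * ζ = ζ * g := by
      calc g * ζ = (g * ζ * g⁻¹) * g := by group
        _ = ζ * g := by rw [e]
    calc (g * g) * ζ = g * (g * ζ) := by group
      _ = g * (ζ * g) := by rw [e']
      _ = (g * ζ) * g := by group
      _ = ζ * (g * g) := by rw [e', mul_assoc]
  · have e' : g * ζ = ζ⁻¹ * g := by
      calc g * ζ = (g * ζ * g⁻¹) * g := by group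
        _ = ζ⁻¹ * g := by rw [e]
    have e'' : g * ζ⁻¹ = ζ * g := by
      calc g * ζ⁻¹ = (g * ζ * g⁻¹)⁻¹ * g := by group
        _ = ζ * g := by rw [e, inv_inv]
    calc (g * g) * ζ = g * (g * ζ) := by group
      _ = g * (ζ⁻¹ * g) := by rw [e']
      _ = (g * ζ⁻¹) * g := by group
      _ = ζ * (g * g) := by rw [e'', mul_assoc]

/-- `Z` is central in `G`. -/
theorem AX.Zcen (h : AX G R Z π) (g : G) (ζ : G) (hζ : ζ ∈ Z) : g * ζ = ζ * g := by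
  obtain ⟨A, B, hAB⟩ := sl_two_sq (π g)
  obtain ⟨x, rfl⟩ := h.surj A
  obtain ⟨y, rfl⟩ := h.surj B
  have hr : (x * x * (y * y))⁻¹ * g ∈ R := by
    rw [← h.ker]
    simp only [map_mul, map_inv]
    rw [hAB]
    exact inv_mul_cancel _
  obtain ⟨r, hrd⟩ : ∃ r, r = (x * x * (y * y))⁻¹ * g := ⟨_, rfl⟩
  rw [← hrd] at hr
  have hg : g = x * x * (y * y) * r := by rw [hrd]; group
  have key : (x * x * (y * y) * r) * ζ = ζ * (x * x * (y * y) * r) := by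
    calc (x * x * (y * y) * r) * ζ = x * x * (y * y) * (r * ζ) := by rw [mul_assoc]
      _ = x * x * (y * y) * (ζ * r) := by rw [← h.Zc ζ hζ r hr]
      _ = x * x * ((y * y) * ζ) * r := by group
      _ = x * x * (ζ * (y * y)) * r := by rw [h.sq_central y ζ hζ]
      _ = (x * x) * ζ * (y * y) * r := by group
      _ = ζ * (x * x) * (y * y) * r := by rw [h.sq_central x ζ hζ]
      _ = ζ * (x * x * (y * y) * r) := by group
  rw [hg]
  exact key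

theorem AX.exists_t (h : AX G R Z π) : ∃ t : G, t * t = 1 ∧ π t = -1 := by
  obtain ⟨t₀, ht₀⟩ := h.surj (-1)
  have h1 : t₀ * t₀ ∈ R := by
    rw [← h.ker, map_mul, ht₀]
    exact sl_neg_sq
  have h2 := h.exp _ h1
  refine ⟨t₀ ^ 3, ?_, ?_⟩
  · calc t₀ ^ 3 * t₀ ^ 3 = (t₀ * t₀) ^ 3 := by
          simp only [pow_succ, pow_zero, one_mul, mul_assoc]
      _ = 1 := h2
  · rw [map_pow, ht₀]
    exact sl_neg_cube

theorem AX.proper_card (h : AX G R Z π) (H : Subgroup G) (hH : H ≤ R) (hne : ∃ r ∈ R, r ∉ H) :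
    Nat.card H = 1 ∨ Nat.card H = 3 ∨ Nat.card H = 9 := by
  have hd : Nat.card H ∣ 27 := by
    rw [← h.Rcard]
    exact Subgroup.card_dvd_of_le hH
  have hlt : Nat.card H ≠ 27 := by
    intro e
    obtain ⟨r, hr, hrn⟩ := hne
    have : H = R := Subgroup.eq_of_le_of_card_ge hH (by rw [h.Rcard, e])
    exact hrn (this ▸ hr)
  have h27 : (27 : ℕ) = 3 ^ 3 := by norm_num
  rw [h27] at hd
  obtain ⟨k, hk, e⟩ := (Nat.dvd_prime_pow Nat.prime_three).mp hd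
  rcases (show k = 0 ∨ k = 1 ∨ k = 2 ∨ k = 3 by omega) with rfl | rfl | rfl | rfl
  · left; rw [e]; norm_num
  · right; left; rw [e]; norm_num
  · right; right; rw [e]; norm_num
  · exact absurd (by rw [e]; norm_num) hlt

/-- Proper subgroups of `R` are abelian. -/
theorem AX.proper_comm (h : AX G R Z π) (H : Subgroup G) (hH : H ≤ R) (hne : ∃ r ∈ R, r ∉ H) :
    ∀ x ∈ H, ∀ y ∈ H, x * y = y * x := by
  intro x hx y hy
  have := comm_of_card_139 (h.proper_card H hH hne) (⟨x, hx⟩ : ↥H) ⟨y, hy⟩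
  exact congrArg Subtype.val this

/-- The centraliser in `R` of a non-central element `a` is `Z⟨a⟩`. -/
theorem AX.cent_mem (h : AX G R Z π) (a : G) (ha : a ∈ R) (haZ : a ∉ Z) (r : G) (hr : r ∈ R)
    (hra : r * a = a * r) : ∃ ζ ∈ Z, ∃ w : G, (w = 1 ∨ w = a ∨ w = a⁻¹) ∧ r = ζ * w := by
  obtain ⟨s, hs, hsa⟩ : ∃ s ∈ R, a * s ≠ s * a := by
    by_contra hcon
    push Not at hcon
    exact haZ (h.Zm a ha hcon)
  obtain ⟨H, hHd⟩ : ∃ H : Subgroup G, H = Subgroup.centralizer ({a} : Set G) ⊓ R := ⟨_, rfl⟩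
  have hmem : ∀ g : G, g ∈ H ↔ (a * g = g * a ∧ g ∈ R) := by
    intro g
    rw [hHd, Subgroup.mem_inf, Subgroup.mem_centralizer_iff]
    constructor
    · rintro ⟨h1, h2⟩
      exact ⟨h1 a rfl, h2⟩
    · rintro ⟨h1, h2⟩
      refine ⟨?_, h2⟩
      intro y hy
      rw [Set.mem_singleton_iff.mp hy]
      exact h1
  have hHR : H ≤ R := fun g hg => ((hmem g).mp hg).2
  have hcard := h.proper_card H hHR ⟨s, hs, fun hc => hsa ((hmem s).mp hc).1⟩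
  obtain ⟨K, hKd⟩ : ∃ K : Subgroup G, K = Z ⊔ Subgroup.zpowers a := ⟨_, rfl⟩
  have hZK : Z ≤ K := by rw [hKd]; exact le_sup_left
  have haK : a ∈ K := by
    rw [hKd]
    exact (le_sup_right : Subgroup.zpowers a ≤ Z ⊔ Subgroup.zpowers a) (Subgroup.mem_zpowers a)
  have hKH : K ≤ H := by
    rw [hKd]
    apply sup_le
    · intro ζ hζ
      exact (hmem ζ).mpr ⟨(h.Zc ζ hζ a ha).symm, h.ZR hζ⟩
    · rw [Subgroup.zpowers_le]
      exact (hmem a).mpr ⟨rfl, ha⟩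
  have hK3 : 3 < Nat.card K := by
    by_contra hle
    push Not at hle
    have : Z = K := Subgroup.eq_of_le_of_card_ge hZK (by rw [h.Zcard]; exact hle)
    exact haZ (this ▸ haK)
  have hKle : Nat.card K ≤ Nat.card H := Subgroup.card_le_of_le hKH
  have hKd' : Nat.card K ∣ Nat.card H := Subgroup.card_dvd_of_le hKH
  have hH9 : Nat.card H = 9 := by
    rcases hcard with e | e | e <;> omega
  have hK9 : Nat.card K = 9 := by
    rw [hH9] at hKd' hKle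
    have h9 : (9 : ℕ) = 3 ^ 2 := by norm_num
    rw [h9] at hKd'
    obtain ⟨k, hk, e⟩ := (Nat.dvd_prime_pow Nat.prime_three).mp hKd'
    rcases (show k = 0 ∨ k = 1 ∨ k = 2 by omega) with rfl | rfl | rfl
    · rw [e] at hK3; norm_num at hK3
    · rw [e] at hK3; norm_num at hK3
    · rw [e]; norm_num
  have hKH' : K = H := Subgroup.eq_of_le_of_card_ge hKH (by rw [hH9, hK9])
  have hrK : r ∈ K := by
    rw [hKH']
    exact (hmem r).mpr ⟨hra.symm, hr⟩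
  haveI : Z.Normal := ⟨fun n hn g => h.Zconj g n hn⟩
  rw [hKd, Subgroup.mem_sup_of_normal_left] at hrK
  obtain ⟨ζ, hζ, w, hw, e⟩ := hrK
  exact ⟨ζ, hζ, w, zp3 (h.exp a ha) hw, e.symm⟩

theorem AX.card (h : AX G R Z π) : Nat.card G = 648 := by
  have hker : π.ker = R := by
    ext g
    rw [MonoidHom.mem_ker]
    exact h.ker g
  have h1 := Subgroup.card_eq_card_quotient_mul_card_subgroup π.ker
  have h2 : Nat.card (G ⧸ π.ker) = 24 := by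
    rw [Nat.card_congr (QuotientGroup.quotientKerEquivOfSurjective π h.surj).toEquiv,
      Nat.card_eq_fintype_card, sl_card]
  have h3 : Nat.card π.ker = 27 := by rw [hker]; exact h.Rcard
  rw [h1, h2, h3]

/-- Elements supplied by an elementary abelian subgroup of order 27. -/
theorem AX.exists_E_elts (h : AX G R Z π) (E : Subgroup G)
    (hEc : ∀ x ∈ E, ∀ y ∈ E, x * y = y * x) (hEcard : Nat.card E = 27) :
    ∃ x ∈ E, x ∉ R ∧ ∃ a₁ ∈ E, a₁ ∈ R ∧ a₁ ∉ Z := by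
  have p1 : ∃ x ∈ E, x ∉ R := by
    by_contra hall
    push Not at hall
    have hER : E = R := Subgroup.eq_of_le_of_card_ge hall (by rw [h.Rcard, hEcard])
    have hRZ : R ≤ Z := by
      intro r hr
      apply h.Zm r hr
      intro s hs
      exact hEc r (hER ▸ hr) s (hER ▸ hs)
    have := Subgroup.card_le_of_le hRZ
    rw [h.Rcard, h.Zcard] at this
    omega
  have p2 : ∃ a₁ ∈ E, a₁ ∈ R ∧ a₁ ∉ Z := by
    obtain ⟨f, hf⟩ : ∃ f : ↥E →* SL23, ∀ y : ↥E, f y = π y.1 :=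
      ⟨π.comp E.subtype, fun y => rfl⟩
    have hc1 := Subgroup.card_eq_card_quotient_mul_card_subgroup f.ker
    have hc2 : Nat.card (↥E ⧸ f.ker) = Nat.card f.range :=
      Nat.card_congr (QuotientGroup.quotientKerEquivRange f).toEquiv
    have hd1 : Nat.card f.range ∣ 24 := by
      have := Subgroup.card_subgroup_dvd_card f.range
      rwa [Nat.card_eq_fintype_card (α := SL23), sl_card] at this
    rw [hEcard, hc2] at hc1
    have hd2 : Nat.card f.range ∣ 27 := by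
      rw [hc1]
      exact dvd_mul_right _ _
    have hr3 : Nat.card f.range ≤ 3 := by
      have := Nat.dvd_gcd hd1 hd2
      have g : Nat.gcd 24 27 = 3 := by norm_num
      rw [g] at this
      exact Nat.le_of_dvd (by norm_num) this
    have hk9 : 9 ≤ Nat.card f.ker := by
      by_contra hlt
      push Not at hlt
      have : Nat.card f.range * Nat.card f.ker ≤ 3 * 8 := Nat.mul_le_mul hr3 (by omega)
      omega
    by_contra hall
    push Not at hall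
    let g : f.ker → Z := fun y =>
      ⟨y.1.1, hall y.1.1 y.1.2 ((h.ker _).mp (by rw [← hf]; exact MonoidHom.mem_ker.mp y.2))⟩
    have hg : Function.Injective g := by
      intro y y' e
      have := congrArg Subtype.val e
      exact Subtype.ext (Subtype.ext this)
    have := Nat.card_le_card_of_injective g hg
    rw [h.Zcard] at this
    omega
  obtain ⟨x, hx, hxR⟩ := p1
  obtain ⟨a₁, ha₁, ha₁R, ha₁Z⟩ := p2
  exact ⟨x, hx, hxR, a₁, ha₁, ha₁R, ha₁Z⟩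

end AXfacts

/-- The hypotheses together with an involution `t` lifting `-1`. -/
structure AT (G : Type u) [Group G] (R Z : Subgroup G) (π : G →* SL23) (t : G) : Prop where
  ax : AX G R Z π
  t2 : t * t = 1
  πt : π t = -1

section ATfacts

variable {G : Type u} [Group G] [Finite G] {R Z : Subgroup G} {π : G →* SL23} {t : G}

theorem AT.tinv (k : AT G R Z π t) : t⁻¹ = t := inv_eq_of_mul_eq_one_left k.t2

/-- Elements whose class is fixed by `t` commute with elements inverted by `t`. -/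
theorem AT.comm_NI (k : AT G R Z π t) (f : G) (hf : f ∈ R) (x : G) (hx : x ∈ R)
    (hζ : t * f * t⁻¹ * f⁻¹ ∈ Z) (hx' : t * x * t⁻¹ = x⁻¹) : f * x = x * f := by
  have h := k.ax
  have hc : f * x * f⁻¹ * x⁻¹ ∈ Z := h.cm f hf x hx
  obtain ⟨c, hcd⟩ : ∃ c, c = f * x * f⁻¹ * x⁻¹ := ⟨_, rfl⟩
  rw [← hcd] at hc
  obtain ⟨ζ, hζd⟩ : ∃ ζ, ζ = t * f * t⁻¹ * f⁻¹ := ⟨_, rfl⟩
  rw [← hζd] at hζ
  have e1 : t * f * t⁻¹ = ζ * f := by rw [hζd]; group
  have e2 : t * c * t⁻¹ = c := by rw [h.Zcen t c hc]; group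
  have e3 : t * c * t⁻¹ = (t * f * t⁻¹) * (t * x * t⁻¹) * (t * f * t⁻¹)⁻¹ * (t * x * t⁻¹)⁻¹ := by
    rw [hcd]; group
  rw [e1, hx', e2] at e3
  have e4 : ζ * f * x⁻¹ * (ζ * f)⁻¹ * x⁻¹⁻¹ = c⁻¹ := by
    have z1 : ζ * (f * x⁻¹ * f⁻¹) = (f * x⁻¹ * f⁻¹) * ζ := (h.Zcen _ ζ hζ).symm
    have z2 := h.Zcen x c⁻¹ (Z.inv_mem hc)
    calc ζ * f * x⁻¹ * (ζ * f)⁻¹ * x⁻¹⁻¹ = (ζ * (f * x⁻¹ * f⁻¹)) * ζ⁻¹ * x := by group
      _ = (f * x⁻¹ * f⁻¹) * ζ * ζ⁻¹ * x := by rw [z1]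
      _ = x⁻¹ * c⁻¹ * x := by rw [hcd]; group
      _ = x⁻¹ * (c⁻¹ * x) := by group
      _ = x⁻¹ * (x * c⁻¹) := by rw [z2]
      _ = c⁻¹ := by group
  have e5 : c = c⁻¹ := e3.trans e4
  have e6 : c * c = 1 := by
    calc c * c = c * c⁻¹ := by rw [← e5]
      _ = 1 := mul_inv_cancel c
  have c1 : c = 1 := eq_one_of_cube_sq (h.Zexp c hc) e6
  calc f * x = (f * x * f⁻¹ * x⁻¹) * (x * f) := by group
    _ = x * f := by rw [← hcd, c1, one_mul]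

/-- `t` does not centralise `R`. -/
theorem AT.not_cent (k : AT G R Z π t) : ¬ ∀ s ∈ R, t * s * t⁻¹ = s := by
  have h := k.ax
  intro hall
  have hcen : ∀ g : G, g * t * g⁻¹ = t := by
    intro g
    have hu : t⁻¹ * (g * t * g⁻¹) ∈ R := by
      rw [← h.ker]
      simp only [map_mul, map_inv, k.πt]
      exact sl_neg_conj (π g)
    obtain ⟨u, hud⟩ : ∃ u, u = t⁻¹ * (g * t * g⁻¹) := ⟨_, rfl⟩
    rw [← hud] at hu
    have e1 : g * t * g⁻¹ = t * u := by rw [hud]; group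
    have e2 : t * u = u * t := by
      have := hall u hu
      calc t * u = (t * u * t⁻¹) * t := by group
        _ = u * t := by rw [this]
    have e3 : (t * u) * (t * u) = 1 := by
      rw [← e1]
      calc g * t * g⁻¹ * (g * t * g⁻¹) = g * (t * t) * g⁻¹ := by group
        _ = 1 := by rw [k.t2]; group
    have e4 : u * u = 1 := by
      calc u * u = t * t * (u * u) := by rw [k.t2, one_mul]
        _ = t * (t * u) * u := by group
        _ = t * (u * t) * u := by rw [e2]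
        _ = (t * u) * (t * u) := by group
        _ = 1 := e3
    have e5 : u = 1 := eq_one_of_cube_sq (h.exp u hu) e4
    rw [e1, e5, mul_one]
  have ht1 := h.O2 t k.t2 hcen
  have := k.πt
  rw [ht1, map_one] at this
  exact sl_neg_ne this.symm

/-- `t` inverts `R` modulo `Z`. -/
theorem AT.inv_mod (k : AT G R Z π t) (r : G) (hr : r ∈ R) : r * (t * r * t⁻¹) ∈ Z := by
  have h := k.ax
  have hnc := k.not_cent
  push Not at hnc
  obtain ⟨s₀, hs₀, hs₀t⟩ := hnc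
  by_contra hcon
  -- an element inverted by `t`
  obtain ⟨h₀, hh₀d⟩ : ∃ h₀, h₀ = s₀⁻¹ * (t * s₀ * t⁻¹) := ⟨_, rfl⟩
  have hh₀R : h₀ ∈ R := by
    rw [hh₀d]
    exact R.mul_mem (R.inv_mem hs₀) (h.Rn t s₀ hs₀)
  have hI : t * h₀ * t⁻¹ = h₀⁻¹ := by
    rw [hh₀d]
    calc t * (s₀⁻¹ * (t * s₀ * t⁻¹)) * t⁻¹
        = (t * s₀⁻¹ * t⁻¹) * ((t * t) * s₀ * (t * t)⁻¹) := by group
      _ = (t * s₀⁻¹ * t⁻¹) * s₀ := by rw [k.t2]; group
      _ = (s₀⁻¹ * (t * s₀ * t⁻¹))⁻¹ := by group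
  have hh₀1 : h₀ ≠ 1 := by
    intro e
    apply hs₀t
    calc t * s₀ * t⁻¹ = s₀ * (s₀⁻¹ * (t * s₀ * t⁻¹)) := by group
      _ = s₀ := by rw [← hh₀d, e, mul_one]
  -- the subgroup of elements whose class is fixed by `t`
  let N : Subgroup G :=
    { carrier := {x | x ∈ R ∧ t * x * t⁻¹ * x⁻¹ ∈ Z}
      one_mem' := ⟨R.one_mem, by simpa using Z.one_mem⟩
      mul_mem' := by
        rintro x y ⟨hx, hx'⟩ ⟨hy, hy'⟩
        refine ⟨R.mul_mem hx hy, ?_⟩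
        have e : t * (x * y) * t⁻¹ * (x * y)⁻¹ =
            (t * x * t⁻¹) * (t * y * t⁻¹ * y⁻¹) * (t * x * t⁻¹)⁻¹ * (t * x * t⁻¹ * x⁻¹) := by
          group
        rw [e]
        exact Z.mul_mem (h.Zconj _ _ hy') hx'
      inv_mem' := by
        rintro x ⟨hx, hx'⟩
        refine ⟨R.inv_mem hx, ?_⟩
        have e : t * x⁻¹ * t⁻¹ * x⁻¹⁻¹ = x⁻¹ * (t * x * t⁻¹ * x⁻¹)⁻¹ * x⁻¹⁻¹ := by group
        rw [e]
        exact h.Zconj _ _ (Z.inv_mem hx') }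
  have hNR : N ≤ R := fun x hx => hx.1
  have hh₀N : h₀ ∉ N := by
    intro hN
    have h1 : h₀⁻¹ * h₀⁻¹ ∈ Z := by
      have := hN.2
      rw [hI] at this
      exact this
    have e : h₀ = h₀⁻¹ * h₀⁻¹ := by
      have h3 := h.exp h₀ hh₀R
      calc h₀ = h₀ ^ 3 * (h₀⁻¹ * h₀⁻¹) := by group
        _ = h₀⁻¹ * h₀⁻¹ := by rw [h3, one_mul]
    have hZ0 : h₀ ∈ Z := by rw [e]; exact h1
    have e2 : t * h₀ * t⁻¹ = h₀ := by rw [h.Zcen t h₀ hZ0]; group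
    have e3 : h₀ = h₀⁻¹ := e2.symm.trans hI
    have e4 : h₀ * h₀ = 1 := by
      calc h₀ * h₀ = h₀ * h₀⁻¹ := by rw [← e3]
        _ = 1 := mul_inv_cancel _
    exact hh₀1 (eq_one_of_cube_sq (h.exp h₀ hh₀R) e4)
  have hNc := h.proper_comm N hNR ⟨h₀, hh₀R, hh₀N⟩
  have hmN : ∀ x ∈ R, x * (t * x * t⁻¹) ∈ N := by
    intro x hx
    refine ⟨R.mul_mem hx (h.Rn t x hx), ?_⟩
    have e : t * (x * (t * x * t⁻¹)) * t⁻¹ * (x * (t * x * t⁻¹))⁻¹ =
        (t * x * t⁻¹) * x * (t * x * t⁻¹)⁻¹ * x⁻¹ := by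
      calc t * (x * (t * x * t⁻¹)) * t⁻¹ * (x * (t * x * t⁻¹))⁻¹
          = (t * x * t⁻¹) * ((t * t) * x * (t * t)⁻¹) * (t * x * t⁻¹)⁻¹ * x⁻¹ := by group
        _ = (t * x * t⁻¹) * x * (t * x * t⁻¹)⁻¹ * x⁻¹ := by rw [k.t2]; group
    rw [e]
    exact h.cm _ (h.Rn t x hx) x hx
  obtain ⟨f, hfd⟩ : ∃ f, f = r * (t * r * t⁻¹) := ⟨_, rfl⟩
  rw [← hfd] at hcon
  have hfN : f ∈ N := by rw [hfd]; exact hmN r hr
  have hfR : f ∈ R := hNR hfN
  apply hcon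
  apply h.Zm f hfR
  intro x hx
  have hm := hmN x hx
  have hfm : f * (x * (t * x * t⁻¹)) = (x * (t * x * t⁻¹)) * f := hNc f hfN _ hm
  have hd : t * ((t * x * t⁻¹)⁻¹ * x) * t⁻¹ = ((t * x * t⁻¹)⁻¹ * x)⁻¹ := by
    calc t * ((t * x * t⁻¹)⁻¹ * x) * t⁻¹
        = (t * t) * x⁻¹ * (t * t)⁻¹ * (t * x * t⁻¹) := by group
      _ = ((t * x * t⁻¹)⁻¹ * x)⁻¹ := by rw [k.t2]; group
  have hfd' : f * ((t * x * t⁻¹)⁻¹ * x) = ((t * x * t⁻¹)⁻¹ * x) * f :=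
    k.comm_NI f hfR _ (R.mul_mem (R.inv_mem (h.Rn t x hx)) hx) hfN.2 hd
  have hxx : x * x = (x * (t * x * t⁻¹)) * ((t * x * t⁻¹)⁻¹ * x) := by group
  have hw : f * (x * x) = (x * x) * f := by
    rw [hxx]
    calc f * ((x * (t * x * t⁻¹)) * ((t * x * t⁻¹)⁻¹ * x))
        = (f * (x * (t * x * t⁻¹))) * ((t * x * t⁻¹)⁻¹ * x) := by group
      _ = ((x * (t * x * t⁻¹)) * f) * ((t * x * t⁻¹)⁻¹ * x) := by rw [hfm]
      _ = (x * (t * x * t⁻¹)) * (f * ((t * x * t⁻¹)⁻¹ * x)) := by group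
      _ = (x * (t * x * t⁻¹)) * (((t * x * t⁻¹)⁻¹ * x) * f) := by rw [hfd']
      _ = ((x * (t * x * t⁻¹)) * ((t * x * t⁻¹)⁻¹ * x)) * f := by group
  have hc1 : Commute f (x * x) := hw
  have hc2 : Commute f ((x * x) * (x * x)) := hc1.mul_right hc1
  rw [← fourth (h.exp x hx)] at hc2
  exact hc2

/-- Each coset of `Z` in `R` contains an element inverted by `t`. -/
theorem AT.exists_rep (k : AT G R Z π t) (r : G) (hr : r ∈ R) :
    ∃ ζ ∈ Z, t * (r * ζ) * t⁻¹ = (r * ζ)⁻¹ := by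
  have h := k.ax
  have hζ := k.inv_mod r hr
  obtain ⟨ζ, hζd⟩ : ∃ ζ, ζ = r * (t * r * t⁻¹) := ⟨_, rfl⟩
  rw [← hζd] at hζ
  have e1 : t * r * t⁻¹ = r⁻¹ * ζ := by rw [hζd]; group
  have e2 : t * ζ = ζ * t := h.Zcen t ζ hζ
  have e4 : ζ⁻¹ = ζ * ζ := by
    exact inv_eq_of_mul_eq_one_left (cube_expand (h.Zexp ζ hζ))
  refine ⟨ζ, hζ, ?_⟩
  calc t * (r * ζ) * t⁻¹ = (t * r * t⁻¹) * (t * ζ) * t⁻¹ := by group
    _ = (r⁻¹ * ζ) * (ζ * t) * t⁻¹ := by rw [e1, e2]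
    _ = r⁻¹ * (ζ * ζ) := by group
    _ = r⁻¹ * ζ⁻¹ := by rw [e4]
    _ = ζ⁻¹ * r⁻¹ := (h.Zc ζ⁻¹ (Z.inv_mem hζ) r⁻¹ (R.inv_mem hr)).symm
    _ = (r * ζ)⁻¹ := by group

theorem AT.rep_unique (k : AT G R Z π t) (x : G) (hxR : x ∈ R) (hx : t * x * t⁻¹ = x⁻¹)
    (ζ : G) (hζ : ζ ∈ Z) (hxζ : t * (x * ζ) * t⁻¹ = (x * ζ)⁻¹) : ζ = 1 := by
  have h := k.ax
  have e1 : t * (x * ζ) * t⁻¹ = x⁻¹ * ζ := by
    calc t * (x * ζ) * t⁻¹ = (t * x * t⁻¹) * (t * ζ) * t⁻¹ := by group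
      _ = x⁻¹ * (ζ * t) * t⁻¹ := by rw [hx, h.Zcen t ζ hζ]
      _ = x⁻¹ * ζ := by group
  have e2 : (x * ζ)⁻¹ = x⁻¹ * ζ⁻¹ := by
    rw [mul_inv_rev]
    exact h.Zc ζ⁻¹ (Z.inv_mem hζ) x⁻¹ (R.inv_mem hxR)
  have e3 : ζ = ζ⁻¹ := mul_left_cancel (a := x⁻¹) (e1.symm.trans (hxζ.trans e2))
  have e4 : ζ * ζ = 1 := by
    calc ζ * ζ = ζ * ζ⁻¹ := by rw [← e3]
      _ = 1 := mul_inv_cancel _
  exact eq_one_of_cube_sq (h.Zexp ζ hζ) e4

theorem AT.I_eq (k : AT G R Z π t) (x y : G) (hxR : x ∈ R) (hx : t * x * t⁻¹ = x⁻¹)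
    (hy : t * y * t⁻¹ = y⁻¹) (hxy : x⁻¹ * y ∈ Z) : y = x := by
  have := k.rep_unique x hxR hx (x⁻¹ * y) hxy (by rw [mul_inv_cancel_left]; exact hy)
  calc y = x * (x⁻¹ * y) := by group
    _ = x := by rw [this, mul_one]

theorem AT.cent_R (k : AT G R Z π t) (r : G) (hr : r ∈ R) (hrt : t * r = r * t) : r ∈ Z := by
  have h := k.ax
  have h1 := k.inv_mod r hr
  have e : t * r * t⁻¹ = r := by rw [hrt]; group
  rw [e] at h1
  rw [fourth (h.exp r hr)]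
  exact Z.mul_mem h1 h1

theorem AT.conj_I (k : AT G R Z π t) (g : G) (hg : g * t = t * g) (x : G)
    (hx : t * x * t⁻¹ = x⁻¹) : t * (g * x * g⁻¹) * t⁻¹ = (g * x * g⁻¹)⁻¹ := by
  calc t * (g * x * g⁻¹) * t⁻¹ = (t * g) * x * (t * g)⁻¹ := by group
    _ = (g * t) * x * (g * t)⁻¹ := by rw [← hg]
    _ = g * (t * x * t⁻¹) * g⁻¹ := by group
    _ = g * x⁻¹ * g⁻¹ := by rw [hx]
    _ = (g * x * g⁻¹)⁻¹ := by group

/-- Involutions lifting `-1` are `R`-conjugate to `t`. -/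
theorem AT.invol_conj (k : AT G R Z π t) (s : G) (hs2 : s * s = 1) (hπs : π s = -1) :
    ∃ ρ ∈ R, t * ρ * t⁻¹ = ρ⁻¹ ∧ s = ρ * t * ρ⁻¹ := by
  have h := k.ax
  have hρR : t * s ∈ R := by
    rw [← h.ker, map_mul, k.πt, hπs]
    exact sl_neg_sq
  have sinv : s⁻¹ = s := inv_eq_of_mul_eq_one_left hs2
  have h3 := cube_expand (h.exp _ hρR)
  refine ⟨t * s, hρR, ?_, ?_⟩
  · rw [mul_inv_rev, sinv, k.tinv]
    calc t * (t * s) * t = (t * t) * s * t := by group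
      _ = s * t := by rw [k.t2, one_mul]
  · rw [mul_inv_rev, sinv, k.tinv]
    calc s = s⁻¹ := sinv.symm
      _ = ((t * s) * (t * s) * (t * s)) * s⁻¹ := by rw [h3, one_mul]
      _ = t * s * t * (s * t) := by group

theorem AT.frattini (k : AT G R Z π t) (g : G) :
    ∃ ρ ∈ R, t * ρ * t⁻¹ = ρ⁻¹ ∧ (ρ⁻¹ * g) * t = t * (ρ⁻¹ * g) := by
  have hs2 : (g * t * g⁻¹) * (g * t * g⁻¹) = 1 := by
    calc (g * t * g⁻¹) * (g * t * g⁻¹) = g * (t * t) * g⁻¹ := by group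
      _ = 1 := by rw [k.t2]; group
  have hπs : π (g * t * g⁻¹) = -1 := by
    simp only [map_mul, map_inv, k.πt]
    exact sl_neg_conj' (π g)
  obtain ⟨ρ, hρR, hρI, e⟩ := k.invol_conj _ hs2 hπs
  refine ⟨ρ, hρR, hρI, ?_⟩
  calc ρ⁻¹ * g * t = ρ⁻¹ * (g * t * g⁻¹) * g := by group
    _ = ρ⁻¹ * (ρ * t * ρ⁻¹) * g := by rw [e]
    _ = t * (ρ⁻¹ * g) := by group

theorem AT.exists_i (k : AT G R Z π t) : ∃ i : G, i * i = t := by
  have h := k.ax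
  obtain ⟨I₀, hI₀⟩ := sl_exists_i
  obtain ⟨i₀, rfl⟩ := h.surj I₀
  have h4 : i₀ ^ 4 ∈ R := by
    rw [← h.ker, map_pow]
    have : π i₀ ^ 4 = (π i₀ * π i₀) * (π i₀ * π i₀) := by
      simp only [pow_succ, pow_zero, one_mul, mul_assoc]
    rw [this, hI₀]
    exact sl_neg_sq
  have h12 : i₀ ^ 12 = 1 := by
    have := h.exp _ h4
    rw [← pow_mul] at this
    exact this
  have hs2 : (i₀ ^ 9 * i₀ ^ 9) * (i₀ ^ 9 * i₀ ^ 9) = 1 := by
    calc (i₀ ^ 9 * i₀ ^ 9) * (i₀ ^ 9 * i₀ ^ 9) = (i₀ ^ 12) ^ 3 := by group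
      _ = 1 := by rw [h12, one_pow]
  have hπs : π (i₀ ^ 9 * i₀ ^ 9) = -1 := by
    rw [map_mul, map_pow]
    have : π i₀ ^ 9 * π i₀ ^ 9 = (π i₀ * π i₀) ^ 9 := by
      simp only [pow_succ, pow_zero, one_mul, mul_assoc]
    rw [this, hI₀]
    exact sl_neg_pow9
  obtain ⟨ρ, hρR, hρI, hs⟩ := k.invol_conj _ hs2 hπs
  refine ⟨ρ⁻¹ * i₀ ^ 9 * ρ, ?_⟩
  calc ρ⁻¹ * i₀ ^ 9 * ρ * (ρ⁻¹ * i₀ ^ 9 * ρ) = ρ⁻¹ * (i₀ ^ 9 * i₀ ^ 9) * ρ := by group
    _ = ρ⁻¹ * (ρ * t * ρ⁻¹) * ρ := by rw [hs]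
    _ = t := by group

end ATfacts

end Cfsg.Agent.Lib.Helper45.X648
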