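import Mathlib
import Cfsg.Agent.Lib.Helper45.X648Abs

set_option autoImplicit false

namespace Cfsg.Agent.Lib.Helper45.X648

universe u

variable {G : Type u} [Group G] [Finite G] {R Z : Subgroup G} {π : G →* SL23}

set_option maxHeartbeats 1600000 in
/-- Generators and relations in the abstract group. -/
theorem AX.main (h : AX G R Z π) (E : Subgroup G)
    (hEc : ∀ x ∈ E, ∀ y ∈ E, x * y = y * x) (hE3 : ∀ x ∈ E, x ^ 3 = 1)
    (hEcard : Nat.card E = 27) :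
    ∃ z a b i j c : G, XR G z a b i j c ∧
      Subgroup.closure ({c, j, i, b, a, z} : Set G) = ⊤ ∧ z ≠ 1 ∧
      ∀ N : Subgroup G, N.Normal → N ≠ ⊥ → z ∈ N := by
  obtain ⟨t, ht2, hπt⟩ := h.exists_t
  have k : AT G R Z π t := ⟨h, ht2, hπt⟩
  have tinv := k.tinv
  obtain ⟨i, hi⟩ := k.exists_i
  obtain ⟨x, hxE, hxR, a₁, ha₁E, ha₁R, ha₁Z⟩ := h.exists_E_elts E hEc hEcard
  obtain ⟨ζ₁, hζ₁, haI⟩ := k.exists_rep a₁ ha₁R
  obtain ⟨a, had⟩ : ∃ a, a = a₁ * ζ₁ := ⟨_, rfl⟩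
  rw [← had] at haI
  have haR : a ∈ R := by rw [had]; exact R.mul_mem ha₁R (h.ZR hζ₁)
  have haZ : a ∉ Z := by
    intro hc
    apply ha₁Z
    have : a₁ = a * ζ₁⁻¹ := by rw [had]; group
    rw [this]
    exact Z.mul_mem hc (Z.inv_mem hζ₁)
  have ha3 := h.exp a haR
  have ha1 : a ≠ 1 := fun e => haZ (by rw [e]; exact Z.one_mem)
  have hxa : x * a = a * x := by
    rw [had]
    calc x * (a₁ * ζ₁) = (x * a₁) * ζ₁ := by group
      _ = (a₁ * x) * ζ₁ := by rw [hEc x hxE a₁ ha₁E]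
      _ = a₁ * (x * ζ₁) := by group
      _ = a₁ * (ζ₁ * x) := by rw [h.Zcen x ζ₁ hζ₁]
      _ = a₁ * ζ₁ * x := by group
  have hx3 := hE3 x hxE
  obtain ⟨ρ, hρR, hρI, hc₁t⟩ := k.frattini x
  have hρa : ρ * a = a * ρ := by
    have e1 : (ρ⁻¹ * x) * a * (ρ⁻¹ * x)⁻¹ = ρ⁻¹ * a * ρ := by
      calc (ρ⁻¹ * x) * a * (ρ⁻¹ * x)⁻¹ = ρ⁻¹ * (x * a) * x⁻¹ * ρ := by group
        _ = ρ⁻¹ * (a * x) * x⁻¹ * ρ := by rw [hxa]
        _ = ρ⁻¹ * a * ρ := by group
    have e2 := k.conj_I (ρ⁻¹ * x) hc₁t a haI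
    rw [e1] at e2
    have e3 : ρ⁻¹ * a * ρ = a * (a⁻¹ * ρ⁻¹ * a * ρ) := by group
    have hz' : a⁻¹ * ρ⁻¹ * a * ρ ∈ Z := by
      have := h.cm a⁻¹ (R.inv_mem haR) ρ⁻¹ (R.inv_mem hρR)
      rwa [inv_inv, inv_inv] at this
    rw [e3] at e2
    have e4 := k.rep_unique a haR haI _ hz' e2
    calc ρ * a = a * ρ * (a⁻¹ * ρ⁻¹ * a * ρ)⁻¹ := by group
      _ = a * ρ := by rw [e4, inv_one, mul_one]
  obtain ⟨ζ₂, hζ₂, w, hw, hρw⟩ := h.cent_mem a haR haZ ρ hρR hρa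
  have hxw : x * w = w * x := by
    rcases hw with e | e | e
    · rw [e, mul_one, one_mul]
    · rw [e]; exact hxa
    · rw [e]
      calc x * a⁻¹ = a⁻¹ * (a * x) * a⁻¹ := by group
        _ = a⁻¹ * (x * a) * a⁻¹ := by rw [hxa]
        _ = a⁻¹ * x := by group
  have hxρ : x * ρ = ρ * x := by
    rw [hρw]
    calc x * (ζ₂ * w) = (x * ζ₂) * w := by group
      _ = (ζ₂ * x) * w := by rw [h.Zcen x ζ₂ hζ₂]
      _ = ζ₂ * (x * w) := by group
      _ = ζ₂ * (w * x) := by rw [hxw]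
      _ = ζ₂ * w * x := by group
  obtain ⟨c₁, hc₁d⟩ : ∃ c₁, c₁ = ρ⁻¹ * x := ⟨_, rfl⟩
  rw [← hc₁d] at hc₁t
  have hc₁3 : c₁ ^ 3 = 1 := by
    have hcomm : Commute ρ⁻¹ x := Commute.inv_left (show Commute ρ x from hxρ.symm)
    rw [hc₁d, hcomm.mul_pow, hx3, mul_one, inv_pow, h.exp ρ hρR, inv_one]
  have hc₁a : c₁ * a = a * c₁ := by
    rw [hc₁d]
    calc ρ⁻¹ * x * a = ρ⁻¹ * (x * a) := by group
      _ = ρ⁻¹ * (a * x) := by rw [hxa]
      _ = ρ⁻¹ * (a * ρ) * ρ⁻¹ * x := by group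
      _ = ρ⁻¹ * (ρ * a) * ρ⁻¹ * x := by rw [hρa]
      _ = a * (ρ⁻¹ * x) := by group
  have hc₁R : c₁ ∉ R := by
    intro hc
    apply hxR
    have : x = ρ * c₁ := by rw [hc₁d]; group
    rw [this]
    exact R.mul_mem hρR hc
  have hπc₁ : π c₁ ≠ 1 := fun e => hc₁R ((h.ker _).mp e)
  have hπc₁3 : π c₁ ^ 3 = 1 := by rw [← map_pow, hc₁3, map_one]
  have hπi : π i * π i = -1 := by rw [← map_mul, hi, hπt]
  obtain ⟨c, hc3, hct, hca, hπc1, hπc3, hcls⟩ : ∃ c : G, c ^ 3 = 1 ∧ c * t = t * c ∧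
      c * a = a * c ∧ π c ≠ 1 ∧ π c ^ 3 = 1 ∧
      π c * (π c * π i * (π c)⁻¹) * (π c)⁻¹ = π i * (π c * π i * (π c)⁻¹) := by
    rcases sl_class (π c₁) (π i) hπc₁3 hπc₁ hπi with hh | hh
    · exact ⟨c₁, hc₁3, hc₁t, hc₁a, hπc₁, hπc₁3, hh⟩
    · refine ⟨c₁⁻¹, ?_, ?_, ?_, ?_, ?_, ?_⟩
      · rw [inv_pow, hc₁3, inv_one]
      · calc c₁⁻¹ * t = c₁⁻¹ * (t * c₁) * c₁⁻¹ := by group
          _ = c₁⁻¹ * (c₁ * t) * c₁⁻¹ := by rw [hc₁t]
          _ = t * c₁⁻¹ := by group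
      · calc c₁⁻¹ * a = c₁⁻¹ * (a * c₁) * c₁⁻¹ := by group
          _ = c₁⁻¹ * (c₁ * a) * c₁⁻¹ := by rw [hc₁a]
          _ = a * c₁⁻¹ := by group
      · rw [map_inv]
        intro e
        exact hπc₁ (inv_eq_one.mp e)
      · rw [map_inv, inv_pow, hπc₁3, inv_one]
      · rw [map_inv]
        exact hh
  have hit : i * t = t * i := by rw [← hi, mul_assoc]
  obtain ⟨b, hbd⟩ : ∃ b, b = i * a * i⁻¹ := ⟨_, rfl⟩
  obtain ⟨j, hjd⟩ : ∃ j, j = c * i * c⁻¹ := ⟨_, rfl⟩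
  have hbR : b ∈ R := by rw [hbd]; exact h.Rn i a haR
  have hbI : t * b * t⁻¹ = b⁻¹ := by rw [hbd]; exact k.conj_I i hit a haI
  have hib : i * b * i⁻¹ = a⁻¹ := by
    rw [hbd, ← haI, ← hi]; group
  have hjj : j * j = t := by
    rw [hjd]
    calc c * i * c⁻¹ * (c * i * c⁻¹) = c * (i * i) * c⁻¹ := by group
      _ = c * t * c⁻¹ := by rw [hi]
      _ = t := by rw [hct]; group
  have hjt : j * t = t * j := by rw [← hjj, mul_assoc]
  have hi4 : i ^ 4 = 1 := by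
    calc i ^ 4 = (i * i) * (i * i) := by simp only [pow_succ, pow_zero, one_mul, mul_assoc]
      _ = 1 := by rw [hi, ht2]
  have hπj : π j = π c * π i * (π c)⁻¹ := by rw [hjd]; simp only [map_mul, map_inv]
  have mem_Ct : ∀ g : G, g * t = t * g → g ∈ Subgroup.centralizer ({t} : Set G) := by
    intro g hg
    rw [Subgroup.mem_centralizer_iff]
    intro y hy
    rw [Set.mem_singleton_iff.mp hy]
    exact hg.symm
  have of_Ct : ∀ g ∈ Subgroup.centralizer ({t} : Set G), t * g = g * t := by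
    intro g hg
    exact Subgroup.mem_centralizer_iff.mp hg t (Set.mem_singleton t)
  have hiC := mem_Ct i hit
  have hjC := mem_Ct j hjt
  have hcC := mem_Ct c hct
  have hji : j * i * j⁻¹ = i⁻¹ := by
    have hπ : π (j * i * j⁻¹ * i) = 1 := by
      simp only [map_mul, map_inv, hπj]
      rw [sl_conj (π c) (π i) hπc3 hπc1 hπi]
      exact inv_mul_cancel _
    have hu : j * i * j⁻¹ * i ∈ R := (h.ker _).mp hπ
    have huZ : j * i * j⁻¹ * i ∈ Z := k.cent_R _ hu (of_Ct _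
      (Subgroup.mul_mem _ (Subgroup.mul_mem _ (Subgroup.mul_mem _ hjC hiC)
        (Subgroup.inv_mem _ hjC)) hiC))
    obtain ⟨u, hud⟩ : ∃ u, u = j * i * j⁻¹ * i := ⟨_, rfl⟩
    rw [← hud] at huZ
    have e1 : j * i * j⁻¹ = u * i⁻¹ := by rw [hud]; group
    have e2 : (j * i * j⁻¹) * (j * i * j⁻¹) = t := by
      calc (j * i * j⁻¹) * (j * i * j⁻¹) = j * (i * i) * j⁻¹ := by group
        _ = j * t * j⁻¹ := by rw [hi]
        _ = t := by rw [hjt]; group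
    have e3 : (u * i⁻¹) * (u * i⁻¹) = u * u * t := by
      have hz := h.Zcen i⁻¹ u huZ
      calc (u * i⁻¹) * (u * i⁻¹) = u * (i⁻¹ * u) * i⁻¹ := by group
        _ = u * (u * i⁻¹) * i⁻¹ := by rw [hz]
        _ = u * u * (i * i)⁻¹ := by group
        _ = u * u * t := by rw [hi, tinv]
    rw [e1, e3] at e2
    have e4 : u * u = 1 := by
      calc u * u = (u * u * t) * t⁻¹ := by group
        _ = 1 := by rw [e2]; group
    rw [e1, eq_one_of_cube_sq (h.Zexp u huZ) e4, one_mul]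
  have hij2 : (i * j) * (i * j) = t := by
    calc (i * j) * (i * j) = i * (j * i * j⁻¹) * (j * j) := by group
      _ = i * i⁻¹ * t := by rw [hji, hjj]
      _ = t := by group
  have hcj : c * j * c⁻¹ = i * j := by
    have hπ : π (c * j * c⁻¹ * (i * j)⁻¹) = 1 := by
      simp only [map_mul, map_inv, hπj]
      rw [hcls]
      exact mul_inv_cancel _
    have hu : c * j * c⁻¹ * (i * j)⁻¹ ∈ R := (h.ker _).mp hπ
    have huZ : c * j * c⁻¹ * (i * j)⁻¹ ∈ Z := k.cent_R _ hu (of_Ct _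
      (Subgroup.mul_mem _ (Subgroup.mul_mem _ (Subgroup.mul_mem _ hcC hjC)
        (Subgroup.inv_mem _ hcC)) (Subgroup.inv_mem _ (Subgroup.mul_mem _ hiC hjC))))
    obtain ⟨u, hud⟩ : ∃ u, u = c * j * c⁻¹ * (i * j)⁻¹ := ⟨_, rfl⟩
    rw [← hud] at huZ
    have e1 : c * j * c⁻¹ = u * (i * j) := by rw [hud]; group
    have e2 : (c * j * c⁻¹) * (c * j * c⁻¹) = t := by
      calc (c * j * c⁻¹) * (c * j * c⁻¹) = c * (j * j) * c⁻¹ := by group
        _ = c * t * c⁻¹ := by rw [hjj]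
        _ = t := by rw [hct]; group
    have e3 : (u * (i * j)) * (u * (i * j)) = u * u * t := by
      have hz := h.Zcen (i * j) u huZ
      calc (u * (i * j)) * (u * (i * j)) = u * ((i * j) * u) * (i * j) := by group
        _ = u * (u * (i * j)) * (i * j) := by rw [hz]
        _ = u * u * ((i * j) * (i * j)) := by group
        _ = u * u * t := by rw [hij2]
    rw [e1, e3] at e2
    have e4 : u * u = 1 := by
      calc u * u = (u * u * t) * t⁻¹ := by group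
        _ = 1 := by rw [e2]; group
    rw [e1, eq_one_of_cube_sq (h.Zexp u huZ) e4, one_mul]
  -- `a` and `b` do not commute
  have hab : a * b ≠ b * a := by
    intro hc
    obtain ⟨ζ, hζ, w, hw, hbw⟩ := h.cent_mem a haR haZ b hbR hc.symm
    have hwR : w ∈ R := by
      rcases hw with e | e | e
      · rw [e]; exact R.one_mem
      · rw [e]; exact haR
      · rw [e]; exact R.inv_mem haR
    have hwI : t * w * t⁻¹ = w⁻¹ := by
      rcases hw with e | e | e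
      · rw [e]; simp
      · rw [e]; exact haI
      · rw [e, inv_inv]
        calc t * a⁻¹ * t⁻¹ = (t * a * t⁻¹)⁻¹ := by group
          _ = a := by rw [haI, inv_inv]
    have hζw : ζ * w = w * ζ := h.Zc ζ hζ w hwR
    have hζ1 : ζ = 1 := k.rep_unique w hwR hwI ζ hζ (by rw [← hζw, ← hbw]; exact hbI)
    have hbw' : b = w := by rw [hbw, hζ1, one_mul]
    rcases hw with e | e | e
    · have h1 : a⁻¹ = 1 := by
        rw [← hib, hbw', e]; group
      exact ha1 (inv_eq_one.mp h1)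
    · have h1 : i * a * i⁻¹ = a := by rw [← hbd, hbw', e]
      have h2 : i * a * i⁻¹ = a⁻¹ := by
        have := hib
        rw [hbw', e] at this
        exact this
      have e5 : a = a⁻¹ := h1.symm.trans h2
      have e6 : a * a = 1 := by
        calc a * a = a * a⁻¹ := by rw [← e5]
          _ = 1 := mul_inv_cancel _
      exact ha1 (eq_one_of_cube_sq ha3 e6)
    · have h1 : i * a * i⁻¹ = a⁻¹ := by rw [← hbd, hbw', e]
      have h2 : i * a⁻¹ * i⁻¹ = a⁻¹ := by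
        have := hib
        rw [hbw', e] at this
        exact this
      have h3 : i * a⁻¹ * i⁻¹ = a := by
        calc i * a⁻¹ * i⁻¹ = (i * a * i⁻¹)⁻¹ := by group
          _ = a := by rw [h1, inv_inv]
      have e5 : a = a⁻¹ := h3.symm.trans h2
      have e6 : a * a = 1 := by
        calc a * a = a * a⁻¹ := by rw [← e5]
          _ = 1 := mul_inv_cancel _
      exact ha1 (eq_one_of_cube_sq ha3 e6)
  obtain ⟨z, hzd⟩ : ∃ z, z = a⁻¹ * (b * a * b⁻¹) := ⟨_, rfl⟩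
  have hzZ : z ∈ Z := by
    have := h.cm a⁻¹ (R.inv_mem haR) b hbR
    rw [inv_inv] at this
    have e : z = a⁻¹ * b * a * b⁻¹ := by rw [hzd]; group
    rw [e]
    exact this
  have hz1 : z ≠ 1 := by
    intro e
    apply hab
    have h1 : b * a * b⁻¹ = a := by
      calc b * a * b⁻¹ = a * (a⁻¹ * (b * a * b⁻¹)) := by group
        _ = a := by rw [← hzd, e, mul_one]
    calc a * b = (b * a * b⁻¹) * b := by rw [h1]
      _ = b * a := by group
  have hba : b * a * b⁻¹ = a * z := by rw [hzd]; group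
  have cz : ∀ g : G, g * z * g⁻¹ = z := fun g => by rw [h.Zcen g z hzZ]; group
  have hca' : c⁻¹ * a * c = a := by
    calc c⁻¹ * a * c = c⁻¹ * (a * c) := by group
      _ = c⁻¹ * (c * a) := by rw [hca]
      _ = a := by group
  have hca'' : c * a * c⁻¹ = a := by rw [hca]; group
  obtain ⟨b', hb'd⟩ : ∃ b', b' = c * b * c⁻¹ := ⟨_, rfl⟩
  have hb'R : b' ∈ R := by rw [hb'd]; exact h.Rn c b hbR
  have hb'I : t * b' * t⁻¹ = b'⁻¹ := by rw [hb'd]; exact k.conj_I c hct b hbI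
  have hja : j * a * j⁻¹ = b' := by
    rw [hjd, hb'd, hbd]
    calc c * i * c⁻¹ * a * (c * i * c⁻¹)⁻¹ = c * (i * (c⁻¹ * a * c) * i⁻¹) * c⁻¹ := by group
      _ = c * (i * a * i⁻¹) * c⁻¹ := by rw [hca']
  have hstar : c * b' * c⁻¹ = i * b' * i⁻¹ := by
    have e1 : (c * j * c⁻¹) * a * (c * j * c⁻¹)⁻¹ = c * b' * c⁻¹ := by
      calc (c * j * c⁻¹) * a * (c * j * c⁻¹)⁻¹ = c * (j * (c⁻¹ * a * c) * j⁻¹) * c⁻¹ := by group
        _ = c * b' * c⁻¹ := by rw [hca', hja]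
    have e2 : (i * j) * a * (i * j)⁻¹ = i * b' * i⁻¹ := by
      calc (i * j) * a * (i * j)⁻¹ = i * (j * a * j⁻¹) * i⁻¹ := by group
        _ = i * b' * i⁻¹ := by rw [hja]
    rw [← e1, hcj, e2]
  have hab' : a * b' * a⁻¹ * b'⁻¹ = a * b * a⁻¹ * b⁻¹ := by
    have hcomm : a * b * a⁻¹ * b⁻¹ ∈ Z := h.cm a haR b hbR
    have e1 : c * (a * b * a⁻¹ * b⁻¹) * c⁻¹ = a * b * a⁻¹ * b⁻¹ := by
      rw [h.Zcen c _ hcomm]; group
    have e2 : c * (a * b * a⁻¹ * b⁻¹) * c⁻¹ =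
        (c * a * c⁻¹) * (c * b * c⁻¹) * (c * a * c⁻¹)⁻¹ * (c * b * c⁻¹)⁻¹ := by group
    rw [hca'', ← hb'd] at e2
    exact e2.symm.trans e1
  have hwa : (b⁻¹ * b') * a = a * (b⁻¹ * b') := by
    have e1 : b' * a⁻¹ * b'⁻¹ = b * a⁻¹ * b⁻¹ := by
      calc b' * a⁻¹ * b'⁻¹ = a⁻¹ * (a * b' * a⁻¹ * b'⁻¹) := by group
        _ = a⁻¹ * (a * b * a⁻¹ * b⁻¹) := by rw [hab']
        _ = b * a⁻¹ * b⁻¹ := by group
    have e2 : b' * a * b'⁻¹ = b * a * b⁻¹ := by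
      calc b' * a * b'⁻¹ = (b' * a⁻¹ * b'⁻¹)⁻¹ := by group
        _ = (b * a⁻¹ * b⁻¹)⁻¹ := by rw [e1]
        _ = b * a * b⁻¹ := by group
    calc (b⁻¹ * b') * a = b⁻¹ * (b' * a * b'⁻¹) * b' := by group
      _ = b⁻¹ * (b * a * b⁻¹) * b' := by rw [e2]
      _ = a * (b⁻¹ * b') := by group
  obtain ⟨ζ, hζ, w, hw, hbw⟩ :=
    h.cent_mem a haR haZ (b⁻¹ * b') (R.mul_mem (R.inv_mem hbR) hb'R) hwa
  have hcb : b' = a⁻¹ * b * a⁻¹ := by
    have hcab : b⁻¹ * a * b * a⁻¹ ∈ Z := by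
      have := h.cm b⁻¹ (R.inv_mem hbR) a haR
      rwa [inv_inv] at this
    have hcab' : b⁻¹ * a⁻¹ * b * a ∈ Z := by
      have := h.cm b⁻¹ (R.inv_mem hbR) a⁻¹ (R.inv_mem haR)
      rwa [inv_inv, inv_inv] at this
    have h3 := cube_expand ha3
    rcases hw with e | e | e
    · exfalso
      have hE1 : b' = b := k.I_eq b b' hbR hbI hb'I (by rw [hbw, e, mul_one]; exact hζ)
      have e1 : b = a⁻¹ := by
        have hs := hstar
        rw [hE1] at hs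
        rw [← hb'd, hE1, hib] at hs
        exact hs
      exact hab (by rw [e1, mul_inv_cancel, inv_mul_cancel])
    · have hxI : t * (a⁻¹ * b * a⁻¹) * t⁻¹ = (a⁻¹ * b * a⁻¹)⁻¹ := by
        calc t * (a⁻¹ * b * a⁻¹) * t⁻¹
            = (t * a * t⁻¹)⁻¹ * (t * b * t⁻¹) * (t * a * t⁻¹)⁻¹ := by group
          _ = a⁻¹⁻¹ * b⁻¹ * a⁻¹⁻¹ := by rw [haI, hbI]
          _ = (a⁻¹ * b * a⁻¹)⁻¹ := by group
      refine k.I_eq (a⁻¹ * b * a⁻¹) b'
        (R.mul_mem (R.mul_mem (R.inv_mem haR) hbR) (R.inv_mem haR)) hxI hb'I ?_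
      have hconj : a⁻¹ * ζ * a ∈ Z := by
        have := h.Zconj a⁻¹ ζ hζ
        rwa [inv_inv] at this
      have e1 : (a⁻¹ * b * a⁻¹)⁻¹ * b' = a * b⁻¹ * a * b * (b⁻¹ * b') := by group
      have e2 : a * b⁻¹ * a * b * (ζ * a) =
          (a * (b⁻¹ * a * b * a⁻¹) * a⁻¹) * ((a * a * a) * (a⁻¹ * ζ * a)) := by group
      rw [e1, hbw, e, e2, h3, one_mul]
      exact Z.mul_mem (h.Zconj a _ hcab) hconj
    · exfalso
      have hxI : t * (a * b * a) * t⁻¹ = (a * b * a)⁻¹ := by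
        calc t * (a * b * a) * t⁻¹ = (t * a * t⁻¹) * (t * b * t⁻¹) * (t * a * t⁻¹) := by group
          _ = a⁻¹ * b⁻¹ * a⁻¹ := by rw [haI, hbI]
          _ = (a * b * a)⁻¹ := by group
      have hconj : a * ζ * a⁻¹ ∈ Z := h.Zconj a ζ hζ
      have hE3' : b' = a * b * a := by
        refine k.I_eq (a * b * a) b' (R.mul_mem (R.mul_mem haR hbR) haR) hxI hb'I ?_
        have e1 : (a * b * a)⁻¹ * b' = a⁻¹ * b⁻¹ * a⁻¹ * b * (b⁻¹ * b') := by group
        have e2 : a⁻¹ * b⁻¹ * a⁻¹ * b * (ζ * a⁻¹) =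
            (a⁻¹ * (b⁻¹ * a⁻¹ * b * a) * a⁻¹⁻¹) * ((a * a * a)⁻¹ * (a * ζ * a⁻¹)) := by group
        rw [e1, hbw, e, e2, h3, inv_one, one_mul]
        exact Z.mul_mem (h.Zconj a⁻¹ _ hcab') hconj
      have h1 : a * (a * b * a) * a = b * a⁻¹ * b := by
        have l : c * (a * b * a) * c⁻¹ = a * (a * b * a) * a := by
          calc c * (a * b * a) * c⁻¹ = (c * a * c⁻¹) * (c * b * c⁻¹) * (c * a * c⁻¹) := by group
            _ = a * b' * a := by rw [hca'', ← hb'd]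
            _ = a * (a * b * a) * a := by rw [hE3']
        have r : i * (a * b * a) * i⁻¹ = b * a⁻¹ * b := by
          calc i * (a * b * a) * i⁻¹ = (i * a * i⁻¹) * (i * b * i⁻¹) * (i * a * i⁻¹) := by group
            _ = b * a⁻¹ * b := by rw [← hbd, hib]
        have hs := hstar
        rw [hE3', l, r] at hs
        exact hs
      have hz4 : a⁻¹ * b⁻¹ * a * b ∈ Z := by
        have := h.cm a⁻¹ (R.inv_mem haR) b⁻¹ (R.inv_mem hbR)
        rwa [inv_inv, inv_inv] at this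
      obtain ⟨ζ₄, hζ₄d⟩ : ∃ ζ₄, ζ₄ = a⁻¹ * b⁻¹ * a * b := ⟨_, rfl⟩
      rw [← hζ₄d] at hz4
      have e1 : b⁻¹ * a * b = a * ζ₄ := by rw [hζ₄d]; group
      have e2 : b = a * (b⁻¹ * a * b) * (b⁻¹ * a * b) * a * a := by
        calc b = a * b⁻¹ * (b * a⁻¹ * b) := by group
          _ = a * b⁻¹ * (a * (a * b * a) * a) := by rw [h1]
          _ = a * (b⁻¹ * a * b) * (b⁻¹ * a * b) * a * a := by group
      rw [e1] at e2
      have ca : Commute a a := Commute.refl a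
      have cζ : Commute a ζ₄ := (h.Zc ζ₄ hz4 a haR).symm
      have hcomm : Commute a b := by
        rw [e2]
        exact (((ca.mul_right (ca.mul_right cζ)).mul_right (ca.mul_right cζ)).mul_right
          ca).mul_right ca
      exact hab hcomm.eq
  have e1' : i⁻¹ * b * i = a := by rw [hbd]; group
  have e2' : i⁻¹ * a * i = b⁻¹ := by
    calc i⁻¹ * a * i = (i⁻¹ * (i * b * i⁻¹) * i)⁻¹ := by rw [hib]; group
      _ = b⁻¹ := by group
  have hjb : j * b * j⁻¹ = b * a * b := by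
    calc j * b * j⁻¹ = (j * i * j⁻¹) * (j * a * j⁻¹) * (j * i * j⁻¹)⁻¹ := by rw [hbd]; group
      _ = i⁻¹ * (a⁻¹ * b * a⁻¹) * i⁻¹⁻¹ := by rw [hji, hja, hcb]
      _ = (i⁻¹ * a * i)⁻¹ * (i⁻¹ * b * i) * (i⁻¹ * a * i)⁻¹ := by group
      _ = b * a * b := by rw [e1', e2', inv_inv]
  have hgen : Subgroup.closure ({c, j, i, b, a, z} : Set G) = ⊤ := by
    obtain ⟨K, hKd⟩ : ∃ K, Subgroup.closure ({c, j, i, b, a, z} : Set G) = K := ⟨_, rfl⟩
    rw [hKd]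
    have mc : c ∈ K := by rw [← hKd]; exact Subgroup.subset_closure (by simp)
    have mj : j ∈ K := by rw [← hKd]; exact Subgroup.subset_closure (by simp)
    have mi : i ∈ K := by rw [← hKd]; exact Subgroup.subset_closure (by simp)
    have mb : b ∈ K := by rw [← hKd]; exact Subgroup.subset_closure (by simp)
    have ma : a ∈ K := by rw [← hKd]; exact Subgroup.subset_closure (by simp)
    have hRK : ∀ r ∈ R, r ∈ K := by
      intro r hr
      by_contra hrK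
      exact hab (h.proper_comm (K ⊓ R) inf_le_right
        ⟨r, hr, fun hh => hrK (Subgroup.mem_inf.mp hh).1⟩ a (Subgroup.mem_inf.mpr ⟨ma, haR⟩)
        b (Subgroup.mem_inf.mpr ⟨mb, hbR⟩))
    rw [Subgroup.eq_top_iff']
    intro g
    obtain ⟨x', y', n', hg⟩ := sl_gen (π c) (π i) hπc3 hπc1 hπi (π g)
    have hw' : i ^ (x' : ℕ) * j ^ (y' : ℕ) * c ^ (n' : ℕ) ∈ K :=
      K.mul_mem (K.mul_mem (K.pow_mem mi _) (K.pow_mem mj _)) (K.pow_mem mc _)
    have hr' : (i ^ (x' : ℕ) * j ^ (y' : ℕ) * c ^ (n' : ℕ))⁻¹ * g ∈ R := by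
      rw [← h.ker]
      simp only [map_mul, map_inv, map_pow, hπj]
      rw [hg]
      exact inv_mul_cancel _
    have e : g = (i ^ (x' : ℕ) * j ^ (y' : ℕ) * c ^ (n' : ℕ)) *
        ((i ^ (x' : ℕ) * j ^ (y' : ℕ) * c ^ (n' : ℕ))⁻¹ * g) := (mul_inv_cancel_left _ _).symm
    rw [e]
    exact K.mul_mem hw' (hRK _ hr')
  have hmin : ∀ N : Subgroup G, N.Normal → N ≠ ⊥ → z ∈ N := by
    intro N hN hNb
    have S1 : ∀ w ∈ N, w ∈ Z → w ≠ 1 → z ∈ N := by
      intro w hwN hwZ hw1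
      rcases h.three w hwZ hw1 z hzZ with e | e | e
      · exact absurd e hz1
      · rw [e]; exact hwN
      · rw [e]; exact N.inv_mem hwN
    have S2 : ∀ w ∈ N, w ∈ R → w ≠ 1 → z ∈ N := by
      intro w hwN hwR hw1
      by_cases hwZ : w ∈ Z
      · exact S1 w hwN hwZ hw1
      obtain ⟨s, hs, hws⟩ : ∃ s ∈ R, w * s ≠ s * w := by
        by_contra hcon
        push Not at hcon
        exact hwZ (h.Zm w hwR hcon)
      have huN : w * s * w⁻¹ * s⁻¹ ∈ N := by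
        have := hN.conj_mem w⁻¹ (N.inv_mem hwN) s
        have e : w * s * w⁻¹ * s⁻¹ = w * (s * w⁻¹ * s⁻¹) := by group
        rw [e]
        exact N.mul_mem hwN this
      refine S1 _ huN (h.cm w hwR s hs) ?_
      intro e
      apply hws
      calc w * s = (w * s * w⁻¹ * s⁻¹) * (s * w) := by group
        _ = s * w := by rw [e, one_mul]
    obtain ⟨g, hgN, hg1⟩ : ∃ g ∈ N, g ≠ 1 := by
      by_contra hcon
      push Not at hcon
      exact hNb ((Subgroup.eq_bot_iff_forall N).mpr hcon)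
    by_cases hgR : g ∈ R
    · exact S2 g hgN hgR hg1
    obtain ⟨A, hA⟩ := sl_norm (π g) (fun e => hgR ((h.ker g).mp e))
    obtain ⟨y, rfl⟩ := h.surj A
    have hcN : g * y * g⁻¹ * y⁻¹ ∈ N := by
      have := hN.conj_mem g⁻¹ (N.inv_mem hgN) y
      have e : g * y * g⁻¹ * y⁻¹ = g * (y * g⁻¹ * y⁻¹) := by group
      rw [e]
      exact N.mul_mem hgN this
    obtain ⟨g', hg'N, hπg'⟩ : ∃ g' ∈ N, π g' = -1 := by
      rcases hA with e | e | e
      · exact ⟨g, hgN, e⟩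
      · exact ⟨g * y * g⁻¹ * y⁻¹, hcN, by simpa only [map_mul, map_inv] using e⟩
      · exact ⟨(g * y * g⁻¹ * y⁻¹) * (g * y * g⁻¹ * y⁻¹), N.mul_mem hcN hcN,
          by simpa only [map_mul, map_inv] using e⟩
    have hρ' : t⁻¹ * g' ∈ R := by
      rw [← h.ker, map_mul, map_inv, hπt, hπg']
      exact inv_mul_cancel _
    obtain ⟨ρ', hρ'd⟩ : ∃ ρ', ρ' = t⁻¹ * g' := ⟨_, rfl⟩
    rw [← hρ'd] at hρ'
    have eg : g' = t * ρ' := by rw [hρ'd]; group
    have hζ' : a⁻¹ * ρ' * a * ρ'⁻¹ ∈ Z := by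
      have := h.cm a⁻¹ (R.inv_mem haR) ρ' hρ'
      rwa [inv_inv] at this
    obtain ⟨ζ', hζ'd⟩ : ∃ ζ', ζ' = a⁻¹ * ρ' * a * ρ'⁻¹ := ⟨_, rfl⟩
    rw [← hζ'd] at hζ'
    have e1 : ρ' * a * ρ'⁻¹ = a * ζ' := by rw [hζ'd]; group
    have hwN : g' * a * g'⁻¹ * a⁻¹ ∈ N := by
      have := hN.conj_mem g'⁻¹ (N.inv_mem hg'N) a
      have e : g' * a * g'⁻¹ * a⁻¹ = g' * (a * g'⁻¹ * a⁻¹) := by group
      rw [e]
      exact N.mul_mem hg'N this
    have hwR : g' * a * g'⁻¹ * a⁻¹ ∈ R := R.mul_mem (h.Rn g' a haR) (R.inv_mem haR)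
    refine S2 _ hwN hwR ?_
    intro hw1
    have e2 : g' * a * g'⁻¹ = a := by
      calc g' * a * g'⁻¹ = (g' * a * g'⁻¹ * a⁻¹) * a := by group
        _ = a := by rw [hw1, one_mul]
    have e3 : g' * a * g'⁻¹ = a⁻¹ * ζ' := by
      rw [eg]
      calc t * ρ' * a * (t * ρ')⁻¹ = t * (ρ' * a * ρ'⁻¹) * t⁻¹ := by group
        _ = t * (a * ζ') * t⁻¹ := by rw [e1]
        _ = (t * a * t⁻¹) * (t * ζ') * t⁻¹ := by group
        _ = a⁻¹ * (ζ' * t) * t⁻¹ := by rw [haI, h.Zcen t ζ' hζ']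
        _ = a⁻¹ * ζ' := by group
    have e4 : a * a = ζ' := by
      calc a * a = a * (g' * a * g'⁻¹) := by rw [e2]
        _ = a * (a⁻¹ * ζ') := by rw [e3]
        _ = ζ' := by group
    apply haZ
    rw [fourth ha3, e4]
    exact Z.mul_mem hζ' hζ'
  refine ⟨z, a, b, i, j, c, ?_, hgen, hz1, hmin⟩
  exact
    { z3 := h.Zexp z hzZ
      a3 := ha3
      b3 := h.exp b hbR
      i4 := hi4
      j2 := hjj.trans hi.symm
      c3 := hc3
      az := cz a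
      bz := cz b
      ba := hba
      iz := cz i
      ia := hbd.symm
      ib := hib
      jz := cz j
      ja := hja.trans hcb
      jb := hjb
      ji := hji
      cz := cz c
      ca := hca''
      cb := by rw [← hb'd]; exact hcb
      ci := hjd.symm
      cj := hcj }

end Cfsg.Agent.Lib.Helper45.X648
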