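import Mathlib
import Cfsg.Prelude.Def_Classical
import Cfsg.Agent.Lib.Helper45.X648Iso
import Cfsg.Agent.Lib.Helper40.SympOrder
import Cfsg.Agent.Lib.Helper40.SympCenter
import Cfsg.Agent.Lib.Helper40.SLSylow

set_option autoImplicit false

namespace Cfsg.Agent.Lib.Helper45.X648

open Matrix

universe u

/-- The index type of `4 × 4` symplectic matrices. -/
abbrev I4 : Type := Fin 2 ⊕ Fin 2

def mz : Matrix I4 I4 (ZMod 3) := Matrix.fromBlocks 1 !![1, 0; 0, 0] 0 1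
def ma : Matrix I4 I4 (ZMod 3) :=
  Matrix.fromBlocks !![1, 2; 0, 1] !![0, 1; 1, 0] 0 !![1, 0; 1, 1]
def mb : Matrix I4 I4 (ZMod 3) :=
  Matrix.fromBlocks !![1, 1; 0, 1] !![0, 1; 1, 0] 0 !![1, 0; 2, 1]
def mi : Matrix I4 I4 (ZMod 3) :=
  Matrix.fromBlocks !![1, 0; 0, 0] !![0, 0; 0, 1] !![0, 0; 0, 2] !![1, 0; 0, 0]
def mj : Matrix I4 I4 (ZMod 3) :=
  Matrix.fromBlocks !![1, 0; 0, 1] !![0, 0; 0, 1] !![0, 0; 0, 1] !![1, 0; 0, 2]
def mc : Matrix I4 I4 (ZMod 3) :=
  Matrix.fromBlocks !![1, 0; 0, 0] !![0, 0; 0, 1] !![0, 0; 0, 2] !![1, 0; 0, 2]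
def mw : Matrix I4 I4 (ZMod 3) := Matrix.J (Fin 2) (ZMod 3)

/-- `Sp₄(3)`. -/
abbrev Sp3 : Type := ↥(Matrix.symplecticGroup (Fin 2) (ZMod 3))

/-- `Sp₄(F)`. -/
abbrev SpF (F : Type*) [Field F] : Type _ := ↥(Matrix.symplecticGroup (Fin 2) F)

section Small

set_option maxRecDepth 100000

def gz : Sp3 := ⟨mz, SymplecticGroup.mem_iff.mpr (by decide)⟩
def ga : Sp3 := ⟨ma, SymplecticGroup.mem_iff.mpr (by decide)⟩
def gb : Sp3 := ⟨mb, SymplecticGroup.mem_iff.mpr (by decide)⟩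
def gi : Sp3 := ⟨mi, SymplecticGroup.mem_iff.mpr (by decide)⟩
def gj : Sp3 := ⟨mj, SymplecticGroup.mem_iff.mpr (by decide)⟩
def gc : Sp3 := ⟨mc, SymplecticGroup.mem_iff.mpr (by decide)⟩
def gw : Sp3 := ⟨mw, SymplecticGroup.mem_iff.mpr (by decide)⟩

theorem xr3 : XR Sp3 gz ga gb gi gj gc := by
  constructor <;> decide

theorem gz_gw : gw * gz ≠ gz * gw := by decide

theorem gz_comm : gz * ga = ga * gz ∧ gz * gb = gb * gz ∧ gz * gi = gi * gz ∧
    gz * gj = gj * gz ∧ gz * gc = gc * gz := by decide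

end Small

section Field

variable {F : Type u} [Field F]

/-- The matrix of the central element over `F`. -/
def cF : Matrix I4 I4 F := Matrix.fromBlocks 1 !![1, 0; 0, 0] 0 1

/-- Base change of symplectic matrices. -/
def mapSp (φ : ZMod 3 →+* F) : Sp3 →* SpF F where
  toFun A := ⟨φ.mapMatrix A.1, by
    rw [SymplecticGroup.mem_iff]
    have hA := SymplecticGroup.mem_iff.mp A.2
    have hJ : φ.mapMatrix (Matrix.J (Fin 2) (ZMod 3)) = Matrix.J (Fin 2) F := by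
      ext x y
      rcases x with x | x <;> rcases y with y | y <;>
        simp [Matrix.J, Matrix.one_apply, apply_ite]
    have h1 := congrArg φ.mapMatrix hA
    rw [map_mul, map_mul, hJ] at h1
    exact h1⟩
  map_one' := Subtype.ext (map_one φ.mapMatrix)
  map_mul' A B := Subtype.ext (map_mul φ.mapMatrix A.1 B.1)

theorem mapSp_injective (φ : ZMod 3 →+* F) (hφ : Function.Injective φ) :
    Function.Injective (mapSp φ) := by
  intro A B h
  apply Subtype.ext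
  have h1 : A.1.map φ = B.1.map φ := congrArg Subtype.val h
  exact Matrix.map_injective hφ h1

theorem mapz (φ : ZMod 3 →+* F) : ((mapSp φ gz : SpF F) : Matrix I4 I4 F) = cF := by
  show φ.mapMatrix mz = cF
  ext x y
  rcases x with x | x <;> rcases y with y | y <;> fin_cases x <;> fin_cases y <;>
    simp [mz, cF, RingHom.mapMatrix_apply]

/-- Entries of a matrix commuting with `cF`. -/
theorem comm_entries (A : Matrix I4 I4 F) (h : A * cF = cF * A) :
    A (Sum.inl 1) (Sum.inl 0) = 0 ∧ A (Sum.inr 0) (Sum.inl 0) = 0 ∧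
    A (Sum.inr 1) (Sum.inl 0) = 0 ∧ A (Sum.inr 0) (Sum.inl 1) = 0 ∧
    A (Sum.inr 0) (Sum.inr 1) = 0 ∧ A (Sum.inl 0) (Sum.inl 0) = A (Sum.inr 0) (Sum.inr 0) := by
  have h1 := congrFun (congrFun h (Sum.inl 0)) (Sum.inr 0)
  have h2 := congrFun (congrFun h (Sum.inl 0)) (Sum.inl 1)
  have h3 := congrFun (congrFun h (Sum.inl 0)) (Sum.inr 1)
  have h4 := congrFun (congrFun h (Sum.inl 0)) (Sum.inl 0)
  have h6 := congrFun (congrFun h (Sum.inr 1)) (Sum.inr 0)
  have h7 := congrFun (congrFun h (Sum.inl 1)) (Sum.inr 0)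
  simp [cF, Matrix.mul_apply, Fintype.sum_sum_type, Fin.sum_univ_two, Matrix.one_apply]
    at h1 h2 h3 h4 h6 h7
  exact ⟨h7, h4, h6, h2, h3, by linear_combination h1⟩

/-- The general element of the centraliser with `(1,1)` entry `1`. -/
def pm (α β γ δ u v s : F) : Matrix I4 I4 F :=
  Matrix.fromBlocks !![1, u * γ - v * α; 0, α] !![s, u * δ - v * β; u, β] !![0, 0; 0, γ]
    !![1, 0; v, δ]

theorem centr_form (A : Matrix I4 I4 F)
    (hs : A * Matrix.J (Fin 2) F * Aᵀ = Matrix.J (Fin 2) F) (hc : A * cF = cF * A)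
    (h11 : A (Sum.inl 0) (Sum.inl 0) = 1) :
    A = pm (A (Sum.inl 1) (Sum.inl 1)) (A (Sum.inl 1) (Sum.inr 1)) (A (Sum.inr 1) (Sum.inl 1))
        (A (Sum.inr 1) (Sum.inr 1)) (A (Sum.inl 1) (Sum.inr 0)) (A (Sum.inr 1) (Sum.inr 0))
        (A (Sum.inl 0) (Sum.inr 0)) ∧
      A (Sum.inl 1) (Sum.inl 1) * A (Sum.inr 1) (Sum.inr 1) -
        A (Sum.inl 1) (Sum.inr 1) * A (Sum.inr 1) (Sum.inl 1) = 1 := by
  obtain ⟨z1, z2, z3, z4, z5, z6⟩ := comm_entries A hc
  have h33 : A (Sum.inr 0) (Sum.inr 0) = 1 := by rw [← z6]; exact h11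
  have s2 := congrFun (congrFun hs (Sum.inl 1)) (Sum.inr 1)
  have s3 := congrFun (congrFun hs (Sum.inl 0)) (Sum.inl 1)
  have s4 := congrFun (congrFun hs (Sum.inl 0)) (Sum.inr 1)
  simp [Matrix.J, Matrix.mul_apply, Fintype.sum_sum_type, Fin.sum_univ_two, Matrix.one_apply]
    at s2 s3 s4
  have E2 : A (Sum.inl 1) (Sum.inl 1) * A (Sum.inr 1) (Sum.inr 1) -
      A (Sum.inl 1) (Sum.inr 1) * A (Sum.inr 1) (Sum.inl 1) = 1 := by
    linear_combination (-1 : F) * s2 + A (Sum.inl 1) (Sum.inr 0) * z3 -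
      A (Sum.inr 1) (Sum.inr 0) * z1
  have E3 : A (Sum.inl 0) (Sum.inr 1) * A (Sum.inl 1) (Sum.inl 1) -
      A (Sum.inl 0) (Sum.inl 1) * A (Sum.inl 1) (Sum.inr 1) = A (Sum.inl 1) (Sum.inr 0) := by
    linear_combination s3 - A (Sum.inl 0) (Sum.inr 0) * z1 + A (Sum.inl 1) (Sum.inr 0) * h11
  have E4 : A (Sum.inl 0) (Sum.inr 1) * A (Sum.inr 1) (Sum.inl 1) -
      A (Sum.inl 0) (Sum.inl 1) * A (Sum.inr 1) (Sum.inr 1) = A (Sum.inr 1) (Sum.inr 0) := by
    linear_combination s4 - A (Sum.inl 0) (Sum.inr 0) * z3 + A (Sum.inr 1) (Sum.inr 0) * h11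
  have hp : A (Sum.inl 0) (Sum.inl 1) = A (Sum.inl 1) (Sum.inr 0) * A (Sum.inr 1) (Sum.inl 1) -
      A (Sum.inr 1) (Sum.inr 0) * A (Sum.inl 1) (Sum.inl 1) := by
    linear_combination (-(A (Sum.inl 0) (Sum.inl 1))) * E2 + A (Sum.inr 1) (Sum.inl 1) * E3 -
      A (Sum.inl 1) (Sum.inl 1) * E4
  have hq : A (Sum.inl 0) (Sum.inr 1) = A (Sum.inl 1) (Sum.inr 0) * A (Sum.inr 1) (Sum.inr 1) -
      A (Sum.inr 1) (Sum.inr 0) * A (Sum.inl 1) (Sum.inr 1) := by
    linear_combination (-(A (Sum.inl 0) (Sum.inr 1))) * E2 + A (Sum.inr 1) (Sum.inr 1) * E3 -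
      A (Sum.inl 1) (Sum.inr 1) * E4
  refine ⟨?_, E2⟩
  ext x y
  rcases x with x | x <;> rcases y with y | y <;> fin_cases x <;> fin_cases y <;> simp [pm]
  all_goals first
    | exact h11 | exact hp | exact z1 | exact hq | exact z2 | exact z4 | exact h33 | exact z5
    | exact z3

/-- An element of `SL₂(F)` from its entries. -/
def mkSL (α β γ δ : F) (h : α * δ - β * γ = 1) : Matrix.SpecialLinearGroup (Fin 2) F :=
  ⟨!![α, β; γ, δ], by rw [Matrix.det_fin_two_of]; exact h⟩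

theorem mkSL_inj {α β γ δ α' β' γ' δ' : F} {h : α * δ - β * γ = 1} {h' : α' * δ' - β' * γ' = 1}
    (e : mkSL α β γ δ h = mkSL α' β' γ' δ' h') : α = α' ∧ β = β' ∧ γ = γ' ∧ δ = δ' := by
  have h1 : (!![α, β; γ, δ] : Matrix (Fin 2) (Fin 2) F) = !![α', β'; γ', δ'] :=
    congrArg Subtype.val e
  exact ⟨by simpa using congrFun (congrFun h1 0) 0, by simpa using congrFun (congrFun h1 0) 1,
    by simpa using congrFun (congrFun h1 1) 0, by simpa using congrFun (congrFun h1 1) 1⟩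

end Field

section Finite

variable {F : Type u} [Field F] [Fintype F]

/-- Every element of the centraliser of the central element has a normalised lift. -/
theorem exists_rep_centr (hF : Fintype.card F = 3) (φ : ZMod 3 →+* F) (g : Cfsg.PSp 2 F)
    (hg : g ∈ Subgroup.centralizer
      ({QuotientGroup.mk' (Subgroup.center (SpF F)) (mapSp φ gz)} : Set (Cfsg.PSp 2 F))) :
    ∃ A : SpF F, QuotientGroup.mk' (Subgroup.center (SpF F)) A = g ∧
      (A : Matrix I4 I4 F) * cF = cF * (A : Matrix I4 I4 F) ∧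
      (A : Matrix I4 I4 F) (Sum.inl 0) (Sum.inl 0) = 1 := by
  obtain ⟨A, rfl⟩ := QuotientGroup.mk'_surjective _ g
  obtain ⟨C', hC'd⟩ : ∃ C', C' = mapSp φ gz := ⟨_, rfl⟩
  rw [← hC'd] at hg
  have hC'1 : (C' : Matrix I4 I4 F) = cF := by rw [hC'd]; exact mapz φ
  have hC'3 : C' ^ 3 = 1 := by rw [hC'd, ← map_pow, xr3.z3, map_one]
  have h1 := Subgroup.mem_centralizer_iff.mp hg _ (Set.mem_singleton _)
  rw [← map_mul, ← map_mul] at h1
  have hκ : (C' * A)⁻¹ * (A * C') ∈ Subgroup.center (SpF F) :=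
    (QuotientGroup.eq (s := Subgroup.center (SpF F))).mp h1
  obtain ⟨κ, hκd⟩ : ∃ κ, κ = (C' * A)⁻¹ * (A * C') := ⟨_, rfl⟩
  rw [← hκd] at hκ
  have hcen : ∀ g : SpF F, g * κ = κ * g := fun g => Subgroup.mem_center_iff.mp hκ g
  have e1 : A * C' = C' * A * κ := by rw [hκd]; group
  have e2 : A * C' * A⁻¹ = C' * κ := by
    calc A * C' * A⁻¹ = (C' * A * κ) * A⁻¹ := by rw [e1]
      _ = C' * (A * κ) * A⁻¹ := by group
      _ = C' * (κ * A) * A⁻¹ := by rw [hcen A]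
      _ = C' * κ := by group
  have e3 : (A * C' * A⁻¹) ^ 3 = 1 := by rw [conj_pow, hC'3, mul_one, mul_inv_cancel]
  have e4 : κ ^ 3 = 1 := by
    rw [e2, (show Commute C' κ from hcen C').mul_pow, hC'3, one_mul] at e3
    exact e3
  obtain ⟨l, hl2, hl⟩ := Cfsg.Agent.Lib.Helper40.center_scalar 2 (by norm_num) κ hκ
  have hl3 : l ^ 3 = 1 := by
    have h5 := congrArg (fun M : SpF F => (M : Matrix I4 I4 F) (Sum.inl 0) (Sum.inl 0)) e4
    simp only [SubmonoidClass.coe_pow, hl] at h5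
    simpa [smul_pow] using h5
  have hl1 : l = 1 := by
    have := FiniteField.pow_card l
    rw [hF, hl3] at this
    exact this.symm
  have hκ1 : κ = 1 := by
    apply Subtype.ext
    simp [hl, hl1]
  rw [hκ1, mul_one] at e1
  have hcomm : (A : Matrix I4 I4 F) * cF = cF * (A : Matrix I4 I4 F) := by
    have h2 : (A : Matrix I4 I4 F) * (C' : Matrix I4 I4 F) =
        (C' : Matrix I4 I4 F) * (A : Matrix I4 I4 F) := congrArg Subtype.val e1
    rw [← hC'1]
    exact h2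
  have hsA := SymplecticGroup.mem_iff.mp A.2
  obtain ⟨z1, z2, z3, z4, z5, z6⟩ := comm_entries (A : Matrix I4 I4 F) hcomm
  have s1 := congrFun (congrFun hsA (Sum.inl 0)) (Sum.inr 0)
  simp [Matrix.J, Matrix.mul_apply, Fintype.sum_sum_type, Fin.sum_univ_two, Matrix.one_apply]
    at s1
  have hε : (A : Matrix I4 I4 F) (Sum.inl 0) (Sum.inl 0) *
      (A : Matrix I4 I4 F) (Sum.inl 0) (Sum.inl 0) = 1 := by
    linear_combination (-1 : F) * s1 + (A : Matrix I4 I4 F) (Sum.inl 0) (Sum.inr 0) * z2 +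
      (A : Matrix I4 I4 F) (Sum.inl 0) (Sum.inr 1) * z4 -
      (A : Matrix I4 I4 F) (Sum.inl 0) (Sum.inl 1) * z5 +
      (A : Matrix I4 I4 F) (Sum.inl 0) (Sum.inl 0) * z6
  rcases mul_self_eq_one_iff.mp hε with h11 | h11
  · exact ⟨A, rfl, hcomm, h11⟩
  · obtain ⟨A', hA'⟩ : ∃ A' : SpF F, (A' : Matrix I4 I4 F) = -(A : Matrix I4 I4 F) :=
      ⟨⟨-(A : Matrix I4 I4 F), SymplecticGroup.neg_mem A.2⟩, rfl⟩
    refine ⟨A', ?_, ?_, ?_⟩
    · symm
      rw [QuotientGroup.mk'_apply, QuotientGroup.mk'_apply, QuotientGroup.eq,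
        Subgroup.mem_center_iff]
      have hm : ((A⁻¹ * A' : SpF F) : Matrix I4 I4 F) = -1 := by
        have h2 : ((A⁻¹ : SpF F) : Matrix I4 I4 F) * (A : Matrix I4 I4 F) = 1 :=
          congrArg Subtype.val (inv_mul_cancel A)
        show ((A⁻¹ : SpF F) : Matrix I4 I4 F) * (A' : Matrix I4 I4 F) = -1
        rw [hA', Matrix.mul_neg, h2]
      intro g
      apply Subtype.ext
      show (g : Matrix I4 I4 F) * ((A⁻¹ * A' : SpF F) : Matrix I4 I4 F) =
        ((A⁻¹ * A' : SpF F) : Matrix I4 I4 F) * (g : Matrix I4 I4 F)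
      rw [hm]
      simp
    · rw [hA', Matrix.neg_mul, Matrix.mul_neg, hcomm]
    · rw [hA', Matrix.neg_apply, h11, neg_neg]

theorem card_SL2_three (hF : Fintype.card F = 3) :
    Nat.card (Matrix.SpecialLinearGroup (Fin 2) F) = 24 := by
  have h1 := Cfsg.Agent.Lib.Helper40.card_GL_eq_card_SL_mul (F := F) 2 (by norm_num)
  have h2 := Matrix.card_GL_field (𝔽 := F) 2
  rw [h2, hF, Fin.prod_univ_two] at h1
  norm_num at h1
  omega

theorem card_PSp4_three (hF : Fintype.card F = 3) : Nat.card (Cfsg.PSp 2 F) = 25920 := by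
  have h1 := Cfsg.Agent.Lib.Helper40.card_symplecticGroup (F := F) 2
  have h2 := Cfsg.Agent.Lib.Helper40.card_center_symplectic (F := F) 2 (by norm_num)
  have h3 := Subgroup.card_eq_card_quotient_mul_card_subgroup (Subgroup.center (SpF F))
  rw [h1, h2, hF] at h3
  simp [Finset.prod_range_succ] at h3
  show Nat.card (SpF F ⧸ Subgroup.center (SpF F)) = 25920
  omega

/-- The concrete side: generators, relations and the order of the centraliser. -/
theorem psp_side (hF : Fintype.card F = 3) :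
    ∃ z a b i j c : Cfsg.PSp 2 F, XR (Cfsg.PSp 2 F) z a b i j c ∧ z ≠ 1 ∧
      a ∈ Subgroup.centralizer ({z} : Set (Cfsg.PSp 2 F)) ∧
      b ∈ Subgroup.centralizer ({z} : Set (Cfsg.PSp 2 F)) ∧
      i ∈ Subgroup.centralizer ({z} : Set (Cfsg.PSp 2 F)) ∧
      j ∈ Subgroup.centralizer ({z} : Set (Cfsg.PSp 2 F)) ∧
      c ∈ Subgroup.centralizer ({z} : Set (Cfsg.PSp 2 F)) ∧
      Nat.card (Subgroup.centralizer ({z} : Set (Cfsg.PSp 2 F))) ≤ 648 := by
  classical
  haveI : Fact (Nat.Prime 3) := ⟨Nat.prime_three⟩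
  haveI : CharP F 3 := charP_of_card_eq_prime hF
  obtain ⟨φ, hφ⟩ : ∃ φ : ZMod 3 →+* F, Function.Injective φ :=
    ⟨ZMod.castHom (dvd_refl 3) F, RingHom.injective _⟩
  obtain ⟨Ψ, hΨ⟩ : ∃ Ψ : Sp3 →* Cfsg.PSp 2 F,
      ∀ g, Ψ g = QuotientGroup.mk' (Subgroup.center (SpF F)) (mapSp φ g) :=
    ⟨(QuotientGroup.mk' (Subgroup.center (SpF F))).comp (mapSp φ), fun g => rfl⟩
  have hc : ∀ g : Sp3, gz * g = g * gz →
      Ψ g ∈ Subgroup.centralizer ({Ψ gz} : Set (Cfsg.PSp 2 F)) := by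
    intro g hg
    rw [Subgroup.mem_centralizer_iff]
    intro y hy
    rw [Set.mem_singleton_iff.mp hy, ← map_mul, ← map_mul, hg]
  refine ⟨Ψ gz, Ψ ga, Ψ gb, Ψ gi, Ψ gj, Ψ gc, xr3.map Ψ, ?_, hc ga gz_comm.1, hc gb gz_comm.2.1,
    hc gi gz_comm.2.2.1, hc gj gz_comm.2.2.2.1, hc gc gz_comm.2.2.2.2, ?_⟩
  · intro h
    rw [hΨ, QuotientGroup.mk'_apply, QuotientGroup.eq_one_iff] at h
    have h1 := Subgroup.mem_center_iff.mp h (mapSp φ gw)
    rw [← map_mul, ← map_mul] at h1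
    exact gz_gw (mapSp_injective φ hφ h1)
  · -- the order of the centraliser
    have hSL := card_SL2_three hF
    haveI : Finite (Matrix.SpecialLinearGroup (Fin 2) F) :=
      Nat.finite_of_card_ne_zero (by rw [hSL]; norm_num)
    have key : ∀ g : ↥(Subgroup.centralizer ({Ψ gz} : Set (Cfsg.PSp 2 F))),
        ∃ A : SpF F, QuotientGroup.mk' (Subgroup.center (SpF F)) A = g.1 ∧
          (A : Matrix I4 I4 F) * cF = cF * (A : Matrix I4 I4 F) ∧
          (A : Matrix I4 I4 F) (Sum.inl 0) (Sum.inl 0) = 1 := by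
      intro g
      have hg : (g : Cfsg.PSp 2 F) ∈ Subgroup.centralizer
          ({QuotientGroup.mk' (Subgroup.center (SpF F)) (mapSp φ gz)} :
            Set (Cfsg.PSp 2 F)) := by
        have h0 := g.2
        have e : Ψ gz = QuotientGroup.mk' (Subgroup.center (SpF F)) (mapSp φ gz) := hΨ gz
        rw [Subgroup.mem_centralizer_iff] at h0 ⊢
        intro y hy
        rw [Set.mem_singleton_iff] at hy
        exact h0 y (by rw [Set.mem_singleton_iff, e]; exact hy)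
      exact exists_rep_centr hF φ g.1 hg
    choose rep hrep1 hrep2 hrep3 using key
    have hform := fun g => centr_form (rep g : Matrix I4 I4 F)
      (SymplecticGroup.mem_iff.mp (rep g).2) (hrep2 g) (hrep3 g)
    let f : ↥(Subgroup.centralizer ({Ψ gz} : Set (Cfsg.PSp 2 F))) →
        Matrix.SpecialLinearGroup (Fin 2) F × F × F × F := fun g =>
      (mkSL _ _ _ _ (hform g).2, (rep g : Matrix I4 I4 F) (Sum.inl 1) (Sum.inr 0),
        (rep g : Matrix I4 I4 F) (Sum.inr 1) (Sum.inr 0),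
        (rep g : Matrix I4 I4 F) (Sum.inl 0) (Sum.inr 0))
    have hf : Function.Injective f := by
      intro g g' hgg
      have hM : mkSL _ _ _ _ (hform g).2 = mkSL _ _ _ _ (hform g').2 := congrArg Prod.fst hgg
      have hu : (rep g : Matrix I4 I4 F) (Sum.inl 1) (Sum.inr 0) =
          (rep g' : Matrix I4 I4 F) (Sum.inl 1) (Sum.inr 0) :=
        congrArg (fun p => p.2.1) hgg
      have hv : (rep g : Matrix I4 I4 F) (Sum.inr 1) (Sum.inr 0) =
          (rep g' : Matrix I4 I4 F) (Sum.inr 1) (Sum.inr 0) :=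
        congrArg (fun p => p.2.2.1) hgg
      have hs : (rep g : Matrix I4 I4 F) (Sum.inl 0) (Sum.inr 0) =
          (rep g' : Matrix I4 I4 F) (Sum.inl 0) (Sum.inr 0) :=
        congrArg (fun p => p.2.2.2) hgg
      obtain ⟨e1, e2, e3, e4⟩ := mkSL_inj hM
      have hmat : (rep g : Matrix I4 I4 F) = (rep g' : Matrix I4 I4 F) := by
        rw [(hform g).1, (hform g').1, e1, e2, e3, e4, hu, hv, hs]
      have hrep : rep g = rep g' := Subtype.ext hmat
      apply Subtype.ext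
      rw [← hrep1 g, ← hrep1 g', hrep]
    have hcard := Nat.card_le_card_of_injective f hf
    rw [Nat.card_prod, Nat.card_prod, Nat.card_prod, hSL, Nat.card_eq_fintype_card (α := F), hF]
      at hcard
    exact hcard

end Finite

end Cfsg.Agent.Lib.Helper45.X648
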